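import Mathlib
import Cfsg.Agent.Lib.Helper24.Brauer23

set_option autoImplicit false

namespace Cfsg.Agent.Lib.Helper24.AbFree

open Cfsg Cfsg.Agent.Lib.Helper1 Cfsg.Agent.Lib.Helper6 Cfsg.Agent.Lib.Helper24
open Cfsg.Agent.Lib.Helper24.Brauer
open scoped ComplexConjugate

universe u

variable {G : Type u} [Group G] [Fintype G] {M : Ideal AlgInt}

theorem nil_local_gen {p : ℕ} [Fact p.Prime] (hM : IsPModular p M)
    (B : Set (IrrCharacter G)) (Q : Subgroup G)
    (f : Set (IrrCharacter (Subgroup.centralizer (Q : Set G))))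
    (hQf : IsBrauerPairOf p M B Q f)
    (hyp : ∀ (S : Subgroup G) (h : Set (IrrCharacter (Subgroup.centralizer (S : Set G)))),
      IsBrauerPairOf p M B S h → Q ≤ S → ∀ x : G, x ∈ Subgroup.centralizer (Q : Set G) →
        x ∈ Subgroup.normalizer (S : Set G) →
        StabilizesBlock (Subgroup.centralizer (S : Set G)) h x →
        x ∈ Subgroup.centralizer (S : Set G)) :
    IsNilpotentBlock p M f := by
  refine ⟨hQf.1.2, fun R' h' hpair' x hxN hxst hxreg => ?_⟩
  obtain ⟨S, hS⟩ : ∃ S : Subgroup G,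
      S = Q ⊔ R'.map (Subgroup.centralizer (Q : Set G)).subtype := ⟨_, rfl⟩
  have hRK : R'.map (Subgroup.centralizer (Q : Set G)).subtype
      ≤ Subgroup.centralizer (Q : Set G) := Subgroup.map_subtype_le _
  have hQS : Q ≤ S := by
    rw [hS]
    exact le_sup_left
  have hRS' : R'.map (Subgroup.centralizer (Q : Set G)).subtype ≤ S := by
    rw [hS]
    exact le_sup_right
  have hRS : ∀ g : G, g ∈ Subgroup.centralizer (S : Set G) ↔
      ∃ hg : g ∈ Subgroup.centralizer (Q : Set G),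
        (⟨g, hg⟩ : Subgroup.centralizer (Q : Set G)) ∈ Subgroup.centralizer (R' : Set _) := by
    intro g
    constructor
    · intro hg
      have hgK : g ∈ Subgroup.centralizer (Q : Set G) := Subgroup.centralizer_le hQS hg
      refine ⟨hgK, ?_⟩
      rw [Subgroup.mem_centralizer_iff] at hg ⊢
      intro r hr
      apply Subtype.ext
      exact hg (r : G) (hRS' ⟨r, hr, rfl⟩)
    · rintro ⟨hgK, hg⟩
      have hle : S ≤ Subgroup.centralizer ({g} : Set G) := by
        rw [hS]
        apply sup_le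
        · intro q hq
          rw [Subgroup.mem_centralizer_iff]
          intro h hh
          rw [Set.mem_singleton_iff] at hh
          rw [hh]
          exact (Subgroup.mem_centralizer_iff.mp hgK q hq).symm
        · rintro _ ⟨r, hr, rfl⟩
          rw [Subgroup.mem_centralizer_iff]
          intro h hh
          rw [Set.mem_singleton_iff] at hh
          rw [hh]
          have h1 := Subgroup.mem_centralizer_iff.mp hg r hr
          exact (congrArg Subtype.val h1).symm
      rw [Subgroup.mem_centralizer_iff]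
      intro s hs
      exact (Subgroup.mem_centralizer_iff.mp (hle hs) g rfl).symm
  have hQp := hQf.1.1
  have hRp : IsPGroup p (R'.map (Subgroup.centralizer (Q : Set G)).subtype) :=
    hpair'.1.1.map _
  have hRN : R'.map (Subgroup.centralizer (Q : Set G)).subtype
      ≤ Subgroup.normalizer (Q : Set G) :=
    hRK.trans (Subgroup.centralizer_le_normalizer _)
  have hSp : IsPGroup p S := by
    rw [hS]
    exact IsPGroup.to_sup_of_normal_left' hQp hRp hRN
  have hSle : S ≤ Q ⊔ Subgroup.centralizer (Q : Set G) := by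
    rw [hS]
    exact sup_le_sup_left hRK Q
  have hn : IsNormalSubpair p M Q f S (trIrr (subIso _ _ _ hRS) '' h') := by
    refine ⟨hQf.1, ⟨hSp, isPBlock_trIrr _ _ hpair'.1.2⟩, hQS, ?_, ?_, ?_⟩
    · exact hSle.trans (sup_le Subgroup.le_normalizer (Subgroup.centralizer_le_normalizer _))
    · intro s hs
      exact stabilizes_of_mem_innerOn _ f s (le_innerOn Q (hSle hs))
    · rintro ξ ⟨ξ', hξ', rfl⟩
      rw [tl_omega _ R' S hRS _ ξ']
      have h1 : res (Subgroup.centralizer (Q : Set G))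
          (subgroupBlockCoeff (Subgroup.centralizer (Q : Set G)) f) = blockCoeff f := by
        funext t
        show subgroupBlockCoeff (Subgroup.centralizer (Q : Set G)) f (t : G) = blockCoeff f t
        rw [subgroupBlockCoeff_eq, ext_coe]
      rw [h1]
      exact hpair'.2.2 ξ' hξ'
  have hpairS := pairOf_of_normal hM B Q S f _ hQf hn
  have key : ∀ y : G, y ∈ Subgroup.centralizer (Q : Set G) →
      (∀ r ∈ R'.map (Subgroup.centralizer (Q : Set G)).subtype,
        y * r * y⁻¹ ∈ R'.map (Subgroup.centralizer (Q : Set G)).subtype) →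
      ∀ s ∈ S, y * s * y⁻¹ ∈ S := by
    intro y hyK hyR s hs
    have hle : Q ⊔ R'.map (Subgroup.centralizer (Q : Set G)).subtype
        ≤ S.comap (MulAut.conj y).toMonoidHom := by
      apply sup_le
      · intro q hq
        show y * q * y⁻¹ ∈ S
        have h1 := Subgroup.mem_centralizer_iff.mp hyK q hq
        rw [← h1, mul_inv_cancel_right]
        exact hQS hq
      · intro r hr
        exact hRS' (hyR r hr)
    rw [hS] at hs
    exact hle hs
  have hxR : ∀ (y : Subgroup.centralizer (Q : Set G)),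
      y ∈ Subgroup.normalizer (R' : Set (Subgroup.centralizer (Q : Set G))) →
      ∀ r ∈ R'.map (Subgroup.centralizer (Q : Set G)).subtype,
        (y : G) * r * (y : G)⁻¹ ∈ R'.map (Subgroup.centralizer (Q : Set G)).subtype := by
    rintro y hy _ ⟨r, hr, rfl⟩
    exact ⟨y * r * y⁻¹, (Subgroup.mem_normalizer_iff.mp hy r).mp hr, rfl⟩
  have hxN' : (x : G) ∈ Subgroup.normalizer (S : Set G) := by
    rw [Subgroup.mem_normalizer_iff]
    intro s
    constructor
    · intro hs
      exact key (x : G) x.2 (hxR x hxN) s hs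
    · intro hs
      have h1 := key ((x⁻¹ : Subgroup.centralizer (Q : Set G)) : G) (x⁻¹).2
        (hxR x⁻¹ (Subgroup.inv_mem _ hxN)) _ hs
      have e1 : ((x⁻¹ : Subgroup.centralizer (Q : Set G)) : G) * ((x : G) * s * (x : G)⁻¹)
          * ((x⁻¹ : Subgroup.centralizer (Q : Set G)) : G)⁻¹ = s := by
        show (x : G)⁻¹ * ((x : G) * s * (x : G)⁻¹) * (x : G)⁻¹⁻¹ = s
        group
      rw [e1] at h1
      exact h1
  have hxst' := tl_stab _ R' S hRS h' x hxst
  exact ((hRS _).mp (hyp S _ hpairS hQS (x : G) x.2 hxN' hxst')).2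

omit [Fintype G] in
theorem inducedIn_iff [Finite G] (X : Subgroup G) (K₁ : Subgroup X) (K : Subgroup G)
    (hAB : ∀ g : G, g ∈ K ↔ ∃ hg : g ∈ X, (⟨g, hg⟩ : X) ∈ K₁)
    (k' : Set (IrrCharacter K₁)) (f : Set (IrrCharacter X)) :
    IsInducedBlockIn M X K (trIrr (subIso X K₁ K hAB) '' k') f ↔ IsInducedBlock M K₁ k' f := by
  have key : ∀ (ξ' : IrrCharacter K₁) (h : X),
      inducedCentralCharIn X K (trIrr (subIso X K₁ K hAB) ξ' : K → ℂ) (h : G)
        = inducedCentralChar K₁ (ξ' : K₁ → ℂ) h := by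
    intro ξ' h
    show ∑ᶠ k ∈ {k : K | ∃ x : X, (x : G) * (k : G) * (x : G)⁻¹ = (h : G)},
        (trIrr (subIso X K₁ K hAB) ξ' : K → ℂ) k / (trIrr (subIso X K₁ K hAB) ξ' : K → ℂ) 1
      = ∑ᶠ k ∈ {k : K₁ | IsConj h (k : X)}, (ξ' : K₁ → ℂ) k / (ξ' : K₁ → ℂ) 1
    rw [finsum_mem_def, finsum_mem_def, ← finsum_comp_equiv (subIso X K₁ K hAB).toEquiv]
    apply finsum_congr
    intro k
    by_cases hk : IsConj h (k : X)
    · have hk' : (subIso X K₁ K hAB).toEquiv k
          ∈ {k : K | ∃ x : X, (x : G) * (k : G) * (x : G)⁻¹ = (h : G)} := by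
        obtain ⟨c, hc⟩ := isConj_iff.mp hk.symm
        exact ⟨c, congrArg Subtype.val hc⟩
      rw [Set.indicator_of_mem hk',
        Set.indicator_of_mem (show k ∈ {k : K₁ | IsConj h (k : X)} from hk)]
      show (ξ' : K₁ → ℂ) ((subIso X K₁ K hAB).symm (subIso X K₁ K hAB k))
          / (ξ' : K₁ → ℂ) ((subIso X K₁ K hAB).symm 1) = _
      rw [MulEquiv.symm_apply_apply, map_one]
    · have hk' : (subIso X K₁ K hAB).toEquiv k
          ∉ {k : K | ∃ x : X, (x : G) * (k : G) * (x : G)⁻¹ = (h : G)} := by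
        rintro ⟨c, hc⟩
        apply hk
        apply IsConj.symm
        exact isConj_iff.mpr ⟨c, Subtype.ext hc⟩
      rw [Set.indicator_of_notMem hk',
        Set.indicator_of_notMem (show k ∉ {k : K₁ | IsConj h (k : X)} from hk)]
  constructor
  · rintro ⟨h1, h2, h3⟩
    refine ⟨?_, h2, fun ξ' hξ' χ hχ h => ?_⟩
    · have h4 := isPBlock_trIrr (subIso X K₁ K hAB).symm _ h1
      rw [Set.image_image] at h4
      have e : (fun ξ => trIrr (subIso X K₁ K hAB).symm (trIrr (subIso X K₁ K hAB) ξ)) = id :=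
        funext (fun ξ => trIrr_symm_trIrr _ ξ)
      rw [e, Set.image_id] at h4
      exact h4
    · have h5 := h3 (trIrr (subIso X K₁ K hAB) ξ') ⟨ξ', hξ', rfl⟩ χ hχ h
      rw [key] at h5
      exact h5
  · rintro ⟨h1, h2, h3⟩
    refine ⟨isPBlock_trIrr _ _ h1, h2, ?_⟩
    rintro ξ ⟨ξ', hξ', rfl⟩ χ hχ h
    rw [key]
    exact h3 ξ' hξ' χ hχ h

omit [Fintype G] in
theorem stab_down [Finite G] (K : Subgroup G) (R' : Subgroup K) (S : Subgroup G)
    (hRS : ∀ g : G, g ∈ Subgroup.centralizer (S : Set G) ↔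
      ∃ hg : g ∈ K, (⟨g, hg⟩ : K) ∈ Subgroup.centralizer (R' : Set K))
    (h : Set (IrrCharacter (Subgroup.centralizer (S : Set G)))) (x : K)
    (hst : StabilizesBlock (Subgroup.centralizer (S : Set G)) h (x : G)) :
    StabilizesBlock (Subgroup.centralizer (R' : Set K))
      (trIrr (subIso K _ _ hRS).symm '' h) x := by
  obtain ⟨hn, hc⟩ := hst
  constructor
  · rw [Subgroup.mem_normalizer_iff] at hn ⊢
    intro g
    constructor
    · intro hg
      have h1 : (g : G) ∈ Subgroup.centralizer (S : Set G) := (hRS _).mpr ⟨g.2, hg⟩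
      have h2 := (hn (g : G)).mp h1
      exact ((hRS _).mp h2).2
    · intro hg
      have h1 : (x : G) * (g : G) * (x : G)⁻¹ ∈ Subgroup.centralizer (S : Set G) :=
        (hRS _).mpr ⟨(x * g * x⁻¹).2, hg⟩
      have h2 := (hn (g : G)).mpr h1
      exact ((hRS _).mp h2).2
  · rintro χ' ⟨χ, hχ, rfl⟩
    obtain ⟨χ₂, hχ₂, hcc⟩ := hc χ hχ
    refine ⟨trIrr (subIso K _ _ hRS).symm χ₂, ⟨χ₂, hχ₂, rfl⟩, ?_⟩
    intro k k' hk
    rw [trIrr_apply, trIrr_apply]
    apply hcc
    exact congrArg Subtype.val hk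

theorem forward {p : ℕ} [Fact p.Prime] (hM : IsPModular p M)
    (B : Set (IrrCharacter G)) (P : Subgroup G)
    (c : Set (IrrCharacter (Subgroup.centralizer (P : Set G))))
    (hmax : IsMaximalBrauerPair p M B P c) (hPab : ∀ x ∈ P, ∀ y ∈ P, x * y = y * x)
    (T : Subgroup G)
    (hT : ∀ g : G, g ∈ T ↔ (g ∈ Subgroup.normalizer (P : Set G) ∧
      StabilizesBlock (Subgroup.centralizer (P : Set G)) c g))
    (hfree : ∀ g ∈ T, ∀ x ∈ P, x ≠ 1 → g * x * g⁻¹ = x →
      g ∈ Subgroup.centralizer (P : Set G))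
    (Q : Subgroup G) (hQP : Q ≤ P) (hQ1 : Q ≠ ⊥)
    (f : Set (IrrCharacter (Subgroup.centralizer (Q : Set G))))
    (hf : IsInducedBlockIn M (Subgroup.centralizer (Q : Set G))
      (Subgroup.centralizer (P : Set G)) c f) : IsNilpotentBlock p M f := by
  classical
  have hpair := hmax.1
  have hPp : IsPGroup p P := hpair.1.1
  have hQp : IsPGroup p Q := hPp.to_le hQP
  have hPX : P ≤ Subgroup.centralizer (Q : Set G) := by
    intro y hy
    rw [Subgroup.mem_centralizer_iff]
    intro q hq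
    exact hPab q (hQP hq) y hy
  have hQf : IsBrauerPairOf p M B Q f := by
    obtain ⟨P', hP'⟩ : ∃ P' : Subgroup (Subgroup.centralizer (Q : Set G)),
        P'.map (Subgroup.centralizer (Q : Set G)).subtype = P :=
      ⟨P.subgroupOf _, Subgroup.map_subgroupOf_eq_of_le hPX⟩
    subst hP'
    obtain ⟨c', hc'⟩ : ∃ c', upBlock Q (Subgroup.centralizer (Q : Set G)) le_rfl P' hQP c' = c :=
      ⟨downBlock Q _ le_rfl P' hQP c, up_down Q _ le_rfl P' hQP c⟩
    subst hc'
    haveI hfinX : Fintype (Subgroup.centralizer (Q : Set G)) := Fintype.ofFinite _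
    have h1 : IsInducedBlock M
        (Subgroup.centralizer (P' : Set (Subgroup.centralizer (Q : Set G)))) c' f :=
      (inducedIn_iff (Subgroup.centralizer (Q : Set G)) _ _ (up_mem Q _ le_rfl P' hQP) c' f).mp hf
    have hP'p : IsPGroup p P' :=
      hPp.of_equiv (P'.equivMapOfInjective _ (Subgroup.subtype_injective _)).symm
    have h2 : IsBrauerPairOf p M f P' c' := (induced_centralizer_iff hM P' hP'p c' f).mp h1
    have hCX : Subgroup.centralizer
        ((P'.map (Subgroup.centralizer (Q : Set G)).subtype : Subgroup G) : Set G)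
        ≤ Subgroup.centralizer (Q : Set G) := Subgroup.centralizer_le hQP
    have h3 := (induced_iff_pair hM (Subgroup.centralizer (Q : Set G)) P' hCX f c' h2 B
      hpair.2.1).mpr hpair
    exact (induced_centralizer_iff hM Q hQp f B).mp h3
  apply nil_local_gen hM B Q f hQf
  intro S h hpairS hQS x hxQ hxN hxst
  obtain ⟨u, hu⟩ := conj_into_maximal hM B P S c h hmax hpairS
  have hS₁P : S.map (MulAut.conj u).toMonoidHom ≤ P := (chain hM P c hpair.1.2 _ _ hu).1
  have hyN : u * x * u⁻¹ ∈ Subgroup.normalizer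
      ((S.map (MulAut.conj u).toMonoidHom : Subgroup G) : Set G) := by
    rw [Subgroup.mem_normalizer_iff]
    intro s
    rw [mem_map_conj, mem_map_conj]
    have e1 : u⁻¹ * (u * x * u⁻¹ * s * (u * x * u⁻¹)⁻¹) * u = x * (u⁻¹ * s * u) * x⁻¹ := by
      group
    rw [e1]
    exact (Subgroup.mem_normalizer_iff.mp hxN) (u⁻¹ * s * u)
  have hyst := stabilizesBlock_conj S u h x hxst
  obtain ⟨t, htN, htst, z, hz, hyt⟩ :=
    abelian_control hM B P c hmax hPab _ _ hu (u * x * u⁻¹) hyN hyst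
  have htT : t ∈ T := (hT t).mpr ⟨htN, htst⟩
  obtain ⟨q, hq, hq1⟩ : ∃ q ∈ Q, q ≠ 1 := by
    by_contra hcon
    push Not at hcon
    exact hQ1 ((Subgroup.eq_bot_iff_forall Q).mpr hcon)
  have hq₁S : u * q * u⁻¹ ∈ S.map (MulAut.conj u).toMonoidHom :=
    conj_mem_map_conj S u q (hQS hq)
  have hq₁ne : u * q * u⁻¹ ≠ 1 := by
    intro h0
    apply hq1
    have e0 : q = u⁻¹ * (u * q * u⁻¹) * u := by group
    rw [e0, h0]
    group
  have hzq : (u * q * u⁻¹) * z = z * (u * q * u⁻¹) :=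
    Subgroup.mem_centralizer_iff.mp hz _ hq₁S
  have hxq : q * x = x * q := Subgroup.mem_centralizer_iff.mp hxQ q hq
  have htz : t = u * x * u⁻¹ * z⁻¹ := by
    rw [hyt]
    group
  have hfix : t * (u * q * u⁻¹) * t⁻¹ = u * q * u⁻¹ := by
    rw [htz]
    have e2 : u * x * u⁻¹ * z⁻¹ * (u * q * u⁻¹) * (u * x * u⁻¹ * z⁻¹)⁻¹
        = u * x * u⁻¹ * (z⁻¹ * ((u * q * u⁻¹) * z)) * u * x⁻¹ * u⁻¹ := by group
    rw [e2, hzq]
    have e3 : u * x * u⁻¹ * (z⁻¹ * (z * (u * q * u⁻¹))) * u * x⁻¹ * u⁻¹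
        = u * (x * q) * x⁻¹ * u⁻¹ := by group
    rw [e3, ← hxq]
    group
  have htC := hfree t htT _ (hS₁P hq₁S) hq₁ne hfix
  have hyC : u * x * u⁻¹ ∈ Subgroup.centralizer
      ((S.map (MulAut.conj u).toMonoidHom : Subgroup G) : Set G) := by
    rw [hyt]
    exact Subgroup.mul_mem _ (Subgroup.centralizer_le hS₁P htC) hz
  exact (mem_centralizer_map_conj S u x).mp hyC

theorem backward_reg {p : ℕ} [Fact p.Prime] (hM : IsPModular p M)
    (B : Set (IrrCharacter G)) (P : Subgroup G)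
    (c : Set (IrrCharacter (Subgroup.centralizer (P : Set G))))
    (hpair : IsBrauerPairOf p M B P c) (hPab : ∀ x ∈ P, ∀ y ∈ P, x * y = y * x)
    (hnil : ∀ Q : Subgroup G, Q ≤ P → Q ≠ ⊥ →
      ∀ f : Set (IrrCharacter (Subgroup.centralizer (Q : Set G))),
      IsInducedBlockIn M (Subgroup.centralizer (Q : Set G))
        (Subgroup.centralizer (P : Set G)) c f → IsNilpotentBlock p M f)
    (g : G) (hgN : g ∈ Subgroup.normalizer (P : Set G))
    (hgst : StabilizesBlock (Subgroup.centralizer (P : Set G)) c g) (hreg : IsPRegular p g)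
    (x : G) (hx : x ∈ P) (hx1 : x ≠ 1) (hgx : g * x * g⁻¹ = x) :
    g ∈ Subgroup.centralizer (P : Set G) := by
  classical
  obtain ⟨Q, hQ⟩ : ∃ Q : Subgroup G, Q = Subgroup.zpowers x := ⟨_, rfl⟩
  have hQP : Q ≤ P := by
    rw [hQ]
    exact (Subgroup.zpowers_le).mpr hx
  have hQ1 : Q ≠ ⊥ := by
    rw [hQ]
    exact Subgroup.zpowers_ne_bot.mpr hx1
  have hPX : P ≤ Subgroup.centralizer (Q : Set G) := by
    intro y hy
    rw [Subgroup.mem_centralizer_iff]
    intro q hq
    exact hPab q (hQP hq) y hy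
  have hgX : g ∈ Subgroup.centralizer (Q : Set G) := by
    rw [Subgroup.mem_centralizer_iff]
    intro q hq
    rw [hQ] at hq
    obtain ⟨k, rfl⟩ := Subgroup.mem_zpowers_iff.mp hq
    have hcm : Commute x g := by
      show x * g = g * x
      have e1 : g * x = g * x * g⁻¹ * g := by group
      rw [e1, hgx]
    exact (hcm.zpow_left k).eq
  have hPp : IsPGroup p P := hpair.1.1
  obtain ⟨P', hP'⟩ : ∃ P' : Subgroup (Subgroup.centralizer (Q : Set G)),
      P'.map (Subgroup.centralizer (Q : Set G)).subtype = P :=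
    ⟨P.subgroupOf _, Subgroup.map_subgroupOf_eq_of_le hPX⟩
  subst hP'
  haveI hfinX : Fintype (Subgroup.centralizer (Q : Set G)) := Fintype.ofFinite _
  have hPN : P'.map (Subgroup.centralizer (Q : Set G)).subtype
      ≤ Subgroup.normalizer (Q : Set G) :=
    hPX.trans (Subgroup.centralizer_le_normalizer _)
  obtain ⟨f₀, hf₀, -⟩ := exists_unique_normal hM _ Q c hpair.1 hQP hPN
  have hFeq : ∀ t : Subgroup.centralizer (Q : Set G), blockCoeff f₀ t
      = subgroupBlockCoeff (Subgroup.centralizer (Q : Set G)) f₀ (t : G) := by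
    intro t
    rw [subgroupBlockCoeff_eq, ext_coe]
  have hd := down_pair Q (Subgroup.centralizer (Q : Set G)) le_rfl f₀ f₀ hf₀.1.2 hFeq P' c hf₀
  have hP'p : IsPGroup p P' :=
    hPp.of_equiv (P'.equivMapOfInjective _ (Subgroup.subtype_injective _)).symm
  have hind := (induced_centralizer_iff hM P' hP'p _ f₀).mpr hd
  have hin : IsInducedBlockIn M (Subgroup.centralizer (Q : Set G))
      (Subgroup.centralizer
        ((P'.map (Subgroup.centralizer (Q : Set G)).subtype : Subgroup G) : Set G)) c f₀ := by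
    have h1 := (inducedIn_iff (Subgroup.centralizer (Q : Set G)) _ _
      (up_mem Q _ le_rfl P' hQP) (downBlock Q _ le_rfl P' hQP c) f₀).mpr hind
    have h2 : trIrr (subIso (Subgroup.centralizer (Q : Set G)) _ _ (up_mem Q _ le_rfl P' hQP))
        '' (downBlock Q _ le_rfl P' hQP c) = c := up_down Q _ le_rfl P' hQP c
    rw [h2] at h1
    exact h1
  have hnilf := hnil Q hQP hQ1 f₀ hin
  have hmem : ∀ y : Subgroup.centralizer (Q : Set G),
      y ∈ P' ↔ (y : G) ∈ P'.map (Subgroup.centralizer (Q : Set G)).subtype := by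
    intro y
    constructor
    · intro hy
      exact ⟨y, hy, rfl⟩
    · rintro ⟨y', hy', he⟩
      have e2 : y' = y := Subtype.ext he
      rw [← e2]
      exact hy'
  have hN' : (⟨g, hgX⟩ : Subgroup.centralizer (Q : Set G))
      ∈ Subgroup.normalizer (P' : Set (Subgroup.centralizer (Q : Set G))) := by
    rw [Subgroup.mem_normalizer_iff]
    intro s
    rw [hmem, hmem]
    exact (Subgroup.mem_normalizer_iff.mp hgN) (s : G)
  have hst' := stab_down (Subgroup.centralizer (Q : Set G)) P' _ (up_mem Q _ le_rfl P' hQP) c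
    ⟨g, hgX⟩ hgst
  have hreg' : IsPRegular p (⟨g, hgX⟩ : Subgroup.centralizer (Q : Set G)) := by
    show ¬ p ∣ orderOf (⟨g, hgX⟩ : Subgroup.centralizer (Q : Set G))
    rw [← Subgroup.orderOf_coe]
    exact hreg
  have hres := hnilf.2 P' _ hd ⟨g, hgX⟩ hN' hst' hreg'
  exact (up_mem Q _ le_rfl P' hQP g).mpr ⟨hgX, hres⟩

theorem backward {p : ℕ} [Fact p.Prime] (hM : IsPModular p M)
    (B : Set (IrrCharacter G)) (P : Subgroup G)
    (c : Set (IrrCharacter (Subgroup.centralizer (P : Set G))))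
    (hpair : IsBrauerPairOf p M B P c) (hPab : ∀ x ∈ P, ∀ y ∈ P, x * y = y * x)
    (T : Subgroup G)
    (hT : ∀ g : G, g ∈ T ↔ (g ∈ Subgroup.normalizer (P : Set G) ∧
      StabilizesBlock (Subgroup.centralizer (P : Set G)) c g))
    (hidx : ¬ p ∣ (Subgroup.centralizer (P : Set G)).relIndex T)
    (hnil : ∀ Q : Subgroup G, Q ≤ P → Q ≠ ⊥ →
      ∀ f : Set (IrrCharacter (Subgroup.centralizer (Q : Set G))),
      IsInducedBlockIn M (Subgroup.centralizer (Q : Set G))
        (Subgroup.centralizer (P : Set G)) c f → IsNilpotentBlock p M f) :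
    ∀ g ∈ T, ∀ x ∈ P, x ≠ 1 → g * x * g⁻¹ = x → g ∈ Subgroup.centralizer (P : Set G) := by
  intro g hg x hx hx1 hgx
  have hp : p.Prime := Fact.out
  have hTN : T ≤ Subgroup.normalizer (P : Set G) := fun t ht => ((hT t).mp ht).1
  obtain ⟨a, ha⟩ : ∃ a : ℕ, a = (orderOf g).factorization p := ⟨_, rfl⟩
  have hcm : Commute g x := by
    show g * x = x * g
    have e1 : g * x = g * x * g⁻¹ * g := by group
    rw [e1, hgx]
  have hgpa : g ^ (p ^ a) ∈ Subgroup.centralizer (P : Set G) := by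
    apply backward_reg hM B P c hpair hPab hnil (g ^ (p ^ a)) ?_ ?_ ?_ x hx hx1 ?_
    · exact Subgroup.pow_mem _ (hTN hg) _
    · exact ((hT _).mp (T.pow_mem hg _)).2
    · show ¬ p ∣ orderOf (g ^ (p ^ a))
      have hn0 : orderOf g ≠ 0 := (orderOf_pos g).ne'
      rw [orderOf_pow, ha]
      have hgcd : Nat.gcd (orderOf g) (p ^ (orderOf g).factorization p)
          = p ^ (orderOf g).factorization p := Nat.gcd_eq_right (Nat.ordProj_dvd _ _)
      rw [hgcd]
      exact Nat.not_dvd_ordCompl hp hn0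
    · rw [(hcm.pow_left _).eq, mul_inv_cancel_right]
  obtain ⟨C, hC⟩ : ∃ C : Subgroup G, C = Subgroup.centralizer (P : Set G) := ⟨_, rfl⟩
  rw [← hC] at hidx hgpa ⊢
  haveI hnorm : (C.subgroupOf T).Normal := by
    constructor
    intro n hn t
    rw [Subgroup.mem_subgroupOf] at hn ⊢
    rw [hC] at hn ⊢
    have htN : (t : G) ∈ Subgroup.normalizer
        ((Subgroup.centralizer (P : Set G) : Subgroup G) : Set G) :=
      mem_normalizer_centralizer (hTN t.2)
    exact (Subgroup.mem_normalizer_iff.mp htN (n : G)).mp hn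
  have h1 : (QuotientGroup.mk (⟨g, hg⟩ : T) : T ⧸ C.subgroupOf T) ^ (p ^ a) = 1 := by
    rw [← QuotientGroup.mk_pow, QuotientGroup.eq_one_iff, Subgroup.mem_subgroupOf]
    exact hgpa
  have h2 : orderOf (QuotientGroup.mk (⟨g, hg⟩ : T) : T ⧸ C.subgroupOf T) ∣ p ^ a :=
    orderOf_dvd_of_pow_eq_one h1
  have h3 : orderOf (QuotientGroup.mk (⟨g, hg⟩ : T) : T ⧸ C.subgroupOf T) ∣ C.relIndex T :=
    orderOf_dvd_natCard _
  have hcop : Nat.Coprime (p ^ a) (C.relIndex T) :=
    Nat.Coprime.pow_left _ ((Nat.Prime.coprime_iff_not_dvd hp).mpr hidx)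
  have h4 : orderOf (QuotientGroup.mk (⟨g, hg⟩ : T) : T ⧸ C.subgroupOf T) ∣ 1 := by
    have h5 := Nat.dvd_gcd h2 h3
    rw [Nat.Coprime.gcd_eq_one hcop] at h5
    exact h5
  have h6 := orderOf_eq_one_iff.mp (Nat.dvd_one.mp h4)
  have h7 := (QuotientGroup.eq_one_iff _).mp h6
  exact Subgroup.mem_subgroupOf.mp h7

end Cfsg.Agent.Lib.Helper24.AbFree
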