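import Mathlib
import Cfsg.Agent.Lib.Helper24.FongRey1

set_option autoImplicit false

namespace Cfsg.Agent.Lib.Helper24.FongRey

open Cfsg Cfsg.Agent.Lib.Helper1 Cfsg.Agent.Lib.Helper6 Cfsg.Agent.Lib.Helper24
open scoped ComplexConjugate

universe u

variable {G : Type u} [Group G] [Fintype G] {M : Ideal AlgInt}

theorem mem_stab_of_conj (hmax : M.IsMaximal) (N T : Subgroup G) [hN : N.Normal] [Fintype N]
    (b : Set (IrrCharacter N)) (hb : IsPBlock M b)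
    (hT : ∀ g : G, g ∈ T ↔ ∀ θ ∈ b, ∀ θ' : IrrCharacter N,
      (∀ n : N, θ'.1 n = θ.1 ⟨g * n * g⁻¹, hN.conj_mem n n.2 g⟩) → θ' ∈ b)
    (θ : IrrCharacter N) (hθ : θ ∈ b) (θ₂ : IrrCharacter N) (hθ₂ : θ₂ ∈ b) (g : G)
    (h : θ₂.1 = conjChar N θ.1 g) : g ∈ T := by
  rw [hT]
  intro θ₁ hθ₁ θ₁' h1
  have hb2 : b = blockOf M θ₂.1 := Defect.block_eq_blockOf hmax b hb hθ₂
  have hb1 : b = blockOf M θ.1 := Defect.block_eq_blockOf hmax b hb hθ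
  have hs : SameBlock M θ.1 θ₁.1 := by
    rw [hb1] at hθ₁
    exact hθ₁
  have e1 : θ₁'.1 = θ₁.1 ∘ conjNormal N g := by
    funext n
    exact h1 n
  rw [hb2]
  show SameBlock M θ₂.1 θ₁'.1
  rw [h, conjChar_eq_comp, e1]
  exact (Brauer.sameBlock_comp_equiv (conjNormal N g) θ.1 θ₁.1).mpr hs

theorem charStab_le (hmax : M.IsMaximal) (N T : Subgroup G) [hN : N.Normal] [Fintype N]
    (b : Set (IrrCharacter N)) (hb : IsPBlock M b)
    (hT : ∀ g : G, g ∈ T ↔ ∀ θ ∈ b, ∀ θ' : IrrCharacter N,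
      (∀ n : N, θ'.1 n = θ.1 ⟨g * n * g⁻¹, hN.conj_mem n n.2 g⟩) → θ' ∈ b)
    (θ : IrrCharacter N) (hθ : θ ∈ b) : charStab N θ.1 ≤ T := by
  intro g hg
  exact mem_stab_of_conj hmax N T b hb hT θ hθ θ hθ g ((mem_charStab N θ.1 g).mp hg).symm

theorem centralChar_ind (T : Subgroup G) [Fintype T] (ψ : T → ℂ) (hψ1 : ψ 1 ≠ 0) (g : G) :
    centralChar (indFun T ψ) g = inducedCentralChar T ψ g := by
  rw [← omega_cind (indFun_isClassFunction T ψ) g,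
    omega_ind T ψ (cind g) (isClassFunction_cind g) hψ1, omega_res_cind]

theorem exists_over_of_cover (hmax : M.IsMaximal) (N : Subgroup G) [hN : N.Normal] [Fintype N]
    (b : Set (IrrCharacter N)) (hb : IsPBlock M b)
    (B : Set (IrrCharacter G)) (hB : IsPBlock M B)
    (hcov : ∃ χ ∈ B, ∃ θ ∈ b, classInner (fun n : N => χ.1 n) θ.1 ≠ 0)
    (χ : IrrCharacter G) (hχ : χ ∈ B) :
    ∃ θ ∈ b, classInner (fun n : N => χ.1 n) θ.1 ≠ 0 := by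
  obtain ⟨χ₀, hχ₀, θ₀, hθ₀, hover⟩ := hcov
  obtain ⟨ψ, hψ⟩ := FongCov.exists_under N χ
  have hcong : ∀ n : G, n ∈ N → MemLocalIdeal M
      (inducedCentralChar N ψ.1 n - inducedCentralChar N θ₀.1 n) := by
    intro n hn
    have h1 := covering_congr hmax N B hB b hb χ₀ hχ₀ θ₀ hθ₀ hover χ hχ θ₀ hθ₀ n hn
    rw [centralChar_eq_inducedCentralChar_of_over N χ ψ hψ n hn] at h1
    exact h1
  obtain ⟨g, θ', hθ', he⟩ := exists_conj_mem_block hmax N b hb θ₀ hθ₀ ψ hcong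
  refine ⟨θ', hθ', ?_⟩
  rw [he, classInner_restrict_conjChar N (irr_isClassFunction χ)]
  exact hψ

noncomputable def bT (N T : Subgroup G) [Fintype N] [Fintype T] (hNT : N ≤ T)
    (b : Set (IrrCharacter N)) : Set (IrrCharacter (N.subgroupOf T)) :=
  Brauer.trIrr (Subgroup.subgroupOfEquivOfLe hNT).symm '' b

theorem tr_coe (N T : Subgroup G) [Fintype N] [Fintype T] (hNT : N ≤ T) (θ : IrrCharacter N) :
    (Brauer.trIrr (Subgroup.subgroupOfEquivOfLe hNT).symm θ).1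
      = θ.1 ∘ (Subgroup.subgroupOfEquivOfLe hNT) := by
  funext x
  rw [Brauer.trIrr_apply]
  rfl

theorem symm_coe (N T : Subgroup G) (hNT : N ≤ T) (n : N) :
    ((((Subgroup.subgroupOfEquivOfLe hNT).symm n : N.subgroupOf T) : T) : G) = (n : G) := by
  have h1 : (((Subgroup.subgroupOfEquivOfLe hNT) ((Subgroup.subgroupOfEquivOfLe hNT).symm n)
      : N) : G) = ((((Subgroup.subgroupOfEquivOfLe hNT).symm n : N.subgroupOf T) : T) : G) := rfl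
  rw [MulEquiv.apply_symm_apply] at h1
  exact h1.symm

theorem hinvT (N T : Subgroup G) [hN : N.Normal] [Fintype N] [Fintype T] (hNT : N ≤ T)
    [hN' : (N.subgroupOf T).Normal] (b : Set (IrrCharacter N))
    (hTb : ∀ g : G, g ∈ T → ∀ θ ∈ b, ∀ θ' : IrrCharacter N,
      (∀ n : N, θ'.1 n = θ.1 ⟨g * n * g⁻¹, hN.conj_mem n n.2 g⟩) → θ' ∈ b) :
    ∀ t : T, ∀ θ' ∈ bT N T hNT b, ∀ θ'' : IrrCharacter (N.subgroupOf T),
      (∀ x : N.subgroupOf T, θ''.1 x = θ'.1 ⟨t * x * t⁻¹, hN'.conj_mem x x.2 t⟩) →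
      θ'' ∈ bT N T hNT b := by
  intro t θ' hθ' θ'' h
  obtain ⟨θ, hθ, rfl⟩ := hθ'
  refine ⟨Brauer.trIrr (Subgroup.subgroupOfEquivOfLe hNT) θ'', ?_, Brauer.trIrr_symm_trIrr _ θ''⟩
  apply hTb (t : G) t.2 θ hθ
  intro n
  rw [Brauer.trIrr_apply, h, tr_coe]
  show θ.1 ((Subgroup.subgroupOfEquivOfLe hNT) _) = θ.1 ⟨(t : G) * n * (t : G)⁻¹, _⟩
  apply congrArg θ.1
  apply Subtype.ext
  show ((t : T) : G) * ((((Subgroup.subgroupOfEquivOfLe hNT).symm n : N.subgroupOf T) : T) : G)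
    * ((t : T) : G)⁻¹ = (t : G) * n * (t : G)⁻¹
  rw [symm_coe]

theorem all_over (hmax : M.IsMaximal) (N T : Subgroup G) [hN : N.Normal] [Fintype N]
    [Fintype T] (hNT : N ≤ T) (b : Set (IrrCharacter N)) (hb : IsPBlock M b)
    (hTb : ∀ g : G, g ∈ T → ∀ θ ∈ b, ∀ θ' : IrrCharacter N,
      (∀ n : N, θ'.1 n = θ.1 ⟨g * n * g⁻¹, hN.conj_mem n n.2 g⟩) → θ' ∈ b)
    (B' : Set (IrrCharacter T)) (hB' : IsPBlock M B')
    (hcov : ∃ ψ ∈ B', ∃ θ ∈ b, classInner (fun n : N => ψ.1 ⟨n, hNT n.2⟩) θ.1 ≠ 0)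
    (ψ : IrrCharacter T) (hψ : ψ ∈ B') :
    ∃ θ ∈ b, classInner (fun n : N => ψ.1 ⟨n, hNT n.2⟩) θ.1 ≠ 0 := by
  haveI hfN' : Fintype (N.subgroupOf T) := Fintype.ofFinite _
  obtain ⟨ψ₀, hψ₀, θ₀, hθ₀, hov₀⟩ := hcov
  have hb' : IsPBlock M (bT N T hNT b) := Brauer.isPBlock_trIrr _ b hb
  have hcov' : ∃ ψ ∈ B', ∃ θ' ∈ bT N T hNT b,
      classInner (fun x : N.subgroupOf T => ψ.1 x) θ'.1 ≠ 0 := by
    refine ⟨ψ₀, hψ₀, Brauer.trIrr _ θ₀, ⟨θ₀, hθ₀, rfl⟩, ?_⟩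
    rw [tr_coe, inner_transfer]
    exact hov₀
  obtain ⟨θ'', hθ''⟩ := FongCov.exists_under (N.subgroupOf T) ψ
  have hmem := FongCov.all_in_b hmax (N.subgroupOf T) (bT N T hNT b) hb'
    (hinvT N T hNT b hTb) B' hB' hcov' ψ hψ θ'' hθ''
  obtain ⟨θ, hθ, rfl⟩ := hmem
  refine ⟨θ, hθ, ?_⟩
  rw [tr_coe, inner_transfer] at hθ''
  exact hθ''

theorem omega_eps_over (N T : Subgroup G) [hN : N.Normal] [Fintype N]
    [Fintype T] (hNT : N ≤ T) (b : Set (IrrCharacter N))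
    (hTb : ∀ g : G, g ∈ T → ∀ θ ∈ b, ∀ θ' : IrrCharacter N,
      (∀ n : N, θ'.1 n = θ.1 ⟨g * n * g⁻¹, hN.conj_mem n n.2 g⟩) → θ' ∈ b)
    (ψ : IrrCharacter T)
    (h : ∃ θ ∈ b, classInner (fun n : N => ψ.1 ⟨n, hNT n.2⟩) θ.1 ≠ 0) :
    omega ψ.1 (Brauer.ext (N.subgroupOf T) (blockCoeff (bT N T hNT b))) = 1 := by
  classical
  haveI hfN' : Fintype (N.subgroupOf T) := Fintype.ofFinite _
  haveI hirr : Fintype (IrrCharacter (N.subgroupOf T)) := irrFintype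
  obtain ⟨θ, hθ, hov⟩ := h
  have hov' : classInner (fun x : N.subgroupOf T => ψ.1 x)
      (Brauer.trIrr (Subgroup.subgroupOfEquivOfLe hNT).symm θ).1 ≠ 0 := by
    rw [tr_coe, inner_transfer]
    exact hov
  rw [FongCov.omega_ext_eq (N.subgroupOf T) (bT N T hNT b) (hinvT N T hNT b hTb) ψ _ hov',
    omega_blockCoeff, if_pos ⟨θ, hθ, rfl⟩]

theorem omega_eps_not_over (N T : Subgroup G) [hN : N.Normal] [Fintype N]
    [Fintype T] (hNT : N ≤ T) (b : Set (IrrCharacter N))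
    (hTb : ∀ g : G, g ∈ T → ∀ θ ∈ b, ∀ θ' : IrrCharacter N,
      (∀ n : N, θ'.1 n = θ.1 ⟨g * n * g⁻¹, hN.conj_mem n n.2 g⟩) → θ' ∈ b)
    (ψ : IrrCharacter T)
    (h : ∀ θ ∈ b, classInner (fun n : N => ψ.1 ⟨n, hNT n.2⟩) θ.1 = 0) :
    omega ψ.1 (Brauer.ext (N.subgroupOf T) (blockCoeff (bT N T hNT b))) = 0 := by
  classical
  haveI hfN' : Fintype (N.subgroupOf T) := Fintype.ofFinite _
  haveI hirr : Fintype (IrrCharacter (N.subgroupOf T)) := irrFintype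
  obtain ⟨θ'', hθ''⟩ := FongCov.exists_under (N.subgroupOf T) ψ
  have hnot : θ'' ∉ bT N T hNT b := by
    rintro ⟨θ, hθ, rfl⟩
    apply hθ''
    rw [tr_coe, inner_transfer]
    exact h θ hθ
  rw [FongCov.omega_ext_eq (N.subgroupOf T) (bT N T hNT b) (hinvT N T hNT b hTb) ψ θ'' hθ'',
    omega_blockCoeff, if_neg hnot]

theorem constituent_unique (hmax : M.IsMaximal) (N T : Subgroup G) [hN : N.Normal] [Fintype N]
    [Fintype T] (hNT : N ≤ T) (b : Set (IrrCharacter N)) (hb : IsPBlock M b)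
    (hT : ∀ g : G, g ∈ T ↔ ∀ θ ∈ b, ∀ θ' : IrrCharacter N,
      (∀ n : N, θ'.1 n = θ.1 ⟨g * n * g⁻¹, hN.conj_mem n n.2 g⟩) → θ' ∈ b)
    (ψ : IrrCharacter T)
    (h : ∃ θ ∈ b, classInner (fun n : N => ψ.1 ⟨n, hNT n.2⟩) θ.1 ≠ 0)
    (ψ'' : IrrCharacter T)
    (h'' : ∃ θ ∈ b, classInner (fun n : N => ψ''.1 ⟨n, hNT n.2⟩) θ.1 ≠ 0)
    (hcon : classInner (fun t : T => indFun T ψ.1 t) ψ''.1 ≠ 0) : ψ'' = ψ := by
  by_contra hne
  obtain ⟨θ, hθ, hov⟩ := h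
  obtain ⟨θ'', hθ'', hov''⟩ := h''
  obtain ⟨hirr, hmult, huniq⟩ :=
    ind_irr N T hNT θ.2 (charStab_le hmax N T b hb hT θ hθ) ψ.2 hov
  obtain ⟨hirr'', hmult'', -⟩ :=
    ind_irr N T hNT θ''.2 (charStab_le hmax N T b hb hT θ'' hθ'') ψ''.2 hov''
  have h0 := huniq ψ''.1 ψ''.2 (fun h => hne (Subtype.ext h)) hcon
  have hfr := frobenius_reciprocity T ψ''.1 (IsIrrCharacter.isClassFunction hirr)
  have heq : indFun T ψ''.1 = indFun T ψ.1 := by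
    by_contra hcon2
    have h1 := classInner_irr_ne hirr'' hirr hcon2
    rw [hfr] at h1
    apply hcon
    rw [← classInner_conj_symm, h1, map_zero]
  have h1 : classInner (fun n : N => indFun T ψ.1 n) θ''.1 ≠ 0 := by
    rw [← heq, hmult'']
    exact hov''
  have h2 : classInner (fun n : N => indFun T ψ.1 n) θ.1 ≠ 0 := by
    rw [hmult]
    exact hov
  obtain ⟨g, hg⟩ := clifford_conj N hirr θ.2 θ''.2 h2 h1
  have hgT : g ∈ T := mem_stab_of_conj hmax N T b hb hT θ hθ θ'' hθ'' g hg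
  have hf : ∀ n : N, (fun n : N => ψ''.1 ⟨n, hNT n.2⟩) ⟨g * n * g⁻¹, hN.conj_mem n n.2 g⟩
      = (fun n : N => ψ''.1 ⟨n, hNT n.2⟩) n := by
    intro n
    exact irr_isClassFunction ψ'' ⟨n, hNT n.2⟩ ⟨g, hgT⟩
  apply hov''
  rw [hg, inner_conj N (fun n : N => ψ''.1 ⟨n, hNT n.2⟩) g hf θ.1]
  exact h0

theorem omega_transfer (hmax : M.IsMaximal) (N T : Subgroup G) [hN : N.Normal] [Fintype N]
    [Fintype T] (hNT : N ≤ T) (b : Set (IrrCharacter N)) (hb : IsPBlock M b)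
    (hT : ∀ g : G, g ∈ T ↔ ∀ θ ∈ b, ∀ θ' : IrrCharacter N,
      (∀ n : N, θ'.1 n = θ.1 ⟨g * n * g⁻¹, hN.conj_mem n n.2 g⟩) → θ' ∈ b)
    (ψ : IrrCharacter T)
    (h : ∃ θ ∈ b, classInner (fun n : N => ψ.1 ⟨n, hNT n.2⟩) θ.1 ≠ 0)
    (y₀ : T → ℂ) (hy₀ : IsClassFunction T y₀) :
    omega (indFun T ψ.1) (indFun T
        (cconv y₀ (Brauer.ext (N.subgroupOf T) (blockCoeff (bT N T hNT b)))))
      = omega ψ.1 y₀ := by
  classical
  haveI hirrT : Fintype (IrrCharacter T) := irrFintype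
  have hTb : ∀ g : G, g ∈ T → ∀ θ ∈ b, ∀ θ' : IrrCharacter N,
      (∀ n : N, θ'.1 n = θ.1 ⟨g * n * g⁻¹, hN.conj_mem n n.2 g⟩) → θ' ∈ b :=
    fun g hg => (hT g).mp hg
  obtain ⟨θ, hθ, hov⟩ := h
  obtain ⟨hirr, hmult, -⟩ := ind_irr N T hNT θ.2 (charStab_le hmax N T b hb hT θ hθ) ψ.2 hov
  obtain ⟨ε, hε⟩ : ∃ ε : T → ℂ,
      ε = Brauer.ext (N.subgroupOf T) (blockCoeff (bT N T hNT b)) := ⟨_, rfl⟩
  rw [← hε]
  have hεcf : IsClassFunction T ε := by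
    rw [hε]
    exact FongCov.isClassFunction_ext (N.subgroupOf T) (bT N T hNT b) (hinvT N T hNT b hTb)
  rw [omega_of_ind T _ _ (IsIrrCharacter.isClassFunction hirr), indFun_one]
  have hχT : IsCharacter T (fun t : T => indFun T ψ.1 t) :=
    IsCharacter.restrict (IsIrrCharacter.isCharacter hirr) T
  obtain ⟨m, hm1, hm2⟩ := IsCharacter.eq_sum_irr hχT
  have hψ1 : ψ.1 1 ≠ 0 := irr_one_ne_zero ψ.2
  have hI0 : (T.index : ℂ) ≠ 0 := by exact_mod_cast Subgroup.index_ne_zero_of_finite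
  have hsum : ∑ t : T, cconv y₀ ε t * indFun T ψ.1 t = ψ.1 1 * omega ψ.1 y₀ := by
    have h1 : ∀ t : T, indFun T ψ.1 t = ∑ ψ'' : IrrCharacter T, (m ψ'' : ℂ) * ψ''.1 t := by
      intro t
      have h2 := congrFun hm2 t
      rw [Finset.sum_apply] at h2
      exact h2
    have h3 : ∑ t : T, cconv y₀ ε t * indFun T ψ.1 t
        = ∑ ψ'' : IrrCharacter T, (m ψ'' : ℂ) * (ψ''.1 1 * omega ψ''.1 (cconv y₀ ε)) := by
      simp_rw [h1, Finset.mul_sum]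
      rw [Finset.sum_comm]
      apply Finset.sum_congr rfl
      intro ψ'' _
      have h4 : ψ''.1 1 * omega ψ''.1 (cconv y₀ ε) = ∑ t : T, cconv y₀ ε t * ψ''.1 t := by
        show ψ''.1 1 * ((∑ t : T, cconv y₀ ε t * ψ''.1 t) / ψ''.1 1) = _
        rw [mul_div_cancel₀ _ (irr_one_ne_zero ψ''.2)]
      rw [h4, Finset.mul_sum]
      apply Finset.sum_congr rfl
      intro t _
      ring
    rw [h3, Finset.sum_eq_single ψ]
    · have hmψ : (m ψ : ℂ) = 1 := by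
        rw [← hm1 ψ, ← classInner_conj_symm,
          ← frobenius_reciprocity T ψ.1 (IsIrrCharacter.isClassFunction hirr),
          classInner_irr_self hirr, map_one]
      rw [hmψ, one_mul, omega_cconv ψ.2 hy₀ hεcf, hε,
        omega_eps_over N T hNT b hTb ψ ⟨θ, hθ, hov⟩, mul_one]
    · intro ψ'' _ hne
      by_cases hm0 : m ψ'' = 0
      · rw [hm0, Nat.cast_zero, zero_mul]
      · have hcon : classInner (fun t : T => indFun T ψ.1 t) ψ''.1 ≠ 0 := by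
          rw [hm1 ψ'']
          exact_mod_cast hm0
        have hno : ∀ θ ∈ b, classInner (fun n : N => ψ''.1 ⟨n, hNT n.2⟩) θ.1 = 0 := by
          intro θ₂ hθ₂
          by_contra h5
          exact hne (constituent_unique hmax N T hNT b hb hT ψ ⟨θ, hθ, hov⟩ ψ''
            ⟨θ₂, hθ₂, h5⟩ hcon)
        rw [omega_cconv ψ''.2 hy₀ hεcf, hε, omega_eps_not_over N T hNT b hTb ψ'' hno,
          mul_zero, mul_zero, mul_zero]
    · intro h
      exact absurd (Finset.mem_univ _) h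
  rw [hsum]
  field_simp

theorem sameBlock_of_ind (hmax : M.IsMaximal) (N T : Subgroup G) [hN : N.Normal] [Fintype N]
    [Fintype T] (hNT : N ≤ T) (b : Set (IrrCharacter N)) (hb : IsPBlock M b)
    (hT : ∀ g : G, g ∈ T ↔ ∀ θ ∈ b, ∀ θ' : IrrCharacter N,
      (∀ n : N, θ'.1 n = θ.1 ⟨g * n * g⁻¹, hN.conj_mem n n.2 g⟩) → θ' ∈ b)
    (ψ₁ ψ₂ : IrrCharacter T)
    (h₁ : ∃ θ ∈ b, classInner (fun n : N => ψ₁.1 ⟨n, hNT n.2⟩) θ.1 ≠ 0)
    (h₂ : ∃ θ ∈ b, classInner (fun n : N => ψ₂.1 ⟨n, hNT n.2⟩) θ.1 ≠ 0)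
    (hs : SameBlock M (indFun T ψ₁.1) (indFun T ψ₂.1)) : SameBlock M ψ₁.1 ψ₂.1 := by
  classical
  haveI hfN' : Fintype (N.subgroupOf T) := Fintype.ofFinite _
  have hTb : ∀ g : G, g ∈ T → ∀ θ ∈ b, ∀ θ' : IrrCharacter N,
      (∀ n : N, θ'.1 n = θ.1 ⟨g * n * g⁻¹, hN.conj_mem n n.2 g⟩) → θ' ∈ b :=
    fun g hg => (hT g).mp hg
  have hb' : IsPBlock M (bT N T hNT b) := Brauer.isPBlock_trIrr _ b hb
  intro t₀
  obtain ⟨ε, hε⟩ : ∃ ε : T → ℂ,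
      ε = Brauer.ext (N.subgroupOf T) (blockCoeff (bT N T hNT b)) := ⟨_, rfl⟩
  have hεcf : IsClassFunction T ε := by
    rw [hε]
    exact FongCov.isClassFunction_ext (N.subgroupOf T) (bT N T hNT b) (hinvT N T hNT b hTb)
  have hεS : SVal M ε := by
    rw [hε]
    intro t
    by_cases ht : t ∈ N.subgroupOf T
    · rw [Brauer.ext_of_mem _ _ ht]
      exact osima' hmax _ hb' _
    · rw [Brauer.ext_of_not_mem _ _ ht]
      exact memLocalRing_zero hmax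
  have hycf : IsClassFunction T (cconv (cind t₀) ε) :=
    isClassFunction_cconv (isClassFunction_cind t₀) hεcf
  have hyS : SVal M (cconv (cind t₀) ε) := SVal.cconv hmax (sVal_cind hmax t₀) hεS
  have hz := sVal_indFun hmax T _ hycf hyS
  have hzcf := indFun_isClassFunction T (cconv (cind t₀) ε)
  have h1 := omega_transfer hmax N T hNT b hb hT ψ₁ h₁ (cind t₀) (isClassFunction_cind t₀)
  have h2 := omega_transfer hmax N T hNT b hb hT ψ₂ h₂ (cind t₀) (isClassFunction_cind t₀)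
  rw [← hε, omega_cind (irr_isClassFunction ψ₁)] at h1
  rw [← hε, omega_cind (irr_isClassFunction ψ₂)] at h2
  have h3 := omega_sub_memLocalIdeal hmax (indFun_isClassFunction T ψ₁.1)
    (indFun_isClassFunction T ψ₂.1) hs hzcf hz
  rw [h1, h2] at h3
  exact h3

end Cfsg.Agent.Lib.Helper24.FongRey
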