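import Mathlib
import Cfsg.Agent.Lib.Helper24.FongRey2

set_option autoImplicit false

namespace Cfsg.Agent.Lib.Helper24.FongRey

open Cfsg Cfsg.Agent.Lib.Helper1 Cfsg.Agent.Lib.Helper6 Cfsg.Agent.Lib.Helper24
open scoped ComplexConjugate

universe u

variable {G : Type u} [Group G] [Fintype G] {M : Ideal AlgInt}

theorem ind_block (hmax : M.IsMaximal) (N T : Subgroup G) [hN : N.Normal] [Fintype N]
    [Fintype T] (hNT : N ≤ T) (b : Set (IrrCharacter N)) (hb : IsPBlock M b)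
    (hT : ∀ g : G, g ∈ T ↔ ∀ θ ∈ b, ∀ θ' : IrrCharacter N,
      (∀ n : N, θ'.1 n = θ.1 ⟨g * n * g⁻¹, hN.conj_mem n n.2 g⟩) → θ' ∈ b)
    (B' : Set (IrrCharacter T)) (hB' : IsPBlock M B')
    (hcov : ∃ ψ ∈ B', ∃ θ ∈ b, classInner (fun n : N => ψ.1 ⟨n, hNT n.2⟩) θ.1 ≠ 0)
    (χ₀ : IrrCharacter G) (hχ₀ : ∃ ψ ∈ B', χ₀.1 = indFun T ψ.1) :
    IsInducedBlock M T B' (blockOf M χ₀.1) ∧ (∀ ψ ∈ B', IsIrrCharacter G (indFun T ψ.1)) ∧
      ∀ χ : IrrCharacter G, χ ∈ blockOf M χ₀.1 ↔ ∃ ψ ∈ B', χ.1 = indFun T ψ.1 := by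
  have hTb : ∀ g : G, g ∈ T → ∀ θ ∈ b, ∀ θ' : IrrCharacter N,
      (∀ n : N, θ'.1 n = θ.1 ⟨g * n * g⁻¹, hN.conj_mem n n.2 g⟩) → θ' ∈ b :=
    fun g hg => (hT g).mp hg
  have hall : ∀ ψ ∈ B', ∃ θ ∈ b, classInner (fun n : N => ψ.1 ⟨n, hNT n.2⟩) θ.1 ≠ 0 :=
    fun ψ hψ => all_over hmax N T hNT b hb hTb B' hB' hcov ψ hψ
  have hirr : ∀ ψ ∈ B', IsIrrCharacter G (indFun T ψ.1) := by
    intro ψ hψ
    obtain ⟨θ, hθ, hov⟩ := hall ψ hψ
    exact (ind_irr N T hNT θ.2 (charStab_le hmax N T b hb hT θ hθ) ψ.2 hov).1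
  obtain ⟨ψ₀, hψ₀, hχ₀e⟩ := hχ₀
  have hcc : ∀ ψ ∈ B', ∀ g : G,
      MemLocalIdeal M (inducedCentralChar T ψ.1 g - centralChar χ₀.1 g) := by
    intro ψ hψ g
    rw [hχ₀e, centralChar_ind T ψ₀.1 (irr_one_ne_zero ψ₀.2) g]
    have hB'e : B' = blockOf M ψ.1 := Defect.block_eq_blockOf hmax B' hB' hψ
    have hs : SameBlock M ψ.1 ψ₀.1 := by
      rw [hB'e] at hψ₀
      exact hψ₀
    exact inducedCentralChar_sub_mem_of_sameBlock hmax T ψ ψ₀ hs g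
  have hmemB : ∀ ψ ∈ B', ∀ χ : IrrCharacter G, χ.1 = indFun T ψ.1 → χ ∈ blockOf M χ₀.1 := by
    intro ψ hψ χ hχe
    show SameBlock M χ₀.1 χ.1
    intro g
    have h1 := hcc ψ hψ g
    rw [hχe, centralChar_ind T ψ.1 (irr_one_ne_zero ψ.2) g]
    have h2 := MemLocalIdeal.neg h1
    rw [neg_sub] at h2
    exact h2
  refine ⟨⟨hB', ⟨χ₀, rfl⟩, ?_⟩, hirr, ?_⟩
  · intro ξ hξ χ hχ g
    have h1 := hcc ξ hξ g
    have h2 : MemLocalIdeal M (centralChar χ₀.1 g - centralChar χ.1 g) := hχ g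
    have h3 := MemLocalIdeal.add hmax h1 h2
    have e : inducedCentralChar T ξ.1 g - centralChar χ₀.1 g
        + (centralChar χ₀.1 g - centralChar χ.1 g)
        = inducedCentralChar T ξ.1 g - centralChar χ.1 g := by ring
    rw [e] at h3
    exact h3
  · intro χ
    constructor
    · intro hχ
      have hcovB : ∃ χ' ∈ blockOf M χ₀.1, ∃ θ ∈ b,
          classInner (fun n : N => χ'.1 n) θ.1 ≠ 0 := by
        obtain ⟨θ₀, hθ₀, hov₀⟩ := hall ψ₀ hψ₀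
        refine ⟨χ₀, mem_blockOf_self hmax χ₀, θ₀, hθ₀, ?_⟩
        rw [hχ₀e, (ind_irr N T hNT θ₀.2 (charStab_le hmax N T b hb hT θ₀ hθ₀) ψ₀.2 hov₀).2.1]
        exact hov₀
      obtain ⟨θ, hθ, hov⟩ :=
        exists_over_of_cover hmax N b hb (blockOf M χ₀.1) ⟨χ₀, rfl⟩ hcovB χ hχ
      obtain ⟨ψ, hψ, hψov, hχe⟩ :=
        exists_ind N T hNT θ.2 (charStab_le hmax N T b hb hT θ hθ) χ.2 hov
      refine ⟨⟨ψ, hψ⟩, ?_, hχe⟩
      have hB'e : B' = blockOf M ψ₀.1 := Defect.block_eq_blockOf hmax B' hB' hψ₀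
      rw [hB'e]
      show SameBlock M ψ₀.1 ψ
      apply sameBlock_of_ind hmax N T hNT b hb hT ψ₀ ⟨ψ, hψ⟩ (hall ψ₀ hψ₀) ⟨θ, hθ, hψov⟩
      rw [← hχ₀e]
      show SameBlock M χ₀.1 (indFun T ψ)
      rw [← hχe]
      exact hχ
    · rintro ⟨ψ, hψ, hχe⟩
      exact hmemB ψ hψ χ hχe

theorem fr1 {p : ℕ} [Fact p.Prime] (hM : IsPModular p M) (N : Subgroup G) [hN : N.Normal]
    [Fintype N] (b : Set (IrrCharacter N)) (hb : IsPBlock M b) (T : Subgroup G) [Fintype T]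
    (hT : ∀ g : G, g ∈ T ↔ ∀ θ ∈ b, ∀ θ' : IrrCharacter N,
      (∀ n : N, θ'.1 n = θ.1 ⟨g * n * g⁻¹, hN.conj_mem n n.2 g⟩) → θ' ∈ b)
    (hNT : N ≤ T) :
    (∀ B' : Set (IrrCharacter T), IsPBlock M B' →
      (∃ ψ ∈ B', ∃ θ ∈ b, classInner (fun n : N => ψ.1 ⟨(n : G), hNT n.2⟩) θ.1 ≠ 0) →
      ∃ B : Set (IrrCharacter G), IsInducedBlock M T B' B ∧
        (∃ χ ∈ B, ∃ θ ∈ b, classInner (fun n : N => χ.1 n) θ.1 ≠ 0) ∧
        (∀ ψ ∈ B', IsIrrCharacter G (indFun T ψ.1)) ∧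
        ∀ χ : IrrCharacter G, χ ∈ B ↔ ∃ ψ ∈ B', χ.1 = indFun T ψ.1) ∧
    (∀ B'₁ B'₂ : Set (IrrCharacter T), IsPBlock M B'₁ → IsPBlock M B'₂ →
      (∃ ψ ∈ B'₁, ∃ θ ∈ b, classInner (fun n : N => ψ.1 ⟨(n : G), hNT n.2⟩) θ.1 ≠ 0) →
      (∃ ψ ∈ B'₂, ∃ θ ∈ b, classInner (fun n : N => ψ.1 ⟨(n : G), hNT n.2⟩) θ.1 ≠ 0) →
      ∀ B : Set (IrrCharacter G), IsInducedBlock M T B'₁ B → IsInducedBlock M T B'₂ B →
        B'₁ = B'₂) ∧
    (∀ B : Set (IrrCharacter G), IsPBlock M B →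
      (∃ χ ∈ B, ∃ θ ∈ b, classInner (fun n : N => χ.1 n) θ.1 ≠ 0) →
      ∃ B' : Set (IrrCharacter T), IsPBlock M B' ∧
        (∃ ψ ∈ B', ∃ θ ∈ b, classInner (fun n : N => ψ.1 ⟨(n : G), hNT n.2⟩) θ.1 ≠ 0) ∧
        IsInducedBlock M T B' B) := by
  have hmax := hM.2.1
  refine ⟨?_, ?_, ?_⟩
  · intro B' hB' hcov
    obtain ⟨ψ₀, hψ₀, θ₀, hθ₀, hov₀⟩ := hcov
    obtain ⟨hirr₀, hmult₀, -⟩ :=
      ind_irr N T hNT θ₀.2 (charStab_le hmax N T b hb hT θ₀ hθ₀) ψ₀.2 hov₀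
    obtain ⟨χ₀, hχ₀e⟩ : ∃ χ₀ : IrrCharacter G, χ₀.1 = indFun T ψ₀.1 := ⟨⟨_, hirr₀⟩, rfl⟩
    obtain ⟨h1, h2, h3⟩ := ind_block hmax N T hNT b hb hT B' hB'
      ⟨ψ₀, hψ₀, θ₀, hθ₀, hov₀⟩ χ₀ ⟨ψ₀, hψ₀, hχ₀e⟩
    refine ⟨blockOf M χ₀.1, h1, ⟨χ₀, mem_blockOf_self hmax χ₀, θ₀, hθ₀, ?_⟩, h2, h3⟩
    rw [hχ₀e, hmult₀]
    exact hov₀
  · intro B'₁ B'₂ hB'₁ hB'₂ hcov₁ hcov₂ B hind₁ hind₂
    obtain ⟨ψ₁, hψ₁, θ₁, hθ₁, hov₁⟩ := hcov₁
    obtain ⟨ψ₂, hψ₂, θ₂, hθ₂, hov₂⟩ := hcov₂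
    obtain ⟨χ, hχ⟩ := Defect.block_nonempty hmax B hind₁.2.1
    have hs : SameBlock M (indFun T ψ₁.1) (indFun T ψ₂.1) := by
      intro g
      rw [centralChar_ind T ψ₁.1 (irr_one_ne_zero ψ₁.2) g,
        centralChar_ind T ψ₂.1 (irr_one_ne_zero ψ₂.2) g]
      have h1 := hind₁.2.2 ψ₁ hψ₁ χ hχ g
      have h2 := hind₂.2.2 ψ₂ hψ₂ χ hχ g
      have h3 := MemLocalIdeal.sub hmax h1 h2
      have e : inducedCentralChar T ψ₁.1 g - centralChar χ.1 g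
          - (inducedCentralChar T ψ₂.1 g - centralChar χ.1 g)
          = inducedCentralChar T ψ₁.1 g - inducedCentralChar T ψ₂.1 g := by ring
      rw [e] at h3
      exact h3
    have hs' := sameBlock_of_ind hmax N T hNT b hb hT ψ₁ ψ₂ ⟨θ₁, hθ₁, hov₁⟩
      ⟨θ₂, hθ₂, hov₂⟩ hs
    have e1 : B'₁ = blockOf M ψ₁.1 := Defect.block_eq_blockOf hmax B'₁ hB'₁ hψ₁
    have hψ₂' : ψ₂ ∈ B'₁ := by
      rw [e1]
      exact hs'
    rw [Defect.block_eq_blockOf hmax B'₁ hB'₁ hψ₂', Defect.block_eq_blockOf hmax B'₂ hB'₂ hψ₂]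
  · intro B hB hcovB
    obtain ⟨χ, hχ, θ, hθ, hov⟩ := hcovB
    obtain ⟨ψ, hψ, hψov, hχe⟩ :=
      exists_ind N T hNT θ.2 (charStab_le hmax N T b hb hT θ hθ) χ.2 hov
    have hcov' : ∃ ψ' ∈ blockOf M ψ, ∃ θ ∈ b,
        classInner (fun n : N => ψ'.1 ⟨n, hNT n.2⟩) θ.1 ≠ 0 :=
      ⟨⟨ψ, hψ⟩, mem_blockOf_self hmax ⟨ψ, hψ⟩, θ, hθ, hψov⟩
    obtain ⟨h1, -, -⟩ := ind_block hmax N T hNT b hb hT (blockOf M ψ) ⟨⟨ψ, hψ⟩, rfl⟩ hcov' χ
      ⟨⟨ψ, hψ⟩, mem_blockOf_self hmax ⟨ψ, hψ⟩, hχe⟩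
    refine ⟨blockOf M ψ, ⟨⟨ψ, hψ⟩, rfl⟩, hcov', ?_⟩
    rw [Defect.block_eq_blockOf hmax B hB hχ]
    exact h1

theorem fr2 {p : ℕ} [Fact p.Prime] (hM : IsPModular p M) (N : Subgroup G) [hN : N.Normal]
    [Fintype N] (b : Set (IrrCharacter N)) (hb : IsPBlock M b) (T : Subgroup G) [Fintype T]
    (hT : ∀ g : G, g ∈ T ↔ ∀ θ ∈ b, ∀ θ' : IrrCharacter N,
      (∀ n : N, θ'.1 n = θ.1 ⟨g * n * g⁻¹, hN.conj_mem n n.2 g⟩) → θ' ∈ b)
    (hNT : N ≤ T) (B' : Set (IrrCharacter T)) (hB' : IsPBlock M B')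
    (hcov : ∃ ψ ∈ B', ∃ θ ∈ b, classInner (fun n : N => ψ.1 ⟨(n : G), hNT n.2⟩) θ.1 ≠ 0)
    (B : Set (IrrCharacter G)) (hind : IsInducedBlock M T B' B) :
    (∀ D : Subgroup T, IsDefectGroup p M B' D → IsDefectGroup p M B (D.map T.subtype)) ∧
    ∀ ψ ∈ B', ∃ χ ∈ B, χ.1 = indFun T ψ.1 ∧
      blockHeight p B χ.1 = blockHeight p B' ψ.1 := by
  classical
  have hmax := hM.2.1
  have hp := (Fact.out : p.Prime)
  have hcov2 := hcov
  obtain ⟨ψ₀, hψ₀, θ₀, hθ₀, hov₀⟩ := hcov2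
  have hirr₀ := (ind_irr N T hNT θ₀.2 (charStab_le hmax N T b hb hT θ₀ hθ₀) ψ₀.2 hov₀).1
  obtain ⟨χ₀, hχ₀e⟩ : ∃ χ₀ : IrrCharacter G, χ₀.1 = indFun T ψ₀.1 := ⟨⟨_, hirr₀⟩, rfl⟩
  obtain ⟨-, hirr, hiff⟩ := ind_block hmax N T hNT b hb hT B' hB' hcov χ₀ ⟨ψ₀, hψ₀, hχ₀e⟩
  have hBe : B = blockOf M χ₀.1 := by
    obtain ⟨χ, hχ⟩ := Defect.block_nonempty hmax B hind.2.1
    have h1 : B = blockOf M χ.1 := Defect.block_eq_blockOf hmax B hind.2.1 hχ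
    have h2 : χ₀ ∈ B := by
      rw [h1]
      show SameBlock M χ.1 χ₀.1
      intro g
      have h3 := hind.2.2 ψ₀ hψ₀ χ hχ g
      rw [hχ₀e, centralChar_ind T ψ₀.1 (irr_one_ne_zero ψ₀.2) g]
      have h4 := MemLocalIdeal.neg h3
      rw [neg_sub] at h4
      exact h4
    exact Defect.block_eq_blockOf hmax B hind.2.1 h2
  have hdeg : ∀ ψ : IrrCharacter T, ∀ χ : IrrCharacter G, χ.1 = indFun T ψ.1 →
      charDegree χ.1 = T.index * charDegree ψ.1 := by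
    intro ψ χ he
    have h1 := CharBasic.char_one_nat (CharBasic.isCharacter_of_irr χ.2)
    have h2 := CharBasic.char_one_nat (CharBasic.isCharacter_of_irr ψ.2)
    have h3 : ((charDegree χ.1 : ℕ) : ℂ) = ((T.index * charDegree ψ.1 : ℕ) : ℂ) := by
      rw [← h1, he, indFun_one, h2]
      push_cast
      rfl
    exact_mod_cast h3
  have hTi : T.index ≠ 0 := Subgroup.index_ne_zero_of_finite
  have hν : ∀ ψ : IrrCharacter T, ∀ χ : IrrCharacter G, χ.1 = indFun T ψ.1 →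
      (charDegree χ.1).factorization p
        = T.index.factorization p + (charDegree ψ.1).factorization p := by
    intro ψ χ he
    rw [hdeg ψ χ he, Nat.factorization_mul hTi (Defect.charDegree_dvd_card ψ).2.ne']
    rfl
  obtain ⟨SB', hSB'⟩ : ∃ S : Set ℕ,
      S = (fun ψ : IrrCharacter T => (charDegree (ψ : T → ℂ)).factorization p) '' B' :=
    ⟨_, rfl⟩
  obtain ⟨SB, hSB⟩ : ∃ S : Set ℕ,
      S = (fun χ : IrrCharacter G => (charDegree (χ : G → ℂ)).factorization p) '' B :=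
    ⟨_, rfl⟩
  have hSne : SB'.Nonempty := by
    rw [hSB']
    exact ⟨_, ψ₀, hψ₀, rfl⟩
  have hSBe : SB = (fun n => T.index.factorization p + n) '' SB' := by
    rw [hSB, hSB']
    ext n
    constructor
    · rintro ⟨χ, hχ, rfl⟩
      rw [hBe] at hχ
      obtain ⟨ψ, hψ, he⟩ := (hiff χ).mp hχ
      exact ⟨_, ⟨ψ, hψ, rfl⟩, (hν ψ χ he).symm⟩
    · rintro ⟨_, ⟨ψ, hψ, rfl⟩, rfl⟩
      refine ⟨⟨indFun T ψ.1, hirr ψ hψ⟩, ?_, hν ψ _ rfl⟩
      rw [hBe]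
      exact (hiff _).mpr ⟨ψ, hψ, rfl⟩
  have hsInf : sInf SB = T.index.factorization p + sInf SB' := by
    rw [hSBe]
    apply le_antisymm
    · exact Nat.sInf_le ⟨_, Nat.sInf_mem hSne, rfl⟩
    · apply le_csInf (Set.Nonempty.image _ hSne)
      rintro _ ⟨n, hn, rfl⟩
      exact Nat.add_le_add_left (Nat.sInf_le hn) _
  have hcardG : (Nat.card G).factorization p
      = (Nat.card T).factorization p + T.index.factorization p := by
    rw [← Subgroup.card_mul_index T, Nat.factorization_mul Nat.card_pos.ne' hTi]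
    rfl
  have hdefect : blockDefect p B = blockDefect p B' := by
    show (Nat.card G).factorization p - sInf ((fun χ : IrrCharacter G =>
        (charDegree (χ : G → ℂ)).factorization p) '' B)
      = (Nat.card T).factorization p - sInf ((fun ψ : IrrCharacter T =>
        (charDegree (ψ : T → ℂ)).factorization p) '' B')
    rw [← hSB, ← hSB', hsInf, hcardG]
    omega
  refine ⟨?_, ?_⟩
  · intro D hD
    haveI hirrG : Fintype (IrrCharacter G) := irrFintype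
    have hχ₀B : χ₀ ∈ B := by
      rw [hBe]
      exact mem_blockOf_self hmax χ₀
    have hom : omega ψ₀.1 (fun t : T => blockCoeff B t) = 1 := by
      rw [← omega_ind T ψ₀.1 (blockCoeff B) (isClassFunction_blockCoeff B)
        (irr_one_ne_zero ψ₀.2), ← hχ₀e, omega_blockCoeff B χ₀, if_pos hχ₀B]
    have hFcf : IsClassFunction T (fun t : T => blockCoeff B t) := by
      intro g h
      exact isClassFunction_blockCoeff B (g : G) (h : G)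
    have hFS : SVal M (fun t : T => blockCoeff B t) := fun t => osima' hmax B hind.2.1 _
    obtain ⟨t, ht1, ht2⟩ := exists_of_omega_not_mem hmax ψ₀.2 hFcf hFS
      (by rw [hom]; exact not_memLocalIdeal_one hmax)
    obtain ⟨z, hz⟩ := FongCov.exists_centralizer_ge hM B' hB' ψ₀ hψ₀ t ht2 D hD
    have hcoef : ¬ MemLocalIdeal M (blockCoeff B ((z * t * z⁻¹ : T) : G)) := by
      have e : blockCoeff B ((z * t * z⁻¹ : T) : G) = blockCoeff B (t : G) :=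
        isClassFunction_blockCoeff B (t : G) (z : G)
      rw [e]
      exact ht1
    have hDp : IsPGroup p (D.map T.subtype) :=
      (IsPGroup.of_card (DefectGroup.card_defectGroup hM B' hB' D hD)).map _
    have hDle : D.map T.subtype
        ≤ Subgroup.centralizer ({((z * t * z⁻¹ : T) : G)} : Set G) := by
      rintro _ ⟨d, hd, rfl⟩
      rw [Subgroup.mem_centralizer_iff]
      intro u hu
      rw [Set.mem_singleton_iff] at hu
      subst hu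
      have h1 := Subgroup.mem_centralizer_iff.mp (hz hd) (z * t * z⁻¹) (Set.mem_singleton _)
      exact congrArg Subtype.val h1
    obtain ⟨DB, hDB, hle⟩ := Brauer.exists_defectGroup_ge hM B hind.2.1 (D.map T.subtype) hDp
      _ hcoef hDle
    have hc1 := DefectGroup.card_defectGroup hM B hind.2.1 DB hDB
    have hc2 := DefectGroup.card_defectGroup hM B' hB' D hD
    have hc3 : Nat.card (D.map T.subtype) = Nat.card D :=
      Subgroup.card_map_of_injective (Subgroup.subtype_injective T)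
    have heq : D.map T.subtype = DB := by
      apply Subgroup.eq_of_le_of_card_ge hle
      rw [hc1, hc3, hc2, hdefect]
    rw [heq]
    exact hDB
  · intro ψ hψ
    refine ⟨⟨indFun T ψ.1, hirr ψ hψ⟩, ?_, rfl, ?_⟩
    · rw [hBe]
      exact (hiff _).mpr ⟨ψ, hψ, rfl⟩
    · show (charDegree (indFun T ψ.1)).factorization p - sInf ((fun χ : IrrCharacter G =>
          (charDegree (χ : G → ℂ)).factorization p) '' B)
        = (charDegree ψ.1).factorization p - sInf ((fun ψ : IrrCharacter T =>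
          (charDegree (ψ : T → ℂ)).factorization p) '' B')
      rw [← hSB, ← hSB', hsInf, hν ψ ⟨indFun T ψ.1, hirr ψ hψ⟩ rfl]
      omega

end Cfsg.Agent.Lib.Helper24.FongRey
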