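import Mathlib
import Cfsg.Agent.Lib.Helper24.FullDef1
import Cfsg.Agent.Lib.Helper24.Defect
import Cfsg.Agent.Lib.Helper24.NormalP
import Cfsg.Agent.Lib.Helper24.CharBasic
import Cfsg.Agent.Lib.Helper6.Covering
import Cfsg.Agent.Lib.Helper6.BlockVanish
import Cfsg.Agent.Lib.Helper6.LocalRing
import Cfsg.Agent.Lib.Helper1.CharComplete
import Cfsg.Agent.Lib.Helper1.CharIto

set_option autoImplicit false
set_option linter.unusedSectionVars false
set_option linter.unusedVariables false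
set_option linter.style.haveILetI false

namespace Cfsg.Agent.Lib.Helper24.FullDef

open Cfsg Cfsg.Agent.Lib.Helper1 Cfsg.Agent.Lib.Helper6 Cfsg.Agent.Lib.Helper24
open scoped ComplexConjugate

universe u

variable {X : Type u} [Group X] [Fintype X] {M : Ideal AlgInt}

theorem omega_sum {ι : Type*} [Fintype ι] (χ : X → ℂ) (g : ι → ℂ) (a : ι → X → ℂ) :
    omega χ (fun x => ∑ i, g i * a i x) = ∑ i, g i * omega χ (a i) := by
  show (∑ x : X, (∑ i, g i * a i x) * χ x) / χ 1 = ∑ i, g i * ((∑ x : X, a i x * χ x) / χ 1)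
  have h1 : ∑ x : X, (∑ i, g i * a i x) * χ x = ∑ i, g i * ∑ x : X, a i x * χ x := by
    simp_rw [Finset.sum_mul, Finset.mul_sum]
    rw [Finset.sum_comm]
    apply Finset.sum_congr rfl
    intro i _
    apply Finset.sum_congr rfl
    intro x _
    ring
  rw [h1, Finset.sum_div]
  apply Finset.sum_congr rfl
  intro i _
  rw [mul_div_assoc]

theorem class_mem {p : ℕ} (S : Subgroup X) (H₀ : Subgroup X) [hHn : H₀.Normal]
    (hH₀ : ∀ x : X, x ∈ H₀ ↔ (¬ p ∣ orderOf x ∧ x ∈ Subgroup.centralizer (S : Set X)))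
    (x : X) (hx : x ∈ H₀) :
    ∀ n : X, ConjClasses.mk n = ConjClasses.mk x →
      ¬ p ∣ orderOf n ∧ n ∈ Subgroup.centralizer (S : Set X) := by
  intro n hn
  rw [ConjClasses.mk_eq_mk_iff_isConj] at hn
  obtain ⟨c, hc⟩ := isConj_iff.mp hn
  apply (hH₀ n).mp
  have h1 : n = c⁻¹ * x * c⁻¹⁻¹ := by
    rw [← hc]
    group
  rw [h1]
  exact hHn.conj_mem x hx c⁻¹

theorem card_blocks_le {p : ℕ} [Fact p.Prime] (hM : IsPModular p M)
    (S : Subgroup X) [hSn : S.Normal] (hS : IsPGroup p S) (H₀ : Subgroup X) [hHn : H₀.Normal]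
    (hH₀ : ∀ x : X, x ∈ H₀ ↔ (¬ p ∣ orderOf x ∧ x ∈ Subgroup.centralizer (S : Set X))) :
    Nat.card {B : Set (IrrCharacter X) // IsPBlock M B} ≤
      Nat.card {C : ConjClasses X // ∀ n : X, ConjClasses.mk n = C →
        ¬ p ∣ orderOf n ∧ n ∈ Subgroup.centralizer (S : Set X)} := by
  classical
  have hmax := hM.2.1
  haveI : Fintype (IrrCharacter X) := irrFintype
  haveI : Fintype {B : Set (IrrCharacter X) // IsPBlock M B} := Fintype.ofFinite _
  haveI : Fintype {C : ConjClasses X // ∀ n : X, ConjClasses.mk n = C →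
        ¬ p ∣ orderOf n ∧ n ∈ Subgroup.centralizer (S : Set X)} := Fintype.ofFinite _
  rw [Nat.card_eq_fintype_card, Nat.card_eq_fintype_card]
  by_contra hlt
  push Not at hlt
  obtain ⟨g, hg, B₀, hB₀⟩ := exists_rel
    (fun (B : {B : Set (IrrCharacter X) // IsPBlock M B})
      (K : {C : ConjClasses X // ∀ n : X, ConjClasses.mk n = C →
        ¬ p ∣ orderOf n ∧ n ∈ Subgroup.centralizer (S : Set X)}) =>
      blockCoeff B.1 (Quotient.out K.1)) hlt
  have hf : (fun x : X => ∑ B : {B : Set (IrrCharacter X) // IsPBlock M B},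
      g B * blockCoeff B.1 x) = fun _ => 0 := by
    funext x
    by_cases hx : x ∈ H₀
    · have h1 := hg ⟨ConjClasses.mk x, class_mem S H₀ hH₀ x hx⟩
      have h2 : ∀ B : {B : Set (IrrCharacter X) // IsPBlock M B},
          blockCoeff B.1 (Quotient.out (ConjClasses.mk x)) = blockCoeff B.1 x := by
        intro B
        apply IsClassFunction.eq_of_isConj (isClassFunction_blockCoeff B.1)
        rw [← ConjClasses.mk_eq_mk_iff_isConj]
        exact Quotient.out_eq _
      rw [← h1]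
      apply Finset.sum_congr rfl
      intro B _
      rw [h2 B]
    · apply Finset.sum_eq_zero
      intro B _
      have h1 : blockCoeff B.1 x = 0 := by
        by_cases hreg : p ∣ orderOf x
        · exact Defect.blockCoeff_eq_zero_of_singular hM B.1 B.2 x hreg
        · apply NormalP.blockCoeff_eq_zero_of_not_centralizing hM S hS B.1 B.2 x
          intro hc
          exact hx ((hH₀ x).mpr ⟨hreg, hc⟩)
      rw [h1, mul_zero]
  obtain ⟨χ, hχ⟩ := Defect.block_nonempty hmax B₀.1 B₀.2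
  have h3 := omega_sum χ.1 g (fun B : {B : Set (IrrCharacter X) // IsPBlock M B} =>
    blockCoeff B.1)
  rw [hf] at h3
  have h4 : omega χ.1 (fun _ : X => (0 : ℂ)) = 0 := by
    show (∑ x : X, (0 : ℂ) * χ.1 x) / χ.1 1 = 0
    simp
  rw [h4] at h3
  have h5 : ∀ B : {B : Set (IrrCharacter X) // IsPBlock M B},
      omega χ.1 (blockCoeff B.1) = if B = B₀ then 1 else 0 := by
    intro B
    rw [omega_blockCoeff]
    by_cases hB : B = B₀
    · rw [if_pos hB, if_pos (hB ▸ hχ)]
    · rw [if_neg hB, if_neg]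
      intro hχB
      apply hB
      apply Subtype.ext
      rw [Defect.block_eq_blockOf hmax B.1 B.2 hχB, Defect.block_eq_blockOf hmax B₀.1 B₀.2 hχ]
  simp_rw [h5] at h3
  rw [Finset.sum_eq_single B₀] at h3
  · rw [if_pos rfl, mul_one] at h3
    exact hB₀ h3.symm
  · intro B _ hB
    rw [if_neg hB, mul_zero]
  · intro hni
    exact absurd (Finset.mem_univ _) hni

theorem fourier (H : Type u) [Group H] [Fintype H] [Fintype (IrrCharacter H)] (ζ : H → ℂ)
    (k : H) (hζ : ∀ h : H, IsConj k h → ζ h = ζ k) :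
    ∑ θ : IrrCharacter H, (θ.1 1 * conj (θ.1 k)) * ∑ h : H, ζ h * (θ.1 h / θ.1 1)
      = ζ k * (Nat.card H : ℂ) := by
  classical
  have ha : ∀ θ : IrrCharacter H, (θ.1 1 * conj (θ.1 k)) * ∑ h : H, ζ h * (θ.1 h / θ.1 1)
      = ∑ h : H, ζ h * (conj (θ.1 k) * θ.1 h) := by
    intro θ
    have hne : θ.1 1 ≠ 0 := CharBasic.irr_one_ne_zero θ.2
    rw [Finset.mul_sum]
    apply Finset.sum_congr rfl
    intro h _
    field_simp
  simp_rw [ha]
  rw [Finset.sum_comm]
  have hc : ∀ h : H, ∑ θ : IrrCharacter H, ζ h * (conj (θ.1 k) * θ.1 h)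
      = if IsConj k h then ζ k * (Nat.card (Subgroup.centralizer ({k} : Set H)) : ℂ) else 0 := by
    intro h
    rw [← Finset.mul_sum]
    have h1 := congrArg (starRingEnd ℂ) (col_orth k h)
    simp only [map_sum, map_mul, Complex.conj_conj] at h1
    rw [h1]
    by_cases hkh : IsConj k h
    · rw [if_pos hkh, if_pos hkh, hζ h hkh, map_natCast]
    · rw [if_neg hkh, if_neg hkh, map_zero, mul_zero]
  simp_rw [hc]
  rw [Finset.sum_ite, Finset.sum_const_zero, add_zero, Finset.sum_const, nsmul_eq_mul]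
  have h2 := card_conj_mul_card_centralizer k
  have h3 : Nat.card {x : H // IsConj x k} = (Finset.univ.filter (fun h : H => IsConj k h)).card := by
    rw [Nat.card_eq_fintype_card, Fintype.card_subtype]
    congr 1
    ext h
    simp only [Finset.mem_filter, Finset.mem_univ, true_and]
    exact isConj_comm
  rw [h3] at h2
  rw [← h2]
  push_cast
  ring

theorem card_classes_le {p : ℕ} [Fact p.Prime] (hM : IsPModular p M)
    (S : Subgroup X) (H₀ : Subgroup X) [hHn : H₀.Normal] (hH₀p : ¬ p ∣ Nat.card H₀)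
    (hH₀ : ∀ x : X, x ∈ H₀ ↔ (¬ p ∣ orderOf x ∧ x ∈ Subgroup.centralizer (S : Set X))) :
    Nat.card {C : ConjClasses X // ∀ n : X, ConjClasses.mk n = C →
        ¬ p ∣ orderOf n ∧ n ∈ Subgroup.centralizer (S : Set X)} ≤
      Nat.card {B : Set (IrrCharacter X) // IsPBlock M B} := by
  classical
  have hmax := hM.2.1
  haveI : M.IsMaximal := hmax
  letI : Field (AlgInt ⧸ M) := Ideal.Quotient.field M
  haveI : Fintype (IrrCharacter X) := irrFintype
  haveI : Fintype {B : Set (IrrCharacter X) // IsPBlock M B} := Fintype.ofFinite _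
  haveI : Fintype {C : ConjClasses X // ∀ n : X, ConjClasses.mk n = C →
        ¬ p ∣ orderOf n ∧ n ∈ Subgroup.centralizer (S : Set X)} := Fintype.ofFinite _
  rw [Nat.card_eq_fintype_card, Nat.card_eq_fintype_card]
  by_contra hlt
  push Not at hlt
  choose χrep hχrep using
    (fun B : {B : Set (IrrCharacter X) // IsPBlock M B} => Defect.block_nonempty hmax B.1 B.2)
  obtain ⟨ωI, hωI⟩ : ∃ ωI : {B : Set (IrrCharacter X) // IsPBlock M B} →
      {C : ConjClasses X // ∀ n : X, ConjClasses.mk n = C →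
        ¬ p ∣ orderOf n ∧ n ∈ Subgroup.centralizer (S : Set X)} → AlgInt,
      ∀ B K, (ωI B K : ℂ) = centralChar (χrep B).1 (Quotient.out K.1) :=
    ⟨fun B K => ⟨centralChar (χrep B).1 (Quotient.out K.1),
      isIntegral_centralChar (χrep B).2 _⟩, fun B K => rfl⟩
  obtain ⟨cb, hcb, K₀, hK₀⟩ := exists_rel (K := AlgInt ⧸ M)
    (fun (K : {C : ConjClasses X // ∀ n : X, ConjClasses.mk n = C →
        ¬ p ∣ orderOf n ∧ n ∈ Subgroup.centralizer (S : Set X)})
      (B : {B : Set (IrrCharacter X) // IsPBlock M B}) => Ideal.Quotient.mk M (ωI B K)) hlt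
  choose c hc using (fun K : {C : ConjClasses X // ∀ n : X, ConjClasses.mk n = C →
        ¬ p ∣ orderOf n ∧ n ∈ Subgroup.centralizer (S : Set X)} =>
      Ideal.Quotient.mk_surjective (cb K))
  have hrel : ∀ B : {B : Set (IrrCharacter X) // IsPBlock M B},
      ∑ K, c K * ωI B K ∈ M := by
    intro B
    rw [← Ideal.Quotient.eq_zero_iff_mem, map_sum]
    simp_rw [map_mul, hc]
    exact hcb B
  have hcK₀ : c K₀ ∉ M := by
    intro h
    apply hK₀
    rw [← hc K₀]
    exact Ideal.Quotient.eq_zero_iff_mem.mpr h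
  have hrelC : ∀ B : {B : Set (IrrCharacter X) // IsPBlock M B},
      MemLocalIdeal M (∑ K, (c K : ℂ) * centralChar (χrep B).1 (Quotient.out K.1)) := by
    intro B
    have h1 := memLocalIdeal_of_mem hmax (hrel B)
    have e : ((∑ K, c K * ωI B K : AlgInt) : ℂ)
        = ∑ K, (c K : ℂ) * centralChar (χrep B).1 (Quotient.out K.1) := by
      push_cast
      apply Finset.sum_congr rfl
      intro K _
      rw [hωI]
    rw [e] at h1
    exact h1
  have hall : ∀ χ : IrrCharacter X,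
      MemLocalIdeal M (∑ K, (c K : ℂ) * centralChar χ.1 (Quotient.out K.1)) := by
    intro χ
    obtain ⟨B, hB⟩ : ∃ B : {B : Set (IrrCharacter X) // IsPBlock M B}, B.1 = blockOf M χ.1 :=
      ⟨⟨blockOf M χ.1, ⟨χ, rfl⟩⟩, rfl⟩
    have hsame : SameBlock M χ.1 (χrep B).1 := by
      have h1 := hχrep B
      rw [hB] at h1
      exact h1
    have h1 : ∑ K, (c K : ℂ) * centralChar χ.1 (Quotient.out K.1)
        = ∑ K, (c K : ℂ) * (centralChar χ.1 (Quotient.out K.1)
            - centralChar (χrep B).1 (Quotient.out K.1))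
          + ∑ K, (c K : ℂ) * centralChar (χrep B).1 (Quotient.out K.1) := by
      rw [← Finset.sum_add_distrib]
      apply Finset.sum_congr rfl
      intro K _
      ring
    rw [h1]
    apply MemLocalIdeal.add hmax _ (hrelC B)
    apply memLocalIdeal_sum hmax
    intro K _
    exact MemLocalIdeal.mul_left hmax (memLocalRing_algInt hmax (c K)) (hsame _)
  haveI : Fintype H₀ := Fintype.ofFinite _
  haveI : Fintype (IrrCharacter H₀) := irrFintype
  obtain ⟨k₀, hk₀⟩ : ∃ k₀ : X, ConjClasses.mk k₀ = K₀.1 := ⟨Quotient.out K₀.1, Quotient.out_eq _⟩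
  have hk₀H : k₀ ∈ H₀ := (hH₀ k₀).mpr (K₀.2 k₀ hk₀)
  obtain ⟨ζ, hζ⟩ : ∃ ζ : H₀ → ℂ, ∀ h : H₀,
      ζ h = (c ⟨ConjClasses.mk (h : X), class_mem S H₀ hH₀ (h : X) h.2⟩ : ℂ) := ⟨_, fun _ => rfl⟩
  have hT : ∀ θ : IrrCharacter H₀, MemLocalIdeal M (∑ h : H₀, ζ h * (θ.1 h / θ.1 1)) := by
    intro θ
    obtain ⟨χ, hχ, hover⟩ := exists_irr_above H₀ θ.2
    have h1 := hall ⟨χ, hχ⟩
    have h3 : ∀ K : {C : ConjClasses X // ∀ n : X, ConjClasses.mk n = C →
        ¬ p ∣ orderOf n ∧ n ∈ Subgroup.centralizer (S : Set X)},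
        centralChar χ (Quotient.out K.1)
          = ∑ h : H₀, if ConjClasses.mk (h : X) = K.1 then θ.1 h / θ.1 1 else 0 := by
      intro K
      have hmem : Quotient.out K.1 ∈ H₀ := (hH₀ _).mpr (K.2 _ (Quotient.out_eq _))
      have h4 := centralChar_eq_inducedCentralChar_of_over H₀ ⟨χ, hχ⟩ θ hover _ hmem
      have h5 : centralChar χ (Quotient.out K.1)
          = ∑ᶠ h ∈ {h : H₀ | IsConj (Quotient.out K.1) (h : X)}, θ.1 h / θ.1 1 := h4
      rw [h5, finsum_mem_def, finsum_eq_sum_of_fintype]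
      apply Finset.sum_congr rfl
      intro h _
      rw [Set.indicator_apply]
      apply if_congr _ rfl rfl
      show IsConj (Quotient.out K.1) (h : X) ↔ ConjClasses.mk (h : X) = K.1
      constructor
      · intro hconj
        have h6 := ConjClasses.mk_eq_mk_iff_isConj.mpr hconj
        rw [← h6]
        exact Quotient.out_eq _
      · intro hmk
        rw [← ConjClasses.mk_eq_mk_iff_isConj, hmk]
        exact Quotient.out_eq _
    have h2 : ∑ K, (c K : ℂ) * centralChar χ (Quotient.out K.1)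
        = ∑ h : H₀, ζ h * (θ.1 h / θ.1 1) := by
      simp_rw [h3, Finset.mul_sum]
      rw [Finset.sum_comm]
      apply Finset.sum_congr rfl
      intro h _
      rw [hζ]
      rw [Finset.sum_eq_single ⟨ConjClasses.mk (h : X), class_mem S H₀ hH₀ (h : X) h.2⟩]
      · rw [if_pos rfl]
      · intro K _ hK
        rw [if_neg (fun e => hK (Subtype.ext e.symm)), mul_zero]
      · intro hni
        exact absurd (Finset.mem_univ _) hni
    rw [h2] at h1
    exact h1
  have hζconj : ∀ h : H₀, IsConj (⟨k₀, hk₀H⟩ : H₀) h → ζ h = ζ ⟨k₀, hk₀H⟩ := by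
    intro h hconj
    rw [hζ, hζ]
    have h1 : ConjClasses.mk (h : X) = ConjClasses.mk k₀ := by
      rw [ConjClasses.mk_eq_mk_iff_isConj]
      obtain ⟨u, hu⟩ := isConj_iff.mp hconj
      apply isConj_iff.mpr
      refine ⟨(u : X)⁻¹, ?_⟩
      have h2 := congrArg Subtype.val hu
      rw [Subgroup.coe_mul, Subgroup.coe_mul, Subgroup.coe_inv] at h2
      rw [← h2]
      group
    congr 2
    exact Subtype.ext h1
  have hF := fourier H₀ ζ ⟨k₀, hk₀H⟩ hζconj
  have hmemF : MemLocalIdeal M (ζ ⟨k₀, hk₀H⟩ * (Nat.card H₀ : ℂ)) := by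
    rw [← hF]
    apply memLocalIdeal_sum hmax
    intro θ _
    apply MemLocalIdeal.mul_left hmax _ (hT θ)
    exact MemLocalRing.mul hmax (memLocalRing_of_isIntegral hmax (isIntegral_irr θ 1))
      (memLocalRing_of_isIntegral hmax (isIntegral_conj_irr θ _))
  have hζk : ζ ⟨k₀, hk₀H⟩ = (c K₀ : ℂ) := by
    rw [hζ]
    congr 2
    exact Subtype.ext hk₀
  rw [hζk] at hmemF
  rcases (memLocalIdeal_mul_iff hmax (memLocalRing_algInt hmax (c K₀))
    (memLocalRing_natCast hmax _)).mp hmemF with h | h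
  · exact hcK₀ ((memLocalIdeal_algInt_iff hmax (c K₀)).mp h)
  · exact hH₀p ((memLocalIdeal_natCast_iff hM _).mp h)

theorem card_blocks_eq {p : ℕ} [Fact p.Prime] (hM : IsPModular p M)
    (S : Subgroup X) [hSn : S.Normal] (hS : IsPGroup p S) (hidx : ¬ p ∣ S.index) :
    Nat.card {B : Set (IrrCharacter X) // IsPBlock M B} =
      Nat.card {C : ConjClasses X // ∀ n : X, ConjClasses.mk n = C →
        ¬ p ∣ orderOf n ∧ n ∈ Subgroup.centralizer (S : Set X)} := by
  obtain ⟨H₀, hHn, hH₀p, hH₀⟩ := exists_compl p S hS hidx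
  haveI := hHn
  exact le_antisymm (card_blocks_le hM S hS H₀ hH₀) (card_classes_le hM S H₀ hH₀p hH₀)

end Cfsg.Agent.Lib.Helper24.FullDef
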