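import Mathlib
import Cfsg.Agent.Lib.Helper24.FongCov2
import Cfsg.Agent.Lib.Helper24.CharQuot

set_option autoImplicit false

namespace Cfsg.Agent.Lib.Helper24.QuotDef

open Cfsg Cfsg.Agent.Lib.Helper1 Cfsg.Agent.Lib.Helper6 Cfsg.Agent.Lib.Helper24
open scoped ComplexConjugate

universe u

variable {G : Type u} [Group G] [Fintype G] {M : Ideal AlgInt}

theorem centralizer_le_comap (N : Subgroup G) [N.Normal] (g : G) :
    Subgroup.centralizer ({g} : Set G)
      ≤ (Subgroup.centralizer ({(g : G ⧸ N)} : Set (G ⧸ N))).comap (QuotientGroup.mk' N) := by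
  intro x hx
  rw [Subgroup.mem_comap, Subgroup.mem_centralizer_iff]
  intro u hu
  rw [Set.mem_singleton_iff] at hu
  subst hu
  have h1 := Subgroup.mem_centralizer_iff.mp hx g (Set.mem_singleton g)
  show ((g : G ⧸ N)) * ((x : G ⧸ N)) = ((x : G ⧸ N)) * ((g : G ⧸ N))
  rw [← QuotientGroup.mk_mul, ← QuotientGroup.mk_mul, h1]

theorem centralChar_inflate (N : Subgroup G) [N.Normal] (χbar : G ⧸ N → ℂ) (g : G) :
    centralChar (χbar ∘ (QuotientGroup.mk : G → G ⧸ N)) g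
      = (((Subgroup.centralizer ({g} : Set G)).relIndex
          ((Subgroup.centralizer ({(g : G ⧸ N)} : Set (G ⧸ N))).comap (QuotientGroup.mk' N)) : ℕ)
          : ℂ) * centralChar χbar (g : G ⧸ N) := by
  have h1 := Subgroup.relIndex_mul_index (centralizer_le_comap N g)
  have h2 : ((Subgroup.centralizer ({(g : G ⧸ N)} : Set (G ⧸ N))).comap
      (QuotientGroup.mk' N)).index
      = (Subgroup.centralizer ({(g : G ⧸ N)} : Set (G ⧸ N))).index :=
    Subgroup.index_comap_of_surjective _ (QuotientGroup.mk'_surjective N)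
  rw [h2] at h1
  show ((Subgroup.centralizer ({g} : Set G)).index : ℂ) * χbar (g : G ⧸ N)
      / χbar ((1 : G) : G ⧸ N)
    = _ * (((Subgroup.centralizer ({(g : G ⧸ N)} : Set (G ⧸ N))).index : ℂ)
      * χbar (g : G ⧸ N) / χbar 1)
  rw [← h1, QuotientGroup.mk_one]
  push_cast
  ring

theorem defect_quot {p : ℕ} [Fact p.Prime] (hM : IsPModular p M) (N : Subgroup G) [N.Normal]
    (Bbar : Set (IrrCharacter (G ⧸ N))) (hBbar : IsPBlock M Bbar)
    (B : Set (IrrCharacter G)) (hB : IsPBlock M B)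
    (hsub : ∀ χ ∈ Bbar, ∀ ψ : IrrCharacter G,
      (ψ : G → ℂ) = (χ : G ⧸ N → ℂ) ∘ QuotientGroup.mk → ψ ∈ B)
    (Dbar : Subgroup (G ⧸ N)) (hDbar : IsDefectGroup p M Bbar Dbar) :
    ∃ P : Subgroup G, IsDefectGroup p M B P ∧ Dbar ≤ P.map (QuotientGroup.mk' N) := by
  classical
  have hmax := hM.2.1
  have hp := (Fact.out : p.Prime)
  obtain ⟨χbar, hχbar⟩ := Defect.block_nonempty hmax Bbar hBbar
  have hχirr : IsIrrCharacter G (fun x : G => χbar.1 (QuotientGroup.mk' N x)) :=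
    CharQuot.irr_inflate (QuotientGroup.mk' N) (QuotientGroup.mk'_surjective N) χbar.2
  obtain ⟨χ, hχe⟩ : ∃ χ : IrrCharacter G,
      χ.1 = χbar.1 ∘ (QuotientGroup.mk : G → G ⧸ N) := ⟨⟨_, hχirr⟩, rfl⟩
  have hχB : χ ∈ B := hsub χbar hχbar χ hχe
  obtain ⟨g₀, hg₀⟩ := exists_defectClass hmax B hB
  have key : ∀ g : G, IsDefectClass M B g →
      ¬ MemLocalIdeal M (centralChar χbar.1 (g : G ⧸ N)) ∧
      ¬ p ∣ (Subgroup.centralizer ({g} : Set G)).relIndex
          ((Subgroup.centralizer ({(g : G ⧸ N)} : Set (G ⧸ N))).comap (QuotientGroup.mk' N)) := by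
    intro g hg
    have h1 : ¬ MemLocalIdeal M (centralChar χ.1 g) := hg.2.2 χ hχB
    rw [hχe, centralChar_inflate N χbar.1 g] at h1
    constructor
    · intro h2
      exact h1 (MemLocalIdeal.mul_left hmax (memLocalRing_natCast hmax _) h2)
    · intro h2
      exact h1 (MemLocalIdeal.mul_right hmax ((memLocalIdeal_natCast_iff hM _).mpr h2)
        (memLocalRing_centralChar hmax χbar.2 _))
  obtain ⟨zbar, hz⟩ := FongCov.exists_centralizer_ge hM Bbar hBbar χbar hχbar (g₀ : G ⧸ N)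
    (key g₀ hg₀).1 Dbar hDbar
  obtain ⟨z, rfl⟩ := QuotientGroup.mk_surjective zbar
  obtain ⟨g, hgdef⟩ : ∃ g : G, g = z * g₀ * z⁻¹ := ⟨_, rfl⟩
  have hg : IsDefectClass M B g := by
    rw [hgdef]
    exact isDefectClass_conj hg₀ z
  have hDle : Dbar ≤ Subgroup.centralizer ({(g : G ⧸ N)} : Set (G ⧸ N)) := by
    rw [hgdef]
    exact hz
  obtain ⟨-, hpm⟩ := key g hg
  obtain ⟨S⟩ : Nonempty (Sylow p (Subgroup.centralizer ({g} : Set G))) := inferInstance
  obtain ⟨P₀, hP₀⟩ : ∃ P₀ : Subgroup G, P₀ = (S : Subgroup (Subgroup.centralizer ({g} : Set G))).map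
      (Subgroup.centralizer ({g} : Set G)).subtype := ⟨_, rfl⟩
  have hP₀def : IsDefectGroup p M B P₀ := ⟨g, hg, S, hP₀⟩
  have hP₀C : P₀ ≤ Subgroup.centralizer ({g} : Set G) := by
    rw [hP₀]
    rintro _ ⟨x, _, rfl⟩
    exact x.2
  have hP₀p : IsPGroup p P₀ := by
    rw [hP₀]
    exact S.isPGroup'.map _
  obtain ⟨Cbar, hCbar⟩ : ∃ C : Subgroup (G ⧸ N),
      C = Subgroup.centralizer ({(g : G ⧸ N)} : Set (G ⧸ N)) := ⟨_, rfl⟩
  rw [← hCbar] at hpm hDle
  obtain ⟨H, hH⟩ : ∃ H : Subgroup G, H = Cbar.comap (QuotientGroup.mk' N) := ⟨_, rfl⟩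
  rw [← hH] at hpm
  have hCH : Subgroup.centralizer ({g} : Set G) ≤ H := by
    rw [hH, hCbar]
    exact centralizer_le_comap N g
  have hNH : N ≤ H := by
    rw [hH]
    intro n hn
    rw [Subgroup.mem_comap]
    have h1 : QuotientGroup.mk' N n = 1 := (QuotientGroup.eq_one_iff n).mpr hn
    rw [h1]
    exact Cbar.one_mem
  obtain ⟨Qbar, hQbar⟩ : ∃ Q : Subgroup (G ⧸ N), Q = P₀.map (QuotientGroup.mk' N) := ⟨_, rfl⟩
  have hQC : Qbar ≤ Cbar := by
    rw [hQbar]
    rintro _ ⟨x, hx, rfl⟩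
    have h1 := hCH (hP₀C hx)
    rw [hH] at h1
    exact Subgroup.mem_comap.mp h1
  have hQp : IsPGroup p Qbar := by
    rw [hQbar]
    exact hP₀p.map _
  have hcardQ : Nat.card Qbar = N.relIndex P₀ := by
    rw [hQbar]
    have h1 := Subgroup.relIndex_ker (QuotientGroup.mk' N) (K := P₀)
    rw [QuotientGroup.ker_mk'] at h1
    exact h1.symm
  have hcardC : Nat.card Cbar = N.relIndex H := by
    have h1 := Subgroup.relIndex_ker (QuotientGroup.mk' N) (K := H)
    rw [QuotientGroup.ker_mk'] at h1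
    rw [h1, hH, Subgroup.map_comap_eq_self_of_surjective (QuotientGroup.mk'_surjective N)]
  have hprod : N.relIndex H = N.relIndex P₀ * (P₀ ⊔ N).relIndex H := by
    have h1 := Subgroup.relIndex_mul_relIndex N (P₀ ⊔ N) H (le_sup_right : N ≤ P₀ ⊔ N)
      (sup_le (hP₀C.trans hCH) hNH)
    rw [Subgroup.relIndex_sup_right] at h1
    exact h1.symm
  have hrel0 : (P₀ ⊔ N).relIndex H ≠ 0 := by
    intro h0
    have h1 := Subgroup.relIndex_dvd_card (P₀ ⊔ N) H
    rw [h0, zero_dvd_iff] at h1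
    exact Nat.card_pos.ne' h1
  have hcop : ¬ p ∣ (P₀ ⊔ N).relIndex H := by
    intro hd
    have h1 : (P₀ ⊔ N).relIndex H ∣ P₀.relIndex H :=
      Subgroup.relIndex_dvd_of_le_left H le_sup_left
    have h2 : P₀.relIndex H = P₀.relIndex (Subgroup.centralizer ({g} : Set G))
        * (Subgroup.centralizer ({g} : Set G)).relIndex H :=
      (Subgroup.relIndex_mul_relIndex P₀ (Subgroup.centralizer ({g} : Set G)) H hP₀C hCH).symm
    have h3 : P₀.relIndex (Subgroup.centralizer ({g} : Set G))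
        = (S : Subgroup (Subgroup.centralizer ({g} : Set G))).index := by
      have h4 := Subgroup.relIndex_mul_index hP₀C
      have h5 : P₀.index = (S : Subgroup (Subgroup.centralizer ({g} : Set G))).index
          * (Subgroup.centralizer ({g} : Set G)).index := by
        rw [hP₀]
        exact Subgroup.index_map_subtype _
      rw [h5] at h4
      exact Nat.eq_of_mul_eq_mul_right (Nat.pos_of_ne_zero Subgroup.index_ne_zero_of_finite) h4
    have h4 : ¬ p ∣ (S : Subgroup (Subgroup.centralizer ({g} : Set G))).index :=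
      S.not_dvd_index
    rw [h2, h3] at h1
    rcases (Nat.Prime.dvd_mul hp).mp (hd.trans h1) with h5 | h5
    · exact h4 h5
    · exact hpm h5
  obtain ⟨j, hj⟩ := IsPGroup.iff_card.mp hQp
  have hjν : j = (Nat.card Cbar).factorization p := by
    rw [hcardC, hprod, ← hcardQ, hj, Nat.factorization_mul (pow_ne_zero _ hp.ne_zero) hrel0,
      Finsupp.add_apply, Nat.factorization_eq_zero_of_not_dvd hcop, add_zero,
      Nat.Prime.factorization_pow hp, Finsupp.single_eq_same]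
  have hmaxQ : ∀ Sb : Subgroup (G ⧸ N), IsPGroup p Sb → Qbar ≤ Sb → Sb ≤ Cbar → Sb = Qbar := by
    intro Sb hSb hQS hSC
    obtain ⟨i, hi⟩ := IsPGroup.iff_card.mp hSb
    have hdvd : Nat.card Sb ∣ Nat.card Cbar := Subgroup.card_dvd_of_le hSC
    rw [hi] at hdvd
    have hile : i ≤ j := by
      rw [hjν]
      exact (hp.pow_dvd_iff_le_factorization Nat.card_pos.ne').mp hdvd
    symm
    apply Subgroup.eq_of_le_of_card_ge hQS
    rw [hi, hj]
    exact Nat.pow_le_pow_right hp.pos hile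
  have hDp : IsPGroup p Dbar :=
    IsPGroup.of_card (DefectGroup.card_defectGroup hM Bbar hBbar Dbar hDbar)
  obtain ⟨hbar, hhC, hconj⟩ :=
    Brauer.exists_conj_of_maximal Cbar Qbar Dbar hQC hDle hQp hDp hmaxQ
  obtain ⟨h, rfl⟩ := QuotientGroup.mk_surjective hbar
  refine ⟨P₀.map (MulAut.conj h⁻¹).toMonoidHom, isDefectGroup_conj hP₀def h⁻¹, ?_⟩
  intro q hq
  have h1 := hconj q hq
  rw [hQbar] at h1
  obtain ⟨x, hx, hxe⟩ := h1
  refine ⟨h⁻¹ * x * h⁻¹⁻¹, ⟨x, hx, rfl⟩, ?_⟩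
  have h2 : ((x : G) : G ⧸ N) = (h : G ⧸ N) * q * (h : G ⧸ N)⁻¹ := hxe
  show ((h⁻¹ * x * h⁻¹⁻¹ : G) : G ⧸ N) = q
  rw [inv_inv, QuotientGroup.mk_mul, QuotientGroup.mk_mul, QuotientGroup.mk_inv, h2]
  group

end Cfsg.Agent.Lib.Helper24.QuotDef
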