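import Mathlib
import Cfsg.Agent.Lib.Helper24.QuotDef
import Cfsg.Agent.Lib.Helper24.NormalP
import Cfsg.Agent.Lib.Helper24.Brauer6
import Cfsg.Agent.Lib.Helper6.AugApp

set_option autoImplicit false

namespace Cfsg.Agent.Lib.Helper24.QuotDef

open Cfsg Cfsg.Agent.Lib.Helper1 Cfsg.Agent.Lib.Helper6 Cfsg.Agent.Lib.Helper24
open scoped ComplexConjugate

universe u

variable {G : Type u} [Group G] [Fintype G] {M : Ideal AlgInt}

theorem sameBlock_inflate (hmax : M.IsMaximal) (N : Subgroup G) [N.Normal]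
    (χ₁ χ₂ : G ⧸ N → ℂ) (h : SameBlock M χ₁ χ₂) :
    SameBlock M (χ₁ ∘ (QuotientGroup.mk : G → G ⧸ N))
      (χ₂ ∘ (QuotientGroup.mk : G → G ⧸ N)) := by
  intro g
  rw [centralChar_inflate N χ₁ g, centralChar_inflate N χ₂ g, ← mul_sub]
  exact MemLocalIdeal.mul_left hmax (memLocalRing_natCast hmax _) (h (g : G ⧸ N))

theorem normal_le_defectGroup {p : ℕ} [Fact p.Prime] (hM : IsPModular p M) (N : Subgroup G)
    [N.Normal] (hN : IsPGroup p N) (B : Set (IrrCharacter G)) (hB : IsPBlock M B)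
    (D : Subgroup G) (hD : IsDefectGroup p M B D) : N ≤ D := by
  classical
  obtain ⟨g, hg, P, rfl⟩ := hD
  obtain ⟨χ₀, hχ₀B⟩ := Defect.block_nonempty hM.2.1 B hB
  have hχ₀ : ¬ MemLocalIdeal M (centralChar χ₀.1 g) := hg.2.2 χ₀ hχ₀B
  have hgc : g ∈ Subgroup.centralizer (N : Set G) := by
    by_contra h
    exact hχ₀ (centralChar_mem_of_not_centralizer hM N hN χ₀.2 g h)
  have hle : N ≤ Subgroup.centralizer ({g} : Set G) := by
    intro q hq
    rw [Subgroup.mem_centralizer_iff]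
    intro h hh
    rw [Set.mem_singleton_iff] at hh
    subst hh
    exact ((Subgroup.mem_centralizer_iff.mp hgc) q hq).symm
  haveI hnorm : (N.subgroupOf (Subgroup.centralizer ({g} : Set G))).Normal :=
    Subgroup.normal_subgroupOf
  have hQ' : IsPGroup p (N.subgroupOf (Subgroup.centralizer ({g} : Set G))) :=
    hN.comap_subtype
  have h1 := hQ'.le_sylow_of_normal P
  intro q hq
  exact ⟨⟨q, hle hq⟩, h1 (Subgroup.mem_subgroupOf.mpr hq), rfl⟩

theorem const_of_sum_ne_zero (N : Subgroup G) [hNn : N.Normal] [Fintype N] {χ : G → ℂ}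
    (hχ : IsIrrCharacter G χ) (hsum : ∑ n : N, χ n ≠ 0) : ∀ x ∈ N, χ x = χ 1 := by
  classical
  have hone : IsIrrCharacter N (fun _ => (1 : ℂ)) := isIrrCharacter_one
  have hinner : classInner (fun n : N => χ n) (fun _ => (1 : ℂ)) ≠ 0 := by
    show (Nat.card N : ℂ)⁻¹ * ∑ n : N, χ n * conj (1 : ℂ) ≠ 0
    simp only [map_one, mul_one]
    exact mul_ne_zero (inv_ne_zero (Nat.cast_ne_zero.mpr Nat.card_pos.ne')) hsum
  have hcl := clifford N hχ hone hinner
  have hset : {ψ : N → ℂ | ∃ g : G, ψ = conjChar N (fun _ => (1 : ℂ)) g}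
      = {fun _ => (1 : ℂ)} := by
    ext ψ
    constructor
    · rintro ⟨g, rfl⟩
      rfl
    · intro h
      exact ⟨1, h⟩
  rw [hset, finsum_mem_singleton] at hcl
  intro x hx
  have h1 : χ x = classInner (fun n : N => χ n) (fun _ => (1 : ℂ)) • (1 : ℂ) :=
    congrFun hcl ⟨x, hx⟩
  have h2 : χ 1 = classInner (fun n : N => χ n) (fun _ => (1 : ℂ)) • (1 : ℂ) :=
    congrFun hcl 1
  rw [h1, h2]

theorem sum_sq_ker {p : ℕ} [Fact p.Prime] (hM : IsPModular p M) (N : Subgroup G) [hNn : N.Normal]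
    (hN : IsPGroup p N) (B : Set (IrrCharacter G)) (hB : IsPBlock M B) :
    Nat.card N * ∑ᶠ χ ∈ {χ : IrrCharacter G | χ ∈ B ∧ ∀ x ∈ N, χ.1 x = χ.1 1},
        charDegree χ.1 ^ 2
      = ∑ᶠ χ ∈ B, charDegree χ.1 ^ 2 := by
  classical
  haveI hirr : Fintype (IrrCharacter G) := irrFintype
  haveI hfinN : Fintype N := Fintype.ofFinite N
  obtain ⟨S, hS⟩ : ∃ S : Set (IrrCharacter G),
      S = {χ : IrrCharacter G | χ ∈ B ∧ ∀ x ∈ N, χ.1 x = χ.1 1} := ⟨_, rfl⟩
  rw [← hS]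
  rw [finsum_mem_eq_finite_toFinset_sum _ (Set.toFinite S),
    finsum_mem_eq_finite_toFinset_sum _ (Set.toFinite B)]
  have hvan : ∀ n : N, n ≠ 1 → blockCoeff B (n : G) = 0 := by
    intro n hn
    apply Defect.blockCoeff_eq_zero_of_singular hM B hB
    obtain ⟨k, hk⟩ := (IsPGroup.iff_orderOf.mp hN) n
    rw [Subgroup.orderOf_coe, hk]
    rcases Nat.eq_zero_or_pos k with h0 | h0
    · exfalso
      apply hn
      rw [h0, pow_zero, orderOf_eq_one_iff] at hk
      exact hk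
    · exact dvd_pow_self p h0.ne'
  have hsumN : ∑ n : N, blockCoeff B (n : G) = blockCoeff B 1 := by
    rw [Finset.sum_eq_single (1 : N)]
    · rfl
    · intro n _ hn
      exact hvan n hn
    · intro h
      exact absurd (Finset.mem_univ _) h
  have hbc : ∀ g : G, blockCoeff B g = (Nat.card G : ℂ)⁻¹ *
      ∑ χ ∈ (Set.toFinite B).toFinset, χ.1 1 * conj (χ.1 g) := by
    intro g
    show (Nat.card G : ℂ)⁻¹ * ∑ᶠ χ ∈ B, (χ : G → ℂ) 1 * conj ((χ : G → ℂ) g) = _
    rw [finsum_mem_eq_finite_toFinset_sum _ (Set.toFinite B)]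
  have hdeg : ∀ χ : IrrCharacter G, χ.1 1 = ((charDegree χ.1 : ℕ) : ℂ) :=
    fun χ => CharBasic.char_one_nat (CharBasic.isCharacter_of_irr χ.2)
  have hsumχ : ∀ χ : IrrCharacter G, χ ∈ B → ∑ n : N, conj (χ.1 n)
      = if χ ∈ S then (Nat.card N : ℂ) * χ.1 1 else 0 := by
    intro χ hχB
    split_ifs with h
    · rw [hS] at h
      have h1 : ∀ n : N, conj (χ.1 n) = χ.1 1 := by
        intro n
        rw [h.2 n n.2, hdeg χ, Complex.conj_natCast]
      rw [Finset.sum_congr rfl (fun n _ => h1 n), Finset.sum_const, Finset.card_univ,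
        nsmul_eq_mul, Nat.card_eq_fintype_card]
    · have h1 : ∑ n : N, χ.1 n = 0 := by
        by_contra hne
        apply h
        rw [hS]
        exact ⟨hχB, const_of_sum_ne_zero N χ.2 hne⟩
      rw [← map_sum, h1, map_zero]
  have hG0 : (Nat.card G : ℂ) ≠ 0 := Nat.cast_ne_zero.mpr Nat.card_pos.ne'
  have h1 : blockCoeff B 1 = (Nat.card G : ℂ)⁻¹ *
      ∑ χ ∈ (Set.toFinite B).toFinset, ((charDegree χ.1 : ℕ) : ℂ) ^ 2 := by
    rw [hbc 1]
    congr 1
    apply Finset.sum_congr rfl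
    intro χ _
    rw [hdeg χ, Complex.conj_natCast]
    ring
  have h2 : ∑ n : N, blockCoeff B (n : G) = (Nat.card G : ℂ)⁻¹ *
      ((Nat.card N : ℂ) * ∑ χ ∈ (Set.toFinite S).toFinset, ((charDegree χ.1 : ℕ) : ℂ) ^ 2) := by
    calc ∑ n : N, blockCoeff B (n : G)
        = ∑ n : N, (Nat.card G : ℂ)⁻¹ *
            ∑ χ ∈ (Set.toFinite B).toFinset, χ.1 1 * conj (χ.1 n) :=
          Finset.sum_congr rfl (fun n _ => hbc n)
      _ = (Nat.card G : ℂ)⁻¹ *
            ∑ χ ∈ (Set.toFinite B).toFinset, χ.1 1 * ∑ n : N, conj (χ.1 n) := by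
          rw [← Finset.mul_sum, Finset.sum_comm]
          congr 1
          apply Finset.sum_congr rfl
          intro χ _
          rw [Finset.mul_sum]
      _ = (Nat.card G : ℂ)⁻¹ * ∑ χ ∈ (Set.toFinite B).toFinset,
            (if χ ∈ S then (Nat.card N : ℂ) * ((charDegree χ.1 : ℕ) : ℂ) ^ 2 else 0) := by
          congr 1
          apply Finset.sum_congr rfl
          intro χ hχ
          rw [hsumχ χ ((Set.Finite.mem_toFinset _).mp hχ)]
          split_ifs
          · rw [hdeg χ]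
            ring
          · rw [mul_zero]
      _ = (Nat.card G : ℂ)⁻¹ * ((Nat.card N : ℂ) *
            ∑ χ ∈ (Set.toFinite S).toFinset, ((charDegree χ.1 : ℕ) : ℂ) ^ 2) := by
          congr 1
          rw [Finset.mul_sum, ← Finset.sum_filter]
          apply Finset.sum_congr
          · ext χ
            rw [Finset.mem_filter, Set.Finite.mem_toFinset, Set.Finite.mem_toFinset]
            constructor
            · rintro ⟨_, h⟩
              exact h
            · intro h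
              refine ⟨?_, h⟩
              rw [hS] at h
              exact h.1
          · intro χ _
            rfl
  apply Nat.cast_injective (R := ℂ)
  push_cast
  have h3 := hsumN
  rw [h1, h2] at h3
  exact mul_left_cancel₀ (inv_ne_zero hG0) h3

theorem sum_sq_infl (N : Subgroup G) [N.Normal] (B : Set (IrrCharacter G)) :
    ∑ᶠ χ ∈ {χ : IrrCharacter (G ⧸ N) | ∀ ψ : IrrCharacter G,
        ψ.1 = χ.1 ∘ QuotientGroup.mk → ψ ∈ B}, charDegree χ.1 ^ 2
      = ∑ᶠ χ ∈ {χ : IrrCharacter G | χ ∈ B ∧ ∀ x ∈ N, χ.1 x = χ.1 1}, charDegree χ.1 ^ 2 := by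
  classical
  obtain ⟨e, he⟩ : ∃ e : IrrCharacter (G ⧸ N) → IrrCharacter G,
      ∀ χ, (e χ).1 = χ.1 ∘ (QuotientGroup.mk : G → G ⧸ N) :=
    ⟨fun χ => ⟨_, CharQuot.irr_inflate (QuotientGroup.mk' N) (QuotientGroup.mk'_surjective N) χ.2⟩,
      fun χ => rfl⟩
  apply finsum_mem_eq_of_bijOn e
  · refine ⟨?_, ?_, ?_⟩
    · intro χ hχ
      refine ⟨hχ (e χ) (he χ), ?_⟩
      intro x hx
      rw [he χ]
      show χ.1 (x : G ⧸ N) = χ.1 ((1 : G) : G ⧸ N)
      rw [(QuotientGroup.eq_one_iff x).mpr hx, QuotientGroup.mk_one]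
    · intro χ₁ _ χ₂ _ h12
      apply Subtype.ext
      have h1 : χ₁.1 ∘ (QuotientGroup.mk : G → G ⧸ N)
          = χ₂.1 ∘ (QuotientGroup.mk : G → G ⧸ N) := by
        rw [← he χ₁, ← he χ₂, h12]
      funext q
      obtain ⟨g, rfl⟩ := QuotientGroup.mk_surjective q
      exact congrFun h1 g
    · intro χ hχ
      obtain ⟨hχB, hker⟩ := hχ
      obtain ⟨ψ, hψirr, hψ⟩ := CharQuot.irr_quotient N χ.2 hker
      refine ⟨⟨ψ, hψirr⟩, ?_, ?_⟩
      · intro ψ' hψ'
        have h1 : ψ' = χ := by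
          apply Subtype.ext
          rw [hψ']
          funext g
          exact hψ g
        rw [h1]
        exact hχB
      · apply Subtype.ext
        rw [he]
        funext g
        exact hψ g
  · intro χ _
    rw [he χ]
    rfl

theorem closed_infl (hmax : M.IsMaximal) (N : Subgroup G) [N.Normal] (B : Set (IrrCharacter G))
    (hB : IsPBlock M B) (χ : IrrCharacter (G ⧸ N))
    (hχ : ∀ ψ : IrrCharacter G, ψ.1 = χ.1 ∘ QuotientGroup.mk → ψ ∈ B)
    (χ' : IrrCharacter (G ⧸ N)) (hχ' : χ' ∈ blockOf M χ.1) :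
    ∀ ψ : IrrCharacter G, ψ.1 = χ'.1 ∘ QuotientGroup.mk → ψ ∈ B := by
  intro ψ hψ
  obtain ⟨φ, hφ⟩ : ∃ φ : IrrCharacter G, φ.1 = χ.1 ∘ (QuotientGroup.mk : G → G ⧸ N) :=
    ⟨⟨_, CharQuot.irr_inflate (QuotientGroup.mk' N) (QuotientGroup.mk'_surjective N) χ.2⟩, rfl⟩
  have hφB : φ ∈ B := hχ φ hφ
  rw [Defect.block_eq_blockOf hmax B hB hφB]
  show SameBlock M φ.1 ψ.1
  rw [hφ, hψ]
  exact sameBlock_inflate hmax N χ.1 χ'.1 hχ'

theorem exists_quot_block {p : ℕ} [Fact p.Prime] (hM : IsPModular p M) (N : Subgroup G)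
    [N.Normal] (hN : IsPGroup p N) (B : Set (IrrCharacter G)) (hB : IsPBlock M B) :
    ∃ χb : IrrCharacter (G ⧸ N),
      (∀ ψ : IrrCharacter G, ψ.1 = χb.1 ∘ QuotientGroup.mk → ψ ∈ B) ∧
      blockDefect p B ≤ blockDefect p (blockOf M χb.1) + (Nat.card N).factorization p := by
  classical
  have hmax := hM.2.1
  have hp := (Fact.out : p.Prime)
  by_contra hcon
  push Not at hcon
  obtain ⟨S, hS⟩ : ∃ S : Set (IrrCharacter (G ⧸ N)),
      S = {χ : IrrCharacter (G ⧸ N) | ∀ ψ : IrrCharacter G,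
        ψ.1 = χ.1 ∘ QuotientGroup.mk → ψ ∈ B} := ⟨_, rfl⟩
  have hclosed : ∀ χ ∈ S, blockOf M χ.1 ⊆ S := by
    intro χ hχ ψ hψ
    rw [hS] at hχ ⊢
    exact closed_infl hmax N B hB χ hχ ψ hψ
  have hid1 := sum_sq_infl N B
  rw [← hS] at hid1
  have hid2 := sum_sq_ker hM N hN B hB
  rw [← hid1] at hid2
  have hdegB := factorization_sum_degree_sq hM B hB
  obtain ⟨θ₁, hθ₁⟩ := Defect.block_nonempty hmax B hB
  have hsumB_pos : 0 < ∑ᶠ θ ∈ B, charDegree θ.1 ^ 2 := by
    rw [finsum_mem_eq_finite_toFinset_sum _ (Set.toFinite B)]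
    apply Finset.sum_pos'
    · intro i _
      exact Nat.zero_le _
    · exact ⟨θ₁, (Set.Finite.mem_toFinset _).mpr hθ₁,
        pow_pos (Defect.charDegree_dvd_card θ₁).2 2⟩
  have hSpos : ∑ᶠ χ ∈ S, charDegree χ.1 ^ 2 ≠ 0 := by
    intro h0
    rw [h0, mul_zero] at hid2
    exact hsumB_pos.ne' hid2.symm
  have hval : (Nat.card N).factorization p + (∑ᶠ χ ∈ S, charDegree χ.1 ^ 2).factorization p
      = 2 * (Nat.card G).factorization p - blockDefect p B := by
    rw [← hdegB, ← hid2, Nat.factorization_mul Nat.card_pos.ne' hSpos, Finsupp.add_apply]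
  have hdB : blockDefect p B ≤ (Nat.card G).factorization p := Nat.sub_le _ _
  have h4 : (Nat.card G).factorization p
      = (Nat.card N).factorization p + (Nat.card (G ⧸ N)).factorization p := by
    rw [← Subgroup.card_mul_index N, Nat.factorization_mul Nat.card_pos.ne'
      Subgroup.index_ne_zero_of_finite]
    rfl
  have hdvd : p ^ ((∑ᶠ χ ∈ S, charDegree χ.1 ^ 2).factorization p + 1)
      ∣ ∑ᶠ χ ∈ S, charDegree χ.1 ^ 2 := by
    apply FongCov.dvd_sum_blocks hmax S hclosed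
    intro χ hχ
    have hBd := factorization_sum_degree_sq hM (blockOf M χ.1) ⟨χ, rfl⟩
    have hχ' : ∀ ψ : IrrCharacter G, ψ.1 = χ.1 ∘ QuotientGroup.mk → ψ ∈ B := by
      rw [hS] at hχ
      exact hχ
    have hlt := hcon χ hχ'
    have hdB' : blockDefect p (blockOf M χ.1) ≤ (Nat.card (G ⧸ N)).factorization p :=
      Nat.sub_le _ _
    have hle : (∑ᶠ χ ∈ S, charDegree χ.1 ^ 2).factorization p + 1
        ≤ (∑ᶠ ψ ∈ blockOf M χ.1, charDegree ψ.1 ^ 2).factorization p := by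
      rw [hBd]
      omega
    exact (pow_dvd_pow p hle).trans (Nat.ordProj_dvd _ p)
  exact Nat.pow_succ_factorization_not_dvd hSpos hp hdvd

theorem quot_block {p : ℕ} [Fact p.Prime] (hM : IsPModular p M) (N : Subgroup G) [N.Normal]
    (hN : IsPGroup p N) (B : Set (IrrCharacter G)) (hB : IsPBlock M B) :
    ∃ Bbar : Set (IrrCharacter (G ⧸ N)), IsPBlock M Bbar ∧
      (∀ χ ∈ Bbar, ∀ ψ : IrrCharacter G,
        (ψ : G → ℂ) = (χ : G ⧸ N → ℂ) ∘ QuotientGroup.mk → ψ ∈ B) ∧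
      ∀ Dbar : Subgroup (G ⧸ N), IsDefectGroup p M Bbar Dbar ↔
        ∃ P : Subgroup G, IsDefectGroup p M B P ∧ Dbar = P.map (QuotientGroup.mk' N) := by
  classical
  have hmax := hM.2.1
  have hp := (Fact.out : p.Prime)
  obtain ⟨χb, hχb, hdef⟩ := exists_quot_block hM N hN B hB
  have hBbar : IsPBlock M (blockOf M χb.1) := ⟨χb, rfl⟩
  have hsub : ∀ χ ∈ blockOf M χb.1, ∀ ψ : IrrCharacter G,
      (ψ : G → ℂ) = (χ : G ⧸ N → ℂ) ∘ QuotientGroup.mk → ψ ∈ B :=
    fun χ hχ => closed_infl hmax N B hB χb hχb χ hχ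
  have hfwd : ∀ Dbar : Subgroup (G ⧸ N), IsDefectGroup p M (blockOf M χb.1) Dbar →
      ∃ P : Subgroup G, IsDefectGroup p M B P ∧ Dbar = P.map (QuotientGroup.mk' N) := by
    intro Dbar hDbar
    obtain ⟨P, hP, hle⟩ := defect_quot hM N (blockOf M χb.1) hBbar B hB hsub Dbar hDbar
    refine ⟨P, hP, ?_⟩
    have hNP : N ≤ P := normal_le_defectGroup hM N hN B hB P hP
    have hcP := DefectGroup.card_defectGroup hM B hB P hP
    have hcD := DefectGroup.card_defectGroup hM (blockOf M χb.1) hBbar Dbar hDbar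
    obtain ⟨k, hk⟩ := IsPGroup.iff_card.mp hN
    have hkn : (Nat.card N).factorization p = k := by
      rw [hk, Nat.Prime.factorization_pow hp, Finsupp.single_eq_same]
    rw [hkn] at hdef
    have hc1 : Nat.card (P.map (QuotientGroup.mk' N)) * Nat.card N = Nat.card P := by
      have h1 := Subgroup.relIndex_ker (QuotientGroup.mk' N) (K := P)
      rw [QuotientGroup.ker_mk'] at h1
      rw [← h1]
      have h2 := Subgroup.card_mul_index (N.subgroupOf P)
      have h3 : Nat.card (N.subgroupOf P) = Nat.card N :=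
        Nat.card_congr (Subgroup.subgroupOfEquivOfLe hNP).toEquiv
      rw [h3] at h2
      rw [mul_comm]
      exact h2
    rw [hk, hcP] at hc1
    apply Subgroup.eq_of_le_of_card_ge hle
    rw [hcD]
    have h5 : p ^ blockDefect p B ≤ p ^ (blockDefect p (blockOf M χb.1) + k) :=
      Nat.pow_le_pow_right hp.pos hdef
    rw [pow_add, ← hc1] at h5
    exact Nat.le_of_mul_le_mul_right h5 (pow_pos hp.pos k)
  refine ⟨blockOf M χb.1, hBbar, hsub, ?_⟩
  intro Dbar
  constructor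
  · exact hfwd Dbar
  · rintro ⟨P, hP, rfl⟩
    obtain ⟨gb, hgb⟩ := exists_defectClass hmax (blockOf M χb.1) hBbar
    obtain ⟨Sy⟩ : Nonempty (Sylow p (Subgroup.centralizer ({gb} : Set (G ⧸ N)))) := inferInstance
    have hD₁ : IsDefectGroup p M (blockOf M χb.1)
        ((Sy : Subgroup (Subgroup.centralizer ({gb} : Set (G ⧸ N)))).map
          (Subgroup.centralizer ({gb} : Set (G ⧸ N))).subtype) := ⟨gb, hgb, Sy, rfl⟩
    obtain ⟨P₁, hP₁, hP₁e⟩ := hfwd _ hD₁
    obtain ⟨x, hx⟩ := Brauer.defectGroup_conj hM B hB P₁ P hP₁ hP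
    have h6 := isDefectGroup_conj hD₁ (x : G ⧸ N)
    rw [hP₁e] at h6
    have h8 : (MulAut.conj (x : G ⧸ N)).toMonoidHom.comp (QuotientGroup.mk' N)
        = (QuotientGroup.mk' N).comp (MulAut.conj x).toMonoidHom := MonoidHom.ext fun g => rfl
    have h7 : (P₁.map (QuotientGroup.mk' N)).map (MulAut.conj (x : G ⧸ N)).toMonoidHom
        = P.map (QuotientGroup.mk' N) := by
      rw [hx, Subgroup.map_map, Subgroup.map_map, h8]
    rw [h7] at h6
    exact h6

end Cfsg.Agent.Lib.Helper24.QuotDef
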