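import Mathlib
import Cfsg.Agent.Lib.Helper24.FullDef2
import Cfsg.Agent.Lib.Helper24.Subsec
import Cfsg.Agent.Lib.Helper24.QuotDef2
import Cfsg.Agent.S0920

set_option autoImplicit false
set_option linter.unusedSectionVars false
set_option linter.unusedVariables false
set_option linter.style.haveILetI false

namespace Cfsg.Agent.Lib.Helper24.FullDef

open Cfsg Cfsg.Agent.Lib.Helper1 Cfsg.Agent.Lib.Helper6 Cfsg.Agent.Lib.Helper24
open scoped ComplexConjugate

universe u

theorem all_blocks_full {X : Type u} [Group X] [Fintype X] {M : Ideal AlgInt} {p : ℕ}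
    [hp : Fact p.Prime] (hM : IsPModular p M) (S : Subgroup X) [hSn : S.Normal]
    (hS : IsPGroup p S) (hidx : ¬ p ∣ S.index) (b : Set (IrrCharacter X)) (hb : IsPBlock M b) :
    IsDefectGroup p M b S := by
  have hmax := hM.2.1
  obtain ⟨g, hg⟩ := exists_defectClass hmax b hb
  obtain ⟨P⟩ : Nonempty (Sylow p (Subgroup.centralizer ({g} : Set X))) := inferInstance
  have hD : IsDefectGroup p M b
      ((P : Subgroup (Subgroup.centralizer ({g} : Set X))).map
        (Subgroup.centralizer ({g} : Set X)).subtype) := ⟨g, hg, P, rfl⟩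
  have hle := QuotDef.normal_le_defectGroup hM S hS b hb _ hD
  have hDp : IsPGroup p ((P : Subgroup (Subgroup.centralizer ({g} : Set X))).map
        (Subgroup.centralizer ({g} : Set X)).subtype) := P.isPGroup'.map _
  have heq : S = (P : Subgroup (Subgroup.centralizer ({g} : Set X))).map
        (Subgroup.centralizer ({g} : Set X)).subtype := by
    have h1 := Subgroup.relIndex_dvd_index_of_normal S
      ((P : Subgroup (Subgroup.centralizer ({g} : Set X))).map
        (Subgroup.centralizer ({g} : Set X)).subtype)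
    have h2 := Subgroup.relIndex_dvd_card S
      ((P : Subgroup (Subgroup.centralizer ({g} : Set X))).map
        (Subgroup.centralizer ({g} : Set X)).subtype)
    obtain ⟨n, hn⟩ := IsPGroup.iff_card.mp hDp
    rw [hn] at h2
    obtain ⟨j, hj, hjeq⟩ := (Nat.dvd_prime_pow hp.out).mp h2
    have hj0 : j = 0 := by
      by_contra hne
      apply hidx
      have h3 : p ∣ S.relIndex ((P : Subgroup (Subgroup.centralizer ({g} : Set X))).map
        (Subgroup.centralizer ({g} : Set X)).subtype) := by
        rw [hjeq]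
        exact dvd_pow_self p hne
      exact h3.trans h1
    rw [hj0, pow_zero] at hjeq
    exact le_antisymm hle (Subgroup.relIndex_eq_one.mp hjeq)
  rw [heq]
  exact hD

theorem full_defect_count {G : Type u} [Group G] [Fintype G] (p : ℕ) [hp : Fact p.Prime]
    (M : Ideal AlgInt) (hM : IsPModular p M) (P : Sylow p G) :
    Nat.card {B : Set (IrrCharacter G) // IsPBlock M B ∧ IsDefectGroup p M B (P : Subgroup G)} =
    Nat.card {C : ConjClasses (Subgroup.normalizer ((P : Subgroup G) : Set G)) //
      ∀ n : Subgroup.normalizer ((P : Subgroup G) : Set G), ConjClasses.mk n = C →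
        ¬ p ∣ orderOf n ∧ (n : G) ∈ Subgroup.centralizer ((P : Subgroup G) : Set G)} := by
  classical
  have hmax := hM.2.1
  haveI : Fintype (Subgroup.normalizer ((P : Subgroup G) : Set G)) := Fintype.ofFinite _
  haveI hSn : ((P : Subgroup G).subgroupOf (Subgroup.normalizer ((P : Subgroup G) : Set G))).Normal :=
    Subgroup.normal_in_normalizer
  have hS : IsPGroup p ((P : Subgroup G).subgroupOf
      (Subgroup.normalizer ((P : Subgroup G) : Set G))) := P.isPGroup'.comap_subtype
  have hidx : ¬ p ∣ ((P : Subgroup G).subgroupOf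
      (Subgroup.normalizer ((P : Subgroup G) : Set G))).index := by
    intro h
    exact P.not_dvd_index (h.trans (Subgroup.relIndex_dvd_index_of_le Subgroup.le_normalizer))
  have h3 := card_blocks_eq hM ((P : Subgroup G).subgroupOf
      (Subgroup.normalizer ((P : Subgroup G) : Set G))) hS hidx
  have h5 : Nat.card {C : ConjClasses (Subgroup.normalizer ((P : Subgroup G) : Set G)) //
      ∀ n : Subgroup.normalizer ((P : Subgroup G) : Set G), ConjClasses.mk n = C →
        ¬ p ∣ orderOf n ∧ n ∈ Subgroup.centralizer (((P : Subgroup G).subgroupOf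
          (Subgroup.normalizer ((P : Subgroup G) : Set G)) :
            Subgroup (Subgroup.normalizer ((P : Subgroup G) : Set G))) :
              Set (Subgroup.normalizer ((P : Subgroup G) : Set G)))}
      = Nat.card {C : ConjClasses (Subgroup.normalizer ((P : Subgroup G) : Set G)) //
      ∀ n : Subgroup.normalizer ((P : Subgroup G) : Set G), ConjClasses.mk n = C →
        ¬ p ∣ orderOf n ∧ (n : G) ∈ Subgroup.centralizer ((P : Subgroup G) : Set G)} := by
    apply Nat.card_congr
    apply Equiv.subtypeEquivRight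
    intro C
    apply forall_congr'
    intro n
    apply imp_congr Iff.rfl
    apply and_congr Iff.rfl
    constructor
    · intro hn g hg
      have h1 := hn ⟨g, Subgroup.le_normalizer hg⟩ (Subgroup.mem_subgroupOf.mpr hg)
      exact congrArg Subtype.val h1
    · intro hn s hs
      apply Subtype.ext
      exact hn (s : G) (Subgroup.mem_subgroupOf.mp hs)
  have hfirst := Cfsg.Agent.S0920.result p M hM (P : Subgroup G) P.isPGroup'
  have hex : ∀ b : {b : Set (IrrCharacter (Subgroup.normalizer ((P : Subgroup G) : Set G))) //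
      IsPBlock M b},
      ∃ B : {B : Set (IrrCharacter G) // IsPBlock M B ∧ IsDefectGroup p M B (P : Subgroup G)},
        IsInducedBlock M (Subgroup.normalizer ((P : Subgroup G) : Set G)) b.1 B.1 := by
    intro b
    obtain ⟨B, h1, h2, h4⟩ := hfirst.1 b.1 b.2 (all_blocks_full hM _ hS hidx b.1 b.2)
    exact ⟨⟨B, h1, h2⟩, h4⟩
  choose Φ hΦ using hex
  have hinj : Function.Injective Φ := by
    intro b b' hbb'
    obtain ⟨b₀, -, huniq⟩ := hfirst.2 (Φ b).1 (Φ b).2.1 (Φ b).2.2
    have e1 := huniq b.1 ⟨b.2, all_blocks_full hM _ hS hidx b.1 b.2, hΦ b⟩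
    have e2 := huniq b'.1 ⟨b'.2, all_blocks_full hM _ hS hidx b'.1 b'.2, by
      rw [hbb']
      exact hΦ b'⟩
    exact Subtype.ext (e1.trans e2.symm)
  have hsurj : Function.Surjective Φ := by
    intro B
    obtain ⟨b₀, ⟨hb₀, -, hind⟩, -⟩ := hfirst.2 B.1 B.2.1 B.2.2
    refine ⟨⟨b₀, hb₀⟩, ?_⟩
    apply Subtype.ext
    exact Subsec.induced_unique hmax (hΦ ⟨b₀, hb₀⟩) hind
  have h6 := Nat.card_congr (Equiv.ofBijective Φ ⟨hinj, hsurj⟩)
  rw [← h6, h3, h5]

end Cfsg.Agent.Lib.Helper24.FullDef
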