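import Mathlib
import Cfsg.Agent.Lib.Helper24.Brauer3

set_option autoImplicit false

namespace Cfsg.Agent.Lib.Helper24.Green

open Cfsg Cfsg.Agent.Lib.Helper1 Cfsg.Agent.Lib.Helper6 Cfsg.Agent.Lib.Helper24

universe u

variable {C : Type u} [Group C] {M : Ideal AlgInt}

def tr (t : C) : Module.End ℂ (C → ℂ) := LinearMap.funLeft ℂ ℂ (fun x => x * t)

theorem tr_apply (t : C) (v : C → ℂ) (x : C) : tr t v x = v (x * t) := rfl

theorem tr_pow_apply (t : C) (m : ℕ) (v : C → ℂ) (x : C) :
    ((tr t) ^ m) v x = v (x * t ^ m) := by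
  induction m generalizing v x with
  | zero => simp
  | succ m ih =>
    rw [pow_succ, Module.End.mul_apply, ih, tr_apply, pow_succ, mul_assoc]

def dl (t : C) : Module.End ℂ (C → ℂ) := tr t - 1

theorem dl_apply (t : C) (v : C → ℂ) (x : C) : dl t v x = v (x * t) - v x := rfl

theorem dl_pow_succ (t : C) (j : ℕ) (v : C → ℂ) :
    ((dl t) ^ (j + 1)) v = dl t (((dl t) ^ j) v) := by
  rw [pow_succ']
  rfl

def RInv (M : Ideal AlgInt) (H : Subgroup C) (v : C → ℂ) : Prop :=
  ∀ u ∈ H, ∀ x : C, MemLocalIdeal M (v (x * u) - v x)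

theorem sVal_dl (hM : M.IsMaximal) (t : C) {v : C → ℂ} (hv : SVal M v) : SVal M (dl t v) :=
  fun x => MemLocalRing.sub hM (hv (x * t)) (hv x)

theorem rinv_dl (hM : M.IsMaximal) (H : Subgroup C) (t : C) (ht : ∀ u ∈ H, t⁻¹ * u * t ∈ H)
    {v : C → ℂ} (hv : RInv M H v) : RInv M H (dl t v) := by
  intro u hu x
  have h1 := hv (t⁻¹ * u * t) (ht u hu) (x * t)
  have h2 := hv u hu x
  have e : x * t * (t⁻¹ * u * t) = x * u * t := by group
  rw [e] at h1
  have h3 := MemLocalIdeal.sub hM h1 h2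
  have e2 : dl t v (x * u) - dl t v x = v (x * u * t) - v (x * t) - (v (x * u) - v x) := by
    rw [dl_apply, dl_apply]
    ring
  rw [e2]
  exact h3

theorem dl_pow_apply (t : C) (j : ℕ) (v : C → ℂ) (x : C) :
    ((dl t) ^ j) v x
      = ∑ m ∈ Finset.range (j + 1), (-1 : ℂ) ^ (j - m) * (j.choose m : ℂ) * v (x * t ^ m) := by
  have hc : Commute (tr t) ((-1 : ℂ) • (1 : Module.End ℂ (C → ℂ))) :=
    (Commute.one_right (tr t)).smul_right (-1 : ℂ)
  have e : dl t = tr t + (-1 : ℂ) • (1 : Module.End ℂ (C → ℂ)) := by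
    apply LinearMap.ext
    intro w
    funext y
    rw [dl_apply, LinearMap.add_apply, LinearMap.smul_apply, Pi.add_apply, Pi.smul_apply, tr_apply]
    show w (y * t) - w y = w (y * t) + (-1 : ℂ) • w y
    rw [smul_eq_mul]
    ring
  rw [e, hc.add_pow, LinearMap.sum_apply, Finset.sum_apply]
  apply Finset.sum_congr rfl
  intro m _
  have h2 : ((j.choose m : ℕ) : Module.End ℂ (C → ℂ))
      = ((j.choose m : ℕ) : ℂ) • (1 : Module.End ℂ (C → ℂ)) := by
    rw [Nat.cast_smul_eq_nsmul, nsmul_one]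
  rw [smul_pow, one_pow, h2]
  simp only [mul_smul_comm, mul_one, LinearMap.smul_apply, Pi.smul_apply, smul_eq_mul]
  rw [tr_pow_apply]
  ring

theorem dl_pow_p_mem {p : ℕ} (hM : IsPModular p M) (H : Subgroup C) (t : C) (htp : t ^ p ∈ H)
    {v : C → ℂ} (hv : SVal M v) (hr : RInv M H v) (x : C) :
    MemLocalIdeal M (((dl t) ^ p) v x) := by
  have hmax := hM.2.1
  have hp := hM.1
  rw [dl_pow_apply]
  obtain ⟨q, rfl⟩ : ∃ q, p = q + 1 := ⟨p - 1, by have := hp.pos; omega⟩
  rw [Finset.sum_range_succ, Finset.sum_range_succ', add_assoc]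
  refine MemLocalIdeal.add hmax ?_ ?_
  · apply memLocalIdeal_sum hmax
    intro m hm
    have hm' := Finset.mem_range.mp hm
    have hdvd : (q + 1) ∣ (q + 1).choose (m + 1) := hp.dvd_choose_self (by omega) (by omega)
    have h1 : MemLocalIdeal M (((q + 1).choose (m + 1) : ℕ) : ℂ) :=
      (memLocalIdeal_natCast_iff hM _).mpr hdvd
    have h2 : MemLocalRing M ((-1 : ℂ) ^ (q + 1 - (m + 1))) :=
      MemLocalRing.pow hmax (MemLocalRing.neg (memLocalRing_one hmax)) _
    exact MemLocalIdeal.mul_right hmax (MemLocalIdeal.mul_left hmax h2 h1) (hv _)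
  · have h1 := hr (t ^ (q + 1)) htp x
    have h2 : MemLocalIdeal M ((1 + (-1 : ℂ) ^ (q + 1)) * v x) := by
      apply MemLocalIdeal.mul_right hmax _ (hv x)
      rcases hp.eq_two_or_odd' with h | h
      · have e2 : (1 + (-1 : ℂ) ^ (q + 1)) = ((2 : ℕ) : ℂ) := by
          rw [h]
          norm_num
        rw [e2, ← h]
        exact memLocalIdeal_natCast_prime hM
      · rw [h.neg_one_pow, add_neg_cancel]
        exact memLocalIdeal_zero hmax
    have h3 := MemLocalIdeal.add hmax h1 h2
    have e : ∀ a b : ℂ, (-1 : ℂ) ^ (q + 1 - 0) * ((q + 1).choose 0 : ℂ) * a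
        + (-1 : ℂ) ^ (q + 1 - (q + 1)) * ((q + 1).choose (q + 1) : ℂ) * b
        = (b - a) + (1 + (-1 : ℂ) ^ (q + 1)) * a := by
      intro a b
      simp only [Nat.sub_zero, Nat.choose_zero_right, Nat.cast_one, Nat.sub_self, Nat.choose_self,
        pow_zero, mul_one, one_mul]
      ring
    rw [pow_zero, mul_one, e]
    exact h3

def invSub (hM : M.IsMaximal) (v : C → ℂ) : Subgroup C where
  carrier := {u | ∀ x : C, MemLocalIdeal M (v (x * u) - v x)}
  one_mem' := by
    intro x
    rw [mul_one, sub_self]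
    exact memLocalIdeal_zero hM
  mul_mem' := by
    intro a b ha hb x
    have h := MemLocalIdeal.add hM (hb (x * a)) (ha x)
    have e : v (x * (a * b)) - v x = v (x * a * b) - v (x * a) + (v (x * a) - v x) := by
      rw [mul_assoc]
      ring
    rw [e]
    exact h
  inv_mem' := by
    intro a ha x
    have h := MemLocalIdeal.neg (ha (x * a⁻¹))
    rw [inv_mul_cancel_right] at h
    have e : v (x * a⁻¹) - v x = -(v x - v (x * a⁻¹)) := by ring
    rw [e]
    exact h

variable [Fintype C]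

def Fx (M : Ideal AlgInt) (f v : C → ℂ) : Prop :=
  ∀ x : C, MemLocalIdeal M (cconv f v x - v x)

theorem cconv_dl (f : C → ℂ) (t : C) (v : C → ℂ) (x : C) :
    cconv f (dl t v) x = cconv f v (x * t) - cconv f v x := by
  rw [cconv_apply, cconv_apply, cconv_apply, ← Finset.sum_sub_distrib]
  apply Finset.sum_congr rfl
  intro g _
  rw [dl_apply, mul_sub, mul_assoc]

theorem fx_dl (hM : M.IsMaximal) (f : C → ℂ) (t : C) {v : C → ℂ} (hv : Fx M f v) :
    Fx M f (dl t v) := by
  intro x
  have h3 := MemLocalIdeal.sub hM (hv (x * t)) (hv x)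
  have e : cconv f (dl t v) x - dl t v x
      = cconv f v (x * t) - v (x * t) - (cconv f v x - v x) := by
    rw [cconv_dl, dl_apply]
    ring
  rw [e]
  exact h3

theorem props_dl_pow (hM : M.IsMaximal) (f : C → ℂ) (H : Subgroup C) (t : C)
    (ht : ∀ u ∈ H, t⁻¹ * u * t ∈ H) {v : C → ℂ} (hv : SVal M v) (hr : RInv M H v)
    (hx : Fx M f v) (j : ℕ) :
    SVal M (((dl t) ^ j) v) ∧ RInv M H (((dl t) ^ j) v) ∧ Fx M f (((dl t) ^ j) v) := by
  induction j with
  | zero =>
    rw [pow_zero]
    exact ⟨hv, hr, hx⟩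
  | succ j ih =>
    rw [dl_pow_succ]
    exact ⟨sVal_dl hM t ih.1, rinv_dl hM H t ht ih.2.1, fx_dl hM f t ih.2.2⟩

theorem base_case (hM : M.IsMaximal) (f : C → ℂ) (hf : IsClassFunction C f) (hfS : SVal M f)
    (A : Subgroup C) [Fintype A]
    (hzero : ∀ x, MemLocalIdeal M (∑ u : A, f (x * (u : C))))
    (v : C → ℂ) (hv : SVal M v) (hr : RInv M A v) (hx : Fx M f v) (x : C) :
    MemLocalIdeal M (v x) := by
  classical
  have hfinq : Fintype (C ⧸ A) := Fintype.ofFinite _
  have h1 : MemLocalIdeal M (cconv f v x) := by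
    have e1 : cconv f v x = ∑ s : C, f (x * s⁻¹) * v s := by
      rw [cconv_apply]
      apply Fintype.sum_equiv ((Equiv.mulLeft x⁻¹).trans (Equiv.inv C))
      intro g
      show f g * v (g⁻¹ * x) = f (x * ((x⁻¹ * g)⁻¹)⁻¹) * v ((x⁻¹ * g)⁻¹)
      rw [inv_inv, mul_inv_cancel_left, mul_inv_rev, inv_inv]
    rw [e1, ← Finset.sum_fiberwise Finset.univ (fun s : C => (QuotientGroup.mk s : C ⧸ A))
      (fun s => f (x * s⁻¹) * v s)]
    apply memLocalIdeal_sum hM
    intro q _
    have e0 : ∑ s ∈ Finset.univ.filter (fun s : C => (QuotientGroup.mk s : C ⧸ A) = q),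
        f (x * s⁻¹) * v s
        = ∑ u : A, f (x * (q.out * (u : C))⁻¹) * v (q.out * (u : C)) := by
      symm
      apply Finset.sum_bij (fun (u : A) _ => q.out * (u : C))
      · intro u _
        rw [Finset.mem_filter]
        refine ⟨Finset.mem_univ _, ?_⟩
        rw [QuotientGroup.mk_mul_of_mem _ u.2]
        exact QuotientGroup.out_eq' q
      · intro u _ u' _ h
        exact Subtype.ext (mul_left_cancel h)
      · intro s hs
        rw [Finset.mem_filter] at hs
        have h : (QuotientGroup.mk q.out : C ⧸ A) = QuotientGroup.mk s := by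
          rw [QuotientGroup.out_eq' q]
          exact hs.2.symm
        exact ⟨⟨q.out⁻¹ * s, QuotientGroup.eq.mp h⟩, Finset.mem_univ _, mul_inv_cancel_left _ _⟩
      · intro u _
        rfl
    rw [e0]
    have e2 : ∑ u : A, f (x * (q.out * (u : C))⁻¹) * v (q.out * (u : C))
        = ∑ u : A, f (x * (q.out * (u : C))⁻¹) * (v (q.out * (u : C)) - v q.out)
          + v q.out * ∑ u : A, f (x * (q.out * (u : C))⁻¹) := by
      rw [Finset.mul_sum, ← Finset.sum_add_distrib]
      apply Finset.sum_congr rfl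
      intro u _
      ring
    rw [e2]
    apply MemLocalIdeal.add hM
    · apply memLocalIdeal_sum hM
      intro u _
      exact MemLocalIdeal.mul_left hM (hfS _) (hr u u.2 q.out)
    · apply MemLocalIdeal.mul_left hM (hv _)
      have e3 : ∑ u : A, f (x * (q.out * (u : C))⁻¹) = ∑ u : A, f (q.out⁻¹ * x * (u : C)) := by
        apply Fintype.sum_equiv (Equiv.inv A)
        intro u
        show f (x * (q.out * (u : C))⁻¹) = f (q.out⁻¹ * x * ((u⁻¹ : A) : C))
        have h := hf (x * (q.out * (u : C))⁻¹) q.out⁻¹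
        rw [← h]
        congr 1
        rw [Subgroup.coe_inv]
        group
      rw [e3]
      exact hzero _
  have h2 := MemLocalIdeal.sub hM h1 (hx x)
  rwa [sub_sub_cancel] at h2

theorem idem_coset {p : ℕ} [Fact p.Prime] (hM : IsPModular p M) (f : C → ℂ)
    (hf : IsClassFunction C f) (hfS : SVal M f) (A : Subgroup C) [Fintype A] (hA : IsPGroup p A)
    (hzero : ∀ x, MemLocalIdeal M (∑ u : A, f (x * (u : C)))) :
    ∀ H : Subgroup C, H ≤ A → ∀ v : C → ℂ, SVal M v → RInv M H v → Fx M f v →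
      ∀ x, MemLocalIdeal M (v x) := by
  classical
  have hmax := hM.2.1
  intro H
  induction H using WellFoundedGT.induction with
  | ind H ih =>
    intro hHA v hv hr hx
    by_cases hEq : H = A
    · subst hEq
      exact base_case hmax f hf hfS H hzero v hv hr hx
    · have hlt : H < A := lt_of_le_of_ne hHA hEq
      obtain ⟨x0, hx0A, hx0N, hx0H⟩ := Brauer.exists_normalizing A H hA hlt
      obtain ⟨k0, hk0⟩ := hA ⟨x0, hx0A⟩
      have hk0' : x0 ^ (p ^ k0) = 1 := by
        have := congrArg Subtype.val hk0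
        simpa using this
      have hex : ∃ k, x0 ^ (p ^ k) ∈ H := ⟨k0, by rw [hk0']; exact H.one_mem⟩
      obtain ⟨k, hk, hkmin⟩ : ∃ k, x0 ^ (p ^ k) ∈ H ∧ ∀ k' < k, x0 ^ (p ^ k') ∉ H :=
        ⟨Nat.find hex, Nat.find_spec hex, fun k' hk' => Nat.find_min hex hk'⟩
      have hk0ne : k ≠ 0 := by
        rintro rfl
        apply hx0H
        simpa using hk
      obtain ⟨k1, rfl⟩ : ∃ k1, k = k1 + 1 := ⟨k - 1, by omega⟩
      obtain ⟨t, ht⟩ : ∃ t, t = x0 ^ (p ^ k1) := ⟨_, rfl⟩
      have htH : t ∉ H := by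
        rw [ht]
        exact hkmin k1 (by omega)
      have htp : t ^ p ∈ H := by
        rw [ht, ← pow_mul, ← pow_succ]
        exact hk
      have htA : t ∈ A := by
        rw [ht]
        exact A.pow_mem hx0A _
      have htN : t ∈ Subgroup.normalizer (H : Set C) := by
        rw [ht]
        exact Subgroup.pow_mem _ hx0N _
      have htc : ∀ u ∈ H, t⁻¹ * u * t ∈ H := by
        intro u hu
        have h := Subgroup.mem_normalizer_iff.mp htN (t⁻¹ * u * t)
        apply h.mpr
        have e : t * (t⁻¹ * u * t) * t⁻¹ = u := by group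
        rw [e]
        exact hu
      have hpz : ∃ j, ∀ x, MemLocalIdeal M (((dl t) ^ j) v x) :=
        ⟨p, fun x => dl_pow_p_mem hM H t htp hv hr x⟩
      obtain ⟨j, hj, hjmin⟩ : ∃ j, (∀ x, MemLocalIdeal M (((dl t) ^ j) v x)) ∧
          ∀ j' < j, ¬ ∀ x, MemLocalIdeal M (((dl t) ^ j') v x) :=
        ⟨Nat.find hpz, Nat.find_spec hpz, fun j' hj' => Nat.find_min hpz hj'⟩
      rcases Nat.eq_zero_or_pos j with hj0 | hjpos
      · subst hj0
        rw [pow_zero] at hj
        exact hj
      · exfalso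
        obtain ⟨j1, rfl⟩ : ∃ j1, j = j1 + 1 := ⟨j - 1, by omega⟩
        apply hjmin j1 (by omega)
        obtain ⟨hv', hr', hx'⟩ := props_dl_pow hmax f H t htc hv hr hx j1
        have hle : H ⊔ Subgroup.zpowers t ≤ invSub hmax (((dl t) ^ j1) v) := by
          apply sup_le
          · intro u hu
            exact hr' u hu
          · rw [Subgroup.zpowers_le]
            intro x
            have h := hj x
            rw [dl_pow_succ, dl_apply] at h
            exact h
        apply ih (H ⊔ Subgroup.zpowers t) _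
          (sup_le hHA (by rw [Subgroup.zpowers_le]; exact htA)) _ hv' _ hx'
        · apply lt_of_le_of_ne le_sup_left
          intro h
          apply htH
          rw [h]
          exact (le_sup_right : Subgroup.zpowers t ≤ _) (Subgroup.mem_zpowers t)
        · intro u hu x
          exact hle hu x

theorem exists_coset_sum_not_mem {p : ℕ} [Fact p.Prime] (hM : IsPModular p M) (f : C → ℂ)
    (hf : IsClassFunction C f) (hfS : SVal M f)
    (hidem : ∀ x, MemLocalIdeal M (cconv f f x - f x))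
    (A : Subgroup C) [Fintype A] (hA : IsPGroup p A) (g₀ : C)
    (hg₀ : ¬ MemLocalIdeal M (f g₀)) :
    ∃ x : C, ¬ MemLocalIdeal M (∑ u : A, f (x * (u : C))) := by
  by_contra hcon
  have hcon' : ∀ x : C, MemLocalIdeal M (∑ u : A, f (x * (u : C))) :=
    fun x => by_contra (fun h => hcon ⟨x, h⟩)
  apply hg₀
  apply idem_coset hM f hf hfS A hA hcon' ⊥ bot_le f hfS _ hidem
  intro u hu x
  rw [Subgroup.mem_bot] at hu
  rw [hu, mul_one, sub_self]
  exact memLocalIdeal_zero hM.2.1

end Cfsg.Agent.Lib.Helper24.Green
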