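import Mathlib
import Cfsg.Agent.Lib.Helper24.GreenA
import Cfsg.Agent.Lib.Helper24.DefectGroup
import Cfsg.Agent.Lib.Helper24.Osima

set_option autoImplicit false

namespace Cfsg.Agent.Lib.Helper24.Green

open Cfsg Cfsg.Agent.Lib.Helper1 Cfsg.Agent.Lib.Helper6 Cfsg.Agent.Lib.Helper24

universe u

variable {G : Type u} [Group G] {M : Ideal AlgInt}

theorem conj_mem_iff (K : Subgroup G) {d : G} (hd : d ∈ K) (z : G) :
    d * z * d⁻¹ ∈ K ↔ z ∈ K := by
  constructor
  · intro h
    have h2 := K.mul_mem (K.mul_mem (K.inv_mem hd) h) hd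
    have e : d⁻¹ * (d * z * d⁻¹) * d = z := by group
    rwa [e] at h2
  · intro h
    exact K.mul_mem (K.mul_mem hd h) (K.inv_mem hd)

theorem conj_mem_centralizer_iff (R : Subgroup G) {u : G} (hu : u ∈ R) (g : G) :
    u * g * u⁻¹ ∈ Subgroup.centralizer (R : Set G) ↔ g ∈ Subgroup.centralizer (R : Set G) := by
  simp only [Subgroup.mem_centralizer_iff]
  constructor
  · intro h v hv
    have h1 := h (u * v * u⁻¹) (R.mul_mem (R.mul_mem hu hv) (R.inv_mem hu))
    have e1 : v * g = u⁻¹ * (u * v * u⁻¹ * (u * g * u⁻¹)) * u := by group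
    have e2 : g * v = u⁻¹ * (u * g * u⁻¹ * (u * v * u⁻¹)) * u := by group
    rw [e1, e2, h1]
  · intro h v hv
    have h1 := h (u⁻¹ * v * u) (R.mul_mem (R.mul_mem (R.inv_mem hu) hv) hu)
    have e1 : v * (u * g * u⁻¹) = u * (u⁻¹ * v * u * g) * u⁻¹ := by group
    have e2 : u * g * u⁻¹ * v = u * (g * (u⁻¹ * v * u)) * u⁻¹ := by group
    rw [e1, e2, h1]

variable [Fintype G]

open Classical in
theorem conj_fix {p : ℕ} (hM : IsPModular p M) (R : Subgroup G) (hR : IsPGroup p R)
    (T : G → Prop) (hT : ∀ r ∈ R, ∀ g, T (r * g * r⁻¹) ↔ T g)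
    (b : G → ℂ) (hb : SVal M b) (hbR : ∀ r ∈ R, ∀ g, b (r * g * r⁻¹) = b g) :
    MemLocalIdeal M (∑ g : G, (if T g then b g else 0)
      - ∑ g : G, (if T g ∧ g ∈ Subgroup.centralizer (R : Set G) then b g else 0)) := by
  have hmax := hM.2.1
  let _inst : MulAction R G := MulAction.compHom G ((MulAut.conj).comp R.subtype)
  have hsmul : ∀ (u : R) (g : G), u • g = (u : G) * g * (u : G)⁻¹ := fun u g => rfl
  let w : G → ℂ := fun g =>
    if T g ∧ g ∉ Subgroup.centralizer (R : Set G) then b g else 0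
  have hw : ∀ (u : R) (g : G), w (u • g) = w g := by
    intro u g
    rw [hsmul]
    simp only [w]
    rw [hbR u u.2 g]
    have h1 := hT u u.2 g
    have h2 := conj_mem_centralizer_iff R u.2 g
    by_cases hc : T g ∧ g ∉ Subgroup.centralizer (R : Set G)
    · rw [if_pos hc, if_pos ⟨h1.mpr hc.1, fun h => hc.2 (h2.mp h)⟩]
    · rw [if_neg hc, if_neg (fun h => hc ⟨h1.mp h.1, fun h' => h.2 (h2.mpr h')⟩)]
  have hwS : ∀ g, MemLocalRing M (w g) := by
    intro g
    simp only [w]
    split_ifs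
    · exact hb g
    · exact memLocalRing_zero hmax
  have hfix : ∀ g, g ∈ MulAction.fixedPoints R G → w g = 0 := by
    intro g hg
    have hgc : g ∈ Subgroup.centralizer (R : Set G) := by
      rw [Subgroup.mem_centralizer_iff]
      intro u hu
      have h1 := hg ⟨u, hu⟩
      rw [hsmul] at h1
      have h2 : u * g = u * g * u⁻¹ * u := by group
      rw [h2]
      exact congrArg (· * u) h1
    simp only [w]
    rw [if_neg (fun h => h.2 hgc)]
  have hsum := pgroup_sum_mem hM hR w hw hwS hfix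
  have e : ∑ g : G, (if T g then b g else 0)
      - ∑ g : G, (if T g ∧ g ∈ Subgroup.centralizer (R : Set G) then b g else 0)
      = ∑ g : G, w g := by
    rw [← Finset.sum_sub_distrib]
    apply Finset.sum_congr rfl
    intro g _
    simp only [w]
    by_cases h1 : T g <;> by_cases h2 : g ∈ Subgroup.centralizer (R : Set G) <;> simp [h1, h2]
  rw [e]
  exact hsum

theorem green {p : ℕ} [Fact p.Prime] (hM : IsPModular p M) (B : Set (IrrCharacter G))
    (hB : IsPBlock M B) (D : Subgroup G) (hD : IsDefectGroup p M B D) (P : Sylow p G)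
    (hDP : D ≤ P) :
    ∃ y : G, ¬ p ∣ orderOf y ∧ D ≤ Subgroup.centralizer ({y} : Set G) ∧
      (Nat.card (Subgroup.centralizer ({y} : Set G))).factorization p = blockDefect p B ∧
      (P : Subgroup G) ⊓ (P : Subgroup G).map (MulAut.conj y).toMonoidHom = D := by
  classical
  have hmax := hM.2.1
  have hp : p.Prime := hM.1
  have hcard := DefectGroup.card_defectGroup hM B hB D hD
  obtain ⟨g, hg, S, hS⟩ := hD
  obtain ⟨a, ha_cls, haS, -, -, hab, haa⟩ := Osima.exists_block_idem hmax B hB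
  have haa' : cconv a a = a := haa
  have hDp : IsPGroup p D := P.isPGroup'.to_le hDP
  have hDg : D ≤ Subgroup.centralizer ({g} : Set G) := by
    rw [hS]
    exact Subgroup.map_subtype_le _
  have hgC : g ∈ Subgroup.centralizer (D : Set G) := by
    rw [Subgroup.mem_centralizer_iff]
    intro d hd
    exact (Subgroup.mem_centralizer_iff.mp (hDg hd) g rfl).symm
  have hInvC : Brauer.Inv (Subgroup.centralizer (D : Set G)) a :=
    Brauer.inv_of_isClassFunction ha_cls _
  have hInvD : Brauer.Inv D a := Brauer.inv_of_isClassFunction ha_cls _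
  have hf_cls : IsClassFunction (Subgroup.centralizer (D : Set G))
      (Brauer.res (Subgroup.centralizer (D : Set G)) a) := Brauer.isClassFunction_res hInvC
  have hfS : SVal M (Brauer.res (Subgroup.centralizer (D : Set G)) a) := Brauer.sVal_res haS
  have hidem : ∀ x : Subgroup.centralizer (D : Set G),
      MemLocalIdeal M (cconv (Brauer.res (Subgroup.centralizer (D : Set G)) a)
        (Brauer.res (Subgroup.centralizer (D : Set G)) a) x
        - Brauer.res (Subgroup.centralizer (D : Set G)) a x) := by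
    intro x
    have h := Brauer.brauer_mul_pt hM D hDp haS haS hInvD hInvD x
    rw [haa'] at h
    have h2 := MemLocalIdeal.neg h
    rwa [neg_sub] at h2
  have hg0 : ¬ MemLocalIdeal M (Brauer.res (Subgroup.centralizer (D : Set G)) a ⟨g, hgC⟩) := by
    show ¬ MemLocalIdeal M (a g)
    rw [hab g]
    exact hg.2.1
  have hAp : IsPGroup p ((P : Subgroup G).subgroupOf (Subgroup.centralizer (D : Set G))) :=
    P.isPGroup'.comap_subtype
  obtain ⟨x, hx⟩ := exists_coset_sum_not_mem hM (Brauer.res (Subgroup.centralizer (D : Set G)) a)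
    hf_cls hfS hidem ((P : Subgroup G).subgroupOf (Subgroup.centralizer (D : Set G))) hAp
    ⟨g, hgC⟩ hg0
  have hxD : ∀ d ∈ D, d * (x : G) = (x : G) * d := fun d hd =>
    Subgroup.mem_centralizer_iff.mp x.2 d hd
  have eA : ∑ u : ((P : Subgroup G).subgroupOf (Subgroup.centralizer (D : Set G))),
      Brauer.res (Subgroup.centralizer (D : Set G)) a
        (x * (u : Subgroup.centralizer (D : Set G)))
      = ∑ y : G, (if ((x : G)⁻¹ * y ∈ (P : Subgroup G))
          ∧ y ∈ Subgroup.centralizer (D : Set G) then a y else 0) := by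
    rw [← Finset.sum_filter]
    apply Finset.sum_bij
      (fun (u : ((P : Subgroup G).subgroupOf (Subgroup.centralizer (D : Set G)))) _ =>
        (x : G) * ((u : Subgroup.centralizer (D : Set G)) : G))
    · intro u _
      rw [Finset.mem_filter]
      refine ⟨Finset.mem_univ _, ?_, ?_⟩
      · rw [inv_mul_cancel_left]
        exact Subgroup.mem_subgroupOf.mp u.2
      · exact Subgroup.mul_mem _ x.2 (u : Subgroup.centralizer (D : Set G)).2
    · intro u _ u' _ h
      exact Subtype.ext (Subtype.ext (mul_left_cancel h))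
    · intro y hy
      rw [Finset.mem_filter] at hy
      have hyC : (x : G)⁻¹ * y ∈ Subgroup.centralizer (D : Set G) :=
        Subgroup.mul_mem _ (Subgroup.inv_mem _ x.2) hy.2.2
      exact ⟨⟨⟨(x : G)⁻¹ * y, hyC⟩, Subgroup.mem_subgroupOf.mpr hy.2.1⟩, Finset.mem_univ _,
        mul_inv_cancel_left _ _⟩
    · intro u _
      rfl
  rw [eA] at hx
  have hT1 : ∀ r ∈ D, ∀ z : G, ((x : G)⁻¹ * (r * z * r⁻¹) ∈ (P : Subgroup G))
      ↔ ((x : G)⁻¹ * z ∈ (P : Subgroup G)) := by
    intro r hr z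
    have hc : (x : G)⁻¹ * r = r * (x : G)⁻¹ := by
      have h := hxD r hr
      calc (x : G)⁻¹ * r = (x : G)⁻¹ * (r * (x : G)) * (x : G)⁻¹ := by group
        _ = (x : G)⁻¹ * ((x : G) * r) * (x : G)⁻¹ := by rw [h]
        _ = r * (x : G)⁻¹ := by group
    have e : (x : G)⁻¹ * (r * z * r⁻¹) = r * ((x : G)⁻¹ * z) * r⁻¹ := by
      calc (x : G)⁻¹ * (r * z * r⁻¹) = ((x : G)⁻¹ * r) * z * r⁻¹ := by group
        _ = (r * (x : G)⁻¹) * z * r⁻¹ := by rw [hc]
        _ = r * ((x : G)⁻¹ * z) * r⁻¹ := by group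
    rw [e]
    exact conj_mem_iff (P : Subgroup G) (hDP hr) _
  have h1 := conj_fix hM D hDp (fun z => (x : G)⁻¹ * z ∈ (P : Subgroup G)) hT1 a haS
    (fun r _ z => ha_cls z r)
  obtain ⟨Q, hQ⟩ : ∃ Q : Subgroup G,
      Q = (P : Subgroup G) ⊓ (P : Subgroup G).map (MulAut.conj (x : G)).toMonoidHom := ⟨_, rfl⟩
  have hQP : Q ≤ (P : Subgroup G) := by
    rw [hQ]
    exact inf_le_left
  have hQp : IsPGroup p Q := P.isPGroup'.to_le hQP
  have hQx : ∀ r ∈ Q, (x : G)⁻¹ * r * (x : G) ∈ (P : Subgroup G) := by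
    intro r hr
    rw [hQ] at hr
    obtain ⟨h, hh, hhr⟩ := Subgroup.mem_map.mp hr.2
    have e : (x : G)⁻¹ * r * (x : G) = h := by
      rw [← hhr]
      show (x : G)⁻¹ * ((x : G) * h * (x : G)⁻¹) * (x : G) = h
      group
    rw [e]
    exact hh
  have hT2 : ∀ r ∈ Q, ∀ z : G, ((x : G)⁻¹ * (r * z * r⁻¹) ∈ (P : Subgroup G))
      ↔ ((x : G)⁻¹ * z ∈ (P : Subgroup G)) := by
    intro r hr z
    have e : (x : G)⁻¹ * (r * z * r⁻¹) = ((x : G)⁻¹ * r * (x : G)) * ((x : G)⁻¹ * z) * r⁻¹ := by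
      group
    rw [e]
    constructor
    · intro h
      have h2 := (P : Subgroup G).mul_mem ((P : Subgroup G).mul_mem
        ((P : Subgroup G).inv_mem (hQx r hr)) h) (hQP hr)
      have e2 : ((x : G)⁻¹ * r * (x : G))⁻¹ * (((x : G)⁻¹ * r * (x : G)) * ((x : G)⁻¹ * z) * r⁻¹) * r
          = (x : G)⁻¹ * z := by group
      rwa [e2] at h2
    · intro h
      exact (P : Subgroup G).mul_mem ((P : Subgroup G).mul_mem (hQx r hr) h)
        ((P : Subgroup G).inv_mem (hQP hr))
  have h2 := conj_fix hM Q hQp (fun z => (x : G)⁻¹ * z ∈ (P : Subgroup G)) hT2 a haS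
    (fun r _ z => ha_cls z r)
  have hS1 : ¬ MemLocalIdeal M (∑ y : G, (if ((x : G)⁻¹ * y ∈ (P : Subgroup G)) then a y else 0)) := by
    intro hc
    apply hx
    have h3 := MemLocalIdeal.sub hmax hc h1
    rwa [sub_sub_cancel] at h3
  have hS3 : ¬ MemLocalIdeal M (∑ y : G, (if ((x : G)⁻¹ * y ∈ (P : Subgroup G))
      ∧ y ∈ Subgroup.centralizer (Q : Set G) then a y else 0)) := by
    intro hc
    apply hS1
    have h3 := MemLocalIdeal.add hmax h2 hc
    rwa [sub_add_cancel] at h3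
  obtain ⟨y, hyT, hyQ, hay⟩ : ∃ y : G, (x : G)⁻¹ * y ∈ (P : Subgroup G)
      ∧ y ∈ Subgroup.centralizer (Q : Set G) ∧ ¬ MemLocalIdeal M (a y) := by
    by_contra hcon
    apply hS3
    apply memLocalIdeal_sum hmax
    intro y _
    by_cases hc : ((x : G)⁻¹ * y ∈ (P : Subgroup G)) ∧ y ∈ Subgroup.centralizer (Q : Set G)
    · rw [if_pos hc]
      by_contra hay
      exact hcon ⟨y, hc.1, hc.2, hay⟩
    · rw [if_neg hc]
      exact memLocalIdeal_zero hmax
  rw [hab y] at hay
  obtain ⟨hyreg, hyle⟩ := Defect.defect_le_of_blockCoeff hM B hB y hay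
  have hDQ : D ≤ Q := by
    intro d hd
    rw [hQ]
    refine ⟨hDP hd, Subgroup.mem_map.mpr ⟨d, hDP hd, ?_⟩⟩
    show (x : G) * d * (x : G)⁻¹ = d
    rw [← hxD d hd]
    group
  have hQy : Q ≤ Subgroup.centralizer ({y} : Set G) := by
    intro r hr
    rw [Subgroup.mem_centralizer_iff]
    intro z hz
    rw [Set.mem_singleton_iff] at hz
    rw [hz]
    exact (Subgroup.mem_centralizer_iff.mp hyQ r hr).symm
  obtain ⟨k, hk⟩ := (IsPGroup.iff_card).mp hQp
  have hdvd : Nat.card Q ∣ Nat.card (Subgroup.centralizer ({y} : Set G)) :=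
    Subgroup.card_dvd_of_le hQy
  rw [hk] at hdvd
  have hkle : k ≤ (Nat.card (Subgroup.centralizer ({y} : Set G))).factorization p :=
    (hp.pow_dvd_iff_le_factorization Nat.card_pos.ne').mp hdvd
  have hcardle : Nat.card Q ≤ Nat.card D := by
    rw [hk, hcard]
    exact Nat.pow_le_pow_right hp.pos (le_trans hkle hyle)
  have hDQeq : D = Q := Subgroup.eq_of_le_of_card_ge hDQ hcardle
  have hDy : D ≤ Subgroup.centralizer ({y} : Set G) := by
    rw [hDQeq]
    exact hQy
  have hdvd2 : Nat.card D ∣ Nat.card (Subgroup.centralizer ({y} : Set G)) :=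
    Subgroup.card_dvd_of_le hDy
  rw [hcard] at hdvd2
  have hge : blockDefect p B ≤ (Nat.card (Subgroup.centralizer ({y} : Set G))).factorization p :=
    (hp.pow_dvd_iff_le_factorization Nat.card_pos.ne').mp hdvd2
  refine ⟨y, hyreg, hDy, le_antisymm hyle hge, ?_⟩
  have hmap : (P : Subgroup G).map (MulAut.conj y).toMonoidHom
      = (P : Subgroup G).map (MulAut.conj (x : G)).toMonoidHom := by
    ext z
    rw [Subgroup.mem_map, Subgroup.mem_map]
    constructor
    · rintro ⟨h, hh, rfl⟩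
      refine ⟨((x : G)⁻¹ * y) * h * ((x : G)⁻¹ * y)⁻¹, ?_, ?_⟩
      · exact (P : Subgroup G).mul_mem ((P : Subgroup G).mul_mem hyT hh)
          ((P : Subgroup G).inv_mem hyT)
      · show (x : G) * (((x : G)⁻¹ * y) * h * ((x : G)⁻¹ * y)⁻¹) * (x : G)⁻¹ = y * h * y⁻¹
        group
    · rintro ⟨h, hh, rfl⟩
      refine ⟨((x : G)⁻¹ * y)⁻¹ * h * ((x : G)⁻¹ * y), ?_, ?_⟩
      · exact (P : Subgroup G).mul_mem ((P : Subgroup G).mul_mem
          ((P : Subgroup G).inv_mem hyT) hh) hyT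
      · show y * (((x : G)⁻¹ * y)⁻¹ * h * ((x : G)⁻¹ * y)) * y⁻¹ = (x : G) * h * (x : G)⁻¹
        group
  rw [hmap, ← hQ, hDQeq]

end Cfsg.Agent.Lib.Helper24.Green
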