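import Mathlib
import Cfsg.Agent.Lib.Helper6.RegInner
import Cfsg.Agent.Lib.Helper24.Defect
import Cfsg.Agent.Lib.Helper24.Subsec

set_option autoImplicit false

namespace Cfsg.Agent.Lib.Helper24.KF

open Cfsg Cfsg.Agent.Lib.Helper1 Cfsg.Agent.Lib.Helper6 Cfsg.Agent.Lib.Helper24
open scoped ComplexConjugate

universe u

theorem comb {ι κ : Type*} (S : Finset ι) (J : Finset κ) (V : κ → ι → ℤ)
    (hJne : J.Nonempty) (hJ3 : J.card ≤ 3)
    (hcol : ∀ j ∈ J, ∑ i ∈ S, (V j i) ^ 2 = 4)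
    (hrow : ∀ i ∈ S, ∑ j ∈ J, (V j i) ^ 2 < 4)
    (hodd : ∀ i ∈ S, ∀ i' ∈ S, Odd (∑ j ∈ J, V j i * V j i')) :
    S.card = 4 := by
  classical
  have hsq : ∀ i ∈ S, ∀ j ∈ J, (V j i) ^ 2 = 0 ∨ (V j i) ^ 2 = 1 := by
    intro i hi j hj
    have h1 : (V j i) ^ 2 ≤ ∑ j ∈ J, (V j i) ^ 2 :=
      Finset.single_le_sum (f := fun j => (V j i) ^ 2) (fun k _ => sq_nonneg (V k i)) hj
    have h2 := hrow i hi
    have h3 : (V j i) ^ 2 < 4 := lt_of_le_of_lt h1 h2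
    have h4 : V j i < 2 := by nlinarith
    have h5 : -2 < V j i := by nlinarith
    have h6 : V j i = -1 ∨ V j i = 0 ∨ V j i = 1 := by omega
    rcases h6 with h | h | h
    · right
      rw [h]
      norm_num
    · left
      rw [h]
      norm_num
    · right
      rw [h]
      norm_num
  have hne : ∀ i ∈ S, ∀ j ∈ J, V j i ≠ 0 → (V j i) ^ 2 = 1 := by
    intro i hi j hj h0
    rcases hsq i hi j hj with h | h
    · exact absurd ((pow_eq_zero_iff two_ne_zero).mp h) h0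
    · exact h
  by_cases hA : ∃ i ∈ S, ∃ j₀ ∈ J, V j₀ i ≠ 0 ∧ ∀ j ∈ J, j ≠ j₀ → V j i = 0
  · obtain ⟨i, hi, j₀, hj₀, hne0, hz⟩ := hA
    have hall : ∀ i' ∈ S, (V j₀ i') ^ 2 = 1 := by
      intro i' hi'
      apply hne i' hi' j₀ hj₀
      intro h0
      have h1 := hodd i hi i' hi'
      rw [Finset.sum_eq_single j₀ (fun j hj hjne => by rw [hz j hj hjne, zero_mul])
        (fun h => absurd hj₀ h), h0, mul_zero] at h1
      obtain ⟨r, hr⟩ := h1
      omega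
    have h2 := hcol j₀ hj₀
    rw [Finset.sum_congr rfl hall, Finset.sum_const, nsmul_eq_mul, mul_one] at h2
    exact_mod_cast h2
  · have hall : ∀ i ∈ S, ∀ j ∈ J, (V j i) ^ 2 = 1 := by
      intro i hi j₁ hj₁
      by_contra hcon
      have h0 : (V j₁ i) ^ 2 = 0 := by
        rcases hsq i hi j₁ hj₁ with h | h
        · exact h
        · exact absurd h hcon
      have hw := hodd i hi i hi
      have hw' : ∑ j ∈ J, V j i * V j i = ∑ j ∈ J, (V j i) ^ 2 :=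
        Finset.sum_congr rfl (fun j _ => (pow_two _).symm)
      rw [hw'] at hw
      have hle1 : ∀ j ∈ J, (V j i) ^ 2 ≤ 1 := by
        intro j hj
        rcases hsq i hi j hj with h | h <;> rw [h] <;> norm_num
      have hge0 : ∀ j ∈ J, 0 ≤ (V j i) ^ 2 := fun j _ => sq_nonneg _
      have hsplit : ∑ j ∈ J, (V j i) ^ 2 = ∑ j ∈ J.erase j₁, (V j i) ^ 2 := by
        rw [← Finset.add_sum_erase J (fun j => (V j i) ^ 2) hj₁, h0, zero_add]
      have hcard : ∑ j ∈ J.erase j₁, (V j i) ^ 2 ≤ 2 := by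
        have h1 : ∑ j ∈ J.erase j₁, (V j i) ^ 2 ≤ ∑ j ∈ J.erase j₁, (1 : ℤ) :=
          Finset.sum_le_sum (fun j hj => hle1 j (Finset.mem_of_mem_erase hj))
        rw [Finset.sum_const, nsmul_eq_mul, mul_one, Finset.card_erase_of_mem hj₁] at h1
        have h2 : ((J.card - 1 : ℕ) : ℤ) ≤ 2 := by
          have h3 : J.card - 1 ≤ 2 := by omega
          exact_mod_cast h3
        exact h1.trans h2
      have hw1 : ∑ j ∈ J, (V j i) ^ 2 = 1 := by
        have hnn : 0 ≤ ∑ j ∈ J, (V j i) ^ 2 := Finset.sum_nonneg hge0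
        rw [hsplit] at hw hnn ⊢
        obtain ⟨r, hr⟩ := hw
        omega
      apply hA
      have hex : ∃ j₀ ∈ J, V j₀ i ≠ 0 := by
        by_contra hno
        push Not at hno
        rw [Finset.sum_eq_zero (fun j hj => by rw [hno j hj]; norm_num)] at hw1
        norm_num at hw1
      obtain ⟨j₀, hj₀, hne0⟩ := hex
      refine ⟨i, hi, j₀, hj₀, hne0, ?_⟩
      intro j hj hjne
      have h1 := hne i hi j₀ hj₀ hne0
      have h2 : ∑ j ∈ J.erase j₀, (V j i) ^ 2 = 0 := by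
        have h3 : (V j₀ i) ^ 2 + ∑ j ∈ J.erase j₀, (V j i) ^ 2 = ∑ j ∈ J, (V j i) ^ 2 :=
          Finset.add_sum_erase J (fun j => (V j i) ^ 2) hj₀
        rw [h1, hw1] at h3
        linarith
      have h4 := (Finset.sum_eq_zero_iff_of_nonneg
        (fun j hj => hge0 j (Finset.mem_of_mem_erase hj))).mp h2 j
        (Finset.mem_erase.mpr ⟨hjne, hj⟩)
      exact (pow_eq_zero_iff two_ne_zero).mp h4
    obtain ⟨j, hj⟩ := hJne
    have h2 := hcol j hj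
    rw [Finset.sum_congr rfl (fun i hi => hall i hi j hj), Finset.sum_const, nsmul_eq_mul,
      mul_one] at h2
    exact_mod_cast h2

variable {G : Type u} [Group G] [Fintype G] {M : Ideal AlgInt}

theorem core (hM : IsPModular 2 M) (B : Set (IrrCharacter G)) (hB : IsPBlock M B)
    (hdef : blockDefect 2 B = 2)
    {κ : Type*} (J : Finset κ) (hJne : J.Nonempty) (hJ3 : J.card ≤ 3)
    (V : κ → IrrCharacter G → ℤ)
    (hcol : ∀ j ∈ J, ∑ᶠ χ ∈ B, ((V j χ : ℤ) : ℂ) ^ 2 = 4)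
    (hrel : ∀ χ ∈ B, ∀ ψ ∈ B,
      (2 : ℤ) ^ (Nat.card G).factorization 2 * ∑ j ∈ J, V j χ * V j ψ
        = 4 * ((if χ = ψ then (2 : ℤ) ^ (Nat.card G).factorization 2 else 0)
          - regCoef 2 χ ψ))
    (hpos : ∀ χ ∈ B, 0 < regCoef 2 χ χ) :
    Nat.card B = 4 := by
  classical
  haveI hp2 : Fact (Nat.Prime 2) := ⟨Nat.prime_two⟩
  have hmax := hM.2.1
  have hfinIrr : Fintype (IrrCharacter G) := irrFintype
  obtain ⟨S, hSdef⟩ : ∃ S : Finset (IrrCharacter G),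
      S = Finset.univ.filter (fun χ => χ ∈ B) := ⟨_, rfl⟩
  have hS : ∀ χ, χ ∈ S ↔ χ ∈ B := by
    intro χ
    rw [hSdef, Finset.mem_filter]
    exact ⟨fun h => h.2, fun h => ⟨Finset.mem_univ _, h⟩⟩
  have hBS : B = (↑S : Set (IrrCharacter G)) := by
    ext χ
    exact (hS χ).symm
  obtain ⟨a, ha⟩ : ∃ a : ℕ, a = (Nat.card G).factorization 2 := ⟨_, rfl⟩
  rw [← ha] at hrel
  obtain ⟨χ₀, h₀, hχ₀, hmin⟩ := Defect.exists_height_zero 2 B (Defect.block_nonempty hmax B hB)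
  rw [hdef, ← ha] at hχ₀
  obtain ⟨m, hm⟩ : ∃ m : ℕ, m = (charDegree (χ₀ : G → ℂ)).factorization 2 := ⟨_, rfl⟩
  rw [← hm] at hχ₀ hmin
  have ham : a = m + 2 := hχ₀.symm
  have hsame : ∀ χ ∈ B, ∀ ψ ∈ B, SameBlock M (χ : G → ℂ) (ψ : G → ℂ) :=
    fun χ hχ ψ hψ => Defect.sameBlock_of_mem hmax B hB hχ hψ
  have hmem : ∀ χ ∈ B, ∀ ψ : IrrCharacter G, SameBlock M (χ : G → ℂ) (ψ : G → ℂ) → ψ ∈ B := by
    intro χ hχ ψ h
    rw [Defect.block_eq_blockOf hmax B hB hχ]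
    exact h
  have hdeg0 : ∀ χ : IrrCharacter G, charDegree (χ : G → ℂ) ≠ 0 :=
    fun χ => (CharBasic.irr_degree_pos χ.2).ne'
  have htwo : ((2 : ℕ) : ℤ) = 2 := by norm_num
  have hE : (2 : ℤ) ^ a = 4 * 2 ^ m := by
    rw [ham, pow_add]
    ring
  have hEpos : (0 : ℤ) < 2 ^ m := by positivity
  have hnn : ∀ χ : IrrCharacter G, ∑ j ∈ J, V j χ * V j χ = ∑ j ∈ J, (V j χ) ^ 2 :=
    fun χ => Finset.sum_congr rfl (fun j _ => (pow_two _).symm)
  have hA : ∀ ξ ∈ B, (charDegree (ξ : G → ℂ)).factorization 2 = m := by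
    intro ξ hξ
    by_contra hne
    have hlt : m + 1 ≤ (charDegree (ξ : G → ℂ)).factorization 2 := by
      have h1 := hmin ξ hξ
      omega
    have r1 : ¬ MemLocalIdeal M ((regCoef 2 χ₀ ξ : ℂ) / (charDegree (ξ : G → ℂ) : ℂ)) :=
      regCoef_not_mem_of_min hM χ₀ ξ (hsame χ₀ h₀ ξ hξ)
        (fun ψ hψ => by
          rw [← hm]
          exact hmin ψ (hmem χ₀ h₀ ψ hψ))
    have r2 : ((2 : ℕ) : ℤ) ^ (m + 1) ∣ regCoef 2 ξ χ₀ :=
      dvd_trans (pow_dvd_pow _ hlt) (pow_dvd_regCoef_left 2 ξ χ₀)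
    have r3 : MemLocalIdeal M ((regCoef 2 ξ χ₀ : ℂ) / (charDegree (χ₀ : G → ℂ) : ℂ)) := by
      apply (int_ratio_memLocalIdeal_iff hM (hdeg0 χ₀) (pow_dvd_regCoef_right 2 ξ χ₀)).mpr
      rw [← hm]
      exact r2
    have r4 := regCoef_congr hM ξ (hsame ξ hξ χ₀ h₀)
    have r5 : MemLocalIdeal M ((regCoef 2 ξ ξ : ℂ) / (charDegree (ξ : G → ℂ) : ℂ)) := by
      have h1 := MemLocalIdeal.add hmax r4 r3
      rwa [sub_add_cancel] at h1
    have r6 := (int_ratio_memLocalIdeal_iff hM (hdeg0 ξ) (pow_dvd_regCoef_right 2 ξ ξ)).mp r5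
    have r7 : ((2 : ℕ) : ℤ) ^ a ∣ regCoef 2 ξ ξ :=
      dvd_trans (pow_dvd_pow _ (by omega)) r6
    rw [htwo] at r7
    obtain ⟨r, hr⟩ := r7
    have h1 := hrel ξ hξ ξ hξ
    rw [if_pos rfl, hnn ξ, hr] at h1
    have hpos' := hpos ξ hξ
    rw [hr] at hpos'
    have hapos : (0 : ℤ) < 2 ^ a := by positivity
    have hr1 : 1 ≤ r := by
      by_contra hcon
      have h2 : r ≤ 0 := by omega
      nlinarith
    have hsum0 : ∑ j ∈ J, (V j ξ) ^ 2 = 0 := by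
      have h2 : (2 : ℤ) ^ a * ∑ j ∈ J, (V j ξ) ^ 2 = 2 ^ a * (4 * (1 - r)) := by
        rw [h1]
        ring
      have h3 := mul_left_cancel₀ hapos.ne' h2
      have h4 : 0 ≤ ∑ j ∈ J, (V j ξ) ^ 2 := Finset.sum_nonneg (fun j _ => sq_nonneg _)
      omega
    have hz : ∀ j ∈ J, V j ξ = 0 := by
      intro j hj
      have h2 := (Finset.sum_eq_zero_iff_of_nonneg (fun j _ => sq_nonneg (V j ξ))).mp hsum0 j hj
      exact (pow_eq_zero_iff two_ne_zero).mp h2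
    have hne' : χ₀ ≠ ξ := by
      intro h
      apply hne
      rw [← h, ← hm]
    have h5 := hrel χ₀ h₀ ξ hξ
    rw [if_neg hne', Finset.sum_eq_zero (fun j hj => by rw [hz j hj, mul_zero]), mul_zero] at h5
    have h6 : regCoef 2 χ₀ ξ = 0 := by omega
    apply r1
    rw [h6, Int.cast_zero, zero_div]
    exact memLocalIdeal_zero hmax
  have hodd : ∀ χ ∈ B, ∀ ξ ∈ B, Odd (∑ j ∈ J, V j χ * V j ξ) := by
    intro χ hχ ξ hξ
    have r1 : ¬ MemLocalIdeal M ((regCoef 2 χ ξ : ℂ) / (charDegree (ξ : G → ℂ) : ℂ)) :=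
      regCoef_not_mem_of_min hM χ ξ (hsame χ hχ ξ hξ)
        (fun ψ hψ => by rw [hA χ hχ, hA ψ (hmem χ hχ ψ hψ)])
    have r2 : ¬ ((2 : ℕ) : ℤ) ^ (m + 1) ∣ regCoef 2 χ ξ := by
      intro h
      apply r1
      apply (int_ratio_memLocalIdeal_iff hM (hdeg0 ξ) (pow_dvd_regCoef_right 2 χ ξ)).mpr
      rw [hA ξ hξ]
      exact h
    rw [htwo] at r2
    by_contra hno
    obtain ⟨r, hr⟩ := Int.not_odd_iff_even.mp hno
    have h1 := hrel χ hχ ξ hξ
    rw [hr, hE] at h1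
    apply r2
    by_cases hχξ : χ = ξ
    · rw [if_pos hχξ] at h1
      refine ⟨2 - r, ?_⟩
      have h2 : 4 * regCoef 2 χ ξ = 4 * (2 ^ (m + 1) * (2 - r)) := by
        rw [pow_succ]
        linarith
      exact mul_left_cancel₀ (by norm_num) h2
    · rw [if_neg hχξ] at h1
      refine ⟨-r, ?_⟩
      have h2 : 4 * regCoef 2 χ ξ = 4 * (2 ^ (m + 1) * (-r)) := by
        rw [pow_succ]
        linarith
      exact mul_left_cancel₀ (by norm_num) h2
  have hcard : S.card = 4 := by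
    apply comb S J V hJne hJ3
    · intro j hj
      have h1 := hcol j hj
      rw [Defect.finsum_block_eq_sum, ← hSdef] at h1
      exact_mod_cast h1
    · intro χ hχ
      have hχB := (hS χ).mp hχ
      have h1 := hrel χ hχB χ hχB
      rw [if_pos rfl, hnn χ] at h1
      have h2 := hpos χ hχB
      have hapos : (0 : ℤ) < 2 ^ a := by positivity
      by_contra hcon
      have h3 : 4 ≤ ∑ j ∈ J, (V j χ) ^ 2 := by omega
      nlinarith
    · intro χ hχ ξ hξ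
      exact hodd χ ((hS χ).mp hχ) ξ ((hS ξ).mp hξ)
  rw [hBS, Nat.card_coe_set_eq, Set.ncard_coe_finset, hcard]

end Cfsg.Agent.Lib.Helper24.KF
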