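import Mathlib
import Cfsg.Agent.Lib.Helper24.CentralDef
import Cfsg.Agent.Lib.Helper24.Brauer23
import Cfsg.Agent.S0917
import Cfsg.Agent.S0927

set_option autoImplicit false

namespace Cfsg.Agent.Lib.Helper24.TwoDef

open Cfsg Cfsg.Agent.Lib.Helper1 Cfsg.Agent.Lib.Helper6 Cfsg.Agent.Lib.Helper24
open scoped ComplexConjugate

universe u

theorem zp_two {H : Type*} [Group H] {x : H} (hx : orderOf x = 2) (y : H)
    (hy : y ∈ Subgroup.zpowers x) : y = 1 ∨ y = x := by
  obtain ⟨k, rfl⟩ := Subgroup.mem_zpowers_iff.mp hy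
  have h1 : x ^ (k % 2) = x ^ k := by
    have h2 := zpow_mod_orderOf x k
    rw [hx] at h2
    exact_mod_cast h2
  rcases Int.emod_two_eq_zero_or_one k with h | h
  · left
    rw [← h1, h, zpow_zero]
  · right
    rw [← h1, h, zpow_one]

theorem sq_two {H : Type*} [Group H] {x : H} (hx : orderOf x = 2) : x * x = 1 := by
  have h := pow_orderOf_eq_one x
  rw [hx, pow_two] at h
  exact h

theorem ne_one_two {H : Type*} [Group H] {x : H} (hx : orderOf x = 2) : x ≠ 1 := by
  intro h
  rw [h, orderOf_one] at hx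
  exact absurd hx (by norm_num)

theorem normalizer_le_centralizer_two {H : Type*} [Group H] {x : H} (hx : orderOf x = 2) :
    Subgroup.normalizer ((Subgroup.zpowers x : Subgroup H) : Set H)
      ≤ Subgroup.centralizer ((Subgroup.zpowers x : Subgroup H) : Set H) := by
  intro n hn
  have h1 : n * x * n⁻¹ ∈ Subgroup.zpowers x :=
    (Subgroup.mem_normalizer_iff.mp hn x).mp (Subgroup.mem_zpowers x)
  have hx1 : x ≠ 1 := ne_one_two hx
  have h2 : n * x * n⁻¹ = x := by
    rcases zp_two hx _ h1 with h | h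
    · exfalso
      apply hx1
      have e : x = n⁻¹ * (n * x * n⁻¹) * n := by group
      rw [e, h]
      group
    · exact h
  have h3 : n * x = x * n := by
    calc n * x = n * x * n⁻¹ * n := by group
      _ = x * n := by rw [h2]
  rw [Subgroup.mem_centralizer_iff]
  intro y hy
  rcases zp_two hx y hy with h | h
  · rw [h, one_mul, mul_one]
  · rw [h]
    exact h3.symm

section main

variable {G : Type u} [Group G] [Fintype G] {M : Ideal AlgInt}

theorem cj_of_mem (K : Subgroup G) (h : Subgroup.normalizer (K : Set G)) (hh : (h : G) ∈ K)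
    (χ : IrrCharacter K) : Brauer.cj K h χ = χ := by
  classical
  apply Subtype.ext
  funext k
  rw [Brauer.cj_apply]
  have e : (Brauer.conjEquiv K h).symm k
      = (⟨(h : G), hh⟩ : K)⁻¹ * k * ((⟨(h : G), hh⟩ : K)⁻¹)⁻¹ := by
    apply Subtype.ext
    rw [Brauer.conjEquiv_symm_coe]
    simp
  rw [e]
  exact irr_isClassFunction χ k _

theorem smul_of_mem_centralizer (P : Subgroup G) (n : Subgroup.normalizer (P : Set G))
    (hn : (n : G) ∈ Subgroup.centralizer (P : Set G))
    (e : Set (IrrCharacter (Subgroup.centralizer (P : Set G)))) : n • e = e := by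
  rw [Brauer.blkAct_smul]
  have h1 : ∀ χ : IrrCharacter (Subgroup.centralizer (P : Set G)),
      Brauer.cj (Subgroup.centralizer (P : Set G)) (Brauer.nc P n) χ = χ :=
    fun χ => cj_of_mem _ _ hn χ
  have h2 : Brauer.cj (Subgroup.centralizer (P : Set G)) (Brauer.nc P n) = id := funext h1
  rw [h2, Set.image_id]

theorem induced_unique_cent {p : ℕ} [Fact p.Prime] (hM : IsPModular p M)
    (B : Set (IrrCharacter G)) (hB : IsPBlock M B) (P : Subgroup G)
    (hD : IsDefectGroup p M B P)
    (hN : Subgroup.normalizer (P : Set G) ≤ Subgroup.centralizer (P : Set G))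
    (e e' : Set (IrrCharacter (Subgroup.centralizer (P : Set G))))
    (h : IsInducedBlock M (Subgroup.centralizer (P : Set G)) e B)
    (h' : IsInducedBlock M (Subgroup.centralizer (P : Set G)) e' B) : e = e' := by
  have hP : IsPGroup p P := CentralDef.defect_pgroup hM B hB P hD
  have h1 := (Brauer.induced_centralizer_iff hM P hP e B).mp h
  have h1' := (Brauer.induced_centralizer_iff hM P hP e' B).mp h'
  obtain ⟨e₀, hmax⟩ := Brauer.exists_maximal_of_defect hM B hB P hD
  obtain ⟨n, hn⟩ := Brauer.maximal_conj hM B P e₀ e hmax h1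
  obtain ⟨n', hn'⟩ := Brauer.maximal_conj hM B P e₀ e' hmax h1'
  rw [hn, hn', smul_of_mem_centralizer P n (hN n.2), smul_of_mem_centralizer P n' (hN n'.2)]

theorem induced_unique_gen {p : ℕ} [Fact p.Prime] (hM : IsPModular p M)
    (B : Set (IrrCharacter G)) (hB : IsPBlock M B) (P : Subgroup G)
    (hD : IsDefectGroup p M B P)
    (hN : Subgroup.normalizer (P : Set G) ≤ Subgroup.centralizer (P : Set G))
    (C : Subgroup G) (hC : C = Subgroup.centralizer (P : Set G))
    (e e' : Set (IrrCharacter C))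
    (h : IsInducedBlock M C e B) (h' : IsInducedBlock M C e' B) : e = e' := by
  subst hC
  exact induced_unique_cent hM B hB P hD hN e e' h h'

theorem second_main_gen {p : ℕ} [Fact p.Prime] (hM : IsPModular p M) (x : G)
    (hx : ∃ k : ℕ, orderOf x = p ^ k) (B : Set (IrrCharacter G)) (hB : IsPBlock M B)
    (χ : IrrCharacter G) (hχ : χ ∈ B) (C : Subgroup G)
    (hC : C = Subgroup.centralizer ({x} : Set G)) (b : Set (IrrCharacter C))
    (hb : IsPBlock M b) (hnot : ¬ IsInducedBlock M C b B) (y : C) (hy : ¬ p ∣ orderOf y) :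
    blockPart b (fun c : C => (χ : G → ℂ) (x * (c : G))) y = 0 := by
  classical
  subst hC
  exact SecondMain.second_main_b hM x hx B hB χ hχ b hb hnot y hy

theorem section_orth_gen {p : ℕ} [Fact p.Prime] (hM : IsPModular p M) (x : G)
    (hx : ∃ k : ℕ, orderOf x = p ^ k) (B : Set (IrrCharacter G)) (hB : IsPBlock M B)
    (C : Subgroup G) (hC : C = Subgroup.centralizer ({x} : Set G))
    (TF : Finset (Set (IrrCharacter C)))
    (hTF : ∀ b, b ∈ TF ↔ IsInducedBlock M C b B)
    (s s' : C) (hs : ¬ p ∣ orderOf s) (hs' : ¬ p ∣ orderOf s') :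
    ∑ᶠ χ ∈ B, (χ : G → ℂ) (x * (s : G)) * (χ : G → ℂ) (x * (s' : G))⁻¹
      = ∑ b ∈ TF, ∑ᶠ ξ ∈ b, (ξ : C → ℂ) s * (ξ : C → ℂ) s'⁻¹ := by
  classical
  subst hC
  exact Subsec.section_orth hM x hx B hB TF hTF s s' hs hs'

theorem defect_of_induced (hM : IsPModular 2 M) (x : G) (hx : orderOf x = 2)
    (B : Set (IrrCharacter G)) (hB : IsPBlock M B)
    (hBD : IsDefectGroup 2 M B (Subgroup.zpowers x)) (C : Subgroup G) (hxC : x ∈ C)
    (hcent : ∀ c ∈ C, c * x = x * c) (b : Set (IrrCharacter C))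
    (hb : IsInducedBlock M C b B) :
    IsDefectGroup 2 M b (Subgroup.zpowers (⟨x, hxC⟩ : C)) := by
  classical
  have hmax := hM.2.1
  have hbb : IsPBlock M b := hb.1
  obtain ⟨g, hg⟩ := exists_defectClass hmax b hbb
  obtain ⟨S⟩ : Nonempty (Sylow 2 (Subgroup.centralizer ({g} : Set C))) := inferInstance
  obtain ⟨Db, hDbdef⟩ : ∃ Db : Subgroup C,
      Db = (S : Subgroup _).map (Subgroup.centralizer ({g} : Set C)).subtype := ⟨_, rfl⟩
  have hDb : IsDefectGroup 2 M b Db := ⟨g, hg, S, hDbdef⟩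
  obtain ⟨E, hE, hle⟩ := Cfsg.Agent.S0917.result 2 M hM C b hbb B hB hb Db hDb
  have hcE : Nat.card E = 2 := by
    rw [DefectGroup.card_defectGroup hM B hB E hE,
      ← DefectGroup.card_defectGroup hM B hB _ hBD, Nat.card_zpowers, hx]
  have hcDb : Nat.card Db ≤ 2 := by
    rw [← hcE, ← Subgroup.card_map_of_injective C.subtype_injective]
    exact Subgroup.card_le_of_le hle
  have hxc : orderOf (⟨x, hxC⟩ : C) = 2 := by
    rw [← hx]
    exact Subgroup.orderOf_mk x hxC
  have hcen : (⟨x, hxC⟩ : C) ∈ Subgroup.center C := by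
    apply Subgroup.mem_center_iff.mpr
    intro c
    exact Subtype.ext (hcent c c.2)
  have hPZ : Subgroup.zpowers (⟨x, hxC⟩ : C) ≤ Subgroup.center C :=
    (Subgroup.zpowers_le).mpr hcen
  have hn : (Subgroup.zpowers (⟨x, hxC⟩ : C)).Normal :=
    ⟨fun n hn g => by
      have h1 := Subgroup.mem_center_iff.mp (hPZ hn) g
      rw [h1, mul_inv_cancel_right]
      exact hn⟩
  have hPp : IsPGroup 2 (Subgroup.zpowers (⟨x, hxC⟩ : C)) :=
    IsPGroup.of_card (n := 1) (by rw [Nat.card_zpowers, hxc, pow_one])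
  have hle2 := Brauer.normal_le_defect hM (Subgroup.zpowers (⟨x, hxC⟩ : C)) hPp b hbb Db hDb
  have heq : Subgroup.zpowers (⟨x, hxC⟩ : C) = Db :=
    Subgroup.eq_of_le_of_card_ge hle2 (by rw [Nat.card_zpowers, hxc]; exact hcDb)
  rw [heq]
  exact hDb

end main

end Cfsg.Agent.Lib.Helper24.TwoDef
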