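import Mathlib
import Cfsg.Agent.Lib.Helper24.TwoDefA

set_option autoImplicit false

namespace Cfsg.Agent.Lib.Helper24.TwoDef

open Cfsg Cfsg.Agent.Lib.Helper1 Cfsg.Agent.Lib.Helper6 Cfsg.Agent.Lib.Helper24
open scoped ComplexConjugate

universe u

section central

variable {H : Type u} [Group H] [Fintype H] {M : Ideal AlgInt}

theorem central_two (hM : IsPModular 2 M) (z : H) (hz : orderOf z = 2)
    (hzc : z ∈ Subgroup.center H) (b : Set (IrrCharacter H)) (hb : IsPBlock M b)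
    (hD : IsDefectGroup 2 M b (Subgroup.zpowers z)) (θ : IrrCharacter H) (hθ : θ ∈ b)
    (hθz : (θ : H → ℂ) z = (θ : H → ℂ) 1) :
    ∃ θ' : IrrCharacter H, θ' ≠ θ ∧ b = {θ, θ'} ∧ (θ' : H → ℂ) 1 = (θ : H → ℂ) 1 ∧
      CentralDef.lam (θ' : H → ℂ) z = -1 ∧ CentralDef.lam (θ : H → ℂ) z = 1 ∧
      ∀ s : H, ¬ 2 ∣ orderOf s → (θ' : H → ℂ) s = (θ : H → ℂ) s := by
  classical
  have hmax := hM.2.1
  have hPZ : Subgroup.zpowers z ≤ Subgroup.center H := Subgroup.zpowers_le.mpr hzc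
  have hH : (Nat.card H : ℂ) ≠ 0 := Nat.cast_ne_zero.mpr Nat.card_pos.ne'
  have hθ1 := CharBasic.irr_one_ne_zero θ.2
  have hlamθ : CentralDef.lam (θ : H → ℂ) z = 1 := by
    show (θ : H → ℂ) z / (θ : H → ℂ) 1 = 1
    rw [hθz, div_self hθ1]
  have hpm : ∀ ξ : IrrCharacter H, CentralDef.lam (ξ : H → ℂ) z = 1
      ∨ CentralDef.lam (ξ : H → ℂ) z = -1 := by
    intro ξ
    have h1 := CentralDef.lam_mul ξ hzc z
    rw [sq_two hz, CentralDef.lam_one] at h1
    exact mul_self_eq_one_iff.mp h1.symm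
  have huniq : ∀ ξ₁ ξ₂ : IrrCharacter H, ξ₁ ∈ b → ξ₂ ∈ b →
      CentralDef.lam (ξ₁ : H → ℂ) z = CentralDef.lam (ξ₂ : H → ℂ) z → ξ₁ = ξ₂ := by
    intro ξ₁ ξ₂ h₁ h₂ hl
    apply CentralDef.lam_inj hM b hb _ hD hPZ ξ₁ ξ₂ h₁ h₂
    intro w hw
    rcases zp_two hz w hw with h | h
    · rw [h, CentralDef.lam_one, CentralDef.lam_one]
    · rw [h]
      exact hl
  have hsing : blockCoeff b z = 0 :=
    Defect.blockCoeff_eq_zero_of_singular hM b hb z (by rw [hz])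
  have hcoeff : blockCoeff b z
      = (Nat.card H : ℂ)⁻¹ * ∑ᶠ χ ∈ b, (χ : H → ℂ) 1 * conj ((χ : H → ℂ) z) := rfl
  have hex : ∃ θ' ∈ b, CentralDef.lam (θ' : H → ℂ) z = -1 := by
    by_contra hcon
    push Not at hcon
    have hbs : b = {θ} := by
      ext ξ
      constructor
      · intro hξ
        rcases hpm ξ with h | h
        · exact Set.mem_singleton_iff.mpr (huniq ξ θ hξ hθ (h.trans hlamθ.symm))
        · exact absurd h (hcon ξ hξ)
      · intro hξ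
        rw [Set.mem_singleton_iff.mp hξ]
        exact hθ
    have h1 := hcoeff
    rw [hsing, hbs, finsum_mem_singleton, hθz] at h1
    rcases mul_eq_zero.mp h1.symm with h | h
    · exact inv_ne_zero hH h
    · rcases mul_eq_zero.mp h with h' | h'
      · exact hθ1 h'
      · exact hθ1 ((map_eq_zero _).mp h')
  obtain ⟨θ', hθ', hlam'⟩ := hex
  have hne : θ' ≠ θ := by
    intro h
    rw [h, hlamθ] at hlam'
    norm_num at hlam'
  have hbs : b = {θ, θ'} := by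
    ext ξ
    constructor
    · intro hξ
      rcases hpm ξ with h | h
      · exact Set.mem_insert_iff.mpr (Or.inl (huniq ξ θ hξ hθ (h.trans hlamθ.symm)))
      · exact Set.mem_insert_iff.mpr (Or.inr (Set.mem_singleton_iff.mpr
          (huniq ξ θ' hξ hθ' (h.trans hlam'.symm))))
    · intro hξ
      rcases Set.mem_insert_iff.mp hξ with h | h
      · rw [h]
        exact hθ
      · rw [Set.mem_singleton_iff.mp h]
        exact hθ'
  have hz' : (θ' : H → ℂ) z = - (θ' : H → ℂ) 1 := by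
    have h1 := (CentralDef.lam_spec θ' hzc).2 1
    rw [mul_one, hlam'] at h1
    rw [h1]
    ring
  have hconj1 : ∀ χ : IrrCharacter H, conj ((χ : H → ℂ) 1) = (χ : H → ℂ) 1 := by
    intro χ
    rw [conj_irr, inv_one]
  have hdeg : (θ' : H → ℂ) 1 = (θ : H → ℂ) 1 := by
    have h1 := hcoeff
    rw [hsing, hbs, finsum_mem_pair hne.symm, hθz, hz', map_neg, hconj1, hconj1] at h1
    have h2 : (θ : H → ℂ) 1 * (θ : H → ℂ) 1 + (θ' : H → ℂ) 1 * -(θ' : H → ℂ) 1 = 0 := by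
      rcases mul_eq_zero.mp h1.symm with h | h
      · exact absurd h (inv_ne_zero hH)
      · exact h
    have h3 : ((θ' : H → ℂ) 1 - (θ : H → ℂ) 1) * ((θ' : H → ℂ) 1 + (θ : H → ℂ) 1) = 0 := by
      linear_combination -h2
    have hn := CharBasic.char_one_nat (CharBasic.isCharacter_of_irr θ.2)
    have hn' := CharBasic.char_one_nat (CharBasic.isCharacter_of_irr θ'.2)
    rcases mul_eq_zero.mp h3 with h | h
    · exact sub_eq_zero.mp h
    · exfalso
      rw [hn, hn', ← Nat.cast_add, Nat.cast_eq_zero] at h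
      have h4 : charDegree (θ : H → ℂ) = 0 := by omega
      apply hθ1
      rw [hn, h4, Nat.cast_zero]
  refine ⟨θ', hne, hbs, hdeg, hlam', hlamθ, ?_⟩
  intro s hs
  have e1 := CentralDef.coeff_eq hM b hb _ hD hPZ θ hθ s hs
  have e2 := CentralDef.coeff_eq hM b hb _ hD hPZ θ' hθ' s hs
  rw [e1, hdeg] at e2
  have hPne : (Nat.card (Subgroup.zpowers z) : ℂ) ≠ 0 :=
    Nat.cast_ne_zero.mpr Nat.card_pos.ne'
  have e3 : conj ((θ : H → ℂ) s) = conj ((θ' : H → ℂ) s) :=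
    mul_left_cancel₀ hθ1 (mul_left_cancel₀ (mul_ne_zero (inv_ne_zero hH) hPne) e2)
  exact ((starRingEnd ℂ).injective e3).symm

end central

section main

variable {G : Type u} [Group G] [Fintype G] {M : Ideal AlgInt}

theorem shift_inner (C : Subgroup G) [Fintype C] (x : G) (hxC : x ∈ C) (hxx : x * x = 1)
    (hcen : (⟨x, hxC⟩ : C) ∈ Subgroup.center C) (χ : G → ℂ) (ξ : IrrCharacter C)
    (hreal : conj (CentralDef.lam (ξ : C → ℂ) ⟨x, hxC⟩)
      = CentralDef.lam (ξ : C → ℂ) ⟨x, hxC⟩) :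
    classInner (fun c : C => χ (x * (c : G))) (ξ : C → ℂ)
      = CentralDef.lam (ξ : C → ℂ) ⟨x, hxC⟩
        * classInner (fun c : C => χ (c : G)) (ξ : C → ℂ) := by
  show (Nat.card C : ℂ)⁻¹ * ∑ c : C, χ (x * (c : G)) * conj ((ξ : C → ℂ) c)
    = _ * ((Nat.card C : ℂ)⁻¹ * ∑ c : C, χ (c : G) * conj ((ξ : C → ℂ) c))
  rw [← Equiv.sum_comp (Equiv.mulLeft (⟨x, hxC⟩ : C))
    (fun c : C => χ (x * (c : G)) * conj ((ξ : C → ℂ) c))]
  have e : ∀ c : C, χ (x * (((Equiv.mulLeft (⟨x, hxC⟩ : C)) c : C) : G))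
        * conj ((ξ : C → ℂ) ((Equiv.mulLeft (⟨x, hxC⟩ : C)) c))
      = CentralDef.lam (ξ : C → ℂ) ⟨x, hxC⟩ * (χ (c : G) * conj ((ξ : C → ℂ) c)) := by
    intro c
    show χ (x * (x * (c : G))) * conj ((ξ : C → ℂ) (⟨x, hxC⟩ * c)) = _
    rw [← mul_assoc, hxx, one_mul, (CentralDef.lam_spec ξ hcen).2 c, map_mul, hreal]
    ring
  rw [Finset.sum_congr rfl (fun c _ => e c), ← Finset.mul_sum]
  ring

end main

end Cfsg.Agent.Lib.Helper24.TwoDef
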