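import Mathlib
import Cfsg.Agent.Lib.Helper24.TwoDefB

set_option autoImplicit false

namespace Cfsg.Agent.Lib.Helper24.TwoDef

open Cfsg Cfsg.Agent.Lib.Helper1 Cfsg.Agent.Lib.Helper6 Cfsg.Agent.Lib.Helper24
open scoped ComplexConjugate

universe u

variable {G : Type u} [Group G] [Fintype G] {M : Ideal AlgInt}

theorem two_core (hM : IsPModular 2 M) (x : G) (hx : orderOf x = 2)
    (B : Set (IrrCharacter G)) (hB : IsPBlock M B)
    (hBD : IsDefectGroup 2 M B (Subgroup.zpowers x))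
    (C : Subgroup G) (hC : C = Subgroup.centralizer ({x} : Set G))
    (b : Set (IrrCharacter C)) (hb : IsInducedBlock M C b B)
    (θ : IrrCharacter C) (hθ : θ ∈ b)
    (hθx : ∀ z : C, (z : G) = x → (θ : C → ℂ) z = (θ : C → ℂ) 1) :
    ∃ d : IrrCharacter G → ℤ,
      (∀ χ ∈ B, ∀ s : C, ¬ 2 ∣ orderOf s →
        (χ : G → ℂ) (x * (s : G)) = (d χ : ℂ) * (θ : C → ℂ) s) ∧
      ∑ᶠ χ ∈ B, ((d χ : ℂ)) ^ 2 = 2 ∧ ∀ χ ∈ B, d χ ≠ 0 := by
  classical
  have hmax := hM.2.1
  have hfinC : Fintype C := Fintype.ofFinite C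
  have hfinIrr : Fintype (IrrCharacter G) := irrFintype
  have hxC : x ∈ C := by
    rw [hC]
    exact Subgroup.mem_centralizer_iff.mpr (fun h hh => by rw [Set.mem_singleton_iff.mp hh])
  have hcent : ∀ c ∈ C, c * x = x * c := by
    intro c hc
    rw [hC] at hc
    exact (Subgroup.mem_centralizer_iff.mp hc x rfl).symm
  have hxc : orderOf (⟨x, hxC⟩ : C) = 2 := by
    rw [← hx]
    exact Subgroup.orderOf_mk x hxC
  have hcen : (⟨x, hxC⟩ : C) ∈ Subgroup.center C := by
    apply Subgroup.mem_center_iff.mpr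
    intro c
    exact Subtype.ext (hcent c c.2)
  have hDb := defect_of_induced hM x hx B hB hBD C hxC hcent b hb
  have hbb : IsPBlock M b := hb.1
  obtain ⟨θ', hne, hbs, hdeg, hlam', hlamθ, hreg⟩ :=
    central_two hM (⟨x, hxC⟩ : C) hxc hcen b hbb hDb θ hθ (hθx _ rfl)
  have hCz : C = Subgroup.centralizer ((Subgroup.zpowers x : Subgroup G) : Set G) :=
    hC.trans (Brauer.centralizer_singleton_eq x)
  have huniq : ∀ b' : Set (IrrCharacter C), IsInducedBlock M C b' B → b' = b :=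
    fun b' hb' => induced_unique_gen hM B hB (Subgroup.zpowers x) hBD
      (normalizer_le_centralizer_two hx) C hCz b' b hb' hb
  have hxpow : ∃ k : ℕ, orderOf x = 2 ^ k := ⟨1, by rw [hx, pow_one]⟩
  have hxx : x * x = 1 := sq_two hx
  have hθ1 := CharBasic.irr_one_ne_zero θ.2
  have h1reg : ¬ 2 ∣ orderOf (1 : C) := by
    rw [orderOf_one]
    norm_num
  have hdec : ∀ χ : IrrCharacter G, ∃ d : ℤ, χ ∈ B → ∀ s : C, ¬ 2 ∣ orderOf s →
      (χ : G → ℂ) (x * (s : G)) = (d : ℂ) * (θ : C → ℂ) s := by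
    intro χ
    by_cases hχ : χ ∈ B
    swap
    · exact ⟨0, fun h => absurd h hχ⟩
    obtain ⟨ψ, hψ⟩ : ∃ ψ : C → ℂ, ψ = fun c : C => (χ : G → ℂ) (x * (c : G)) := ⟨_, rfl⟩
    have hψcl : IsClassFunction C ψ := by
      rw [hψ]
      exact Subsec.shift_cf_gen χ C x (fun c => hcent c c.2)
    have hres : IsCharacter C (fun c : C => (χ : G → ℂ) c) :=
      Cfsg.Agent.Lib.Helper1.IsCharacter.restrict (CharBasic.isCharacter_of_irr χ.2) C
    obtain ⟨m, hm⟩ := Cfsg.Agent.Lib.Helper1.IsCharacter.classInner_irr_nat hres θ.2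
    obtain ⟨m', hm'⟩ := Cfsg.Agent.Lib.Helper1.IsCharacter.classInner_irr_nat hres θ'.2
    refine ⟨(m : ℤ) - (m' : ℤ), fun _ s hs => ?_⟩
    obtain ⟨Bl, hBl⟩ := Subsec.exists_blocks M C
    have hfinIrrC : Fintype (IrrCharacter C) := irrFintype
    have h1 := Subsec.sum_blockPart hmax Bl hBl hψcl s
    rw [Finset.sum_eq_single b] at h1
    · rw [blockPart_apply, hbs, finsum_mem_pair hne.symm] at h1
      have e1 : classInner ψ (θ : C → ℂ) = (m : ℂ) := by
        rw [hψ, shift_inner C x hxC hxx hcen (χ : G → ℂ) θ (by rw [hlamθ, map_one]), hlamθ,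
          one_mul, hm]
      have e2 : classInner ψ (θ' : C → ℂ) = -(m' : ℂ) := by
        rw [hψ, shift_inner C x hxC hxx hcen (χ : G → ℂ) θ'
          (by rw [hlam', map_neg, map_one]), hlam', hm']
        ring
      rw [e1, e2, hreg s hs] at h1
      have h2 : ψ s = (χ : G → ℂ) (x * (s : G)) := by rw [hψ]
      rw [← h2, ← h1]
      push_cast
      ring
    · intro b' hb'mem hb'ne
      rw [hψ]
      exact second_main_gen hM x hxpow B hB χ hχ C hC b' ((hBl b').mp hb'mem)
        (fun hind => hb'ne (huniq b' hind)) s hs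
    · intro h
      exact absurd ((hBl b).mpr hbb) h
  choose d hd using hdec
  refine ⟨d, hd, ?_, ?_⟩
  · have hTF : ∀ b' : Set (IrrCharacter C), b' ∈ ({b} : Finset (Set (IrrCharacter C)))
        ↔ IsInducedBlock M C b' B := by
      intro b'
      rw [Finset.mem_singleton]
      exact ⟨fun h => h ▸ hb, huniq b'⟩
    have h2 := section_orth_gen hM x hxpow B hB C hC {b} hTF 1 1 h1reg h1reg
    rw [Finset.sum_singleton, hbs, finsum_mem_pair hne.symm, inv_one, hdeg] at h2
    have hxinv : (x * ((1 : C) : G))⁻¹ = x * ((1 : C) : G) := by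
      rw [OneMemClass.coe_one, mul_one]
      exact inv_eq_of_mul_eq_one_left hxx
    have h3 : ∑ᶠ χ ∈ B, (χ : G → ℂ) (x * ((1 : C) : G))
          * (χ : G → ℂ) (x * ((1 : C) : G))⁻¹
        = ∑ᶠ χ ∈ B, ((d χ : ℂ)) ^ 2 * ((θ : C → ℂ) 1 * (θ : C → ℂ) 1) := by
      apply finsum_mem_congr rfl
      intro χ hχ
      rw [hxinv, hd χ hχ 1 h1reg]
      ring
    rw [h3, Subsec.fs] at h2
    rw [Subsec.fs]
    have h4 : (∑ χ : IrrCharacter G, if χ ∈ B then ((d χ : ℂ)) ^ 2 else 0)
          * ((θ : C → ℂ) 1 * (θ : C → ℂ) 1)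
        = 2 * ((θ : C → ℂ) 1 * (θ : C → ℂ) 1) := by
      rw [Finset.sum_mul, two_mul, ← h2]
      apply Finset.sum_congr rfl
      intro χ _
      by_cases hχ : χ ∈ B
      · rw [if_pos hχ, if_pos hχ]
      · rw [if_neg hχ, if_neg hχ, zero_mul]
    exact mul_right_cancel₀ (mul_ne_zero hθ1 hθ1) h4
  · intro χ hχ hd0
    obtain ⟨y, hy, P, hP⟩ := hBD
    have hxP : x ∈ (P : Subgroup (Subgroup.centralizer ({y} : Set G))).map
        (Subgroup.centralizer ({y} : Set G)).subtype := by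
      rw [← hP]
      exact Subgroup.mem_zpowers x
    obtain ⟨x', hx'P, hx'x⟩ := hxP
    have e : (x' : G) = x := hx'x
    have hcomm : ∀ w ∈ (P : Subgroup (Subgroup.centralizer ({y} : Set G))),
        x' * w = w * x' := by
      intro w hw
      have hw' : (w : G) ∈ Subgroup.zpowers x := by
        rw [hP]
        exact ⟨w, hw, rfl⟩
      apply Subtype.ext
      show (x' : G) * (w : G) = (w : G) * (x' : G)
      rw [e]
      rcases zp_two hx _ hw' with h | h
      · rw [h, mul_one, one_mul]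
      · rw [h]
    have h0927 := (Cfsg.Agent.S0927.result 2 M hM B hB y hy P x' hx'P).2 hcomm χ hχ
    rw [e] at h0927
    have hyC : y ∈ C := by
      rw [hC]
      apply Subgroup.mem_centralizer_iff.mpr
      intro h hh
      rw [Set.mem_singleton_iff.mp hh]
      have h1 := Subgroup.mem_centralizer_iff.mp x'.2 y rfl
      rw [e] at h1
      exact h1.symm
    have hyreg : ¬ 2 ∣ orderOf y := by
      intro hdvd
      apply hy.2.1
      rw [Defect.blockCoeff_eq_zero_of_singular hM B hB y hdvd]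
      exact memLocalIdeal_zero hmax
    have hyreg' : ¬ 2 ∣ orderOf (⟨y, hyC⟩ : C) := by
      rw [Subgroup.orderOf_mk]
      exact hyreg
    have h5 := hd χ hχ ⟨y, hyC⟩ hyreg'
    rw [hd0, Int.cast_zero, zero_mul] at h5
    apply h0927
    have h6 : centralChar (χ : G → ℂ) (x * y) = 0 := by
      show ((Subgroup.centralizer ({x * y} : Set G)).index : ℂ) * (χ : G → ℂ) (x * y)
        / (χ : G → ℂ) 1 = 0
      rw [h5, mul_zero, zero_div]
    rw [h6]
    exact memLocalIdeal_zero hmax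

end Cfsg.Agent.Lib.Helper24.TwoDef
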