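import Mathlib
import Cfsg.Agent.Lib.Helper24.TwoDefC

set_option autoImplicit false

namespace Cfsg.Agent.Lib.Helper24.TwoDef

open Cfsg Cfsg.Agent.Lib.Helper1 Cfsg.Agent.Lib.Helper6 Cfsg.Agent.Lib.Helper24
open scoped ComplexConjugate

universe u

variable {G : Type u} [Group G] [Fintype G] {M : Ideal AlgInt}

theorem two_final (hM : IsPModular 2 M) (x : G) (hx : orderOf x = 2)
    (B : Set (IrrCharacter G)) (hB : IsPBlock M B)
    (hBD : IsDefectGroup 2 M B (Subgroup.zpowers x))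
    (C : Subgroup G) (hC : C = Subgroup.centralizer ({x} : Set G))
    (b : Set (IrrCharacter C)) (hb : IsInducedBlock M C b B)
    (θ : IrrCharacter C) (hθ : θ ∈ b)
    (hθx : ∀ z : C, (z : G) = x → (θ : C → ℂ) z = (θ : C → ℂ) 1) :
    Nat.card B = 2 ∧
      (∀ χ ∈ B, ∀ ψ ∈ B, ∀ g : G, ¬ 2 ∣ orderOf g → (χ : G → ℂ) g = (ψ : G → ℂ) g) ∧
      ∃ χ₁ ∈ B, ∃ χ₂ ∈ B, χ₁ ≠ χ₂ ∧ ∃ ε₁ ε₂ : ℤ, (ε₁ = 1 ∨ ε₁ = -1) ∧ (ε₂ = 1 ∨ ε₂ = -1) ∧
        ε₁ * ε₂ = -1 ∧ ∀ y : C, ¬ 2 ∣ orderOf y →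
          (χ₁ : G → ℂ) (x * y) = (ε₁ : ℂ) * (θ : C → ℂ) y ∧
          (χ₂ : G → ℂ) (x * y) = (ε₂ : ℂ) * (θ : C → ℂ) y := by
  classical
  have hmax := hM.2.1
  have hfinIrr : Fintype (IrrCharacter G) := irrFintype
  obtain ⟨d, hd, hsum, hd0⟩ := two_core hM x hx B hB hBD C hC b hb θ hθ hθx
  have hθ1 := CharBasic.irr_one_ne_zero θ.2
  obtain ⟨S, hSdef⟩ : ∃ S : Finset (IrrCharacter G),
      S = Finset.univ.filter (fun χ => χ ∈ B) := ⟨_, rfl⟩
  have hS : ∀ χ, χ ∈ S ↔ χ ∈ B := by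
    intro χ
    rw [hSdef, Finset.mem_filter]
    exact ⟨fun h => h.2, fun h => ⟨Finset.mem_univ _, h⟩⟩
  have hsumC : ∑ χ ∈ S, ((d χ : ℂ)) ^ 2 = 2 := by
    rw [hSdef, Finset.sum_filter, ← Subsec.fs]
    exact hsum
  have hsumZ : ∑ χ ∈ S, (d χ) ^ 2 = 2 := by exact_mod_cast hsumC
  have hge : ∀ χ ∈ S, 1 ≤ (d χ) ^ 2 := by
    intro χ hχ
    have h0 := hd0 χ ((hS χ).mp hχ)
    have h1 : 0 < (d χ) ^ 2 := by positivity
    omega
  have hcard_le : S.card ≤ 2 := by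
    have h1 : ∑ χ ∈ S, (1 : ℤ) ≤ ∑ χ ∈ S, (d χ) ^ 2 := Finset.sum_le_sum hge
    rw [hsumZ, Finset.sum_const, nsmul_eq_mul, mul_one] at h1
    exact_mod_cast h1
  have hcard : S.card = 2 := by
    rcases Nat.lt_or_ge S.card 2 with hlt | hge2
    · exfalso
      rcases Nat.lt_or_ge S.card 1 with hlt1 | hge1
      · have hc : S.card = 0 := by omega
        rw [Finset.card_eq_zero.mp hc, Finset.sum_empty] at hsumZ
        norm_num at hsumZ
      · have hc : S.card = 1 := by omega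
        obtain ⟨χ, hχ⟩ := Finset.card_eq_one.mp hc
        rw [hχ, Finset.sum_singleton] at hsumZ
        have h1 : d χ < 2 := by nlinarith
        have h2 : -2 < d χ := by nlinarith
        interval_cases (d χ) <;> norm_num at hsumZ
    · omega
  obtain ⟨χ₁, χ₂, hne, hS2⟩ := Finset.card_eq_two.mp hcard
  have hm₁ : χ₁ ∈ S := by
    rw [hS2]
    exact Finset.mem_insert_self _ _
  have hm₂ : χ₂ ∈ S := by
    rw [hS2]
    exact Finset.mem_insert_of_mem (Finset.mem_singleton_self _)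
  have h₁ : χ₁ ∈ B := (hS χ₁).mp hm₁
  have h₂ : χ₂ ∈ B := (hS χ₂).mp hm₂
  have hBpair : B = {χ₁, χ₂} := by
    ext χ
    rw [← hS χ, hS2, Finset.mem_insert, Finset.mem_singleton, Set.mem_insert_iff,
      Set.mem_singleton_iff]
  have hg1 := hge χ₁ hm₁
  have hg2 := hge χ₂ hm₂
  rw [hS2, Finset.sum_pair hne] at hsumZ
  have hsq1 : (d χ₁) ^ 2 = 1 := by omega
  have hsq2 : (d χ₂) ^ 2 = 1 := by omega
  have hpm1 : d χ₁ = 1 ∨ d χ₁ = -1 := by
    rw [pow_two] at hsq1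
    exact mul_self_eq_one_iff.mp hsq1
  have hpm2 : d χ₂ = 1 ∨ d χ₂ = -1 := by
    rw [pow_two] at hsq2
    exact mul_self_eq_one_iff.mp hsq2
  have hxinv : x⁻¹ = x := inv_eq_of_mul_eq_one_left (sq_two hx)
  have h1regC : ¬ 2 ∣ orderOf (1 : C) := by
    rw [orderOf_one]
    norm_num
  have h1regG : ¬ 2 ∣ orderOf (1 : G) := by
    rw [orderOf_one]
    norm_num
  have hchix : ∀ χ ∈ B, (χ : G → ℂ) x = (d χ : ℂ) * (θ : C → ℂ) 1 := by
    intro χ hχ
    have h := hd χ hχ 1 h1regC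
    rw [OneMemClass.coe_one, mul_one] at h
    exact h
  have horth : ∀ g : G, ¬ 2 ∣ orderOf g →
      (d χ₁ : ℂ) * (χ₁ : G → ℂ) g + (d χ₂ : ℂ) * (χ₂ : G → ℂ) g = 0 := by
    intro g hg
    have hp1 : IsPPart 2 g 1 :=
      ⟨g, one_mul g, Commute.one_left g, ⟨0, by rw [orderOf_one, pow_zero]⟩, hg⟩
    have hp2 : IsPPart 2 x x :=
      ⟨1, mul_one x, Commute.one_right x, ⟨1, by rw [hx, pow_one]⟩, h1regG⟩
    have hnc : ¬ IsConj (1 : G) x := by
      rw [isConj_one_right]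
      exact ne_one_two hx
    have h := SecondMain.block_orth hM g x 1 x hp1 hp2 hnc B hB
    rw [hBpair, finsum_mem_pair hne, hxinv, hchix χ₁ h₁, hchix χ₂ h₂] at h
    have h' : ((d χ₁ : ℂ) * (χ₁ : G → ℂ) g + (d χ₂ : ℂ) * (χ₂ : G → ℂ) g)
        * (θ : C → ℂ) 1 = 0 := by
      linear_combination h
    rcases mul_eq_zero.mp h' with h0 | h0
    · exact h0
    · exact absurd h0 hθ1
  have hdeg := horth 1 h1regG
  have hn₁ := CharBasic.char_one_nat (CharBasic.isCharacter_of_irr χ₁.2)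
  have hn₂ := CharBasic.char_one_nat (CharBasic.isCharacter_of_irr χ₂.2)
  have hn₁0 : charDegree (χ₁ : G → ℂ) ≠ 0 := by
    intro h0
    apply CharBasic.irr_one_ne_zero χ₁.2
    rw [hn₁, h0, Nat.cast_zero]
  rw [hn₁, hn₂] at hdeg
  have hprod : d χ₁ * d χ₂ = -1 := by
    rcases hpm1 with h | h <;> rcases hpm2 with h' | h'
    · exfalso
      rw [h, h'] at hdeg
      have h3 : ((charDegree (χ₁ : G → ℂ) + charDegree (χ₂ : G → ℂ) : ℕ) : ℂ) = 0 := by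
        push_cast
        push_cast at hdeg
        linear_combination hdeg
      have h4 := Nat.cast_eq_zero.mp h3
      omega
    · rw [h, h']
      norm_num
    · rw [h, h']
      norm_num
    · exfalso
      rw [h, h'] at hdeg
      have h3 : ((charDegree (χ₁ : G → ℂ) + charDegree (χ₂ : G → ℂ) : ℕ) : ℂ) = 0 := by
        push_cast
        push_cast at hdeg
        linear_combination -hdeg
      have h4 := Nat.cast_eq_zero.mp h3
      omega
  have hsq1C : (d χ₁ : ℂ) ^ 2 = 1 := by exact_mod_cast hsq1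
  have hprodC : (d χ₁ : ℂ) * (d χ₂ : ℂ) = -1 := by exact_mod_cast hprod
  have hall : ∀ g : G, ¬ 2 ∣ orderOf g → (χ₁ : G → ℂ) g = (χ₂ : G → ℂ) g := by
    intro g hg
    have E := horth g hg
    linear_combination (d χ₁ : ℂ) * E - (χ₁ : G → ℂ) g * hsq1C - (χ₂ : G → ℂ) g * hprodC
  refine ⟨?_, ?_, χ₁, h₁, χ₂, h₂, hne, d χ₁, d χ₂, hpm1, hpm2, hprod,
    fun y hy => ⟨hd χ₁ h₁ y hy, hd χ₂ h₂ y hy⟩⟩
  · have hBS : B = (↑S : Set (IrrCharacter G)) := by
      ext χ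
      exact (hS χ).symm
    rw [hBS, Nat.card_coe_set_eq, Set.ncard_coe_finset, hcard]
  · intro χ hχ ψ hψ g hg
    rw [hBpair] at hχ hψ
    rcases Set.mem_insert_iff.mp hχ with h | h <;> rcases Set.mem_insert_iff.mp hψ with h' | h'
    · rw [h, h']
    · rw [h, Set.mem_singleton_iff.mp h']
      exact hall g hg
    · rw [Set.mem_singleton_iff.mp h, h']
      exact (hall g hg).symm
    · rw [Set.mem_singleton_iff.mp h, Set.mem_singleton_iff.mp h']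

end Cfsg.Agent.Lib.Helper24.TwoDef
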