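import Mathlib
import Cfsg.Agent.Lib.Helper24.TwoDefD
import Cfsg.Agent.Lib.Helper24.QuotDef2
import Cfsg.Agent.Lib.Helper24.PrinRank
import Cfsg.Agent.Lib.Helper24.CentProd
import Cfsg.Agent.Lib.Helper24.Brauer22
import Cfsg.Agent.Lib.Helper6.Regular

set_option autoImplicit false

namespace Cfsg.Agent.Lib.Helper24.KF

open Cfsg Cfsg.Agent.Lib.Helper1 Cfsg.Agent.Lib.Helper6 Cfsg.Agent.Lib.Helper24
open scoped ComplexConjugate

universe u

theorem exists_regular_lift {K : Type u} [Group K] [Finite K] (z : K) (hz : orderOf z = 2)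
    (hzc : z ∈ Subgroup.center K) (N : Subgroup K) [hNn : N.Normal]
    (hN : ∀ n ∈ N, n = 1 ∨ n = z) (hzN : z ∈ N)
    (gb : K ⧸ N) (hgb : ¬ 2 ∣ orderOf gb) :
    ∃ g : K, (g : K ⧸ N) = gb ∧ ¬ 2 ∣ orderOf g := by
  obtain ⟨g₀, rfl⟩ := QuotientGroup.mk_surjective gb
  obtain ⟨m, hm⟩ : ∃ m : ℕ, m = orderOf (g₀ : K ⧸ N) := ⟨_, rfl⟩
  rw [← hm] at hgb
  have hpow : g₀ ^ m ∈ N := by
    apply (QuotientGroup.eq_one_iff (g₀ ^ m)).mp
    rw [QuotientGroup.mk_pow, hm, pow_orderOf_eq_one]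
  rcases hN _ hpow with h | h
  · exact ⟨g₀, rfl, fun hd => hgb (dvd_trans hd (orderOf_dvd_of_pow_eq_one h))⟩
  · refine ⟨g₀ * z, ?_, ?_⟩
    · rw [QuotientGroup.mk_mul, (QuotientGroup.eq_one_iff z).mpr hzN, mul_one]
    · have hzz : z * z = 1 := TwoDef.sq_two hz
      have hc : Commute g₀ z := Subgroup.mem_center_iff.mp hzc g₀
      obtain ⟨k, hk⟩ : ∃ k : ℕ, m = 2 * k + 1 := ⟨m / 2, by omega⟩
      have hzm : z ^ m = z := by
        rw [hk, pow_succ, pow_mul, pow_two, hzz, one_pow, one_mul]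
      have h1 : (g₀ * z) ^ m = 1 := by
        rw [hc.mul_pow, h, hzm, hzz]
      exact fun hd => hgb (dvd_trans hd (orderOf_dvd_of_pow_eq_one h1))

theorem rank_one_central {K : Type u} [Group K] [Fintype K] {M : Ideal AlgInt}
    (hM : IsPModular 2 M) (z : K) (hz : orderOf z = 2) (hzc : z ∈ Subgroup.center K)
    (b : Set (IrrCharacter K)) (hb : IsPBlock M b) (D : Subgroup K)
    (hD : IsDefectGroup 2 M b D) (hD4 : Nat.card D = 4) :
    blockRank 2 b = 1 := by
  classical
  haveI hp2 : Fact (Nat.Prime 2) := ⟨Nat.prime_two⟩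
  have hmax := hM.2.1
  have hfinIrr : Fintype (IrrCharacter K) := irrFintype
  have hzz : z * z = 1 := TwoDef.sq_two hz
  have hz1 : z ≠ 1 := TwoDef.ne_one_two hz
  have hcomm : ∀ g : K, g * z = z * g := fun g => Subgroup.mem_center_iff.mp hzc g
  obtain ⟨N, hNdef⟩ : ∃ N : Subgroup K, N = Subgroup.zpowers z := ⟨_, rfl⟩
  have hNmem : ∀ n : K, n ∈ N → n = 1 ∨ n = z := by
    intro n hn
    rw [hNdef] at hn
    exact TwoDef.zp_two hz n hn
  have hzN : z ∈ N := by
    rw [hNdef]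
    exact Subgroup.mem_zpowers z
  haveI hNn : N.Normal := ⟨fun n hn g => by
    rcases hNmem n hn with h | h
    · rw [h, mul_one, mul_inv_cancel]
      exact N.one_mem
    · rw [h, hcomm g, mul_inv_cancel_right]
      exact hzN⟩
  have hNcard : Nat.card N = 2 := by rw [hNdef, Nat.card_zpowers, hz]
  have hNp : IsPGroup 2 N := IsPGroup.of_card (n := 1) (by rw [hNcard, pow_one])
  haveI hfinQ : Fintype (K ⧸ N) := Fintype.ofFinite _
  obtain ⟨Bb, hBb, hinfl, hdefq⟩ := QuotDef.quot_block hM N hNp b hb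
  have hND : N ≤ D := QuotDef.normal_le_defectGroup hM N hNp b hb D hD
  obtain ⟨Db, hDbdef⟩ : ∃ Db : Subgroup (K ⧸ N), Db = D.map (QuotientGroup.mk' N) := ⟨_, rfl⟩
  have hDbdef' : IsDefectGroup 2 M Bb Db := (hdefq Db).mpr ⟨D, hD, hDbdef⟩
  have hDbcard : Nat.card Db = 2 := by
    obtain ⟨φ, hφ⟩ : ∃ φ : D →* (D.map (QuotientGroup.mk' N)),
        φ = (QuotientGroup.mk' N).subgroupMap D := ⟨_, rfl⟩
    have hsurj : Function.Surjective φ := by
      rw [hφ]
      exact MonoidHom.subgroupMap_surjective _ _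
    have hker : φ.ker = N.subgroupOf D := by
      ext d
      rw [MonoidHom.mem_ker, Subgroup.mem_subgroupOf, hφ]
      constructor
      · intro h
        have h1 : (QuotientGroup.mk' N) (d : K) = 1 := congrArg Subtype.val h
        exact (QuotientGroup.eq_one_iff (d : K)).mp h1
      · intro h
        apply Subtype.ext
        exact (QuotientGroup.eq_one_iff (d : K)).mpr h
    have h1 : φ.ker.index = Nat.card (D.map (QuotientGroup.mk' N)) := by
      rw [Subgroup.index_ker, MonoidHom.range_eq_top.mpr hsurj]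
      exact Subgroup.card_top
    have h2 := Subgroup.index_mul_card φ.ker
    have h3 : Nat.card φ.ker = 2 := by
      rw [hker, Nat.card_congr (Subgroup.subgroupOfEquivOfLe hND).toEquiv, hNcard]
    rw [h1, h3, hD4] at h2
    rw [hDbdef]
    omega
  obtain ⟨xb, hxbD, hxb1⟩ : ∃ xb ∈ Db, xb ≠ 1 := by
    by_contra hno
    push Not at hno
    have hbot : Db = ⊥ := (Subgroup.eq_bot_iff_forall Db).mpr hno
    rw [hbot, Subgroup.card_bot] at hDbcard
    omega
  have hxb2 : orderOf xb = 2 := by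
    have h1 : orderOf xb ∣ 2 := by
      rw [← hDbcard]
      exact Subgroup.orderOf_dvd_natCard Db hxbD
    rcases (Nat.dvd_prime Nat.prime_two).mp h1 with h | h
    · exact absurd (orderOf_eq_one_iff.mp h) hxb1
    · exact h
  have hDbz : Subgroup.zpowers xb = Db := by
    apply Subgroup.eq_of_le_of_card_ge (Subgroup.zpowers_le.mpr hxbD)
    rw [Nat.card_zpowers, hxb2, hDbcard]
  have hBD : IsDefectGroup 2 M Bb (Subgroup.zpowers xb) := by
    rw [hDbz]
    exact hDbdef'
  obtain ⟨e, hemax⟩ := Brauer.exists_maximal_of_defect hM Bb hBb (Subgroup.zpowers xb) hBD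
  have hxbP : IsPGroup 2 (Subgroup.zpowers xb) :=
    IsPGroup.of_card (n := 1) (by rw [Nat.card_zpowers, hxb2, pow_one])
  have hind : IsInducedBlock M
      (Subgroup.centralizer ((Subgroup.zpowers xb : Subgroup (K ⧸ N)) : Set (K ⧸ N))) e Bb :=
    (Brauer.induced_centralizer_iff hM (Subgroup.zpowers xb) hxbP e Bb).mpr hemax.1
  have hxC : xb ∈ Subgroup.centralizer
      ((Subgroup.zpowers xb : Subgroup (K ⧸ N)) : Set (K ⧸ N)) := by
    rw [← Brauer.centralizer_singleton_eq]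
    exact Subgroup.mem_centralizer_iff.mpr (fun h hh => by rw [Set.mem_singleton_iff.mp hh])
  have hcent : ∀ c ∈ Subgroup.centralizer
      ((Subgroup.zpowers xb : Subgroup (K ⧸ N)) : Set (K ⧸ N)), c * xb = xb * c := by
    intro c hc
    exact (Subgroup.mem_centralizer_iff.mp hc xb (Subgroup.mem_zpowers xb)).symm
  have hDe := TwoDef.defect_of_induced hM xb hxb2 Bb hBb hBD _ hxC hcent e hind
  have hZc : Subgroup.zpowers (⟨xb, hxC⟩ : Subgroup.centralizer
      ((Subgroup.zpowers xb : Subgroup (K ⧸ N)) : Set (K ⧸ N))) ≤ Subgroup.center _ :=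
    Subgroup.zpowers_le.mpr (Subgroup.mem_center_iff.mpr (fun c => Subtype.ext (hcent c c.2)))
  obtain ⟨θ, hθ, hθlam⟩ := CentProd.exists_lam_eq hM e hind.1 _ hDe hZc (fun _ => 1) rfl
    (fun _ _ _ _ => (mul_one 1).symm)
  have hθx : ∀ z' : Subgroup.centralizer
      ((Subgroup.zpowers xb : Subgroup (K ⧸ N)) : Set (K ⧸ N)), (z' : K ⧸ N) = xb →
      θ.1 z' = θ.1 1 := by
    intro z' hz'
    have h1 := hθlam ⟨xb, hxC⟩ (Subgroup.mem_zpowers _)
    have h2 : z' = ⟨xb, hxC⟩ := Subtype.ext hz'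
    rw [h2]
    exact (div_eq_one_iff_eq (CharBasic.irr_one_ne_zero θ.2)).mp h1
  obtain ⟨-, hagree, -⟩ := TwoDef.two_final hM xb hxb2 Bb hBb hBD _
    (Brauer.centralizer_singleton_eq xb).symm e hind θ hθ hθx
  obtain ⟨χb₁, hχb₁⟩ := Defect.block_nonempty hmax Bb hBb
  obtain ⟨χ₁, hχ₁def⟩ : ∃ χ₁ : IrrCharacter K, χ₁ = PrinQuot.infl N χb₁ := ⟨_, rfl⟩
  have hχ₁val : ∀ g : K, χ₁.1 g = χb₁.1 (g : K ⧸ N) := by
    intro g
    rw [hχ₁def]
    rfl
  have h₁ : χ₁ ∈ b := hinfl χb₁ hχb₁ χ₁ (funext hχ₁val)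
  have hlam : ∀ χ : IrrCharacter K, CentralDef.lam χ.1 z = 1 ∨ CentralDef.lam χ.1 z = -1 := by
    intro χ
    have h1 := CentralDef.lam_mul χ hzc z
    rw [hzz, CentralDef.lam_one] at h1
    exact mul_self_eq_one_iff.mp h1.symm
  have hshift : ∀ (χ : IrrCharacter K) (g : K),
      χ.1 (z * g) = CentralDef.lam χ.1 z * χ.1 g :=
    fun χ => (CentralDef.lam_spec χ hzc).2
  have h1regK : ¬ 2 ∣ orderOf (1 : K) := by
    rw [orderOf_one]
    norm_num
  have hplus : ∀ χ ∈ b, CentralDef.lam χ.1 z = 1 → ∀ s : K, ¬ 2 ∣ orderOf s →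
      χ.1 s = χ₁.1 s := by
    intro χ hχ hl s hs
    have hχ1 := CharBasic.irr_one_ne_zero χ.2
    have hχz : χ.1 z = χ.1 1 := (div_eq_one_iff_eq hχ1).mp hl
    have hker : ∀ n ∈ N, χ.1 n = χ.1 1 := by
      intro n hn
      rcases hNmem n hn with h | h
      · rw [h]
      · rw [h, hχz]
    obtain ⟨ψb, hψb, hψbval⟩ := CharQuot.irr_quotient N χ.2 hker
    obtain ⟨χb, hχbdef⟩ : ∃ χb : IrrCharacter (K ⧸ N), χb = ⟨ψb, hψb⟩ := ⟨_, rfl⟩
    have hχbval : ∀ g : K, χb.1 (g : K ⧸ N) = χ.1 g := by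
      intro g
      rw [hχbdef]
      exact hψbval g
    have hsb : SameBlock M (χb₁ : K ⧸ N → ℂ) (χb : K ⧸ N → ℂ) := by
      apply sameBlock_of_regular hM χb₁ χb
      intro gb hgb
      obtain ⟨g, rfl, hg⟩ := exists_regular_lift z hz hzc N hNmem hzN gb hgb
      have e1 := QuotDef.centralChar_inflate N χb₁.1 g
      have e2 := QuotDef.centralChar_inflate N χb.1 g
      have hr : (Subgroup.centralizer ({g} : Set K)).relIndex
          ((Subgroup.centralizer ({(g : K ⧸ N)} : Set (K ⧸ N))).comap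
            (QuotientGroup.mk' N)) = 1 := by
        apply Subgroup.relIndex_eq_one.mpr
        intro h hh
        rw [Subgroup.mem_comap, Subgroup.mem_centralizer_iff] at hh
        have h1 := hh (g : K ⧸ N) rfl
        have h2 : ((g * h : K) : K ⧸ N) = ((h * g : K) : K ⧸ N) := h1
        have h3 : (g * h)⁻¹ * (h * g) ∈ N := QuotientGroup.eq.mp h2
        rw [Subgroup.mem_centralizer_iff]
        intro y hy
        rw [Set.mem_singleton_iff.mp hy]
        rcases hNmem _ h3 with h4 | h4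
        · exact inv_mul_eq_one.mp h4
        · exfalso
          have h5 : h * g = g * h * z := by
            rw [← h4]
            group
          have h6 : h * g * h⁻¹ = g * z := by
            calc h * g * h⁻¹ = g * h * z * h⁻¹ := by rw [h5]
              _ = g * (h * z) * h⁻¹ := by group
              _ = g * (z * h) * h⁻¹ := by rw [hcomm h]
              _ = g * z := by group
          have h7 : orderOf (g * z) = orderOf g := by
            rw [← h6]
            exact Subsec.orderOf_conj' h g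
          have h8 : (g * z) ^ orderOf g = 1 := by
            rw [← h7]
            exact pow_orderOf_eq_one _
          rw [(show Commute g z from hcomm g).mul_pow, pow_orderOf_eq_one, one_mul] at h8
          exact hg (by
            rw [← hz]
            exact orderOf_dvd_of_pow_eq_one h8)
      rw [hr, Nat.cast_one, one_mul] at e1 e2
      have e3 : centralChar (χ₁ : K → ℂ) g = centralChar (χb₁ : K ⧸ N → ℂ) (g : K ⧸ N) := by
        rw [← e1]
        exact congrArg (fun f => centralChar f g) (funext hχ₁val)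
      have e4 : centralChar (χ : K → ℂ) g = centralChar (χb : K ⧸ N → ℂ) (g : K ⧸ N) := by
        rw [← e2]
        exact congrArg (fun f => centralChar f g) (funext (fun k => (hχbval k).symm))
      rw [← e3, ← e4]
      exact Defect.sameBlock_of_mem hmax b hb h₁ hχ g
    have hχbB : χb ∈ Bb := by
      rw [Defect.block_eq_blockOf hmax Bb hBb hχb₁]
      exact hsb
    have hsreg : ¬ 2 ∣ orderOf (s : K ⧸ N) :=
      fun hd => hs (dvd_trans hd (PrinRank.orderOf_mk_dvd N s))
    have h5 := hagree χb hχbB χb₁ hχb₁ (s : K ⧸ N) hsreg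
    rw [hχbval] at h5
    rw [h5, hχ₁val]
  have hzinv : z⁻¹ = z := inv_eq_of_mul_eq_one_left hzz
  obtain ⟨F, hFdef⟩ : ∃ F : Finset (IrrCharacter K),
      F = Finset.univ.filter (fun χ => χ ∈ b) := ⟨_, rfl⟩
  have hF : ∀ χ, χ ∈ F ↔ χ ∈ b := by
    intro χ
    rw [hFdef, Finset.mem_filter]
    exact ⟨fun h => h.2, fun h => ⟨Finset.mem_univ _, h⟩⟩
  have horth : ∀ s t : K, ¬ 2 ∣ orderOf s → ¬ 2 ∣ orderOf t →
      ∑ χ ∈ F, CentralDef.lam χ.1 z * (χ.1 s * conj (χ.1 t)) = 0 := by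
    intro s t hs ht
    have hp1 : IsPPart 2 s 1 :=
      ⟨s, one_mul s, Commute.one_left s, ⟨0, by rw [orderOf_one, pow_zero]⟩, hs⟩
    have hp2 : IsPPart 2 (z * t) z :=
      ⟨t, rfl, (hcomm t).symm, ⟨1, by rw [hz, pow_one]⟩, ht⟩
    have hnc : ¬ IsConj (1 : K) z := by
      rw [isConj_one_right]
      exact hz1
    have h := SecondMain.block_orth hM s (z * t) 1 z hp1 hp2 hnc b hb
    rw [Defect.finsum_block_eq_sum, ← hFdef] at h
    refine (Finset.sum_congr rfl ?_).trans h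
    intro χ _
    have e1 : (z * t)⁻¹ = z * t⁻¹ := by rw [mul_inv_rev, hzinv, hcomm]
    rw [e1, hshift χ t⁻¹, CharBasic.char_inv (CharBasic.isCharacter_of_irr χ.2) t]
    ring
  have hχ₁1 := CharBasic.irr_one_ne_zero χ₁.2
  have hprop : ∀ χ ∈ b, ∀ s : K, ¬ 2 ∣ orderOf s →
      χ.1 s * χ₁.1 1 = χ.1 1 * χ₁.1 s := by
    intro χ' hχ' s hs
    obtain ⟨W, hWdef⟩ : ∃ W : IrrCharacter K → ℂ,
        W = fun χ => χ.1 s * χ₁.1 1 - χ.1 1 * χ₁.1 s := ⟨_, rfl⟩
    have hWv : ∀ χ, W χ = χ.1 s * χ₁.1 1 - χ.1 1 * χ₁.1 s := by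
      intro χ
      rw [hWdef]
    have hsum : ∑ χ ∈ F, CentralDef.lam χ.1 z * (W χ * conj (W χ)) = 0 := by
      have e : ∑ χ ∈ F, CentralDef.lam χ.1 z * (W χ * conj (W χ))
          = (χ₁.1 1 * conj (χ₁.1 1))
              * ∑ χ ∈ F, CentralDef.lam χ.1 z * (χ.1 s * conj (χ.1 s))
            - (χ₁.1 1 * conj (χ₁.1 s))
              * ∑ χ ∈ F, CentralDef.lam χ.1 z * (χ.1 s * conj (χ.1 1))
            - (χ₁.1 s * conj (χ₁.1 1))
              * ∑ χ ∈ F, CentralDef.lam χ.1 z * (χ.1 1 * conj (χ.1 s))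
            + (χ₁.1 s * conj (χ₁.1 s))
              * ∑ χ ∈ F, CentralDef.lam χ.1 z * (χ.1 1 * conj (χ.1 1)) := by
        rw [Finset.mul_sum, Finset.mul_sum, Finset.mul_sum, Finset.mul_sum,
          ← Finset.sum_sub_distrib, ← Finset.sum_sub_distrib, ← Finset.sum_add_distrib]
        apply Finset.sum_congr rfl
        intro χ _
        rw [hWv, map_sub, map_mul, map_mul]
        ring
      rw [e, horth s s hs hs, horth s 1 hs h1regK, horth 1 s h1regK hs,
        horth 1 1 h1regK h1regK]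
      ring
    have hterm : ∀ χ ∈ F, CentralDef.lam χ.1 z * (W χ * conj (W χ))
        = -((Complex.normSq (W χ) : ℝ) : ℂ) := by
      intro χ hχ
      rcases hlam χ with hl | hl
      · have h0 : W χ = 0 := by
          rw [hWv, hplus χ ((hF χ).mp hχ) hl s hs, hplus χ ((hF χ).mp hχ) hl 1 h1regK]
          ring
        rw [h0]
        simp
      · rw [hl, Complex.mul_conj]
        ring
    have hsumR : ∑ χ ∈ F, Complex.normSq (W χ) = 0 := by
      have h1 : ((∑ χ ∈ F, Complex.normSq (W χ) : ℝ) : ℂ) = 0 := by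
        rw [Complex.ofReal_sum]
        have h2 : ∑ χ ∈ F, ((Complex.normSq (W χ) : ℝ) : ℂ)
            = -∑ χ ∈ F, CentralDef.lam χ.1 z * (W χ * conj (W χ)) := by
          rw [← Finset.sum_neg_distrib]
          apply Finset.sum_congr rfl
          intro χ hχ
          rw [hterm χ hχ, neg_neg]
        rw [h2, hsum, neg_zero]
      exact_mod_cast h1
    have h0 := (Finset.sum_eq_zero_iff_of_nonneg
      (fun χ _ => Complex.normSq_nonneg (W χ))).mp hsumR χ' ((hF χ').mpr hχ')
    have h1 : W χ' = 0 := Complex.normSq_eq_zero.mp h0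
    rw [hWv] at h1
    exact sub_eq_zero.mp h1
  show Module.finrank ℂ ↥(Submodule.span ℂ
    ((fun χ : IrrCharacter K => pRegularPart 2 (χ : K → ℂ)) '' b)) = 1
  have hf0 : pRegularPart 2 (χ₁ : K → ℂ) ≠ 0 := by
    intro h0
    have h3 := congrFun h0 1
    rw [Trunc.pRegularPart_of_reg _ h1regK] at h3
    exact hχ₁1 h3
  have hspan : Submodule.span ℂ ((fun χ : IrrCharacter K => pRegularPart 2 (χ : K → ℂ)) '' b)
      = Submodule.span ℂ {pRegularPart 2 (χ₁ : K → ℂ)} := by
    apply le_antisymm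
    · rw [Submodule.span_le]
      rintro _ ⟨χ, hχ, rfl⟩
      have e : pRegularPart 2 (χ : K → ℂ)
          = (χ.1 1 / χ₁.1 1) • pRegularPart 2 (χ₁ : K → ℂ) := by
        funext g
        by_cases hg : 2 ∣ orderOf g
        · rw [Pi.smul_apply, Trunc.pRegularPart_of_sing _ hg, Trunc.pRegularPart_of_sing _ hg,
            smul_zero]
        · rw [Pi.smul_apply, Trunc.pRegularPart_of_reg _ hg, Trunc.pRegularPart_of_reg _ hg,
            smul_eq_mul]
          have h := hprop χ hχ g hg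
          field_simp
          linear_combination h
      show pRegularPart 2 (χ : K → ℂ) ∈ Submodule.span ℂ {pRegularPart 2 (χ₁ : K → ℂ)}
      rw [e]
      exact Submodule.smul_mem _ _ (Submodule.subset_span (Set.mem_singleton _))
    · rw [Submodule.span_le, Set.singleton_subset_iff]
      exact Submodule.subset_span ⟨χ₁, h₁, rfl⟩
  rw [hspan]
  exact finrank_span_singleton hf0

end Cfsg.Agent.Lib.Helper24.KF
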