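import Mathlib
import Cfsg.Agent.Lib.Helper24.CentralDef2

set_option autoImplicit false

namespace Cfsg.Agent.Lib.Helper24.RankOne

open Cfsg Cfsg.Agent.Lib.Helper1 Cfsg.Agent.Lib.Helper6 Cfsg.Agent.Lib.Helper24
open scoped ComplexConjugate

universe u

theorem exists_bezout {ι : Type*} [DecidableEq ι] (S : Finset ι) (f : ι → ℕ) :
    ∃ n : ι → ℤ, ∑ i ∈ S, n i * (f i : ℤ) = ((S.gcd f : ℕ) : ℤ) := by
  induction S using Finset.induction_on with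
  | empty => exact ⟨fun _ => 0, by simp⟩
  | insert a S ha ih =>
    obtain ⟨n, hn⟩ := ih
    obtain ⟨m, hm⟩ : ∃ m : ι → ℤ, m = fun i => if i = a then Nat.gcdA (f a) (S.gcd f)
      else Nat.gcdB (f a) (S.gcd f) * n i := ⟨_, rfl⟩
    have hma : m a = Nat.gcdA (f a) (S.gcd f) := by
      rw [hm]
      exact if_pos rfl
    have hmi : ∀ i ∈ S, m i = Nat.gcdB (f a) (S.gcd f) * n i := by
      intro i hi
      rw [hm]
      have hne : i ≠ a := fun h => ha (h ▸ hi)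
      exact if_neg hne
    refine ⟨m, ?_⟩
    rw [Finset.sum_insert ha, Finset.gcd_insert, hma]
    have h1 : ∑ i ∈ S, m i * (f i : ℤ)
        = Nat.gcdB (f a) (S.gcd f) * ∑ i ∈ S, n i * (f i : ℤ) := by
      rw [Finset.mul_sum]
      apply Finset.sum_congr rfl
      intro i hi
      rw [hmi i hi]
      ring
    rw [h1, hn, gcd_eq_nat_gcd, Nat.gcd_eq_gcd_ab (f a) (S.gcd f)]
    ring

variable {G : Type u} [Group G] [Fintype G] {M : Ideal AlgInt}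

theorem rank_one_cartan {p : ℕ} [Fact p.Prime] (hM : IsPModular p M)
    (B : Set (IrrCharacter G)) (hB : IsPBlock M B) (P : Subgroup G)
    (hP : IsDefectGroup p M B P) (hl : blockRank p B = 1) :
    ∃ φ : G → ℂ, ∃ d : IrrCharacter G → ℕ,
      (∃ n : IrrCharacter G → ℤ, ∀ x : G, IsPRegular p x →
        φ x = ∑ᶠ ψ ∈ B, (n ψ : ℂ) * (ψ : G → ℂ) x) ∧
      (∀ χ ∈ B, ∀ x : G, IsPRegular p x → (χ : G → ℂ) x = (d χ : ℂ) * φ x) ∧
      ∑ᶠ χ ∈ B, d χ ^ 2 = Nat.card P := by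
  classical
  have hmax := hM.2.1
  have hp : p.Prime := hM.1
  have hfinIrr : Fintype (IrrCharacter G) := irrFintype
  obtain ⟨χ₁, h₁⟩ := Defect.block_nonempty hmax B hB
  obtain ⟨S, hSdef⟩ : ∃ S : Finset (IrrCharacter G),
      S = Finset.univ.filter (fun χ => χ ∈ B) := ⟨_, rfl⟩
  have hS : ∀ χ, χ ∈ S ↔ χ ∈ B := by
    intro χ
    rw [hSdef, Finset.mem_filter]
    exact ⟨fun h => h.2, fun h => ⟨Finset.mem_univ _, h⟩⟩
  have hBS : B = (↑S : Set (IrrCharacter G)) := by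
    ext χ
    exact (hS χ).symm
  obtain ⟨N, hNdef⟩ : ∃ N : IrrCharacter G → ℕ,
      N = fun χ : IrrCharacter G => charDegree (χ : G → ℂ) := ⟨_, rfl⟩
  have hNeq : ∀ χ : IrrCharacter G, N χ = charDegree (χ : G → ℂ) := by
    intro χ
    rw [hNdef]
  have hN1 : ∀ χ : IrrCharacter G, (χ : G → ℂ) 1 = (N χ : ℂ) := by
    intro χ
    rw [hNeq]
    exact CharBasic.char_one_nat (CharBasic.isCharacter_of_irr χ.2)
  have hN0 : ∀ χ : IrrCharacter G, N χ ≠ 0 := by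
    intro χ h0
    apply CharBasic.irr_one_ne_zero χ.2
    rw [hN1, h0, Nat.cast_zero]
  have h1reg : ¬ p ∣ orderOf (1 : G) := by
    rw [orderOf_one]
    exact fun h => hp.one_lt.ne' (Nat.dvd_one.mp h)
  have hN1ne : (N χ₁ : ℂ) ≠ 0 := Nat.cast_ne_zero.mpr (hN0 χ₁)
  have hprop : ∀ χ ∈ B, ∀ s : G, ¬ p ∣ orderOf s →
      (χ : G → ℂ) s = (N χ : ℂ) / (N χ₁ : ℂ) * (χ₁ : G → ℂ) s := by
    intro χ hχ s hs
    obtain ⟨W, hW⟩ : ∃ W : Submodule ℂ (G → ℂ), W = Submodule.span ℂ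
        ((fun χ : IrrCharacter G => pRegularPart p (χ : G → ℂ)) '' B) := ⟨_, rfl⟩
    have hfr : Module.finrank ℂ W = 1 := by
      rw [hW]
      exact hl
    have hv : pRegularPart p (χ₁ : G → ℂ) ∈ W := by
      rw [hW]
      exact Submodule.subset_span ⟨χ₁, h₁, rfl⟩
    have hw : pRegularPart p (χ : G → ℂ) ∈ W := by
      rw [hW]
      exact Submodule.subset_span ⟨χ, hχ, rfl⟩
    have hvne : (⟨pRegularPart p (χ₁ : G → ℂ), hv⟩ : W) ≠ 0 := by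
      intro h0
      have h2 : pRegularPart p (χ₁ : G → ℂ) = 0 := congrArg Subtype.val h0
      have h3 := congrFun h2 1
      rw [Trunc.pRegularPart_of_reg _ h1reg] at h3
      exact CharBasic.irr_one_ne_zero χ₁.2 h3
    obtain ⟨c, hc⟩ := exists_smul_eq_of_finrank_eq_one hfr hvne
      ⟨pRegularPart p (χ : G → ℂ), hw⟩
    have hc' : c • pRegularPart p (χ₁ : G → ℂ) = pRegularPart p (χ : G → ℂ) :=
      congrArg Subtype.val hc
    have e1 : c * pRegularPart p (χ₁ : G → ℂ) 1 = pRegularPart p (χ : G → ℂ) 1 :=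
      congrFun hc' 1
    have es : c * pRegularPart p (χ₁ : G → ℂ) s = pRegularPart p (χ : G → ℂ) s :=
      congrFun hc' s
    rw [Trunc.pRegularPart_of_reg _ h1reg, Trunc.pRegularPart_of_reg _ h1reg, hN1, hN1] at e1
    rw [Trunc.pRegularPart_of_reg _ hs, Trunc.pRegularPart_of_reg _ hs] at es
    have hceq : c = (N χ : ℂ) / (N χ₁ : ℂ) := by
      rw [← e1]
      field_simp
    rw [← es, hceq]
  obtain ⟨g, hgdef⟩ : ∃ g : ℕ, g = S.gcd N := ⟨_, rfl⟩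
  have hgdvd : ∀ χ ∈ S, g ∣ N χ := by
    intro χ hχ
    rw [hgdef]
    exact Finset.gcd_dvd hχ
  have hm₁ : χ₁ ∈ S := (hS χ₁).mpr h₁
  have hg0 : g ≠ 0 := by
    intro h0
    have h2 := hgdvd χ₁ hm₁
    rw [h0, zero_dvd_iff] at h2
    exact hN0 χ₁ h2
  obtain ⟨n, hn⟩ := exists_bezout S N
  rw [← hgdef] at hn
  obtain ⟨d, hddef⟩ : ∃ d : IrrCharacter G → ℕ, d = fun χ => N χ / g := ⟨_, rfl⟩
  have hNd : ∀ χ ∈ S, N χ = g * d χ := by
    intro χ hχ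
    rw [hddef]
    exact (Nat.mul_div_cancel' (hgdvd χ hχ)).symm
  have hgZ : (g : ℤ) ≠ 0 := by exact_mod_cast hg0
  have hnd : ∑ χ ∈ S, n χ * (d χ : ℤ) = 1 := by
    have h0 : (g : ℤ) * ∑ χ ∈ S, n χ * (d χ : ℤ) = ∑ χ ∈ S, n χ * (N χ : ℤ) := by
      rw [Finset.mul_sum]
      apply Finset.sum_congr rfl
      intro χ hχ
      rw [hNd χ hχ]
      push_cast
      ring
    have h1 : (g : ℤ) * ∑ χ ∈ S, n χ * (d χ : ℤ) = (g : ℤ) * 1 := by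
      rw [h0, hn, mul_one]
    exact mul_left_cancel₀ hgZ h1
  obtain ⟨φ, hφdef⟩ : ∃ φ : G → ℂ,
      φ = fun x => ∑ᶠ ψ ∈ B, (n ψ : ℂ) * (ψ : G → ℂ) x := ⟨_, rfl⟩
  have hgC : (g : ℂ) ≠ 0 := Nat.cast_ne_zero.mpr hg0
  have hφreg : ∀ s : G, ¬ p ∣ orderOf s →
      φ s = (g : ℂ) / (N χ₁ : ℂ) * (χ₁ : G → ℂ) s := by
    intro s hs
    rw [hφdef]
    show ∑ᶠ ψ ∈ B, (n ψ : ℂ) * (ψ : G → ℂ) s = _
    rw [hBS, finsum_mem_coe_finset]
    have h1 : ∑ ψ ∈ S, (n ψ : ℂ) * (ψ : G → ℂ) s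
        = ∑ ψ ∈ S, ((n ψ * (N ψ : ℤ) : ℤ) : ℂ) * ((χ₁ : G → ℂ) s / (N χ₁ : ℂ)) := by
      apply Finset.sum_congr rfl
      intro ψ hψ
      rw [hprop ψ ((hS ψ).mp hψ) s hs]
      push_cast
      ring
    rw [h1, ← Finset.sum_mul, ← Int.cast_sum, hn]
    push_cast
    ring
  have hχreg : ∀ χ ∈ B, ∀ s : G, ¬ p ∣ orderOf s →
      (χ : G → ℂ) s = (d χ : ℂ) * φ s := by
    intro χ hχ s hs
    rw [hprop χ hχ s hs, hφreg s hs, hNd χ ((hS χ).mpr hχ)]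
    push_cast
    field_simp
  obtain ⟨R, hRdef⟩ : ∃ R : ℂ,
      R = ∑ s : G, (if p ∣ orderOf s then 0 else conj (φ s) * φ s) := ⟨_, rfl⟩
  obtain ⟨n', hn'⟩ : ∃ n' : ℕ, n' = ordCompl G p := ⟨_, rfl⟩
  have hn'0 : (n' : ℂ) ≠ 0 := by
    rw [hn']
    exact Nat.cast_ne_zero.mpr (ordCompl_pos p).ne'
  have hK3 : ∀ χ ∈ B, ∀ ψ ∈ B,
      (n' : ℂ) * (regCoef p χ ψ : ℂ) = (d χ : ℂ) * (d ψ : ℂ) * R := by
    intro χ hχ ψ hψ
    rw [hn', regCoef_mul_ordCompl, hRdef, Finset.mul_sum]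
    apply Finset.sum_congr rfl
    intro s _
    show (if p ∣ orderOf s then 0 else conj ((χ : G → ℂ) s)) * (ψ : G → ℂ) s = _
    by_cases hs : p ∣ orderOf s
    · rw [if_pos hs, if_pos hs, zero_mul, mul_zero]
    · rw [if_neg hs, if_neg hs, hχreg χ hχ s hs, hχreg ψ hψ s hs, map_mul,
        Complex.conj_natCast]
      ring
  obtain ⟨ρ, hρdef⟩ : ∃ ρ : ℤ,
      ρ = ∑ χ ∈ S, ∑ ψ ∈ S, n χ * n ψ * regCoef p χ ψ := ⟨_, rfl⟩
  have hRρ : R = (n' : ℂ) * (ρ : ℂ) := by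
    have h1 : (n' : ℂ) * (ρ : ℂ) = ∑ χ ∈ S, ∑ ψ ∈ S,
        ((n χ : ℂ) * (d χ : ℂ)) * ((n ψ : ℂ) * (d ψ : ℂ)) * R := by
      rw [hρdef]
      push_cast
      rw [Finset.mul_sum]
      apply Finset.sum_congr rfl
      intro χ hχ
      rw [Finset.mul_sum]
      apply Finset.sum_congr rfl
      intro ψ hψ
      have h2 := hK3 χ ((hS χ).mp hχ) ψ ((hS ψ).mp hψ)
      linear_combination (n χ : ℂ) * (n ψ : ℂ) * h2
    have h4 : (∑ χ ∈ S, (n χ : ℂ) * (d χ : ℂ)) = 1 := by exact_mod_cast hnd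
    have h3 : ∑ χ ∈ S, ∑ ψ ∈ S, ((n χ : ℂ) * (d χ : ℂ)) * ((n ψ : ℂ) * (d ψ : ℂ)) * R
        = (∑ χ ∈ S, (n χ : ℂ) * (d χ : ℂ)) * (∑ ψ ∈ S, (n ψ : ℂ) * (d ψ : ℂ)) * R := by
      rw [Finset.sum_mul_sum, Finset.sum_mul]
      apply Finset.sum_congr rfl
      intro χ _
      rw [Finset.sum_mul]
    rw [h1, h3, h4]
    ring
  have hK5 : ∀ χ ∈ B, ∀ ψ ∈ B, regCoef p χ ψ = (d χ : ℤ) * (d ψ : ℤ) * ρ := by
    intro χ hχ ψ hψ
    have h1 := hK3 χ hχ ψ hψ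
    rw [hRρ] at h1
    have h2 : (n' : ℂ) * (regCoef p χ ψ : ℂ)
        = (n' : ℂ) * (((d χ : ℤ) * (d ψ : ℤ) * ρ : ℤ) : ℂ) := by
      rw [h1]
      push_cast
      ring
    exact_mod_cast mul_left_cancel₀ hn'0 h2
  have hB1 : B = blockOf M (χ₁ : G → ℂ) := Defect.block_eq_blockOf hmax B hB h₁
  obtain ⟨c, hcdef⟩ : ∃ c : ℕ, c = ∑ ψ ∈ S, d ψ ^ 2 := ⟨_, rfl⟩
  have hd₁0 : d χ₁ ≠ 0 := by
    intro h0
    have h2 := hNd χ₁ hm₁
    rw [h0, mul_zero] at h2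
    exact hN0 χ₁ h2
  have hd₁pos : (0 : ℤ) < (d χ₁ : ℤ) * (d χ₁ : ℤ) := by
    have h2 : (0 : ℤ) < (d χ₁ : ℤ) := by exact_mod_cast Nat.pos_of_ne_zero hd₁0
    exact mul_pos h2 h2
  have hρpos : 0 < ρ := by
    have h1 := regCoef_self_pos p χ₁
    rw [hK5 χ₁ h₁ χ₁ h₁] at h1
    by_contra hcon
    push Not at hcon
    nlinarith
  obtain ⟨a, ha⟩ : ∃ a : ℕ, a = (Nat.card G).factorization p := ⟨_, rfl⟩
  have hpars : ρ * (c : ℤ) = ((p ^ a : ℕ) : ℤ) := by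
    have h1 := sum_regCoef_sq p χ₁
    have h2 : ∑ ψ : IrrCharacter G, regCoef p χ₁ ψ ^ 2
        = ∑ ψ ∈ S, ((d χ₁ : ℤ) * (d ψ : ℤ) * ρ) ^ 2 := by
      rw [hSdef, Finset.sum_filter]
      apply Finset.sum_congr rfl
      intro ψ _
      by_cases hψ : ψ ∈ B
      · rw [if_pos hψ, hK5 χ₁ h₁ ψ hψ]
      · rw [if_neg hψ, regCoef_eq_zero hM χ₁ ψ (fun h => hψ (by rw [hB1]; exact h))]
        ring
    rw [h2, hK5 χ₁ h₁ χ₁ h₁, ← ha] at h1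
    have h3 : ((d χ₁ : ℤ) * (d χ₁ : ℤ) * ρ) * (ρ * (c : ℤ))
        = ((d χ₁ : ℤ) * (d χ₁ : ℤ) * ρ) * ((p ^ a : ℕ) : ℤ) := by
      calc ((d χ₁ : ℤ) * (d χ₁ : ℤ) * ρ) * (ρ * (c : ℤ))
          = ∑ ψ ∈ S, ((d χ₁ : ℤ) * (d ψ : ℤ) * ρ) ^ 2 := by
            rw [hcdef]
            push_cast
            rw [Finset.mul_sum, Finset.mul_sum]
            apply Finset.sum_congr rfl
            intro ψ _
            ring
        _ = ((p ^ a : ℕ) : ℤ) * ((d χ₁ : ℤ) * (d χ₁ : ℤ) * ρ) := h1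
        _ = ((d χ₁ : ℤ) * (d χ₁ : ℤ) * ρ) * ((p ^ a : ℕ) : ℤ) := by ring
    exact mul_left_cancel₀ (mul_pos hd₁pos hρpos).ne' h3
  obtain ⟨χ₀, hm₀, hmin⟩ := Finset.exists_min_image S (fun χ => (N χ).factorization p)
    ⟨χ₁, hm₁⟩
  have hmin2 : ∀ ψ ∈ S, (N χ₀).factorization p ≤ (N ψ).factorization p := hmin
  have h₀ : χ₀ ∈ B := (hS χ₀).mp hm₀
  obtain ⟨e, he⟩ : ∃ e : ℕ, e = (N χ₀).factorization p := ⟨_, rfl⟩
  have hB0 : B = blockOf M (χ₀ : G → ℂ) := Defect.block_eq_blockOf hmax B hB h₀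
  have hmin' : ∀ ψ : IrrCharacter G, SameBlock M (χ₀ : G → ℂ) (ψ : G → ℂ) →
      (charDegree (χ₀ : G → ℂ)).factorization p
        ≤ (charDegree (ψ : G → ℂ)).factorization p := by
    intro ψ hψ
    have hψB : ψ ∈ B := by
      rw [hB0]
      exact hψ
    have h2 := hmin2 ψ ((hS ψ).mpr hψB)
    rw [hNeq, hNeq] at h2
    exact h2
  have hunit := regCoef_not_mem_of_min hM χ₀ χ₀ (sameBlock_refl hmax _) hmin'
  have hN0' : charDegree (χ₀ : G → ℂ) ≠ 0 := by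
    rw [← hNeq]
    exact hN0 χ₀
  have hnd1 : ¬ (p : ℤ) ^ (e + 1) ∣ regCoef p χ₀ χ₀ := by
    intro hdvd
    apply hunit
    rw [int_ratio_memLocalIdeal_iff hM hN0' (pow_dvd_regCoef_right p χ₀ χ₀), ← hNeq, ← he]
    exact hdvd
  have hd1 : (p : ℤ) ^ e ∣ regCoef p χ₀ χ₀ := by
    have h2 := pow_dvd_regCoef_left p χ₀ χ₀
    rw [← hNeq, ← he] at h2
    exact h2
  rw [hK5 χ₀ h₀ χ₀ h₀] at hnd1 hd1
  have hpd₀ : ¬ p ∣ d χ₀ := by
    intro hdvd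
    have hpeg : p ^ e ∣ g := by
      rw [hgdef]
      apply Finset.dvd_gcd
      intro ψ hψ
      have h2 := hmin2 ψ hψ
      rw [← he] at h2
      exact (hp.pow_dvd_iff_le_factorization (hN0 ψ)).mpr h2
    have h2 : p ^ (e + 1) ∣ N χ₀ := by
      rw [hNd χ₀ hm₀, pow_succ]
      exact mul_dvd_mul hpeg hdvd
    have h3 := (hp.pow_dvd_iff_le_factorization (hN0 χ₀)).mp h2
    omega
  have hcop : IsCoprime ((p : ℤ) ^ e) ((d χ₀ : ℤ) * (d χ₀ : ℤ)) := by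
    apply IsCoprime.pow_left
    have h1 : IsCoprime (p : ℤ) (d χ₀ : ℤ) := by
      rw [Nat.isCoprime_iff_coprime]
      exact (Nat.Prime.coprime_iff_not_dvd hp).mpr hpd₀
    exact IsCoprime.mul_right h1 h1
  have hρd : (p : ℤ) ^ e ∣ ρ := hcop.dvd_of_dvd_mul_left hd1
  have hρnd : ¬ (p : ℤ) ^ (e + 1) ∣ ρ := fun h => hnd1 (Dvd.dvd.mul_left h _)
  obtain ⟨ρn, hρn⟩ : ∃ ρn : ℕ, (ρn : ℤ) = ρ := ⟨ρ.toNat, Int.toNat_of_nonneg hρpos.le⟩
  rw [← hρn] at hpars hρd hρnd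
  have hpars' : ρn * c = p ^ a := by exact_mod_cast hpars
  obtain ⟨j, hja, hj⟩ := (Nat.dvd_prime_pow hp).mp (Dvd.intro c hpars')
  have hje : j = e := by
    rw [hj] at hρd hρnd
    have h1 : e ≤ j := by
      have h2 : p ^ e ∣ p ^ j := by exact_mod_cast hρd
      exact (Nat.pow_dvd_pow_iff_le_right hp.one_lt).mp h2
    have h2 : j < e + 1 := by
      by_contra hge
      push Not at hge
      apply hρnd
      have h3 : p ^ (e + 1) ∣ p ^ j := pow_dvd_pow p hge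
      exact_mod_cast h3
    omega
  have hea : e ≤ a := hje ▸ hja
  have hc : c = p ^ (a - e) := by
    rw [hj, hje] at hpars'
    have h1 : p ^ a = p ^ e * p ^ (a - e) := by
      rw [← pow_add, Nat.add_sub_cancel' hea]
    rw [h1] at hpars'
    exact Nat.eq_of_mul_eq_mul_left (pow_pos hp.pos e) hpars'
  have hdefect : blockDefect p B = a - e := by
    show (Nat.card G).factorization p - sInf ((fun ψ : IrrCharacter G =>
      (charDegree (ψ : G → ℂ)).factorization p) '' B) = a - e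
    have h1 : sInf ((fun ψ : IrrCharacter G =>
        (charDegree (ψ : G → ℂ)).factorization p) '' B) = e := by
      apply le_antisymm
      · have h2 : sInf ((fun ψ : IrrCharacter G =>
            (charDegree (ψ : G → ℂ)).factorization p) '' B)
            ≤ (charDegree (χ₀ : G → ℂ)).factorization p := Nat.sInf_le ⟨χ₀, h₀, rfl⟩
        rw [← hNeq, ← he] at h2
        exact h2
      · apply le_csInf (Set.Nonempty.image _ ⟨χ₀, h₀⟩)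
        rintro _ ⟨ψ, hψ, rfl⟩
        have h2 := hmin2 ψ ((hS ψ).mpr hψ)
        rw [← he, hNeq] at h2
        exact h2
    rw [h1, ← ha]
  refine ⟨φ, d, ⟨n, fun x hx => ?_⟩, fun χ hχ x hx => hχreg χ hχ x hx, ?_⟩
  · rw [hφdef]
  · rw [hBS, finsum_mem_coe_finset, ← hcdef, hc, DefectGroup.card_defectGroup hM B hB P hP,
      hdefect]

end Cfsg.Agent.Lib.Helper24.RankOne
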