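import Mathlib
import Cfsg.Agent.Lib.Helper24.KF2
import Cfsg.Agent.Lib.Helper24.Subsec3
import Cfsg.Agent.Lib.Helper24.RankOne
import Cfsg.Agent.Lib.Helper24.SecondMain2
import Cfsg.Agent.Lib.Helper24.Osima
import Cfsg.Agent.Lib.Helper6.RegInner
import Cfsg.Agent.S4667

set_option autoImplicit false

namespace Cfsg.Agent.Lib.Helper24.KF

open Cfsg Cfsg.Agent.Lib.Helper1 Cfsg.Agent.Lib.Helper6 Cfsg.Agent.Lib.Helper24
open scoped ComplexConjugate

universe u

theorem fmul {ι : Type*} [Fintype ι] (A : Set ι) (f : ι → ℂ) (c : ℂ) :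
    ∑ᶠ i ∈ A, f i * c = (∑ᶠ i ∈ A, f i) * c := by
  classical
  rw [PrinQuot.fsum_filter, PrinQuot.fsum_filter, Finset.sum_mul]

variable {G : Type u} [Group G] [Fintype G] {M : Ideal AlgInt}

theorem subsection_pt_gen (hM : IsPModular 2 M) (B : Set (IrrCharacter G)) (u : G)
    (hu : ∃ k : ℕ, orderOf u = 2 ^ k) (C : Subgroup G)
    (hC : C = Subgroup.centralizer ({u} : Set G)) [Fintype C]
    (e : Set (IrrCharacter C)) (hind : IsInducedBlock M C e B) (s : C)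
    (hs : ¬ 2 ∣ orderOf s) :
    ∑ᶠ χ ∈ B, blockPart e (fun c : C => (χ : G → ℂ) (u * (c : G))) s
        * blockPart e (fun c : C => (χ : G → ℂ) (u⁻¹ * (c : G))) s⁻¹
      = ∑ᶠ ξ ∈ e, (ξ : C → ℂ) s * (ξ : C → ℂ) s⁻¹ := by
  subst hC
  exact Subsec.subsection_pt hM B u hu e hind s hs

theorem sum_subgroup_congr (C C' : Subgroup G) (h : C = C') [i1 : Fintype C] [i2 : Fintype C']
    (f : G → ℂ) :
    ∑ s : C, (if ¬ 2 ∣ orderOf s then f (s : G) else 0)
      = ∑ s : C', (if ¬ 2 ∣ orderOf s then f (s : G) else 0) := by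
  subst h
  have hi : i1 = i2 := Subsingleton.elim _ _
  subst hi
  rfl

def SubData (B : Set (IrrCharacter G)) (x : G) (C : Subgroup G) (b : Set (IrrCharacter C))
    (d : IrrCharacter G → ℤ) (φ : C → ℂ) : Prop :=
  (∀ χ : IrrCharacter G, ∀ s : C, ¬ 2 ∣ orderOf s →
      blockPart b (fun c : C => (χ : G → ℂ) (x * (c : G))) s = (d χ : ℂ) * φ s) ∧
  (∑ᶠ χ ∈ B, ((d χ : ℤ) : ℂ) ^ 2 = 4) ∧
  (4 * ∑ᶠ s : C, (if ¬ 2 ∣ orderOf s then φ s * φ s⁻¹ else 0) = (Nat.card C : ℂ)) ∧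
  ∃ ξ₀ ∈ b, ∃ m : ℕ, m ≠ 0 ∧ ∀ s : C, ¬ 2 ∣ orderOf s → (ξ₀ : C → ℂ) s = (m : ℂ) * φ s

theorem sub_num (hM : IsPModular 2 M) (B : Set (IrrCharacter G)) (x : G) (hxx : x * x = 1)
    (C : Subgroup G) (hC : C = Subgroup.centralizer ({x} : Set G)) [Fintype C]
    (b : Set (IrrCharacter C)) (hb : IsInducedBlock M C b B)
    (hl : blockRank 2 b = 1) (D : Subgroup C) (hD : IsDefectGroup 2 M b D)
    (hD4 : Nat.card D = 4) :
    ∃ d : IrrCharacter G → ℤ, ∃ φ : C → ℂ, SubData B x C b d φ := by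
  classical
  have hmax := hM.2.1
  have hfinIrr : Fintype (IrrCharacter G) := irrFintype
  have hfinIrrC : Fintype (IrrCharacter C) := irrFintype
  have hbb : IsPBlock M b := hb.1
  have hxC : x ∈ C := by
    rw [hC]
    exact Subgroup.mem_centralizer_iff.mpr (fun h hh => by rw [Set.mem_singleton_iff.mp hh])
  have hcent : ∀ c ∈ C, c * x = x * c := by
    intro c hc
    rw [hC] at hc
    exact (Subgroup.mem_centralizer_iff.mp hc x rfl).symm
  have hcen : (⟨x, hxC⟩ : C) ∈ Subgroup.center C := by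
    apply Subgroup.mem_center_iff.mpr
    intro c
    exact Subtype.ext (hcent c c.2)
  have hzz : (⟨x, hxC⟩ : C) * ⟨x, hxC⟩ = 1 := Subtype.ext hxx
  have hxinv : x⁻¹ = x := inv_eq_of_mul_eq_one_left hxx
  have hxpow : ∃ k : ℕ, orderOf x = 2 ^ k := by
    have h2 : orderOf x ∣ 2 := orderOf_dvd_of_pow_eq_one (by rw [pow_two]; exact hxx)
    rcases (Nat.dvd_prime Nat.prime_two).mp h2 with h | h
    · exact ⟨0, by rw [h, pow_zero]⟩
    · exact ⟨1, by rw [h, pow_one]⟩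
  obtain ⟨φ, dξ, -, hξφ, hdsum⟩ := RankOne.rank_one_cartan hM b hbb D hD hl
  have h1reg : ¬ 2 ∣ orderOf (1 : C) := by
    rw [orderOf_one]
    norm_num
  obtain ⟨ξ₀, hξ₀⟩ := Defect.block_nonempty hmax b hbb
  have hξ₀1 := CharBasic.irr_one_ne_zero ξ₀.2
  have hξ₀e := hξφ ξ₀ hξ₀ 1 h1reg
  have hφ1 : φ 1 ≠ 0 := by
    intro h0
    rw [h0, mul_zero] at hξ₀e
    exact hξ₀1 hξ₀e
  have hd0 : dξ ξ₀ ≠ 0 := by
    intro h0
    rw [h0, Nat.cast_zero, zero_mul] at hξ₀e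
    exact hξ₀1 hξ₀e
  have hlam : ∀ ξ : IrrCharacter C, ∃ ε : ℤ,
      CentralDef.lam (ξ : C → ℂ) ⟨x, hxC⟩ = (ε : ℂ) := by
    intro ξ
    have h1 := CentralDef.lam_mul ξ hcen ⟨x, hxC⟩
    rw [hzz, CentralDef.lam_one] at h1
    rcases mul_self_eq_one_iff.mp h1.symm with h | h
    · exact ⟨1, by rw [h]; norm_num⟩
    · exact ⟨-1, by rw [h]; norm_num⟩
  choose ε hε using hlam
  have hmult : ∀ χ : IrrCharacter G, ∀ ξ : IrrCharacter C, ∃ m : ℕ,
      classInner (fun c : C => (χ : G → ℂ) c) (ξ : C → ℂ) = (m : ℂ) := fun χ ξ =>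
    Cfsg.Agent.Lib.Helper1.IsCharacter.classInner_irr_nat
      (Cfsg.Agent.Lib.Helper1.IsCharacter.restrict (CharBasic.isCharacter_of_irr χ.2) C) ξ.2
  choose m hm using hmult
  have hinner : ∀ χ : IrrCharacter G, ∀ ξ : IrrCharacter C,
      classInner (fun c : C => (χ : G → ℂ) (x * (c : G))) (ξ : C → ℂ)
        = (ε ξ : ℂ) * (m χ ξ : ℂ) := by
    intro χ ξ
    rw [TwoDef.shift_inner C x hxC hxx hcen (χ : G → ℂ) ξ
      (by rw [hε ξ]; exact map_intCast _ _), hε ξ, hm χ ξ]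
  obtain ⟨d, hd⟩ : ∃ d : IrrCharacter G → ℤ, ∀ χ, d χ =
      ∑ ξ ∈ Finset.univ.filter (fun ξ : IrrCharacter C => ξ ∈ b),
        ε ξ * (m χ ξ : ℤ) * (dξ ξ : ℤ) := ⟨_, fun _ => rfl⟩
  have ha : ∀ χ : IrrCharacter G, ∀ s : C, ¬ 2 ∣ orderOf s →
      blockPart b (fun c : C => (χ : G → ℂ) (x * (c : G))) s = (d χ : ℂ) * φ s := by
    intro χ s hs
    rw [blockPart_apply, PrinQuot.fsum_filter, hd χ]
    push_cast
    rw [Finset.sum_mul]
    apply Finset.sum_congr rfl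
    intro ξ hξ
    rw [hinner χ ξ, hξφ ξ (Finset.mem_filter.mp hξ).2 s hs]
    ring
  have hb4 : ∑ᶠ χ ∈ B, ((d χ : ℤ) : ℂ) ^ 2 = 4 := by
    have hpt := subsection_pt_gen hM B x hxpow C hC b hb 1 h1reg
    rw [hxinv, inv_one] at hpt
    have e1 : ∑ᶠ χ ∈ B, blockPart b (fun c : C => (χ : G → ℂ) (x * (c : G))) 1
          * blockPart b (fun c : C => (χ : G → ℂ) (x * (c : G))) 1
        = ∑ᶠ χ ∈ B, ((d χ : ℤ) : ℂ) ^ 2 * (φ 1 * φ 1) :=
      finsum_mem_congr rfl (fun χ _ => by rw [ha χ 1 h1reg]; ring)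
    have e2 : ∑ᶠ ξ ∈ b, (ξ : C → ℂ) 1 * (ξ : C → ℂ) 1
        = ∑ᶠ ξ ∈ b, ((dξ ξ : ℕ) : ℂ) ^ 2 * (φ 1 * φ 1) :=
      finsum_mem_congr rfl (fun ξ hξ => by rw [hξφ ξ hξ 1 h1reg]; ring)
    have e3 : ∑ᶠ ξ ∈ b, ((dξ ξ : ℕ) : ℂ) ^ 2 = 4 := by
      rw [PrinQuot.fsum_filter] at hdsum ⊢
      have h := congrArg (Nat.cast : ℕ → ℂ) hdsum
      rw [hD4] at h
      push_cast at h
      exact h
    rw [e1, e2, fmul, fmul, e3] at hpt
    exact mul_right_cancel₀ (mul_ne_zero hφ1 hφ1) hpt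
  refine ⟨d, φ, ha, hb4, ?_, ξ₀, hξ₀, dξ ξ₀, hd0, fun s hs => hξφ ξ₀ hξ₀ s hs⟩
  have hnorm := Subsec.subsection_norm hM B x hxpow C hC b hb
  rw [hxinv, hl, Nat.cast_one, mul_one] at hnorm
  have e1 : ∑ᶠ χ ∈ B, ∑ s : C, pRegularPart 2 (blockPart b (fun c : C =>
        (χ : G → ℂ) (x * (c : G)))) s
        * blockPart b (fun c : C => (χ : G → ℂ) (x * (c : G))) s⁻¹
      = ∑ᶠ χ ∈ B, ((d χ : ℤ) : ℂ) ^ 2
          * ∑ s : C, (if ¬ 2 ∣ orderOf s then φ s * φ s⁻¹ else 0) := by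
    apply finsum_mem_congr rfl
    intro χ _
    rw [Finset.mul_sum]
    apply Finset.sum_congr rfl
    intro s _
    by_cases hs : 2 ∣ orderOf s
    · rw [Trunc.pRegularPart_of_sing _ hs, if_neg (not_not.mpr hs), zero_mul, mul_zero]
    · rw [Trunc.pRegularPart_of_reg _ hs, if_pos hs, ha χ s hs,
        ha χ s⁻¹ (by rwa [orderOf_inv])]
      ring
  rw [e1, fmul, hb4] at hnorm
  rw [finsum_eq_sum_of_fintype]
  exact hnorm

theorem section_id (hM : IsPModular 2 M) (B : Set (IrrCharacter G)) (hB : IsPBlock M B) (x : G)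
    (hx : ∃ k : ℕ, orderOf x = 2 ^ k)
    (C : Subgroup G) (hC : C = Subgroup.centralizer ({x} : Set G)) [Fintype C]
    (Ind : Finset (Set (IrrCharacter C))) (hInd : ∀ b, b ∈ Ind ↔ IsInducedBlock M C b B)
    (V : Set (IrrCharacter C) → IrrCharacter G → ℤ)
    (hgood : ∀ b ∈ Ind, x * x = 1 ∧ ∃ φ : C → ℂ, SubData B x C b (V b) φ)
    (χ ψ : IrrCharacter G) (hχ : χ ∈ B) (hψ : ψ ∈ B) :
    4 * ∑ s : C, (if ¬ 2 ∣ orderOf s then
        (χ : G → ℂ) (x * (s : G)) * (ψ : G → ℂ) (x * (s : G))⁻¹ else 0)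
      = (Nat.card C : ℂ) * ∑ b ∈ Ind, ((V b χ : ℤ) : ℂ) * ((V b ψ : ℤ) : ℂ) := by
  classical
  have hmax := hM.2.1
  have hfinIrrC : Fintype (IrrCharacter C) := irrFintype
  have hcent : ∀ c ∈ C, c * x = x * c := by
    intro c hc
    rw [hC] at hc
    exact (Subgroup.mem_centralizer_iff.mp hc x rfl).symm
  obtain ⟨Bl, hBl⟩ := Subsec.exists_blocks M C
  have hsub : Ind ⊆ Bl := fun b hb => (hBl b).mpr ((hInd b).mp hb).1
  have hgood2 : ∀ b ∈ Ind, ∃ φ : C → ℂ, SubData B x C b (V b) φ :=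
    fun b hb => (hgood b hb).2
  choose! φ hφ using hgood2
  have hgen : ∀ θ : IrrCharacter G, θ ∈ B → ∀ s : C, ¬ 2 ∣ orderOf s →
      (θ : G → ℂ) (x * (s : G)) = ∑ b ∈ Ind, ((V b θ : ℤ) : ℂ) * φ b s := by
    intro θ hθ s hs
    have h1 := Subsec.sum_blockPart hmax Bl hBl
      (Subsec.shift_cf_gen θ C x (fun c => hcent c c.2)) s
    rw [← Finset.sum_subset hsub] at h1
    · rw [← h1]
      apply Finset.sum_congr rfl
      intro b hb
      exact (hφ b hb).1 θ s hs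
    · intro b hbBl hbInd
      exact TwoDef.second_main_gen hM x hx B hB θ hθ C hC b ((hBl b).mp hbBl)
        (fun hind => hbInd ((hInd b).mpr hind)) s hs
  rcases Ind.eq_empty_or_nonempty with h0 | ⟨b₀, hb₀⟩
  · rw [h0, Finset.sum_empty, mul_zero]
    have hz : ∑ s : C, (if ¬ 2 ∣ orderOf s then
        (χ : G → ℂ) (x * (s : G)) * (ψ : G → ℂ) (x * (s : G))⁻¹ else 0) = 0 := by
      apply Finset.sum_eq_zero
      intro s _
      by_cases hs : 2 ∣ orderOf s
      · rw [if_neg (not_not.mpr hs)]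
      · rw [if_pos hs, hgen χ hχ s hs, h0, Finset.sum_empty, zero_mul]
    rw [hz, mul_zero]
  · have hxx := (hgood b₀ hb₀).1
    have hinv : ∀ s : C, (x * (s : G))⁻¹ = x * ((s⁻¹ : C) : G) := by
      intro s
      rw [mul_inv_rev, inv_eq_of_mul_eq_one_left hxx, Subgroup.coe_inv]
      exact hcent _ (Subgroup.inv_mem C s.2)
    have hK : ∀ b ∈ Ind, ∀ b' ∈ Ind,
        4 * ∑ s : C, (if ¬ 2 ∣ orderOf s then φ b s * φ b' s⁻¹ else 0)
          = if b = b' then (Nat.card C : ℂ) else 0 := by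
      intro b hb b' hb'
      by_cases hbb : b = b'
      · subst hbb
        rw [if_pos rfl]
        have h := (hφ b hb).2.2.1
        rw [finsum_eq_sum_of_fintype] at h
        exact h
      · rw [if_neg hbb]
        obtain ⟨ξ, hξ, m, hm, hξφ⟩ := (hφ b hb).2.2.2
        obtain ⟨ξ', hξ', m', hm', hξφ'⟩ := (hφ b' hb').2.2.2
        have hnot : ¬ SameBlock M (ξ' : C → ℂ) (ξ : C → ℂ) := by
          intro hs
          apply hbb
          have e1 := Defect.block_eq_blockOf hmax b' ((hInd b').mp hb').1 hξ'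
          have hmem : ξ ∈ b' := by
            rw [e1]
            exact hs
          rw [Defect.block_eq_blockOf hmax b ((hInd b).mp hb).1 hξ,
            Defect.block_eq_blockOf hmax b' ((hInd b').mp hb').1 hmem]
        have h0 := regCoef_eq_zero hM ξ' ξ hnot
        have h1 := regCoef_mul_ordCompl 2 ξ' ξ
        rw [h0, Int.cast_zero, mul_zero] at h1
        have h2 : ∑ s : C, regTrunc 2 (ξ' : C → ℂ) s * (ξ : C → ℂ) s
            = ((m : ℂ) * (m' : ℂ))
              * ∑ s : C, (if ¬ 2 ∣ orderOf s then φ b s * φ b' s⁻¹ else 0) := by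
          rw [Finset.mul_sum]
          apply Finset.sum_congr rfl
          intro s _
          show (if 2 ∣ orderOf s then 0 else conj ((ξ' : C → ℂ) s)) * (ξ : C → ℂ) s = _
          by_cases hs : 2 ∣ orderOf s
          · rw [if_pos hs, if_neg (not_not.mpr hs), zero_mul, mul_zero]
          · rw [if_neg hs, if_pos hs,
              ← CharBasic.char_inv (CharBasic.isCharacter_of_irr ξ'.2),
              hξφ' s⁻¹ (by rwa [orderOf_inv]), hξφ s hs]
            ring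
        rw [h2] at h1
        have hmm : (m : ℂ) * (m' : ℂ) ≠ 0 :=
          mul_ne_zero (Nat.cast_ne_zero.mpr hm) (Nat.cast_ne_zero.mpr hm')
        rw [(mul_eq_zero.mp h1.symm).resolve_left hmm, mul_zero]
    have e1 : ∀ s : C, (if ¬ 2 ∣ orderOf s then
        (χ : G → ℂ) (x * (s : G)) * (ψ : G → ℂ) (x * (s : G))⁻¹ else 0)
        = ∑ b ∈ Ind, ∑ b' ∈ Ind, ((V b χ : ℤ) : ℂ) * ((V b' ψ : ℤ) : ℂ)
            * (if ¬ 2 ∣ orderOf s then φ b s * φ b' s⁻¹ else 0) := by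
      intro s
      by_cases hs : 2 ∣ orderOf s
      · rw [if_neg (not_not.mpr hs)]
        symm
        apply Finset.sum_eq_zero
        intro b _
        apply Finset.sum_eq_zero
        intro b' _
        rw [if_neg (not_not.mpr hs), mul_zero]
      · rw [if_pos hs, hinv s, hgen χ hχ s hs, hgen ψ hψ s⁻¹ (by rwa [orderOf_inv]),
          Finset.sum_mul_sum]
        apply Finset.sum_congr rfl
        intro b _
        apply Finset.sum_congr rfl
        intro b' _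
        rw [if_pos hs]
        ring
    have hsum : ∑ s : C, (if ¬ 2 ∣ orderOf s then
          (χ : G → ℂ) (x * (s : G)) * (ψ : G → ℂ) (x * (s : G))⁻¹ else 0)
        = ∑ b ∈ Ind, ∑ b' ∈ Ind, ((V b χ : ℤ) : ℂ) * ((V b' ψ : ℤ) : ℂ)
            * ∑ s : C, (if ¬ 2 ∣ orderOf s then φ b s * φ b' s⁻¹ else 0) := by
      refine (Finset.sum_congr rfl (fun s _ => e1 s)).trans (Finset.sum_comm.trans ?_)
      apply Finset.sum_congr rfl
      intro b _
      refine Finset.sum_comm.trans ?_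
      apply Finset.sum_congr rfl
      intro b' _
      rw [Finset.mul_sum]
    rw [hsum, Finset.mul_sum, Finset.mul_sum]
    apply Finset.sum_congr rfl
    intro b hb
    rw [Finset.mul_sum, Finset.sum_eq_single b]
    · have h := hK b hb b hb
      rw [if_pos rfl] at h
      rw [← h]
      ring
    · intro b' hb' hne
      have h := hK b hb b' hb'
      rw [if_neg (Ne.symm hne)] at h
      rw [(mul_eq_zero.mp h).resolve_left (by norm_num), mul_zero, mul_zero]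
    · intro h
      exact absurd hb h

theorem regCoef_pos (χ : IrrCharacter G) : 0 < regCoef 2 χ χ := by
  classical
  have h := regCoef_mul_ordCompl 2 χ χ
  have h2 : ∑ g : G, regTrunc 2 (χ : G → ℂ) g * (χ : G → ℂ) g
      = ((∑ g : G, (if 2 ∣ orderOf g then 0 else Complex.normSq ((χ : G → ℂ) g)) : ℝ) : ℂ) := by
    rw [Complex.ofReal_sum]
    apply Finset.sum_congr rfl
    intro g _
    show (if 2 ∣ orderOf g then 0 else conj ((χ : G → ℂ) g)) * (χ : G → ℂ) g = _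
    by_cases hg : 2 ∣ orderOf g
    · rw [if_pos hg, if_pos hg, zero_mul, Complex.ofReal_zero]
    · rw [if_neg hg, if_neg hg, mul_comm, Complex.mul_conj]
  rw [h2] at h
  have h3 : ((ordCompl G 2 : ℝ)) * ((regCoef 2 χ χ : ℤ) : ℝ)
      = ∑ g : G, (if 2 ∣ orderOf g then 0 else Complex.normSq ((χ : G → ℂ) g)) := by
    apply Complex.ofReal_injective
    rw [← h, Complex.ofReal_mul, Complex.ofReal_natCast, Complex.ofReal_intCast]
  have hpos : (0 : ℝ) < ∑ g : G,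
      (if 2 ∣ orderOf g then 0 else Complex.normSq ((χ : G → ℂ) g)) := by
    apply Finset.sum_pos'
    · intro g _
      by_cases hg : 2 ∣ orderOf g
      · rw [if_pos hg]
      · rw [if_neg hg]
        exact Complex.normSq_nonneg _
    · refine ⟨1, Finset.mem_univ _, ?_⟩
      rw [if_neg (by rw [orderOf_one]; norm_num)]
      exact Complex.normSq_pos.mpr (CharBasic.irr_one_ne_zero χ.2)
  rw [← h3] at hpos
  have hoc : (0 : ℝ) < (ordCompl G 2 : ℝ) := Nat.cast_pos.mpr (ordCompl_pos (G := G) 2)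
  have h4 := (mul_pos_iff_of_pos_left hoc).mp hpos
  exact_mod_cast h4

end Cfsg.Agent.Lib.Helper24.KF
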