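import Mathlib
import Cfsg.Agent.Lib.Helper24.KF3

set_option autoImplicit false

namespace Cfsg.Agent.Lib.Helper24.KF

open Cfsg Cfsg.Agent.Lib.Helper1 Cfsg.Agent.Lib.Helper6 Cfsg.Agent.Lib.Helper24
open scoped ComplexConjugate

universe u

variable {G : Type u} [Group G] [Fintype G] {M : Ideal AlgInt}

theorem one_mem_reps {p : ℕ} (X : Finset G)
    (hXrep : ∀ g : G, (∃ k : ℕ, orderOf g = p ^ k) → ∃! x, x ∈ X ∧ IsConj g x) :
    (1 : G) ∈ X := by
  obtain ⟨y, ⟨hy, hc⟩, -⟩ := hXrep 1 ⟨0, by rw [orderOf_one, pow_zero]⟩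
  have h1 : y = 1 := isConj_one_right.mp hc
  rwa [h1] at hy

open Classical in
theorem total_id (hM : IsPModular 2 M) (B : Set (IrrCharacter G))
    (hB : IsPBlock M B) (X : Finset G) (hX : ∀ x ∈ X, ∃ k : ℕ, orderOf x = 2 ^ k)
    (hXrep : ∀ g : G, (∃ k : ℕ, orderOf g = 2 ^ k) → ∃! x, x ∈ X ∧ IsConj g x)
    (Cx : G → Subgroup G) (hCx : ∀ x, Cx x = Subgroup.centralizer ({x} : Set G))
    (Ind : (x : G) → Finset (Set (IrrCharacter (Cx x))))
    (hInd : ∀ x, ∀ b, b ∈ Ind x ↔ IsInducedBlock M (Cx x) b B)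
    (V : (Σ x : G, Set (IrrCharacter (Cx x))) → IrrCharacter G → ℤ)
    (hgood : ∀ x ∈ X, x ≠ 1 → ∀ b ∈ Ind x, x * x = 1 ∧
      ∃ φ : Cx x → ℂ, SubData B x (Cx x) b (V ⟨x, b⟩) φ)
    (χ ψ : IrrCharacter G) (hχ : χ ∈ B) (hψ : ψ ∈ B) :
    (2 : ℤ) ^ (Nat.card G).factorization 2 * ∑ j ∈ (X.erase 1).sigma Ind, V j χ * V j ψ
      = 4 * ((if χ = ψ then (2 : ℤ) ^ (Nat.card G).factorization 2 else 0)
        - regCoef 2 χ ψ) := by
  classical
  have hψch := CharBasic.isCharacter_of_irr ψ.2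
  have hχcl := Cfsg.Agent.Lib.Helper1.IsIrrCharacter.isClassFunction χ.2
  have hψcl := Cfsg.Agent.Lib.Helper1.IsIrrCharacter.isClassFunction ψ.2
  obtain ⟨F, hF⟩ : ∃ F : G → ℂ, ∀ g, F g = (χ : G → ℂ) g * (ψ : G → ℂ) g⁻¹ :=
    ⟨_, fun _ => rfl⟩
  have hFcl : IsClassFunction G F := by
    intro g h
    have e : (h * g * h⁻¹)⁻¹ = h * g⁻¹ * h⁻¹ := by group
    rw [hF, hF, e, hχcl g h, hψcl g⁻¹ h]
  have h1X : (1 : G) ∈ X := one_mem_reps X hXrep
  have htot : ∑ g : G, F g = if χ = ψ then (Nat.card G : ℂ) else 0 := by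
    rw [← CentralDef.sum_inner χ ψ]
    apply Finset.sum_congr rfl
    intro g _
    rw [hF, CharBasic.char_inv hψch]
  have hsec := Subsec.sum_sections Nat.prime_two X hXrep F
  rw [htot, ← Finset.add_sum_erase X _ h1X] at hsec
  have hone : ∑ g : G, (if (∃ z, IsPPart 2 g z ∧ IsConj z 1) then F g else 0)
      = (ordCompl G 2 : ℂ) * (regCoef 2 ψ χ : ℂ) := by
    rw [regCoef_mul_ordCompl 2 ψ χ]
    apply Finset.sum_congr rfl
    intro g _
    show _ = (if 2 ∣ orderOf g then 0 else conj ((ψ : G → ℂ) g)) * (χ : G → ℂ) g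
    by_cases hg : 2 ∣ orderOf g
    · rw [if_pos hg, zero_mul, if_neg]
      rintro ⟨z, ⟨y, hzy, -, -, hy⟩, hconj⟩
      have hz1 : z = 1 := isConj_one_left.mp hconj
      rw [hz1, one_mul] at hzy
      rw [hzy] at hy
      exact hy hg
    · rw [if_neg hg, if_pos ⟨1, ⟨g, one_mul g, Commute.one_left g,
        ⟨0, by rw [orderOf_one, pow_zero]⟩, hg⟩, IsConj.refl 1⟩, hF,
        CharBasic.char_inv hψch, mul_comm]
  rw [hone] at hsec
  have hterm : ∀ x ∈ X.erase 1,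
      4 * ∑ g : G, (if (∃ z, IsPPart 2 g z ∧ IsConj z x) then F g else 0)
        = (Nat.card G : ℂ)
          * ∑ b ∈ Ind x, ((V ⟨x, b⟩ χ : ℤ) : ℂ) * ((V ⟨x, b⟩ ψ : ℤ) : ℂ) := by
    intro x hx
    obtain ⟨hx1, hxX⟩ := Finset.mem_erase.mp hx
    have hfinC : Fintype (Cx x) := Fintype.ofFinite _
    have hfinC' : Fintype (Subgroup.centralizer ({x} : Set G)) := Fintype.ofFinite _
    have h1 := Subsec.sum_section Nat.prime_two x F hFcl
    rw [Subsec.sum_isPPart x (hX x hxX) F] at h1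
    have h2 := section_id hM B hB x (hX x hxX) (Cx x) (hCx x) (Ind x) (hInd x)
      (fun b => V ⟨x, b⟩) (hgood x hxX hx1) χ ψ hχ hψ
    have h2' : 4 * ∑ s : Cx x, (if ¬ 2 ∣ orderOf s then F (x * (s : G)) else 0)
        = (Nat.card (Cx x) : ℂ)
          * ∑ b ∈ Ind x, ((V ⟨x, b⟩ χ : ℤ) : ℂ) * ((V ⟨x, b⟩ ψ : ℤ) : ℂ) := by
      rw [← h2]
      congr 1
      apply Finset.sum_congr rfl
      intro s _
      rw [hF]
    have h3 := sum_subgroup_congr (Subgroup.centralizer ({x} : Set G)) (Cx x) (hCx x).symm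
      (fun g => F (x * g))
    have h3' : ∑ s : Subgroup.centralizer ({x} : Set G),
          (if ¬ 2 ∣ orderOf s then F (x * (s : G)) else 0)
        = ∑ s : Cx x, (if ¬ 2 ∣ orderOf s then F (x * (s : G)) else 0) := h3
    rw [h3'] at h1
    have h4 : (Nat.card (Subgroup.centralizer ({x} : Set G)) : ℂ) = (Nat.card (Cx x) : ℂ) := by
      rw [hCx x]
    rw [h4] at h1
    have hne : (Nat.card (Cx x) : ℂ) ≠ 0 := Osima.card_ne_zero'
    apply mul_left_cancel₀ hne
    linear_combination 4 * h1 + (Nat.card G : ℂ) * h2'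
  have hG : (Nat.card G : ℂ) = (2 : ℂ) ^ (Nat.card G).factorization 2 * (ordCompl G 2 : ℂ) := by
    have h := ordCompl_mul (G := G) 2
    exact_mod_cast h.symm
  have hoc : (ordCompl G 2 : ℂ) ≠ 0 := Nat.cast_ne_zero.mpr (ordCompl_pos (G := G) 2).ne'
  obtain ⟨S, hS⟩ : ∃ S : ℂ, S = ∑ j ∈ (X.erase 1).sigma Ind,
      ((V j χ : ℤ) : ℂ) * ((V j ψ : ℤ) : ℂ) := ⟨_, rfl⟩
  have hsum4 : 4 * ∑ x ∈ X.erase 1, ∑ g : G,
        (if (∃ z, IsPPart 2 g z ∧ IsConj z x) then F g else 0)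
      = (Nat.card G : ℂ) * S := by
    rw [hS, Finset.mul_sum, Finset.sum_sigma, Finset.mul_sum]
    exact Finset.sum_congr rfl hterm
  have key : (2 : ℂ) ^ (Nat.card G).factorization 2 * S
      = 4 * ((if χ = ψ then (2 : ℂ) ^ (Nat.card G).factorization 2 else 0)
        - (regCoef 2 ψ χ : ℂ)) := by
    apply mul_left_cancel₀ hoc
    by_cases hχψ : χ = ψ
    · rw [if_pos hχψ] at hsec ⊢
      linear_combination (-1 : ℂ) * hsum4 - 4 * hsec + (4 - S) * hG
    · rw [if_neg hχψ] at hsec ⊢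
      linear_combination (-1 : ℂ) * hsum4 - 4 * hsec - S * hG
  rw [hS] at key
  rw [regCoef_symm 2 χ ψ]
  by_cases hχψ : χ = ψ
  · rw [if_pos hχψ] at key ⊢
    exact_mod_cast key
  · rw [if_neg hχψ] at key ⊢
    exact_mod_cast key

theorem rank_term_one {p : ℕ} [Fact p.Prime] (hM : IsPModular p M)
    (B : Set (IrrCharacter G)) (hB : IsPBlock M B) :
    ∑ᶠ b ∈ {b : Set (IrrCharacter (Subgroup.centralizer ({(1 : G)} : Set G))) |
        IsInducedBlock M (Subgroup.centralizer ({(1 : G)} : Set G)) b B}, blockRank p b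
      = blockRank p B := by
  classical
  have hfinC : Fintype (Subgroup.centralizer ({(1 : G)} : Set G)) := Fintype.ofFinite _
  have hfinIrrC : Fintype (IrrCharacter (Subgroup.centralizer ({(1 : G)} : Set G))) :=
    irrFintype
  obtain ⟨TF, hTF⟩ : ∃ TF : Finset (Set (IrrCharacter
      (Subgroup.centralizer ({(1 : G)} : Set G)))),
      ∀ b, b ∈ TF ↔ IsInducedBlock M (Subgroup.centralizer ({(1 : G)} : Set G)) b B :=
    ⟨(Set.toFinite {b : Set (IrrCharacter (Subgroup.centralizer ({(1 : G)} : Set G))) |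
      IsInducedBlock M (Subgroup.centralizer ({(1 : G)} : Set G)) b B}).toFinset,
      fun b => by rw [Set.Finite.mem_toFinset]; rfl⟩
  have h1 := Subsec.section_rank hM (1 : G) ⟨0, by rw [orderOf_one, pow_zero]⟩ B hB TF hTF
  have h2 := Cfsg.Agent.S4667.result p M hM B hB
  have hmem : ∀ x : G, x ∈ Subgroup.centralizer ({(1 : G)} : Set G) := by
    intro x
    rw [Subgroup.mem_centralizer_iff]
    intro h hh
    rw [Set.mem_singleton_iff.mp hh, one_mul, mul_one]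
  have hsum : ∑ s : Subgroup.centralizer ({(1 : G)} : Set G), (if ¬ p ∣ orderOf s then
        ∑ᶠ χ ∈ B, (χ : G → ℂ) (1 * (s : G)) * (χ : G → ℂ) (1 * (s : G))⁻¹
        else 0)
      = ∑ x : G, ∑ᶠ χ ∈ B, pRegularPart p (χ : G → ℂ) x * (χ : G → ℂ) x⁻¹ := by
    apply Fintype.sum_equiv (Equiv.subtypeUnivEquiv hmem)
    intro s
    show _ = ∑ᶠ χ ∈ B, pRegularPart p (χ : G → ℂ) (s : G) * (χ : G → ℂ) (s : G)⁻¹
    rw [one_mul]
    by_cases hs : p ∣ orderOf s
    · rw [if_neg (not_not.mpr hs)]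
      symm
      apply finsum_mem_eq_zero_of_forall_eq_zero
      intro χ _
      rw [Trunc.pRegularPart_of_sing _ (by rw [Subgroup.orderOf_coe]; exact hs), zero_mul]
    · rw [if_pos hs]
      apply finsum_mem_congr rfl
      intro χ _
      rw [Trunc.pRegularPart_of_reg _ (by rw [Subgroup.orderOf_coe]; exact hs)]
  rw [hsum, ← h2] at h1
  have hcard : Nat.card (Subgroup.centralizer ({(1 : G)} : Set G)) = Nat.card G :=
    Nat.card_congr (Equiv.subtypeUnivEquiv hmem)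
  rw [hcard] at h1
  have hne : (Nat.card G : ℂ) ≠ 0 := Osima.card_ne_zero'
  have h3 := mul_left_cancel₀ hne h1
  have h4 : {b : Set (IrrCharacter (Subgroup.centralizer ({(1 : G)} : Set G))) |
      IsInducedBlock M (Subgroup.centralizer ({(1 : G)} : Set G)) b B} = (TF : Set _) := by
    ext b
    exact (hTF b).symm
  rw [h4, finsum_mem_coe_finset]
  exact_mod_cast h3.symm

theorem finsum_ind {p : ℕ} (B : Set (IrrCharacter G)) (x : G) (C : Subgroup G)
    (hC : C = Subgroup.centralizer ({x} : Set G))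
    (Ind : Finset (Set (IrrCharacter C))) (hInd : ∀ b, b ∈ Ind ↔ IsInducedBlock M C b B) :
    ∑ᶠ b ∈ {b : Set (IrrCharacter (Subgroup.centralizer ({x} : Set G))) |
        IsInducedBlock M (Subgroup.centralizer ({x} : Set G)) b B}, blockRank p b
      = ∑ b ∈ Ind, blockRank p b := by
  subst hC
  have h4 : {b : Set (IrrCharacter (Subgroup.centralizer ({x} : Set G))) |
      IsInducedBlock M (Subgroup.centralizer ({x} : Set G)) b B} = (Ind : Set _) := by
    ext b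
    exact (hInd b).symm
  rw [h4, finsum_mem_coe_finset]

open Classical in
theorem card_eq_rank_add (hM : IsPModular 2 M) (B : Set (IrrCharacter G))
    (hB : IsPBlock M B) (X : Finset G) (hX : ∀ x ∈ X, ∃ k : ℕ, orderOf x = 2 ^ k)
    (hXrep : ∀ g : G, (∃ k : ℕ, orderOf g = 2 ^ k) → ∃! x, x ∈ X ∧ IsConj g x)
    (Cx : G → Subgroup G) (hCx : ∀ x, Cx x = Subgroup.centralizer ({x} : Set G))
    (Ind : (x : G) → Finset (Set (IrrCharacter (Cx x))))
    (hInd : ∀ x, ∀ b, b ∈ Ind x ↔ IsInducedBlock M (Cx x) b B)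
    (hrk : ∀ x ∈ X, x ≠ 1 → ∀ b ∈ Ind x, blockRank 2 b = 1) :
    Nat.card B = blockRank 2 B + ((X.erase 1).sigma Ind).card := by
  classical
  have h1X : (1 : G) ∈ X := one_mem_reps X hXrep
  have h := Subsec.card_block_eq hM B hB X hX hXrep
  rw [← Finset.add_sum_erase X _ h1X, rank_term_one hM B hB] at h
  rw [h, Finset.card_sigma]
  congr 1
  apply Finset.sum_congr rfl
  intro x hx
  obtain ⟨hx1, hxX⟩ := Finset.mem_erase.mp hx
  rw [finsum_ind B x (Cx x) (hCx x) (Ind x) (hInd x), Finset.card_eq_sum_ones]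
  exact Finset.sum_congr rfl (fun b hb => hrk x hxX hx1 b hb)

end Cfsg.Agent.Lib.Helper24.KF
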