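import Mathlib
import Cfsg.Agent.Lib.Helper24.KF4
import Cfsg.Agent.Lib.Helper24.Brauer23
import Cfsg.Agent.Lib.Helper24.Reynolds
import Cfsg.Agent.Lib.Helper24.DefectGroup

set_option autoImplicit false

namespace Cfsg.Agent.Lib.Helper24.KF

open Cfsg Cfsg.Agent.Lib.Helper1 Cfsg.Agent.Lib.Helper6 Cfsg.Agent.Lib.Helper24
open scoped ComplexConjugate

universe u

variable {G : Type u} [Group G] [Fintype G] {M : Ideal AlgInt}

theorem isPGroup_zpowers {p : ℕ} [Fact p.Prime] (x : G) (hx : ∃ k : ℕ, orderOf x = p ^ k) :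
    IsPGroup p (Subgroup.zpowers x) := by
  obtain ⟨k, hk⟩ := hx
  exact IsPGroup.of_card (n := k) (by rw [Nat.card_zpowers, hk])

theorem good (hM : IsPModular 2 M) (B : Set (IrrCharacter G)) (P : Subgroup G)
    (c : Set (IrrCharacter (Subgroup.centralizer (P : Set G))))
    (hmax : IsMaximalBrauerPair 2 M B P c) (hP4 : Nat.card P = 4)
    (hPsq : ∀ y ∈ P, y * y = 1)
    (x : G) (hx1 : x ≠ 1) (hx : ∃ k : ℕ, orderOf x = 2 ^ k)
    (b : Set (IrrCharacter (Subgroup.centralizer ((Subgroup.zpowers x : Subgroup G) : Set G))))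
    (hb : IsInducedBlock M (Subgroup.centralizer ((Subgroup.zpowers x : Subgroup G) : Set G))
      b B) :
    x * x = 1 ∧ blockRank 2 b = 1 ∧
      ∃ D : Subgroup (Subgroup.centralizer ((Subgroup.zpowers x : Subgroup G) : Set G)),
        IsDefectGroup 2 M b D ∧ Nat.card D = 4 := by
  classical
  have hmaxI := hM.2.1
  have hB : IsPBlock M B := hb.2.1
  have hPg := isPGroup_zpowers x hx
  have hpair : IsBrauerPairOf 2 M B (Subgroup.zpowers x) b :=
    (Brauer.induced_centralizer_iff hM (Subgroup.zpowers x) hPg b B).mp hb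
  obtain ⟨P₁, c₁, hmax₁, hle₁⟩ :=
    Brauer.exists_maximal_above hM B (Subgroup.zpowers x) b hpair
  have hxP₁ : Subgroup.zpowers x ≤ P₁ :=
    (Brauer.chain hM P₁ c₁ hmax₁.1.1.2 (Subgroup.zpowers x) b hle₁).1
  have hD := Brauer.isDefectGroup_of_maximal hM B P c hmax
  have hD₁ := Brauer.isDefectGroup_of_maximal hM B P₁ c₁ hmax₁
  obtain ⟨g, hg⟩ := Brauer.defectGroup_conj hM B hB P P₁ hD hD₁
  have hsq₁ : ∀ y ∈ P₁, y * y = 1 := by
    intro y hy
    rw [hg] at hy
    obtain ⟨q, hq, rfl⟩ := hy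
    show g * q * g⁻¹ * (g * q * g⁻¹) = 1
    have h1 := hPsq q hq
    calc g * q * g⁻¹ * (g * q * g⁻¹) = g * (q * q) * g⁻¹ := by group
      _ = 1 := by rw [h1]; group
  have hab₁ : ∀ y ∈ P₁, ∀ z ∈ P₁, y * z = z * y := by
    intro y hy z hz
    have h1 := hsq₁ y hy
    have h2 := hsq₁ z hz
    have h3 := hsq₁ (y * z) (P₁.mul_mem hy hz)
    calc y * z = y * (y * z * (y * z)) * z := by rw [h3, mul_one]
      _ = (y * y) * z * y * (z * z) := by group
      _ = z * y := by rw [h1, h2, one_mul, mul_one]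
  have hxx : x * x = 1 := hsq₁ x (hxP₁ (Subgroup.mem_zpowers x))
  have hPC : P₁ ≤ Subgroup.centralizer ((Subgroup.zpowers x : Subgroup G) : Set G) := by
    intro y hy
    rw [Subgroup.mem_centralizer_iff]
    intro q hq
    exact hab₁ q (hxP₁ hq) y hy
  have hdef : blockDefect 2 b = blockDefect 2 B :=
    le_antisymm (Brauer.defect_local_le hM B (Subgroup.zpowers x) b hpair)
      (Brauer.defect_central_ge hM B P₁ (Subgroup.zpowers x) c₁ b hmax₁ hle₁ hPC)
  have hB2 : blockDefect 2 B = 2 := by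
    have h1 := DefectGroup.card_defectGroup hM B hB P hD
    rw [hP4] at h1
    exact Nat.pow_right_injective (le_refl 2)
      (h1.symm.trans (by norm_num) : 2 ^ blockDefect 2 B = 2 ^ 2)
  obtain ⟨Db, hDb⟩ := Reynolds.exists_defectGroup (p := 2) hmaxI b hb.1
  have hDb4 : Nat.card Db = 4 := by
    rw [DefectGroup.card_defectGroup hM b hb.1 Db hDb, hdef, hB2]
    norm_num
  have hxC : x ∈ Subgroup.centralizer ((Subgroup.zpowers x : Subgroup G) : Set G) :=
    hPC (hxP₁ (Subgroup.mem_zpowers x))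
  have hfinC : Fintype (Subgroup.centralizer ((Subgroup.zpowers x : Subgroup G) : Set G)) :=
    Fintype.ofFinite _
  have hz2 : orderOf (⟨x, hxC⟩ :
      Subgroup.centralizer ((Subgroup.zpowers x : Subgroup G) : Set G)) = 2 := by
    rw [Subgroup.orderOf_mk]
    exact orderOf_eq_prime (by rw [pow_two]; exact hxx) hx1
  have hzc : (⟨x, hxC⟩ : Subgroup.centralizer ((Subgroup.zpowers x : Subgroup G) : Set G))
      ∈ Subgroup.center _ := by
    apply Subgroup.mem_center_iff.mpr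
    intro y
    exact Subtype.ext (Subgroup.mem_centralizer_iff.mp y.2 x (Subgroup.mem_zpowers x)).symm
  exact ⟨hxx, rank_one_central hM _ hz2 hzc b hb.1 Db hDb hDb4, Db, hDb, hDb4⟩

theorem gen_control {p : ℕ} [Fact p.Prime] (hM : IsPModular p M)
    (B : Set (IrrCharacter G)) (P : Subgroup G)
    (e : Set (IrrCharacter (Subgroup.centralizer (P : Set G))))
    (hmax : IsMaximalBrauerPair p M B P e) (hab : ∀ x ∈ P, ∀ y ∈ P, x * y = y * x)
    (Q : Subgroup G) (f : Set (IrrCharacter (Subgroup.centralizer (Q : Set G))))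
    (hle : SubpairLE p M Q f P e) (y : G)
    (hley : SubpairLE p M (Q.map (MulAut.conj y).toMonoidHom) (conjBlock Q y f) P e) :
    ∃ t : G, t ∈ Subgroup.normalizer (P : Set G) ∧
      StabilizesBlock (Subgroup.centralizer (P : Set G)) e t ∧
      ∀ q ∈ Q, y * q * y⁻¹ = t * q * t⁻¹ := by
  have hPe := hmax.1.1
  obtain ⟨hQP, hf, -⟩ := Brauer.chain hM P e hPe.2 Q f hle
  obtain ⟨hQ'P, hf', -⟩ := Brauer.chain hM P e hPe.2 _ _ hley
  have hPK : P ≤ Subgroup.centralizer (Q : Set G) := by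
    intro x hx
    rw [Subgroup.mem_centralizer_iff]
    intro q hq
    exact hab q (hQP hq) x hx
  have hPN : P ≤ Subgroup.normalizer (Q : Set G) :=
    hPK.trans (Subgroup.centralizer_le_normalizer _)
  have hPK' : P ≤ Subgroup.centralizer
      ((Q.map (MulAut.conj y).toMonoidHom : Subgroup G) : Set G) := by
    intro x hx
    rw [Subgroup.mem_centralizer_iff]
    intro q hq
    exact hab q (hQ'P hq) x hx
  have hPN' : P ≤ Subgroup.normalizer
      ((Q.map (MulAut.conj y).toMonoidHom : Subgroup G) : Set G) :=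
    hPK'.trans (Subgroup.centralizer_le_normalizer _)
  obtain ⟨e₀, hn₀, hle₀⟩ := Brauer.normal_sub_of_le hM P Q P e f hPe hle hQP le_rfl hPN
  have hee₀ : e = e₀ := (Brauer.chain_same hM P e hPe.2 e₀ hle₀).symm
  subst hee₀
  obtain ⟨e₁, hn₁, hle₁⟩ := Brauer.normal_sub_of_le hM P _ P e _ hPe hley hQ'P le_rfl hPN'
  have hee₁ : e = e₁ := (Brauer.chain_same hM P e hPe.2 e₁ hle₁).symm
  subst hee₁
  obtain ⟨D, hD, hPD⟩ := Brauer.exists_defect_ge_of_le hM P _ e _ hPe hley
  obtain ⟨u, hu, hcard⟩ := Brauer.exists_bigger hM B P _ e _ hmax hley D hD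
  have hPinf : P ⊓ Subgroup.centralizer
      ((Q.map (MulAut.conj y).toMonoidHom : Subgroup G) : Set G) = P := inf_eq_left.mpr hPK'
  have hDeq : P.subgroupOf (Subgroup.centralizer
      ((Q.map (MulAut.conj y).toMonoidHom : Subgroup G) : Set G)) = D := by
    rw [hPinf] at hPD
    apply Subgroup.eq_of_le_of_card_ge hPD
    have h1 : Nat.card (P.subgroupOf (Subgroup.centralizer
        ((Q.map (MulAut.conj y).toMonoidHom : Subgroup G) : Set G))) = Nat.card P :=
      Nat.card_congr (Subgroup.subgroupOfEquivOfLe hPK').toEquiv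
    rw [h1]
    exact hcard.trans (Subgroup.card_le_of_le inf_le_left)
  rw [← hDeq] at hD
  have hny' : IsNormalSubpair p M (Q.map (MulAut.conj y).toMonoidHom) (conjBlock Q y f)
      (P.map (MulAut.conj y).toMonoidHom) (conjBlock P y e) :=
    Brauer.isNormalSubpair_conj Q P y f e hn₀
  have hPyK : P.map (MulAut.conj y).toMonoidHom ≤ Subgroup.centralizer
      ((Q.map (MulAut.conj y).toMonoidHom : Subgroup G) : Set G) := by
    rintro _ ⟨x, hx, rfl⟩
    rw [Subgroup.mem_centralizer_iff]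
    rintro _ ⟨q, hq, rfl⟩
    rw [← map_mul, ← map_mul, hab q (hQP hq) x hx]
  have hFeq : ∀ t : Subgroup.centralizer
      ((Q.map (MulAut.conj y).toMonoidHom : Subgroup G) : Set G),
      blockCoeff (conjBlock Q y f) t
        = subgroupBlockCoeff (Subgroup.centralizer
          ((Q.map (MulAut.conj y).toMonoidHom : Subgroup G) : Set G)) (conjBlock Q y f)
            (t : G) := by
    intro t
    rw [Brauer.subgroupBlockCoeff_eq, Brauer.ext_coe]
  obtain ⟨x, hxK, hlex⟩ := Brauer.rel_conj hM (Q.map (MulAut.conj y).toMonoidHom)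
    (Subgroup.centralizer ((Q.map (MulAut.conj y).toMonoidHom : Subgroup G) : Set G)) le_rfl
    (Subgroup.centralizer_le_normalizer _) (conjBlock Q y f) (conjBlock Q y f) hf' hFeq P _ e
    (conjBlock P y e) hn₁ hPK' hD hny' hPyK
  have hlex' : Relation.ReflTransGen (NormalSubpairRel p M)
      (⟨(P.map (MulAut.conj y).toMonoidHom).map (MulAut.conj x).toMonoidHom,
        conjBlock (P.map (MulAut.conj y).toMonoidHom) x (conjBlock P y e)⟩ : BrauerPairIdx G)
      ⟨P, e⟩ := hlex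
  rw [Brauer.conjPair_mul x y P e] at hlex'
  obtain ⟨htN, htst⟩ := Brauer.conj_self_of_le hM P e hPe.2 (x * y) hlex'
  refine ⟨x * y, htN, htst, ?_⟩
  intro q hq
  have h := Subgroup.mem_centralizer_iff.mp hxK (y * q * y⁻¹) ⟨q, hq, rfl⟩
  calc y * q * y⁻¹ = (y * q * y⁻¹ * x) * x⁻¹ := by group
    _ = x * (y * q * y⁻¹) * x⁻¹ := by rw [h]
    _ = x * y * q * (x * y)⁻¹ := by group

theorem sigma_transport {Q Q' : Subgroup G} (h : Q = Q')
    (f : Set (IrrCharacter (Subgroup.centralizer (Q : Set G)))) :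
    ∃ f' : Set (IrrCharacter (Subgroup.centralizer (Q' : Set G))),
      (⟨Q, f⟩ : BrauerPairIdx G) = ⟨Q', f'⟩ := by
  subst h
  exact ⟨f, rfl⟩

def Rel (M : Ideal AlgInt) (P : Subgroup G)
    (c : Set (IrrCharacter (Subgroup.centralizer (P : Set G))))
    (j : Σ x : G, Set (IrrCharacter
      (Subgroup.centralizer ((Subgroup.zpowers x : Subgroup G) : Set G)))) (u : G) : Prop :=
  ∃ g : G, g * j.1 * g⁻¹ = u ∧
    SubpairLE 2 M ((Subgroup.zpowers j.1).map (MulAut.conj g).toMonoidHom)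
      (conjBlock (Subgroup.zpowers j.1) g j.2) P c

theorem rel_exists (hM : IsPModular 2 M) (B : Set (IrrCharacter G)) (P : Subgroup G)
    (c : Set (IrrCharacter (Subgroup.centralizer (P : Set G))))
    (hmax : IsMaximalBrauerPair 2 M B P c)
    (x : G) (hx1 : x ≠ 1) (hx : ∃ k : ℕ, orderOf x = 2 ^ k)
    (b : Set (IrrCharacter (Subgroup.centralizer ((Subgroup.zpowers x : Subgroup G) : Set G))))
    (hb : IsInducedBlock M (Subgroup.centralizer ((Subgroup.zpowers x : Subgroup G) : Set G))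
      b B) :
    ∃ u ∈ P, u ≠ 1 ∧ Rel M P c ⟨x, b⟩ u := by
  have hpair : IsBrauerPairOf 2 M B (Subgroup.zpowers x) b :=
    (Brauer.induced_centralizer_iff hM (Subgroup.zpowers x) (isPGroup_zpowers x hx) b B).mp hb
  obtain ⟨g, hg⟩ := Brauer.conj_into_maximal hM B P (Subgroup.zpowers x) c b hmax hpair
  have hle := (Brauer.chain hM P c hmax.1.1.2 _ _ hg).1
  refine ⟨g * x * g⁻¹, hle ⟨x, Subgroup.mem_zpowers x, rfl⟩, ?_, g, rfl, hg⟩
  intro h
  exact hx1 (conj_eq_one_iff.mp h)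

theorem rel_surj (hM : IsPModular 2 M) (B : Set (IrrCharacter G)) (P : Subgroup G)
    (c : Set (IrrCharacter (Subgroup.centralizer (P : Set G))))
    (hmax : IsMaximalBrauerPair 2 M B P c)
    (X : Finset G) (hX : ∀ x ∈ X, ∃ k : ℕ, orderOf x = 2 ^ k)
    (hXrep : ∀ g : G, (∃ k : ℕ, orderOf g = 2 ^ k) → ∃! x, x ∈ X ∧ IsConj g x)
    (u : G) (hu : u ∈ P) (hu1 : u ≠ 1) :
    ∃ x ∈ X, x ≠ 1 ∧ ∃ b : Set (IrrCharacter
        (Subgroup.centralizer ((Subgroup.zpowers x : Subgroup G) : Set G))),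
      IsInducedBlock M (Subgroup.centralizer ((Subgroup.zpowers x : Subgroup G) : Set G)) b B ∧
      Rel M P c ⟨x, b⟩ u := by
  have hPe := hmax.1.1
  have hu2 : ∃ k : ℕ, orderOf u = 2 ^ k := by
    obtain ⟨k, hk⟩ := hPe.1 ⟨u, hu⟩
    have h1 : u ^ 2 ^ k = 1 := by
      rw [← Subgroup.coe_mk P u hu, ← Subgroup.coe_pow, hk, Subgroup.coe_one]
    obtain ⟨j, -, hj⟩ := (Nat.dvd_prime_pow Nat.prime_two).mp (orderOf_dvd_of_pow_eq_one h1)
    exact ⟨j, hj⟩
  obtain ⟨x, ⟨hxX, hconj⟩, -⟩ := hXrep u hu2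
  obtain ⟨h, hh⟩ := isConj_iff.mp hconj
  have hzle : Subgroup.zpowers u ≤ P := (Subgroup.zpowers_le).mpr hu
  obtain ⟨f, hfb, hfle⟩ := Brauer.exists_subpair hM P c hPe (Subgroup.zpowers u) hzle
  have hpairu : IsBrauerPairOf 2 M B (Subgroup.zpowers u) f :=
    Brauer.pairOf_of_le hM B P (Subgroup.zpowers u) c f hmax.1 hfle
  have hpairx := Brauer.isBrauerPairOf_conj B (Subgroup.zpowers u) h f hpairu
  have hmapeq : (Subgroup.zpowers u).map (MulAut.conj h).toMonoidHom = Subgroup.zpowers x := by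
    rw [MonoidHom.map_zpowers]
    show Subgroup.zpowers (h * u * h⁻¹) = Subgroup.zpowers x
    rw [hh]
  obtain ⟨b, hbeq⟩ := sigma_transport hmapeq (conjBlock (Subgroup.zpowers u) h f)
  have htr : ∀ a a' : BrauerPairIdx G, a = a' → IsBrauerPairOf 2 M B a.1 a.2 →
      IsBrauerPairOf 2 M B a'.1 a'.2 := by
    intro a a' haa h1
    subst haa
    exact h1
  have hpairb : IsBrauerPairOf 2 M B (Subgroup.zpowers x) b := htr _ _ hbeq hpairx
  have hx1 : x ≠ 1 := by
    intro h1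
    rw [h1] at hh
    exact hu1 (conj_eq_one_iff.mp hh)
  refine ⟨x, hxX, hx1, b, (Brauer.induced_centralizer_iff hM (Subgroup.zpowers x)
    (isPGroup_zpowers x (hX x hxX)) b B).mpr hpairb, h⁻¹, ?_, ?_⟩
  · show h⁻¹ * x * h⁻¹⁻¹ = u
    rw [← hh]
    group
  · have h1 := congrArg (Brauer.conjPair h⁻¹) hbeq
    have h1' : (⟨((Subgroup.zpowers u).map (MulAut.conj h).toMonoidHom).map
          (MulAut.conj h⁻¹).toMonoidHom,
        conjBlock ((Subgroup.zpowers u).map (MulAut.conj h).toMonoidHom) h⁻¹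
          (conjBlock (Subgroup.zpowers u) h f)⟩ : BrauerPairIdx G)
        = ⟨(Subgroup.zpowers x).map (MulAut.conj h⁻¹).toMonoidHom,
          conjBlock (Subgroup.zpowers x) h⁻¹ b⟩ := h1
    have h2 := Brauer.conjPair_mul h⁻¹ h (Subgroup.zpowers u) f
    have h3 := Brauer.conjPair_congr (Subgroup.zpowers u) f (inv_mul_cancel h)
    have h4 := Brauer.conjPair_one (Subgroup.zpowers u) f
    show Relation.ReflTransGen (NormalSubpairRel 2 M)
      (⟨(Subgroup.zpowers x).map (MulAut.conj h⁻¹).toMonoidHom,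
        conjBlock (Subgroup.zpowers x) h⁻¹ b⟩ : BrauerPairIdx G) ⟨P, c⟩
    rw [← h1', h2, h3, h4]
    exact hfle

theorem rel_inj (hM : IsPModular 2 M) (B : Set (IrrCharacter G)) (P : Subgroup G)
    (c : Set (IrrCharacter (Subgroup.centralizer (P : Set G))))
    (hmax : IsMaximalBrauerPair 2 M B P c)
    (X : Finset G) (hX : ∀ x ∈ X, ∃ k : ℕ, orderOf x = 2 ^ k)
    (hXrep : ∀ g : G, (∃ k : ℕ, orderOf g = 2 ^ k) → ∃! x, x ∈ X ∧ IsConj g x)
    (x x' : G) (hxX : x ∈ X) (hx'X : x' ∈ X)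
    (b : Set (IrrCharacter (Subgroup.centralizer ((Subgroup.zpowers x : Subgroup G) : Set G))))
    (b' : Set (IrrCharacter
      (Subgroup.centralizer ((Subgroup.zpowers x' : Subgroup G) : Set G))))
    (u u' : G) (hR : Rel M P c ⟨x, b⟩ u) (hR' : Rel M P c ⟨x', b'⟩ u')
    (t : G) (htN : t ∈ Subgroup.normalizer (P : Set G))
    (htst : StabilizesBlock (Subgroup.centralizer (P : Set G)) c t)
    (htu : u' = t * u * t⁻¹) :
    (⟨x, b⟩ : Σ x : G, Set (IrrCharacter
      (Subgroup.centralizer ((Subgroup.zpowers x : Subgroup G) : Set G)))) = ⟨x', b'⟩ := by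
  obtain ⟨g, hgu, hgle⟩ := hR
  obtain ⟨g', hgu', hgle'⟩ := hR'
  have hgu0 : g * x * g⁻¹ = u := hgu
  have hgu0' : g' * x' * g'⁻¹ = u' := hgu'
  have hk : (g'⁻¹ * (t * g)) * x * (g'⁻¹ * (t * g))⁻¹ = x' := by
    have e1 : x' = g'⁻¹ * u' * g' := by
      rw [← hgu0']
      group
    rw [e1, htu, ← hgu0]
    group
  have hxx' : x' = x := by
    obtain ⟨y, -, huniq⟩ := hXrep x (hX x hxX)
    rw [huniq x ⟨hxX, IsConj.refl x⟩, huniq x' ⟨hx'X, isConj_iff.mpr ⟨_, hk⟩⟩]
  subst hxx'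
  have hPe := hmax.1.1
  have hgle1 : SubpairLE 2 M ((Subgroup.zpowers x').map (MulAut.conj g).toMonoidHom)
      (conjBlock (Subgroup.zpowers x') g b) P c := hgle
  have hgle1' : SubpairLE 2 M ((Subgroup.zpowers x').map (MulAut.conj g').toMonoidHom)
      (conjBlock (Subgroup.zpowers x') g' b') P c := hgle'
  have h1 := Brauer.subpairLE_conj _ P t _ c hgle1
  have h2 : Relation.ReflTransGen (NormalSubpairRel 2 M)
      (⟨((Subgroup.zpowers x').map (MulAut.conj g).toMonoidHom).map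
          (MulAut.conj t).toMonoidHom,
        conjBlock ((Subgroup.zpowers x').map (MulAut.conj g).toMonoidHom) t
          (conjBlock (Subgroup.zpowers x') g b)⟩ : BrauerPairIdx G)
      ⟨P.map (MulAut.conj t).toMonoidHom, conjBlock P t c⟩ := h1
  rw [(Brauer.conjPair_eq_iff P c t).mpr ⟨htN, htst⟩,
    Brauer.conjPair_mul t g (Subgroup.zpowers x') b] at h2
  have h2' : SubpairLE 2 M ((Subgroup.zpowers x').map (MulAut.conj (t * g)).toMonoidHom)
      (conjBlock (Subgroup.zpowers x') (t * g) b) P c := h2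
  have hQQ : (Subgroup.zpowers x').map (MulAut.conj (t * g)).toMonoidHom
      = (Subgroup.zpowers x').map (MulAut.conj g').toMonoidHom := by
    rw [MonoidHom.map_zpowers, MonoidHom.map_zpowers]
    show Subgroup.zpowers (t * g * x' * (t * g)⁻¹) = Subgroup.zpowers (g' * x' * g'⁻¹)
    have e : t * g * x' * (t * g)⁻¹ = g' * x' * g'⁻¹ := by
      rw [hgu0', htu, ← hgu0]
      group
    rw [e]
  have h3 := Brauer.pair_eq_of_le_of_le hM P _ _ c hPe _ _ h2' hgle1' hQQ
  have h4 := congrArg (Brauer.conjPair g'⁻¹) h3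
  have h4' : (⟨((Subgroup.zpowers x').map (MulAut.conj g').toMonoidHom).map
        (MulAut.conj g'⁻¹).toMonoidHom,
        conjBlock ((Subgroup.zpowers x').map (MulAut.conj g').toMonoidHom) g'⁻¹
          (conjBlock (Subgroup.zpowers x') g' b')⟩ : BrauerPairIdx G)
      = ⟨((Subgroup.zpowers x').map (MulAut.conj (t * g)).toMonoidHom).map
          (MulAut.conj g'⁻¹).toMonoidHom,
        conjBlock ((Subgroup.zpowers x').map (MulAut.conj (t * g)).toMonoidHom) g'⁻¹
          (conjBlock (Subgroup.zpowers x') (t * g) b)⟩ := h4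
  rw [Brauer.conjPair_mul g'⁻¹ g' (Subgroup.zpowers x') b',
    Brauer.conjPair_congr (Subgroup.zpowers x') b' (inv_mul_cancel g'),
    Brauer.conjPair_one (Subgroup.zpowers x') b',
    Brauer.conjPair_mul g'⁻¹ (t * g) (Subgroup.zpowers x') b] at h4'
  have hkC : g'⁻¹ * (t * g) ∈ Subgroup.centralizer
      ((Subgroup.zpowers x' : Subgroup G) : Set G) := by
    rw [← Brauer.centralizer_singleton_eq x', Subgroup.mem_centralizer_iff]
    intro y hy
    rw [Set.mem_singleton_iff.mp hy]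
    calc x' * (g'⁻¹ * (t * g))
        = (g'⁻¹ * (t * g)) * x' * (g'⁻¹ * (t * g))⁻¹ * (g'⁻¹ * (t * g)) := by rw [hk]
      _ = (g'⁻¹ * (t * g)) * x' := by group
  have hstab : (⟨(Subgroup.zpowers x').map (MulAut.conj (g'⁻¹ * (t * g))).toMonoidHom,
      conjBlock (Subgroup.zpowers x') (g'⁻¹ * (t * g)) b⟩ : BrauerPairIdx G)
      = ⟨Subgroup.zpowers x', b⟩ := by
    rw [Brauer.conjPair_eq_iff]
    refine ⟨Subgroup.centralizer_le_normalizer _ hkC, ?_⟩
    rw [Brauer.stabilizesBlock_iff]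
    refine ⟨Subgroup.le_normalizer hkC, fun χ hχ => ?_⟩
    rw [TwoDef.cj_of_mem _ ⟨_, Subgroup.le_normalizer hkC⟩ hkC χ]
    exact hχ
  rw [hstab] at h4'
  have hbb : b' = b := eq_of_heq (Sigma.mk.inj_iff.mp h4').2
  rw [hbb]

theorem rel_control (hM : IsPModular 2 M) (B : Set (IrrCharacter G)) (P : Subgroup G)
    (c : Set (IrrCharacter (Subgroup.centralizer (P : Set G))))
    (hmax : IsMaximalBrauerPair 2 M B P c) (hab : ∀ x ∈ P, ∀ y ∈ P, x * y = y * x)
    (x : G)
    (b : Set (IrrCharacter (Subgroup.centralizer ((Subgroup.zpowers x : Subgroup G) : Set G))))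
    (u u' : G) (hR : Rel M P c ⟨x, b⟩ u) (hR' : Rel M P c ⟨x, b⟩ u') :
    ∃ t : G, t ∈ Subgroup.normalizer (P : Set G) ∧
      StabilizesBlock (Subgroup.centralizer (P : Set G)) c t ∧ u' = t * u * t⁻¹ := by
  obtain ⟨g, hgu, hgle⟩ := hR
  obtain ⟨g', hgu', hgle'⟩ := hR'
  have hgu0 : g * x * g⁻¹ = u := hgu
  have hgu0' : g' * x * g'⁻¹ = u' := hgu'
  have hgle1 : SubpairLE 2 M ((Subgroup.zpowers x).map (MulAut.conj g).toMonoidHom)
      (conjBlock (Subgroup.zpowers x) g b) P c := hgle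
  have hgle1' : SubpairLE 2 M ((Subgroup.zpowers x).map (MulAut.conj g').toMonoidHom)
      (conjBlock (Subgroup.zpowers x) g' b) P c := hgle'
  have hley : SubpairLE 2 M
      (((Subgroup.zpowers x).map (MulAut.conj g).toMonoidHom).map
        (MulAut.conj (g' * g⁻¹)).toMonoidHom)
      (conjBlock ((Subgroup.zpowers x).map (MulAut.conj g).toMonoidHom) (g' * g⁻¹)
        (conjBlock (Subgroup.zpowers x) g b)) P c := by
    show Relation.ReflTransGen (NormalSubpairRel 2 M) (⟨_, _⟩ : BrauerPairIdx G) ⟨P, c⟩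
    rw [Brauer.conjPair_mul (g' * g⁻¹) g (Subgroup.zpowers x) b,
      Brauer.conjPair_congr (Subgroup.zpowers x) b (show g' * g⁻¹ * g = g' by group)]
    exact hgle1'
  obtain ⟨t, htN, htst, hq⟩ := gen_control hM B P c hmax hab _ _ hgle1 (g' * g⁻¹) hley
  refine ⟨t, htN, htst, ?_⟩
  have h1 := hq (g * x * g⁻¹) ⟨x, Subgroup.mem_zpowers x, rfl⟩
  rw [← hgu0', ← hgu0, ← h1]
  group

end Cfsg.Agent.Lib.Helper24.KF
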