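import Mathlib
import Cfsg.Agent.Lib.Helper24.KF5
import Cfsg.Agent.Lib.Helper24.ExtFirst
import Cfsg.Agent.S4437

set_option autoImplicit false

namespace Cfsg.Agent.Lib.Helper24.KF

open Cfsg Cfsg.Agent.Lib.Helper1 Cfsg.Agent.Lib.Helper6 Cfsg.Agent.Lib.Helper24
open scoped ComplexConjugate

universe u

variable {G : Type u} [Group G] [Fintype G] {M : Ideal AlgInt}

theorem exists_reps (p : ℕ) : ∃ X : Finset G, (∀ x ∈ X, ∃ k : ℕ, orderOf x = p ^ k) ∧
    ∀ g : G, (∃ k : ℕ, orderOf g = p ^ k) → ∃! x, x ∈ X ∧ IsConj g x := by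
  classical
  refine ⟨Finset.univ.filter (fun x : G => (∃ k : ℕ, orderOf x = p ^ k)
    ∧ Quotient.out (ConjClasses.mk x) = x), ?_, ?_⟩
  · intro x hx
    exact (Finset.mem_filter.mp hx).2.1
  · intro g hg
    have hmk : ConjClasses.mk (Quotient.out (ConjClasses.mk g)) = ConjClasses.mk g :=
      Quotient.out_eq _
    have hconj : IsConj g (Quotient.out (ConjClasses.mk g)) :=
      ConjClasses.mk_eq_mk_iff_isConj.mp hmk.symm
    refine ⟨Quotient.out (ConjClasses.mk g), ⟨Finset.mem_filter.mpr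
      ⟨Finset.mem_univ _, ?_, by rw [hmk]⟩, hconj⟩, ?_⟩
    · obtain ⟨k, hk⟩ := hg
      obtain ⟨c, hc⟩ := isConj_iff.mp hconj
      exact ⟨k, by rw [← hc, Subsec.orderOf_conj', hk]⟩
    · rintro y ⟨hy, hgy⟩
      have h1 := (Finset.mem_filter.mp hy).2.2
      rw [← h1, ConjClasses.mk_eq_mk_iff_isConj.mpr hgy.symm]

theorem card_of_rel {κ : Type*} (J : Finset κ) (S : Finset G) (R : κ → G → Prop)
    (hB : ∀ j ∈ J, ∃ u ∈ S, R j u) (hA : ∀ u ∈ S, ∃ j ∈ J, R j u)
    (hC : ∀ j ∈ J, ∀ j' ∈ J, ∀ u, R j u → R j' u → j = j')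
    (hD : ∀ j ∈ J, ∀ u u', R j u → R j u' → u = u') : J.card = S.card := by
  classical
  choose! f hfS hfR using hB
  apply Finset.card_bij (fun j _ => f j)
  · intro j hj
    exact hfS j hj
  · intro j hj j' hj' h
    have h1 : R j' (f j) := by
      rw [h]
      exact hfR j' hj'
    exact hC j hj j' hj' (f j) (hfR j hj) h1
  · intro u hu
    obtain ⟨j, hj, hR⟩ := hA u hu
    exact ⟨j, hj, hD j hj (f j) u (hfR j hj) hR⟩

open Classical in
theorem card_nonone (P : Subgroup G) (hP4 : Nat.card P = 4) :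
    (Finset.univ.filter (fun u : G => u ∈ P ∧ u ≠ 1)).card = 3 := by
  have h1 : (Finset.univ.filter (fun u : G => u ∈ P)).card = 4 := by
    rw [← hP4, Nat.card_eq_fintype_card, Fintype.card_subtype]
  have h2 : Finset.univ.filter (fun u : G => u ∈ P ∧ u ≠ 1)
      = (Finset.univ.filter (fun u : G => u ∈ P)).erase 1 := by
    ext u
    simp only [Finset.mem_filter, Finset.mem_univ, true_and, Finset.mem_erase]
    tauto
  rw [h2, Finset.card_erase_of_mem (Finset.mem_filter.mpr ⟨Finset.mem_univ _, P.one_mem⟩), h1]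

theorem rel_mem (hM : IsPModular 2 M) (P : Subgroup G)
    (c : Set (IrrCharacter (Subgroup.centralizer (P : Set G)))) (hc : IsPBlock M c)
    (j : Σ x : G, Set (IrrCharacter
      (Subgroup.centralizer ((Subgroup.zpowers x : Subgroup G) : Set G)))) (u : G)
    (hR : Rel M P c j u) : u ∈ P := by
  obtain ⟨g, hgu, hgle⟩ := hR
  have hle := (Brauer.chain hM P c hc _ _ hgle).1
  rw [← hgu]
  exact hle ⟨j.1, Subgroup.mem_zpowers j.1, rfl⟩

theorem stab_one (K : Subgroup G) (f : Set (IrrCharacter K)) : StabilizesBlock K f 1 := by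
  rw [Brauer.stabilizesBlock_iff]
  refine ⟨Subgroup.one_mem _, fun χ hχ => ?_⟩
  rw [TwoDef.cj_of_mem K ⟨1, Subgroup.one_mem _⟩ (Subgroup.one_mem K) χ]
  exact hχ

theorem count_one (hM : IsPModular 2 M) (B : Set (IrrCharacter G)) (P : Subgroup G)
    (c : Set (IrrCharacter (Subgroup.centralizer (P : Set G))))
    (hmax : IsMaximalBrauerPair 2 M B P c) (hP4 : Nat.card P = 4)
    (hab : ∀ x ∈ P, ∀ y ∈ P, x * y = y * x)
    (X : Finset G) (hX : ∀ x ∈ X, ∃ k : ℕ, orderOf x = 2 ^ k)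
    (hXrep : ∀ g : G, (∃ k : ℕ, orderOf g = 2 ^ k) → ∃! x, x ∈ X ∧ IsConj g x)
    (J : Finset (Σ x : G, Set (IrrCharacter
      (Subgroup.centralizer ((Subgroup.zpowers x : Subgroup G) : Set G)))))
    (hJ : ∀ j, j ∈ J ↔ (j.1 ∈ X ∧ j.1 ≠ 1 ∧ IsInducedBlock M
      (Subgroup.centralizer ((Subgroup.zpowers j.1 : Subgroup G) : Set G)) j.2 B))
    (hTC : ∀ t, t ∈ Subgroup.normalizer (P : Set G) →
      StabilizesBlock (Subgroup.centralizer (P : Set G)) c t →
      t ∈ Subgroup.centralizer (P : Set G)) :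
    J.card = 3 := by
  classical
  rw [← card_nonone P hP4]
  apply card_of_rel J _ (Rel M P c)
  · intro j hj
    obtain ⟨hjX, hj1, hjb⟩ := (hJ j).mp hj
    obtain ⟨u, hu, hu1, hR⟩ := rel_exists hM B P c hmax j.1 hj1 (hX j.1 hjX) j.2 hjb
    exact ⟨u, Finset.mem_filter.mpr ⟨Finset.mem_univ _, hu, hu1⟩, hR⟩
  · intro u hu
    obtain ⟨-, huP, hu1⟩ := Finset.mem_filter.mp hu
    obtain ⟨x, hxX, hx1, b, hb, hR⟩ := rel_surj hM B P c hmax X hX hXrep u huP hu1
    exact ⟨⟨x, b⟩, (hJ _).mpr ⟨hxX, hx1, hb⟩, hR⟩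
  · intro j hj j' hj' u hR hR'
    obtain ⟨hjX, hj1, hjb⟩ := (hJ j).mp hj
    obtain ⟨hjX', hj1', hjb'⟩ := (hJ j').mp hj'
    exact rel_inj hM B P c hmax X hX hXrep j.1 j'.1 hjX hjX' j.2 j'.2 u u hR hR' 1
      (Subgroup.one_mem _) (stab_one _ c) (by group)
  · intro j hj u u' hR hR'
    obtain ⟨t, htN, htst, htu⟩ := rel_control hM B P c hmax hab j.1 j.2 u u' hR hR'
    have htC := hTC t htN htst
    have huP := rel_mem hM P c hmax.1.1.2 j u hR
    have h1 := Subgroup.mem_centralizer_iff.mp htC u huP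
    rw [htu, ← h1]
    group

theorem count_three (hM : IsPModular 2 M) (B : Set (IrrCharacter G)) (P : Subgroup G)
    (c : Set (IrrCharacter (Subgroup.centralizer (P : Set G))))
    (hmax : IsMaximalBrauerPair 2 M B P c) (hP4 : Nat.card P = 4)
    (X : Finset G) (hX : ∀ x ∈ X, ∃ k : ℕ, orderOf x = 2 ^ k)
    (hXrep : ∀ g : G, (∃ k : ℕ, orderOf g = 2 ^ k) → ∃! x, x ∈ X ∧ IsConj g x)
    (J : Finset (Σ x : G, Set (IrrCharacter
      (Subgroup.centralizer ((Subgroup.zpowers x : Subgroup G) : Set G)))))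
    (hJ : ∀ j, j ∈ J ↔ (j.1 ∈ X ∧ j.1 ≠ 1 ∧ IsInducedBlock M
      (Subgroup.centralizer ((Subgroup.zpowers j.1 : Subgroup G) : Set G)) j.2 B))
    (htrans : ∀ u ∈ P, u ≠ 1 → ∀ u' ∈ P, u' ≠ 1 → ∃ t, t ∈ Subgroup.normalizer (P : Set G) ∧
      StabilizesBlock (Subgroup.centralizer (P : Set G)) c t ∧ u' = t * u * t⁻¹) :
    J.card = 1 := by
  classical
  obtain ⟨u₀, hu₀P, hu₀1⟩ : ∃ u ∈ P, u ≠ 1 := by
    by_contra hcon
    push Not at hcon
    have hbot : P = ⊥ := (Subgroup.eq_bot_iff_forall P).mpr hcon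
    rw [hbot, Subgroup.card_bot] at hP4
    norm_num at hP4
  obtain ⟨x, hxX, hx1, b, hb, hR⟩ := rel_surj hM B P c hmax X hX hXrep u₀ hu₀P hu₀1
  rw [Finset.card_eq_one]
  refine ⟨⟨x, b⟩, ?_⟩
  ext j
  rw [Finset.mem_singleton]
  constructor
  · intro hj
    obtain ⟨hjX, hj1, hjb⟩ := (hJ j).mp hj
    obtain ⟨u, hu, hu1, hRj⟩ := rel_exists hM B P c hmax j.1 hj1 (hX j.1 hjX) j.2 hjb
    obtain ⟨t, htN, htst, htu⟩ := htrans u hu hu1 u₀ hu₀P hu₀1
    exact rel_inj hM B P c hmax X hX hXrep j.1 x hjX hxX j.2 b u u₀ hRj hR t htN htst htu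
  · intro hj
    rw [hj]
    exact (hJ _).mpr ⟨hxX, hx1, hb⟩

def omegaAct (P T : Subgroup G) (hTN : T ≤ Subgroup.normalizer (P : Set G)) :
    MulAction T {u : G // u ∈ P ∧ u ≠ 1} where
  smul t u := ⟨(t : G) * u.1 * (t : G)⁻¹,
    (Subgroup.mem_normalizer_iff.mp (hTN t.2) u.1).mp u.2.1,
    fun h => u.2.2 (conj_eq_one_iff.mp h)⟩
  one_smul u := by
    apply Subtype.ext
    show ((1 : T) : G) * u.1 * ((1 : T) : G)⁻¹ = u.1
    rw [Subgroup.coe_one]
    group
  mul_smul s t u := by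
    apply Subtype.ext
    show ((s * t : T) : G) * u.1 * ((s * t : T) : G)⁻¹
      = (s : G) * ((t : G) * u.1 * (t : G)⁻¹) * (s : G)⁻¹
    rw [Subgroup.coe_mul]
    group

theorem inertial (P T : Subgroup G) (hP4 : Nat.card P = 4)
    (hTN : T ≤ Subgroup.normalizer (P : Set G))
    (hodd : ¬ 2 ∣ (Subgroup.centralizer (P : Set G)).relIndex T) :
    ((Subgroup.centralizer (P : Set G)).relIndex T = 1
        ∧ T ≤ Subgroup.centralizer (P : Set G)) ∨
      ((Subgroup.centralizer (P : Set G)).relIndex T = 3 ∧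
        ∀ u ∈ P, u ≠ 1 → ∀ u' ∈ P, u' ≠ 1 → ∃ t ∈ T, u' = t * u * t⁻¹) := by
  classical
  letI act : MulAction T {u : G // u ∈ P ∧ u ≠ 1} := omegaAct P T hTN
  obtain ⟨φ, hφ⟩ : ∃ φ : T →* Equiv.Perm {u : G // u ∈ P ∧ u ≠ 1},
      φ = MulAction.toPermHom T {u : G // u ∈ P ∧ u ≠ 1} := ⟨_, rfl⟩
  have hΩ3 : Nat.card {u : G // u ∈ P ∧ u ≠ 1} = 3 := by
    rw [Nat.card_eq_fintype_card, Fintype.card_subtype]
    exact card_nonone P hP4
  have hker : φ.ker = (Subgroup.centralizer (P : Set G)).subgroupOf T := by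
    ext t
    rw [MonoidHom.mem_ker, Subgroup.mem_subgroupOf, Subgroup.mem_centralizer_iff, hφ]
    constructor
    · intro h q hq
      by_cases hq1 : q = 1
      · rw [hq1, one_mul, mul_one]
      · have h1 := congrArg (fun σ : Equiv.Perm {u : G // u ∈ P ∧ u ≠ 1} =>
          ((σ ⟨q, hq, hq1⟩ : {u : G // u ∈ P ∧ u ≠ 1}) : G)) h
        have h2 : (t : G) * q * (t : G)⁻¹ = q := h1
        calc q * (t : G) = (t : G) * q * (t : G)⁻¹ * (t : G) := by rw [h2]
          _ = (t : G) * q := by group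
    · intro h
      apply Equiv.ext
      intro u
      apply Subtype.ext
      show (t : G) * u.1 * (t : G)⁻¹ = u.1
      rw [← h u.1 u.2.1]
      group
  have hidx : (Subgroup.centralizer (P : Set G)).relIndex T = φ.ker.index := by
    rw [hker]
    rfl
  have hdvd : φ.ker.index ∣ 6 := by
    rw [Subgroup.index_ker]
    have h1 := Subgroup.card_subgroup_dvd_card φ.range
    rw [Nat.card_perm, hΩ3] at h1
    exact h1
  have he : (Subgroup.centralizer (P : Set G)).relIndex T = 1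
      ∨ (Subgroup.centralizer (P : Set G)).relIndex T = 3 := by
    rw [hidx] at hodd ⊢
    obtain ⟨n, hn⟩ : ∃ n : ℕ, n = φ.ker.index := ⟨_, rfl⟩
    rw [← hn] at hodd hdvd ⊢
    have hle : n ≤ 6 := Nat.le_of_dvd (by norm_num) hdvd
    revert hodd hdvd
    interval_cases n <;> decide
  rcases he with h1 | h3
  · left
    exact ⟨h1, Subgroup.relIndex_eq_one.mp h1⟩
  · right
    refine ⟨h3, ?_⟩
    have hk3 : φ.ker.index = 3 := by
      rw [← hidx]
      exact h3
    have hnot : ¬ T ≤ Subgroup.centralizer (P : Set G) := by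
      intro hle
      rw [Subgroup.relIndex_eq_one.mpr hle] at h3
      norm_num at h3
    obtain ⟨t₀, ht₀T, ht₀C⟩ := SetLike.not_le_iff_exists.mp hnot
    rw [Subgroup.mem_centralizer_iff] at ht₀C
    push Not at ht₀C
    obtain ⟨p, hpP, hpne⟩ := ht₀C
    have hp1 : p ≠ 1 := by
      intro h
      rw [h, one_mul, mul_one] at hpne
      exact hpne rfl
    obtain ⟨u₁, hu₁⟩ : ∃ u₁ : {u : G // u ∈ P ∧ u ≠ 1}, u₁ = ⟨p, hpP, hp1⟩ := ⟨_, rfl⟩
    have hstabne : MulAction.stabilizer T u₁ ≠ ⊤ := by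
      intro htop
      have hmem : (⟨t₀, ht₀T⟩ : T) ∈ MulAction.stabilizer T u₁ := by
        rw [htop]
        exact Subgroup.mem_top _
      rw [MulAction.mem_stabilizer_iff] at hmem
      have h2 := congrArg Subtype.val hmem
      rw [hu₁] at h2
      have h3' : t₀ * p * t₀⁻¹ = p := h2
      apply hpne
      calc p * t₀ = t₀ * p * t₀⁻¹ * t₀ := by rw [h3']
        _ = t₀ * p := by group
    have hkerle : φ.ker ≤ MulAction.stabilizer T u₁ := by
      intro t ht
      rw [MulAction.mem_stabilizer_iff]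
      rw [MonoidHom.mem_ker, hφ] at ht
      exact congrArg (fun σ : Equiv.Perm {u : G // u ∈ P ∧ u ≠ 1} => σ u₁) ht
    have hsdvd : (MulAction.stabilizer T u₁).index ∣ 3 := by
      rw [← hk3]
      exact Subgroup.index_dvd_of_le hkerle
    have hs3 : (MulAction.stabilizer T u₁).index = 3 := by
      rcases (Nat.dvd_prime Nat.prime_three).mp hsdvd with h | h
      · exact absurd (Subgroup.index_eq_one.mp h) hstabne
      · exact h
    have horb : MulAction.orbit T u₁ = Set.univ := by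
      apply Set.eq_of_subset_of_ncard_le (Set.subset_univ _)
      exact le_of_eq (by rw [Set.ncard_univ, hΩ3, ← MulAction.index_stabilizer T u₁, hs3])
    intro u hu hu1 u' hu' hu1'
    have hmem : (⟨u, hu, hu1⟩ : {u : G // u ∈ P ∧ u ≠ 1}) ∈ MulAction.orbit T u₁ := by
      rw [horb]
      exact Set.mem_univ _
    have hmem' : (⟨u', hu', hu1'⟩ : {u : G // u ∈ P ∧ u ≠ 1}) ∈ MulAction.orbit T u₁ := by
      rw [horb]
      exact Set.mem_univ _
    obtain ⟨a, ha⟩ := hmem
    obtain ⟨a', ha'⟩ := hmem'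
    have e1 : (a : G) * u₁.1 * (a : G)⁻¹ = u := congrArg Subtype.val ha
    have e2 : (a' : G) * u₁.1 * (a' : G)⁻¹ = u' := congrArg Subtype.val ha'
    refine ⟨(a' : G) * (a : G)⁻¹, T.mul_mem a'.2 (T.inv_mem a.2), ?_⟩
    rw [← e1, ← e2]
    group

theorem index_odd (hM : IsPModular 2 M) (B : Set (IrrCharacter G)) (hB : IsPBlock M B)
    (P : Subgroup G) (hPD : IsDefectGroup 2 M B P) (hPab : ∀ x ∈ P, ∀ y ∈ P, x * y = y * x)
    (c : Set (IrrCharacter (Subgroup.centralizer (P : Set G))))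
    (hc : IsInducedBlock M (Subgroup.centralizer (P : Set G)) c B) (T : Subgroup G)
    (hT : ∀ g : G, g ∈ T ↔ (g ∈ Subgroup.normalizer (P : Set G) ∧
      StabilizesBlock (Subgroup.centralizer (P : Set G)) c g)) :
    ¬ 2 ∣ (Subgroup.centralizer (P : Set G)).relIndex T := by
  classical
  have hPC : P ≤ Subgroup.centralizer (P : Set G) := by
    intro x hx
    rw [Subgroup.mem_centralizer_iff]
    intro y hy
    exact hPab y hy x hx
  have hPp : IsPGroup 2 P :=
    IsPGroup.of_card (DefectGroup.card_defectGroup hM B hB P hPD)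
  have hH : Subgroup.centralizer (P : Set G) = P ⊔ Subgroup.centralizer (P : Set G) :=
    (sup_eq_right.mpr hPC).symm
  have hfinC : Fintype (Subgroup.centralizer (P : Set G)) := Fintype.ofFinite _
  have hmap : (P.subgroupOf (Subgroup.centralizer (P : Set G))).map
      (Subgroup.centralizer (P : Set G)).subtype = P := Subgroup.map_subgroupOf_eq_of_le hPC
  have hP' : IsPGroup 2 (P.subgroupOf (Subgroup.centralizer (P : Set G))) := hPp.comap_subtype
  have hbP : IsDefectGroup 2 M c (P.subgroupOf (Subgroup.centralizer (P : Set G))) := by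
    apply ExtFirst.defect_of_induced hM (Subgroup.centralizer (P : Set G))
      (P.subgroupOf (Subgroup.centralizer (P : Set G))) hP' ?_ c B hc ?_
    · rw [hmap]
      exact hH
    · rw [hmap]
      exact hPD
  have hT' : ∀ g : G, g ∈ T ↔ (g ∈ Subgroup.normalizer (P : Set G) ∧
      ∀ θ ∈ c, ∀ θ' : IrrCharacter (Subgroup.centralizer (P : Set G)),
        (∀ h h' : Subgroup.centralizer (P : Set G), (h' : G) = g * h * g⁻¹ →
          (θ' : Subgroup.centralizer (P : Set G) → ℂ) h'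
            = (θ : Subgroup.centralizer (P : Set G) → ℂ) h) → θ' ∈ c) := by
    intro g
    rw [hT g]
    constructor
    · rintro ⟨hgN, hst⟩
      refine ⟨hgN, ?_⟩
      intro θ hθ θ' hconj
      obtain ⟨hx, hall⟩ := (Brauer.stabilizesBlock_iff
        (Subgroup.centralizer (P : Set G)) c g).mp hst
      have h1 : (θ' : Subgroup.centralizer (P : Set G) → ℂ)
          = (θ : Subgroup.centralizer (P : Set G) → ℂ) ∘
            (Brauer.conjEquiv (Subgroup.centralizer (P : Set G)) ⟨g, hx⟩).symm :=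
        (Brauer.isConjCharOf_iff (Subgroup.centralizer (P : Set G))
          ⟨g, hx⟩ θ.1 θ'.1).mp hconj
      have h2 : θ' = Brauer.cj (Subgroup.centralizer (P : Set G)) ⟨g, hx⟩ θ := Subtype.ext h1
      rw [h2]
      exact hall θ hθ
    · rintro ⟨hgN, hform⟩
      refine ⟨hgN, ?_⟩
      have hx : g ∈ Subgroup.normalizer
          ((Subgroup.centralizer (P : Set G) : Subgroup G) : Set G) :=
        Brauer.mem_normalizer_centralizer hgN
      rw [Brauer.stabilizesBlock_iff]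
      refine ⟨hx, fun χ hχ => hform χ hχ
        (Brauer.cj (Subgroup.centralizer (P : Set G)) ⟨g, hx⟩ χ) ?_⟩
      exact (Brauer.isConjCharOf_iff (Subgroup.centralizer (P : Set G))
        ⟨g, hx⟩ χ.1 (Brauer.cj (Subgroup.centralizer (P : Set G)) ⟨g, hx⟩ χ).1).mpr rfl
  exact (Cfsg.Agent.S4437.result 2 M hM P hPp (Subgroup.centralizer (P : Set G)) hH c hc.1
    hbP B hc T hT').mp hPD

end Cfsg.Agent.Lib.Helper24.KF
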