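import Mathlib
import Cfsg.Agent.Lib.Helper24.CentralDef2
import Cfsg.Agent.Lib.Helper25.KGV

set_option autoImplicit false

namespace Cfsg.Agent.Lib.Helper24.Knorr

open Cfsg Cfsg.Agent.Lib.Helper1 Cfsg.Agent.Lib.Helper6 Cfsg.Agent.Lib.Helper24
open scoped ComplexConjugate

universe u

noncomputable def kO {G : Type u} [Group G] (p : ℕ) (χ : G → ℂ) : ℂ :=
  (∑ᶠ g ∈ {g : G | orderOf g = p}, χ g) / χ 1

noncomputable def ordInd (G : Type u) [Group G] (p : ℕ) : G → ℂ :=
  fun g => if orderOf g = p then 1 else 0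

theorem omega_ordInd {G : Type u} [Group G] [Fintype G] (p : ℕ) (χ : G → ℂ) :
    omega χ (ordInd G p) = kO p χ := by
  classical
  show (∑ g : G, ordInd G p g * χ g) / χ 1 = (∑ᶠ g ∈ {g : G | orderOf g = p}, χ g) / χ 1
  rw [finsum_mem_setOf_eq_sum_filter (fun g : G => orderOf g = p), Finset.sum_filter]
  congr 1
  apply Finset.sum_congr rfl
  intro g _
  show (if orderOf g = p then (1 : ℂ) else 0) * χ g = _
  by_cases h : orderOf g = p
  · rw [if_pos h, if_pos h, one_mul]
  · rw [if_neg h, if_neg h, zero_mul]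

theorem ordInd_class {G : Type u} [Group G] (p : ℕ) : IsClassFunction G (ordInd G p) := by
  intro g h
  show (if orderOf (h * g * h⁻¹) = p then (1 : ℂ) else 0) = if orderOf g = p then (1 : ℂ) else 0
  have h1 : orderOf (h * g * h⁻¹) = orderOf g := by
    have := orderOf_injective (MulAut.conj h).toMonoidHom (MulAut.conj h).injective g
    simpa using this
  rw [h1]

theorem ordInd_sval {G : Type u} [Group G] {M : Ideal AlgInt} (hM : M.IsMaximal) (p : ℕ) :
    SVal M (ordInd G p) := by
  intro g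
  show MemLocalRing M (if orderOf g = p then (1 : ℂ) else 0)
  by_cases h : orderOf g = p
  · rw [if_pos h]
    exact memLocalRing_of_isIntegral hM isIntegral_one
  · rw [if_neg h]
    exact memLocalRing_of_isIntegral hM isIntegral_zero

theorem res_ordInd {G : Type u} [Group G] (p : ℕ) (H : Subgroup G) :
    Brauer.res H (ordInd G p) = ordInd H p := by
  funext x
  show (if orderOf (x : G) = p then (1 : ℂ) else 0) = if orderOf x = p then (1 : ℂ) else 0
  rw [Subgroup.orderOf_coe]

def omegaSub {G : Type u} [Group G] (D : Subgroup G) (hPZ : D ≤ Subgroup.center G) (p : ℕ) :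
    Subgroup G where
  carrier := {x | x ∈ D ∧ x ^ p = 1}
  mul_mem' := by
    rintro a b ⟨ha, ha'⟩ ⟨hb, hb'⟩
    refine ⟨D.mul_mem ha hb, ?_⟩
    have hc : Commute a b := (Subgroup.mem_center_iff.mp (hPZ ha) b).symm
    rw [hc.mul_pow, ha', hb', one_mul]
  one_mem' := ⟨D.one_mem, one_pow p⟩
  inv_mem' := by
    rintro a ⟨ha, ha'⟩
    exact ⟨D.inv_mem ha, by rw [inv_pow, ha', inv_one]⟩

theorem central_case {G : Type u} [Group G] [Fintype G] {M : Ideal AlgInt} {p : ℕ} [Fact p.Prime]
    (hM : IsPModular p M) (B : Set (IrrCharacter G)) (hB : IsPBlock M B) (D : Subgroup G)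
    (hD : IsDefectGroup p M B D) (hDp : IsPGroup p D) (hD1 : D ≠ ⊥)
    (hPZ : D ≤ Subgroup.center G) (χ : IrrCharacter G) (hχ : χ ∈ B) :
    MemLocalIdeal M (kO p (χ : G → ℂ) + 1) := by
  classical
  have hp : p.Prime := Fact.out
  have hχ1 : (χ : G → ℂ) 1 ≠ 0 := CharBasic.irr_one_ne_zero χ.2
  obtain ⟨Ω, hΩ⟩ : ∃ Ω : Subgroup G, ∀ x : G, x ∈ Ω ↔ x ∈ D ∧ x ^ p = 1 :=
    ⟨omegaSub D hPZ p, fun x => Iff.rfl⟩
  have hΩZ : Ω ≤ Subgroup.center G := fun x hx => hPZ ((hΩ x).mp hx).1
  have hpΩ : p ∣ Nat.card Ω := by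
    have hcard : p ∣ Nat.card D := by
      rcases hDp.card_eq_or_dvd with h | h
      · exact absurd (Subgroup.card_eq_one.mp h) hD1
      · exact h
    obtain ⟨x, hx⟩ := exists_prime_orderOf_dvd_card' p hcard
    have hx' : orderOf (x : G) = p := by rw [Subgroup.orderOf_coe]; exact hx
    have hxΩ : (x : G) ∈ Ω := (hΩ _).mpr ⟨x.2, by rw [← hx']; exact pow_orderOf_eq_one _⟩
    rw [← hx']
    exact Subgroup.orderOf_dvd_natCard Ω hxΩ
  have hfinΩ : Fintype Ω := Fintype.ofFinite _
  have htriv : IsIrrCharacter G (fun _ : G => (1 : ℂ)) := CharBasic.irr_trivial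
  have h1 := CentralDef.lam_orth Ω hΩZ χ ⟨fun _ => 1, htriv⟩
  have hl1 : ∀ z : G, CentralDef.lam (fun _ : G => (1 : ℂ)) z = 1 := fun z => by
    show (1 : ℂ) / 1 = 1
    rw [div_one]
  have h2 : ∑ z : Ω, CentralDef.lam (χ : G → ℂ) (z : G) = kO p (χ : G → ℂ) + 1 := by
    rw [← Finset.sum_subtype (Finset.univ.filter (fun g : G => g ∈ Ω)) (by simp)
      (fun g : G => CentralDef.lam (χ : G → ℂ) g), Finset.sum_filter]
    show _ = (∑ᶠ g ∈ {g : G | orderOf g = p}, (χ : G → ℂ) g) / (χ : G → ℂ) 1 + 1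
    rw [finsum_mem_setOf_eq_sum_filter (fun g : G => orderOf g = p), Finset.sum_filter,
      Finset.sum_div]
    have h3 : (1 : ℂ) = ∑ g : G, if g = 1 then (χ : G → ℂ) g / (χ : G → ℂ) 1 else 0 := by
      rw [Finset.sum_ite_eq' Finset.univ (1 : G) (fun g => (χ : G → ℂ) g / (χ : G → ℂ) 1),
        if_pos (Finset.mem_univ _), div_self hχ1]
    rw [h3, ← Finset.sum_add_distrib]
    apply Finset.sum_congr rfl
    intro g _
    by_cases hg : g ∈ Ω
    · rw [if_pos hg]
      obtain ⟨hgD, hgp⟩ := (hΩ g).mp hg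
      by_cases hg1 : g = 1
      · have hne : orderOf g ≠ p := by
          rw [hg1, orderOf_one]
          exact hp.one_lt.ne
        rw [if_neg hne, if_pos hg1, zero_div, zero_add]
        rfl
      · have ho : orderOf g = p := orderOf_eq_prime hgp hg1
        rw [if_pos ho, if_neg hg1, add_zero]
        rfl
    · rw [if_neg hg]
      have hg1 : g ≠ 1 := fun h => hg (h ▸ Ω.one_mem)
      rw [if_neg hg1, add_zero]
      by_cases ho : orderOf g = p
      · rw [if_pos ho]
        have hgD : g ∉ D := fun h => hg ((hΩ g).mpr ⟨h, by rw [← ho]; exact pow_orderOf_eq_one _⟩)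
        have hpp : IsPPart p g g := by
          refine ⟨1, mul_one g, Commute.one_right g, ⟨1, by rw [ho, pow_one]⟩, ?_⟩
          rw [orderOf_one]
          exact hp.one_lt.ne' ∘ Nat.dvd_one.mp
        rw [CentralDef.vanish_off hM B hB D hD hPZ χ hχ g g hpp hgD, zero_div]
      · rw [if_neg ho, zero_div]
  have h3 : MemLocalIdeal M (∑ z : Ω, CentralDef.lam (χ : G → ℂ) (z : G)) := by
    have h4 : ∑ z : Ω, CentralDef.lam (χ : G → ℂ) (z : G)
        = ∑ z : Ω, CentralDef.lam (χ : G → ℂ) (z : G) *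
            conj (CentralDef.lam ((⟨fun _ => 1, htriv⟩ : IrrCharacter G) : G → ℂ) (z : G)) := by
      apply Finset.sum_congr rfl
      intro z _
      have h5 : CentralDef.lam ((⟨fun _ => 1, htriv⟩ : IrrCharacter G) : G → ℂ) (z : G) = 1 :=
        hl1 _
      rw [h5, map_one, mul_one]
    rw [h4, h1]
    split_ifs
    · exact (memLocalIdeal_natCast_iff hM _).mpr hpΩ
    · exact memLocalIdeal_zero hM.2.1
  rw [← h2]
  exact h3

theorem centralizer_defect_ne_bot {G : Type u} [Group G] [Fintype G] {M : Ideal AlgInt} {p : ℕ}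
    [Fact p.Prime] (hM : IsPModular p M) (D : Subgroup G) (hDp : IsPGroup p D) (hD1 : D ≠ ⊥)
    (e : Set (IrrCharacter (Subgroup.centralizer (D : Set G)))) (he : IsPBlock M e)
    (De : Subgroup (Subgroup.centralizer (D : Set G))) (hDe : IsDefectGroup p M e De) :
    De ≠ ⊥ := by
  classical
  have hfinC : Fintype (Subgroup.centralizer (D : Set G)) := Fintype.ofFinite _
  have hnt : Nontrivial D := (Subgroup.nontrivial_iff_ne_bot D).mpr hD1
  have hcnt : Nontrivial (Subgroup.center D) := hDp.center_nontrivial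
  obtain ⟨z, hz⟩ := exists_ne (1 : Subgroup.center D)
  have hzC : ((z : D) : G) ∈ Subgroup.centralizer (D : Set G) := by
    rw [Subgroup.mem_centralizer_iff]
    intro d hd
    have h1 := Subgroup.mem_center_iff.mp z.2 ⟨d, hd⟩
    exact congrArg Subtype.val h1
  have hnorm : (D.subgroupOf (Subgroup.centralizer (D : Set G))).Normal := by
    refine ⟨fun n hn g => ?_⟩
    rw [Subgroup.mem_subgroupOf] at hn ⊢
    have h1 : ((g * n * g⁻¹ : Subgroup.centralizer (D : Set G)) : G) = (n : G) := by
      have h2 := Subgroup.mem_centralizer_iff.mp g.2 (n : G) hn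
      show (g : G) * (n : G) * (g : G)⁻¹ = (n : G)
      rw [← h2, mul_inv_cancel_right]
    rw [h1]
    exact hn
  have hZp : IsPGroup p (D.subgroupOf (Subgroup.centralizer (D : Set G))) := hDp.comap_subtype
  have hle := Brauer.normal_le_defect hM (D.subgroupOf (Subgroup.centralizer (D : Set G))) hZp e he
    De hDe
  intro hbot
  have hmem : (⟨((z : D) : G), hzC⟩ : Subgroup.centralizer (D : Set G)) ∈ De := by
    apply hle
    rw [Subgroup.mem_subgroupOf]
    exact (z : D).2
  rw [hbot, Subgroup.mem_bot] at hmem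
  have h5 : ((z : D) : G) = 1 := by
    have h6 := congrArg Subtype.val hmem
    exact h6
  apply hz
  apply Subtype.ext
  apply Subtype.ext
  exact h5

theorem knorr_aux {p : ℕ} [Fact p.Prime] {M : Ideal AlgInt} (hM : IsPModular p M) :
    ∀ (n : ℕ) (G : Type u) [Group G] [Finite G], Nat.card G = n →
      ∀ (B : Set (IrrCharacter G)), IsPBlock M B → ∀ (D : Subgroup G), IsDefectGroup p M B D →
        D ≠ ⊥ → ∀ χ : IrrCharacter G, χ ∈ B → MemLocalIdeal M (kO p (χ : G → ℂ) + 1) := by
  intro n
  induction n using Nat.strong_induction_on with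
  | _ n ih =>
    intro G _ _ hn B hB D hD hD1 χ hχ
    classical
    have hfinG : Fintype G := Fintype.ofFinite G
    obtain ⟨e, hmax⟩ := Brauer.exists_maximal_of_defect hM B hB D hD
    have hDp : IsPGroup p D := hmax.1.1.1
    have he : IsPBlock M e := hmax.1.1.2
    by_cases hC : Subgroup.centralizer (D : Set G) = ⊤
    · have hPZ : D ≤ Subgroup.center G := by
        intro d hd
        rw [Subgroup.mem_center_iff]
        intro g
        have hg : g ∈ Subgroup.centralizer (D : Set G) := by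
          rw [hC]
          exact Subgroup.mem_top g
        exact (Subgroup.mem_centralizer_iff.mp hg d hd).symm
      exact central_case hM B hB D hD hDp hD1 hPZ χ hχ
    · have hfinC : Fintype (Subgroup.centralizer (D : Set G)) := Fintype.ofFinite _
      have hind : IsInducedBlock M (Subgroup.centralizer (D : Set G)) e B :=
        (Brauer.induced_centralizer_iff hM D hDp e B).mpr hmax.1
      obtain ⟨ξ, hξ⟩ := Defect.block_nonempty hM.2.1 e he
      have h1 := (Brauer.induced_iff_omega hM.2.1 (Subgroup.centralizer (D : Set G))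
        (irr_isClassFunction χ)).mp (hind.2.2 ξ hξ χ hχ) (ordInd G p) (ordInd_class p)
        (ordInd_sval hM.2.1 p)
      rw [res_ordInd, omega_ordInd, omega_ordInd] at h1
      have hlt : Nat.card (Subgroup.centralizer (D : Set G)) < n := by
        rw [← hn]
        rcases (Subgroup.card_le_card_group (Subgroup.centralizer (D : Set G))).lt_or_eq with h | h
        · exact h
        · exact absurd (Subgroup.eq_top_of_card_eq _ h) hC
      obtain ⟨c, hc⟩ := exists_defectClass hM.2.1 e he
      obtain ⟨P⟩ : Nonempty (Sylow p (Subgroup.centralizer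
        ({c} : Set (Subgroup.centralizer (D : Set G))))) := inferInstance
      have hDe : IsDefectGroup p M e
          ((P : Subgroup (Subgroup.centralizer
            ({c} : Set (Subgroup.centralizer (D : Set G))))).map
            (Subgroup.centralizer ({c} : Set (Subgroup.centralizer (D : Set G)))).subtype) :=
        ⟨c, hc, P, rfl⟩
      have hDe1 := centralizer_defect_ne_bot hM D hDp hD1 e he _ hDe
      have h2 := ih _ hlt (Subgroup.centralizer (D : Set G)) rfl e he _ hDe hDe1 ξ hξ
      have h3 := MemLocalIdeal.sub hM.2.1 h2 h1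
      have h4 : kO p (ξ : Subgroup.centralizer (D : Set G) → ℂ) + 1
          - (kO p (ξ : Subgroup.centralizer (D : Set G) → ℂ) - kO p (χ : G → ℂ))
          = kO p (χ : G → ℂ) + 1 := by ring
      rw [h4] at h3
      exact h3

theorem knorr {G : Type u} [Group G] [Finite G] (p : ℕ) [Fact p.Prime] (χ : IrrCharacter G)
    (hvan : ∀ g : G, orderOf g = p → (χ : G → ℂ) g = 0) :
    (charDegree (χ : G → ℂ)).factorization p = (Nat.card G).factorization p := by
  classical
  have hp : p.Prime := Fact.out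
  obtain ⟨M, hM⟩ := Cfsg.Agent.Lib.Helper25.KGV.exists_pModular p hp
  have hfinG : Fintype G := Fintype.ofFinite G
  have hB : IsPBlock M (blockOf M (χ : G → ℂ)) := ⟨χ, rfl⟩
  have hχ : χ ∈ blockOf M (χ : G → ℂ) := mem_blockOf_self hM.2.1 χ
  obtain ⟨hdvd, hpos⟩ := Defect.charDegree_dvd_card χ
  have hle : (charDegree (χ : G → ℂ)).factorization p ≤ (Nat.card G).factorization p :=
    (Nat.factorization_le_iff_dvd hpos.ne' Nat.card_pos.ne').mpr hdvd p
  by_cases hd : blockDefect p (blockOf M (χ : G → ℂ)) = 0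
  · have h1 : (Nat.card G).factorization p ≤
        sInf ((fun ψ : IrrCharacter G => (charDegree (ψ : G → ℂ)).factorization p) ''
          blockOf M (χ : G → ℂ)) := Nat.sub_eq_zero_iff_le.mp hd
    have h2 : sInf ((fun ψ : IrrCharacter G => (charDegree (ψ : G → ℂ)).factorization p) ''
          blockOf M (χ : G → ℂ)) ≤ (charDegree (χ : G → ℂ)).factorization p :=
      Nat.sInf_le ⟨χ, hχ, rfl⟩
    exact le_antisymm hle (h1.trans h2)
  · exfalso
    obtain ⟨c, hc⟩ := exists_defectClass hM.2.1 (blockOf M (χ : G → ℂ)) hB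
    obtain ⟨P⟩ : Nonempty (Sylow p (Subgroup.centralizer ({c} : Set G))) := inferInstance
    have hD : IsDefectGroup p M (blockOf M (χ : G → ℂ))
        ((P : Subgroup (Subgroup.centralizer ({c} : Set G))).map
          (Subgroup.centralizer ({c} : Set G)).subtype) := ⟨c, hc, P, rfl⟩
    have hcard := DefectGroup.card_defectGroup hM (blockOf M (χ : G → ℂ)) hB _ hD
    have hD1 : ((P : Subgroup (Subgroup.centralizer ({c} : Set G))).map
          (Subgroup.centralizer ({c} : Set G)).subtype) ≠ ⊥ := by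
      intro hbot
      rw [hbot, Subgroup.card_bot] at hcard
      have h3 : 1 < p ^ blockDefect p (blockOf M (χ : G → ℂ)) :=
        Nat.one_lt_pow hd hp.one_lt
      omega
    have hK := knorr_aux hM (Nat.card G) G rfl (blockOf M (χ : G → ℂ)) hB _ hD hD1 χ hχ
    have h0 : kO p (χ : G → ℂ) = 0 := by
      show (∑ᶠ g ∈ {g : G | orderOf g = p}, (χ : G → ℂ) g) / (χ : G → ℂ) 1 = 0
      have h7 : ∑ᶠ g ∈ {g : G | orderOf g = p}, (χ : G → ℂ) g = 0 :=
        finsum_mem_of_eqOn_zero (fun g hg => hvan g hg)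
      rw [h7, zero_div]
    rw [h0, zero_add] at hK
    exact not_memLocalIdeal_one hM.2.1 hK

end Cfsg.Agent.Lib.Helper24.Knorr
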