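import Mathlib
import Cfsg.Agent.Lib.Helper24.Brauer23
import Cfsg.Agent.Lib.Helper24.FongCov2
import Cfsg.Agent.Lib.Helper6.OddNormal

set_option autoImplicit false

namespace Cfsg.Agent.Lib.Helper24.NilExt

open Cfsg Cfsg.Agent.Lib.Helper1 Cfsg.Agent.Lib.Helper6 Cfsg.Agent.Lib.Helper24
open Cfsg.Agent.Lib.Helper24.Brauer
open scoped ComplexConjugate

universe u

variable {G : Type u} [Group G] [Fintype G] {M : Ideal AlgInt}

omit [Fintype G] in
theorem tl_stab_gen [Finite G] (K : Subgroup G) (A : Subgroup K) (B : Subgroup G)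
    (hAB : ∀ g : G, g ∈ B ↔ ∃ hg : g ∈ K, (⟨g, hg⟩ : K) ∈ A)
    (h' : Set (IrrCharacter A)) (x : K) (hst : StabilizesBlock A h' x) :
    StabilizesBlock B (trIrr (subIso K A B hAB) '' h') (x : G) := by
  obtain ⟨hn, hc⟩ := hst
  constructor
  · rw [Subgroup.mem_normalizer_iff] at hn ⊢
    intro g
    constructor
    · intro hg
      obtain ⟨hgK, hg'⟩ := (hAB g).mp hg
      exact (hAB _).mpr ⟨K.mul_mem (K.mul_mem x.2 hgK) (K.inv_mem x.2), (hn ⟨g, hgK⟩).mp hg'⟩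
    · intro hg
      obtain ⟨hgK, hg'⟩ := (hAB _).mp hg
      have hgK' : g ∈ K := by
        have e1 : g = (x : G)⁻¹ * ((x : G) * g * (x : G)⁻¹) * (x : G) := by group
        rw [e1]
        exact K.mul_mem (K.mul_mem (K.inv_mem x.2) hgK) x.2
      exact (hAB g).mpr ⟨hgK', (hn ⟨g, hgK'⟩).mpr hg'⟩
  · rintro χ' ⟨χ, hχ, rfl⟩
    obtain ⟨χ₂, hχ₂, hcc⟩ := hc χ hχ
    refine ⟨trIrr (subIso K A B hAB) χ₂, ⟨χ₂, hχ₂, rfl⟩, ?_⟩
    intro k k' hk
    rw [trIrr_apply, trIrr_apply]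
    apply hcc
    apply Subtype.ext
    exact hk

omit [Fintype G] in
theorem stab_down_gen [Finite G] (K : Subgroup G) (A : Subgroup K) (B : Subgroup G)
    (hAB : ∀ g : G, g ∈ B ↔ ∃ hg : g ∈ K, (⟨g, hg⟩ : K) ∈ A)
    (h : Set (IrrCharacter B)) (x : K) (hst : StabilizesBlock B h (x : G)) :
    StabilizesBlock A (trIrr (subIso K A B hAB).symm '' h) x := by
  obtain ⟨hn, hc⟩ := hst
  constructor
  · rw [Subgroup.mem_normalizer_iff] at hn ⊢
    intro g
    constructor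
    · intro hg
      have h1 : (g : G) ∈ B := (hAB _).mpr ⟨g.2, hg⟩
      have h2 := (hn (g : G)).mp h1
      exact ((hAB _).mp h2).2
    · intro hg
      have h1 : (x : G) * (g : G) * (x : G)⁻¹ ∈ B := (hAB _).mpr ⟨(x * g * x⁻¹).2, hg⟩
      have h2 := (hn (g : G)).mpr h1
      exact ((hAB _).mp h2).2
  · rintro χ' ⟨χ, hχ, rfl⟩
    obtain ⟨χ₂, hχ₂, hcc⟩ := hc χ hχ
    refine ⟨trIrr (subIso K A B hAB).symm χ₂, ⟨χ₂, hχ₂, rfl⟩, ?_⟩
    intro k k' hk
    rw [trIrr_apply, trIrr_apply]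
    apply hcc
    exact congrArg Subtype.val hk

omit [Fintype G] in
theorem stab_pow [Finite G] (K : Subgroup G) (f : Set (IrrCharacter K)) (y : G)
    (hy : StabilizesBlock K f y) (k : ℕ) : StabilizesBlock K f (y ^ k) := by
  obtain ⟨hyn, hyf⟩ := (stabilizesBlock_iff K f y).mp hy
  rw [stabilizesBlock_iff]
  have hmem : ∀ k : ℕ, y ^ k ∈ Subgroup.normalizer (K : Set G) :=
    fun k => Subgroup.pow_mem _ hyn k
  refine ⟨hmem k, ?_⟩
  induction k with
  | zero =>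
    intro χ hχ
    have e : (⟨y ^ 0, hmem 0⟩ : Subgroup.normalizer (K : Set G)) = 1 :=
      Subtype.ext (pow_zero y)
    rw [e, cj_one]
    exact hχ
  | succ k ih =>
    intro χ hχ
    have e : (⟨y ^ (k + 1), hmem (k + 1)⟩ : Subgroup.normalizer (K : Set G))
        = ⟨y ^ k, hmem k⟩ * ⟨y, hyn⟩ := Subtype.ext (pow_succ y k)
    rw [e, cj_mul]
    exact ih (cj K ⟨y, hyn⟩ χ) (hyf χ hχ)

omit [Fintype G] in
theorem stab_of_cj_mem [Finite G] (hmax : M.IsMaximal) (K : Subgroup G) (θ : IrrCharacter K)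
    (y : G) (hy : y ∈ Subgroup.normalizer (K : Set G))
    (h : cj K ⟨y, hy⟩ θ ∈ blockOf M (θ : K → ℂ)) :
    StabilizesBlock K (blockOf M (θ : K → ℂ)) y := by
  rw [stabilizesBlock_iff]
  refine ⟨hy, fun χ hχ => ?_⟩
  have h1 : cj K ⟨y, hy⟩ χ ∈ blockOf M (cj K ⟨y, hy⟩ θ : K → ℂ) := by
    rw [blockOf_cj]
    exact ⟨χ, hχ, rfl⟩
  have h2 : blockOf M (cj K ⟨y, hy⟩ θ : K → ℂ) = blockOf M (θ : K → ℂ) :=
    (Defect.block_eq_blockOf hmax _ ⟨θ, rfl⟩ h).symm
  rw [h2] at h1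
  exact h1

omit [Fintype G] in
theorem over_cj [Finite G] (X K₀ : Subgroup G) (Y : Subgroup X) [Fintype Y]
    (hX : ∀ g : G, g ∈ K₀ ↔ ∃ hg : g ∈ X, (⟨g, hg⟩ : X) ∈ Y)
    (g : G) (hgX : g ∈ Subgroup.normalizer (X : Set G))
    (hgK : g ∈ Subgroup.normalizer (K₀ : Set G))
    (ξ : IrrCharacter X) (θG : IrrCharacter K₀) :
    classInner (fun n : Y => (cj X ⟨g, hgX⟩ ξ : X → ℂ) n)
        (trIrr (subIso X Y K₀ hX).symm (cj K₀ ⟨g, hgK⟩ θG) : Y → ℂ)
      = classInner (fun n : Y => (ξ : X → ℂ) n)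
        (trIrr (subIso X Y K₀ hX).symm θG : Y → ℂ) := by
  classical
  obtain ⟨σ, hσ⟩ : ∃ σ : Y ≃* Y, σ = ((subIso X Y K₀ hX).trans
      (conjEquiv K₀ ⟨g, hgK⟩)).trans (subIso X Y K₀ hX).symm := ⟨_, rfl⟩
  have hσc : ∀ n : Y, (((σ n : Y) : X) : G) = g * ((n : X) : G) * g⁻¹ := by
    intro n
    rw [hσ]
    rfl
  show (Nat.card Y : ℂ)⁻¹ * ∑ n : Y, (cj X ⟨g, hgX⟩ ξ : X → ℂ) n
      * conj ((trIrr (subIso X Y K₀ hX).symm (cj K₀ ⟨g, hgK⟩ θG) : Y → ℂ) n)
    = (Nat.card Y : ℂ)⁻¹ * ∑ n : Y, (ξ : X → ℂ) n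
      * conj ((trIrr (subIso X Y K₀ hX).symm θG : Y → ℂ) n)
  congr 1
  rw [← Equiv.sum_comp σ.toEquiv]
  apply Finset.sum_congr rfl
  intro n _
  have e1 : (cj X ⟨g, hgX⟩ ξ : X → ℂ) ((σ.toEquiv n : Y) : X) = (ξ : X → ℂ) (n : X) := by
    rw [cj_apply]
    refine congrArg _ (Subtype.ext ?_)
    rw [conjEquiv_symm_coe]
    show g⁻¹ * (((σ n : Y) : X) : G) * g = ((n : X) : G)
    rw [hσc]
    group
  have e2 : (trIrr (subIso X Y K₀ hX).symm (cj K₀ ⟨g, hgK⟩ θG) : Y → ℂ) (σ.toEquiv n)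
      = (trIrr (subIso X Y K₀ hX).symm θG : Y → ℂ) n := by
    rw [trIrr_apply, trIrr_apply, cj_apply]
    refine congrArg _ (Subtype.ext ?_)
    rw [conjEquiv_symm_coe]
    show g⁻¹ * (((σ n : Y) : X) : G) * g = ((n : X) : G)
    rw [hσc]
    group
  rw [e1, e2]

theorem same_block_over {p : ℕ} [Fact p.Prime] (hM : IsPModular p M) (N : Subgroup G)
    [hN : N.Normal] [Fintype N] {k : ℕ} (hk : N.index = p ^ k)
    (χ₀ χ : IrrCharacter G) (θ₀ θ₁ : IrrCharacter N)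
    (hover₀ : classInner (fun n : N => χ₀.1 n) θ₀.1 ≠ 0)
    (hover₁ : classInner (fun n : N => χ.1 n) θ₁.1 ≠ 0)
    (hsame : SameBlock M θ₀.1 θ₁.1) : SameBlock M χ₀.1 χ.1 := by
  have hmax := hM.2.1
  have hp := (Fact.out : p.Prime)
  apply sameBlock_of_regular hM
  intro g hg
  have hgN := mem_of_regular_of_index_pow hp N hk hg
  have h1 := covering_congr hmax N (blockOf M χ₀.1) ⟨χ₀, rfl⟩ (blockOf M θ₀.1) ⟨θ₀, rfl⟩ χ₀
    (mem_blockOf_self hmax χ₀) θ₀ (mem_blockOf_self hmax θ₀) hover₀ χ₀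
    (mem_blockOf_self hmax χ₀) θ₀ (mem_blockOf_self hmax θ₀) g hgN
  have h2 := covering_congr hmax N (blockOf M χ.1) ⟨χ, rfl⟩ (blockOf M θ₀.1) ⟨θ₀, rfl⟩ χ
    (mem_blockOf_self hmax χ) θ₁ hsame hover₁ χ (mem_blockOf_self hmax χ) θ₀
    (mem_blockOf_self hmax θ₀) g hgN
  have h3 := MemLocalIdeal.sub hmax h1 h2
  have e : centralChar χ₀.1 g - inducedCentralChar N θ₀.1 g
      - (centralChar χ.1 g - inducedCentralChar N θ₀.1 g)
      = centralChar χ₀.1 g - centralChar χ.1 g := by ring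
  rw [e] at h3
  exact h3

theorem conj_over (hmax : M.IsMaximal) (N : Subgroup G) [hN : N.Normal] [Fintype N]
    (ξ ξ₂ : IrrCharacter G) (hs : SameBlock M ξ.1 ξ₂.1) (θ θ₂ : IrrCharacter N)
    (hover : classInner (fun n : N => ξ.1 n) θ.1 ≠ 0)
    (hover₂ : classInner (fun n : N => ξ₂.1 n) θ₂.1 ≠ 0) :
    ∃ g : G, ∃ θ' ∈ blockOf M θ.1, (θ' : N → ℂ) = conjChar N (θ₂ : N → ℂ) g := by
  apply exists_conj_mem_block hmax N (blockOf M θ.1) ⟨θ, rfl⟩ θ (mem_blockOf_self hmax θ) θ₂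
  intro n hn
  have h1 := covering_congr hmax N (blockOf M ξ.1) ⟨ξ, rfl⟩ (blockOf M θ.1) ⟨θ, rfl⟩ ξ
    (mem_blockOf_self hmax ξ) θ (mem_blockOf_self hmax θ) hover ξ₂ hs θ
    (mem_blockOf_self hmax θ) n hn
  rw [centralChar_eq_inducedCentralChar_of_over N ξ₂ θ₂ hover₂ n hn] at h1
  exact h1

omit [Fintype G] in
theorem sVal_block [Finite G] {p : ℕ} [Fact p.Prime] (hM : IsPModular p M)
    (B : Set (IrrCharacter G)) (hB : IsPBlock M B) : SVal M (blockCoeff B) := by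
  classical
  haveI hfin : Fintype G := Fintype.ofFinite G
  obtain ⟨χ, rfl⟩ := hB
  exact Indep.sVal_blockCoeff hM _ (Indep.linkClosed_blockOf hM χ)

omit [Fintype G] in
abbrev cX (N : Subgroup G) (R' : Subgroup N) : Subgroup G :=
  Subgroup.centralizer ((R'.map N.subtype : Subgroup G) : Set G)

omit [Fintype G] in
abbrev cK (N : Subgroup G) (R' : Subgroup N) : Subgroup G := N ⊓ cX N R'

omit [Fintype G] in
theorem memX (N : Subgroup G) (R' : Subgroup N) (g : G) :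
    g ∈ cK N R' ↔ ∃ hg : g ∈ cX N R', (⟨g, hg⟩ : cX N R') ∈ N.subgroupOf (cX N R') := by
  constructor
  · intro h
    have h' := Subgroup.mem_inf.mp h
    exact ⟨h'.2, Subgroup.mem_subgroupOf.mpr h'.1⟩
  · rintro ⟨h2, h1⟩
    exact Subgroup.mem_inf.mpr ⟨Subgroup.mem_subgroupOf.mp h1, h2⟩

omit [Fintype G] in
theorem memN (N : Subgroup G) (R' : Subgroup N) (g : G) :
    g ∈ cK N R' ↔ ∃ hg : g ∈ N, (⟨g, hg⟩ : N) ∈ Subgroup.centralizer (R' : Set N) := by
  constructor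
  · intro h
    have h' := Subgroup.mem_inf.mp h
    refine ⟨h'.1, ?_⟩
    have h2 := Subgroup.mem_centralizer_iff.mp h'.2
    rw [Subgroup.mem_centralizer_iff]
    intro r hr
    apply Subtype.ext
    exact h2 (r : G) ⟨r, hr, rfl⟩
  · rintro ⟨h1, h2⟩
    refine Subgroup.mem_inf.mpr ⟨h1, ?_⟩
    have h3 := Subgroup.mem_centralizer_iff.mp h2
    show g ∈ Subgroup.centralizer ((R'.map N.subtype : Subgroup G) : Set G)
    rw [Subgroup.mem_centralizer_iff]
    rintro _ ⟨r, hr, rfl⟩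
    exact congrArg Subtype.val (h3 r hr)

omit [Fintype G] in
theorem norm_cK (N : Subgroup G) [hNn : N.Normal] (R' : Subgroup N) (g : G)
    (hg : g ∈ Subgroup.normalizer ((cX N R' : Subgroup G) : Set G)) :
    g ∈ Subgroup.normalizer ((cK N R' : Subgroup G) : Set G) := by
  rw [Subgroup.mem_normalizer_iff] at hg ⊢
  intro k
  constructor
  · intro h
    have h' := Subgroup.mem_inf.mp h
    exact Subgroup.mem_inf.mpr ⟨hNn.conj_mem k h'.1 g, (hg k).mp h'.2⟩
  · intro h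
    have h' := Subgroup.mem_inf.mp h
    refine Subgroup.mem_inf.mpr ⟨?_, (hg k).mpr h'.2⟩
    have h3 := hNn.conj_mem _ h'.1 g⁻¹
    have e : g⁻¹ * (g * k * g⁻¹) * g⁻¹⁻¹ = k := by group
    rwa [e] at h3

omit [Fintype G] in
theorem mem_map_sub (N : Subgroup G) (R' : Subgroup N) (t : N) :
    t ∈ R' ↔ (t : G) ∈ R'.map N.subtype := by
  constructor
  · intro ht
    exact ⟨t, ht, rfl⟩
  · rintro ⟨t', ht', he⟩
    have e2 : t' = t := Subtype.ext he
    rw [← e2]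
    exact ht'

theorem omega_link (N : Subgroup G) (c : Set (IrrCharacter N)) (B : Set (IrrCharacter G))
    (hBc : ∀ g : G, blockCoeff B g = subgroupBlockCoeff N c g)
    (X K₀ : Subgroup G) (Y : Subgroup X) [hYn : Y.Normal] (A : Subgroup N)
    [Fintype X] [Fintype Y] [Fintype A]
    (hX : ∀ g : G, g ∈ K₀ ↔ ∃ hg : g ∈ X, (⟨g, hg⟩ : X) ∈ Y)
    (hN : ∀ g : G, g ∈ K₀ ↔ ∃ hg : g ∈ N, (⟨g, hg⟩ : N) ∈ A)
    (hYN : ∀ g : X, g ∈ Y ↔ (g : G) ∈ N)
    (ξ : IrrCharacter X) (θG : IrrCharacter K₀)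
    (hover : classInner (fun n : Y => (ξ : X → ℂ) n)
      (trIrr (subIso X Y K₀ hX).symm θG : Y → ℂ) ≠ 0) :
    omega (ξ : X → ℂ) (res X (blockCoeff B))
      = omega (trIrr (subIso N A K₀ hN).symm θG : A → ℂ) (res A (blockCoeff c)) := by
  classical
  have hcf : IsClassFunction X (res X (blockCoeff B)) := by
    intro g h
    exact isClassFunction_blockCoeff B (g : G) (h : G)
  have h1 := omega_supported_normal Y ξ (trIrr (subIso X Y K₀ hX).symm θG) hover hcf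
  refine Eq.trans ?_ (h1.trans ?_)
  · congr 1
    funext g
    by_cases hg : g ∈ Y
    · rw [if_pos hg]
    · rw [if_neg hg]
      show blockCoeff B (g : G) = 0
      rw [hBc, subgroupBlockCoeff_eq, ext_of_not_mem]
      intro hgN
      exact hg ((hYN g).mpr hgN)
  · show (∑ n : Y, res X (blockCoeff B) (n : X)
          * (trIrr (subIso X Y K₀ hX).symm θG : Y → ℂ) n)
        / (trIrr (subIso X Y K₀ hX).symm θG : Y → ℂ) 1
      = (∑ a : A, res A (blockCoeff c) a * (trIrr (subIso N A K₀ hN).symm θG : A → ℂ) a)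
        / (trIrr (subIso N A K₀ hN).symm θG : A → ℂ) 1
    obtain ⟨j, hj⟩ : ∃ j : A ≃* Y,
        j = (subIso N A K₀ hN).trans (subIso X Y K₀ hX).symm := ⟨_, rfl⟩
    have hjc : ∀ a : A, (((j a : Y) : X) : G) = ((a : N) : G) := by
      intro a
      rw [hj]
      rfl
    have hsum : ∑ n : Y, res X (blockCoeff B) (n : X)
          * (trIrr (subIso X Y K₀ hX).symm θG : Y → ℂ) n
        = ∑ a : A, res A (blockCoeff c) a * (trIrr (subIso N A K₀ hN).symm θG : A → ℂ) a := by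
      rw [← Equiv.sum_comp j.toEquiv]
      apply Finset.sum_congr rfl
      intro a _
      have e1 : res X (blockCoeff B) ((j.toEquiv a : Y) : X) = res A (blockCoeff c) a := by
        show blockCoeff B (((j a : Y) : X) : G) = blockCoeff c (a : N)
        rw [hjc, hBc, subgroupBlockCoeff_eq, ext_coe]
      have e2 : (trIrr (subIso X Y K₀ hX).symm θG : Y → ℂ) (j.toEquiv a)
          = (trIrr (subIso N A K₀ hN).symm θG : A → ℂ) a := by
        rw [trIrr_apply, trIrr_apply]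
        refine congrArg _ (Subtype.ext ?_)
        exact hjc a
      rw [e1, e2]
    have hone : (trIrr (subIso X Y K₀ hX).symm θG : Y → ℂ) 1
        = (trIrr (subIso N A K₀ hN).symm θG : A → ℂ) 1 := by
      rw [trIrr_apply, trIrr_apply, map_one, map_one]
    rw [hsum, hone]

theorem index_sub {p : ℕ} [Fact p.Prime] (N : Subgroup G) [hNn : N.Normal] {k : ℕ}
    (hk : N.index = p ^ k) (X : Subgroup G) : ∃ j : ℕ, (N.subgroupOf X).index = p ^ j := by
  have hp := (Fact.out : p.Prime)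
  have h1 : (N.subgroupOf X).index ∣ p ^ k := by
    rw [← hk]
    exact Subgroup.relIndex_dvd_index_of_normal N X
  obtain ⟨j, -, hj⟩ := (Nat.dvd_prime_pow hp).mp h1
  exact ⟨j, hj⟩

theorem nil_down {p : ℕ} [Fact p.Prime] (hM : IsPModular p M) (N : Subgroup G)
    [hNn : N.Normal] {k : ℕ} (hk : N.index = p ^ k)
    (c : Set (IrrCharacter N)) (hc : IsPBlock M c)
    (B : Set (IrrCharacter G)) (hB : IsPBlock M B)
    (hBc : ∀ g : G, blockCoeff B g = subgroupBlockCoeff N c g)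
    (hnil : IsNilpotentBlock p M B) : IsNilpotentBlock p M c := by
  classical
  have hmax := hM.2.1
  have hp := (Fact.out : p.Prime)
  refine ⟨hc, fun R' h hpair x' hxN hxst hxreg => ?_⟩
  haveI hfinN : Fintype N := Fintype.ofFinite _
  haveI hfinX : Fintype (cX N R') := Fintype.ofFinite _
  haveI hfinY : Fintype (N.subgroupOf (cX N R')) := Fintype.ofFinite _
  haveI hfinA : Fintype (Subgroup.centralizer (R' : Set N)) := Fintype.ofFinite _
  obtain ⟨j, hj⟩ := index_sub N hk (cX N R')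
  obtain ⟨θ₀', hθ₀'⟩ := Defect.block_nonempty hmax h hpair.1.2
  obtain ⟨θG, hθG⟩ : ∃ θG : IrrCharacter (cK N R'),
      θG = trIrr (subIso N _ _ (memN N R')) θ₀' := ⟨_, rfl⟩
  have hθ₀back : trIrr (subIso N _ _ (memN N R')).symm θG = θ₀' := by
    rw [hθG]
    exact trIrr_symm_trIrr _ _
  obtain ⟨ξf, hξirr, hξover⟩ := exists_irr_above (N.subgroupOf (cX N R'))
    (trIrr (subIso (cX N R') _ _ (memX N R')).symm θG).2
  obtain ⟨ξ₀, hξ₀⟩ : ∃ ξ₀ : IrrCharacter (cX N R'), ξ₀ = ⟨ξf, hξirr⟩ := ⟨_, rfl⟩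
  have hover₀ : classInner (fun n : N.subgroupOf (cX N R') => (ξ₀ : cX N R' → ℂ) n)
      (trIrr (subIso (cX N R') _ _ (memX N R')).symm θG : _ → ℂ) ≠ 0 := by
    rw [hξ₀]
    exact hξover
  have hSB : SVal M (blockCoeff B) := sVal_block hM B hB
  have hlink := omega_link N c B hBc (cX N R') (cK N R') (N.subgroupOf (cX N R'))
    (Subgroup.centralizer (R' : Set N)) (memX N R') (memN N R')
    (fun g => Subgroup.mem_subgroupOf) ξ₀ θG hover₀
  rw [hθ₀back] at hlink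
  have hpairB : IsBrauerPairOf p M B (R'.map N.subtype)
      (blockOf M (ξ₀ : cX N R' → ℂ)) := by
    refine ⟨⟨hpair.1.1.map _, ⟨ξ₀, rfl⟩⟩, hB, fun ξ hξ => ?_⟩
    have h1 := brauerOmega_congr hmax (R'.map N.subtype) hSB
      (inv_of_isClassFunction (isClassFunction_blockCoeff B) _)
      (blockOf M (ξ₀ : cX N R' → ℂ)) ⟨ξ₀, rfl⟩ hξ (mem_blockOf_self hmax ξ₀)
    have h2 : brauerOmega (R'.map N.subtype) (blockCoeff B) (ξ₀ : cX N R' → ℂ)
        = brauerOmega R' (blockCoeff c) (θ₀' : Subgroup.centralizer (R' : Set N) → ℂ) := by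
      rw [brauerOmega_eq, brauerOmega_eq]
      exact hlink
    rw [h2] at h1
    have h3 := hpair.2.2 θ₀' hθ₀'
    have h4 := MemLocalIdeal.add hmax h1 h3
    rwa [sub_add_sub_cancel] at h4
  have hxNG : (x' : G) ∈ Subgroup.normalizer ((R'.map N.subtype : Subgroup G) : Set G) := by
    rw [Subgroup.mem_normalizer_iff] at hxN ⊢
    intro g
    constructor
    · rintro ⟨r, hr, rfl⟩
      exact ⟨x' * r * x'⁻¹, (hxN r).mp hr, rfl⟩
    · rintro ⟨r, hr, hre⟩
      refine ⟨x'⁻¹ * r * x', ?_, ?_⟩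
      · apply (hxN _).mpr
        have e1 : x' * (x'⁻¹ * r * x') * x'⁻¹ = r := by group
        rw [e1]
        exact hr
      · show ((x'⁻¹ * r * x' : N) : G) = g
        have e2 : ((x'⁻¹ * r * x' : N) : G) = (x' : G)⁻¹ * (r : G) * (x' : G) := rfl
        have e3 : (r : G) = (x' : G) * g * (x' : G)⁻¹ := hre
        rw [e2, e3]
        group
  have hxX : (x' : G) ∈ Subgroup.normalizer ((cX N R' : Subgroup G) : Set G) :=
    mem_normalizer_centralizer hxNG
  have hxK : (x' : G) ∈ Subgroup.normalizer ((cK N R' : Subgroup G) : Set G) :=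
    norm_cK N R' _ hxX
  have hstG := tl_stab_gen N (Subgroup.centralizer (R' : Set N)) (cK N R') (memN N R') h x' hxst
  obtain ⟨hxK', hall⟩ := (stabilizesBlock_iff (cK N R') _ (x' : G)).mp hstG
  have hθGmem : θG ∈ trIrr (subIso N _ _ (memN N R')) '' h := ⟨θ₀', hθ₀', hθG.symm⟩
  have hcjmem := hall θG hθGmem
  have hsameG : SameBlock M (cj (cK N R') ⟨(x' : G), hxK⟩ θG : cK N R' → ℂ)
      (θG : cK N R' → ℂ) :=
    Defect.sameBlock_of_mem hmax _ (isPBlock_trIrr _ _ hpair.1.2) hcjmem hθGmem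
  have hsameY : SameBlock M
      (trIrr (subIso (cX N R') _ _ (memX N R')).symm (cj (cK N R') ⟨(x' : G), hxK⟩ θG)
        : N.subgroupOf (cX N R') → ℂ)
      (trIrr (subIso (cX N R') _ _ (memX N R')).symm θG : N.subgroupOf (cX N R') → ℂ) :=
    (sameBlock_comp_equiv (subIso (cX N R') _ _ (memX N R')).symm.symm _ _).mpr hsameG
  have hover₁ := over_cj (cX N R') (cK N R') (N.subgroupOf (cX N R')) (memX N R') (x' : G)
    hxX hxK ξ₀ θG
  have hover₁' : classInner (fun n : N.subgroupOf (cX N R') =>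
      (cj (cX N R') ⟨(x' : G), hxX⟩ ξ₀ : cX N R' → ℂ) n)
      (trIrr (subIso (cX N R') _ _ (memX N R')).symm (cj (cK N R') ⟨(x' : G), hxK⟩ θG)
        : N.subgroupOf (cX N R') → ℂ) ≠ 0 := by
    rw [hover₁]
    exact hover₀
  have hsameX := same_block_over hM (N.subgroupOf (cX N R')) hj
    (cj (cX N R') ⟨(x' : G), hxX⟩ ξ₀) ξ₀ _ _ hover₁' hover₀ hsameY
  have hstab : StabilizesBlock (cX N R') (blockOf M (ξ₀ : cX N R' → ℂ)) (x' : G) :=
    stab_of_cj_mem hmax (cX N R') ξ₀ (x' : G) hxX (sameBlock_symm hsameX)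
  have hreg' : IsPRegular p (x' : G) := by
    show ¬ p ∣ orderOf (x' : G)
    rw [Subgroup.orderOf_coe]
    exact hxreg
  have hres := hnil.2 (R'.map N.subtype) _ hpairB (x' : G) hxNG hstab hreg'
  exact ((memN N R' (x' : G)).mp (Subgroup.mem_inf.mpr ⟨x'.2, hres⟩)).2

theorem claim {p : ℕ} [Fact p.Prime] (hM : IsPModular p M) (N : Subgroup G)
    [hNn : N.Normal] {k : ℕ} (hk : N.index = p ^ k)
    (c : Set (IrrCharacter N)) (hc : IsPBlock M c)
    (B : Set (IrrCharacter G))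
    (hBc : ∀ g : G, blockCoeff B g = subgroupBlockCoeff N c g)
    (hnil : IsNilpotentBlock p M c) (R' : Subgroup N)
    (f : Set (IrrCharacter (cX N R'))) (hpair : IsBrauerPairOf p M B (R'.map N.subtype) f)
    (x : G) (hxN : x ∈ Subgroup.normalizer ((R'.map N.subtype : Subgroup G) : Set G))
    (hxst : StabilizesBlock (cX N R') f x) (hxreg : IsPRegular p x) : x ∈ cX N R' := by
  classical
  have hmax := hM.2.1
  have hp := (Fact.out : p.Prime)
  haveI hfinN : Fintype N := Fintype.ofFinite _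
  haveI hfinX : Fintype (cX N R') := Fintype.ofFinite _
  haveI hfinY : Fintype (N.subgroupOf (cX N R')) := Fintype.ofFinite _
  haveI hfinA : Fintype (Subgroup.centralizer (R' : Set N)) := Fintype.ofFinite _
  obtain ⟨ξ, hξ⟩ := Defect.block_nonempty hmax f hpair.1.2
  obtain ⟨θY, hθY⟩ := FongCov.exists_under (N.subgroupOf (cX N R')) ξ
  obtain ⟨θG, hθG⟩ : ∃ θG : IrrCharacter (cK N R'),
      θG = trIrr (subIso (cX N R') _ _ (memX N R')) θY := ⟨_, rfl⟩
  have hθYback : trIrr (subIso (cX N R') _ _ (memX N R')).symm θG = θY := by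
    rw [hθG]
    exact trIrr_symm_trIrr _ _
  have hover : classInner (fun n : N.subgroupOf (cX N R') => (ξ : cX N R' → ℂ) n)
      (trIrr (subIso (cX N R') _ _ (memX N R')).symm θG : _ → ℂ) ≠ 0 := by
    rw [hθYback]
    exact hθY
  have hSc : SVal M (blockCoeff c) := sVal_block hM c hc
  have hlink := omega_link N c B hBc (cX N R') (cK N R') (N.subgroupOf (cX N R'))
    (Subgroup.centralizer (R' : Set N)) (memX N R') (memN N R')
    (fun g => Subgroup.mem_subgroupOf) ξ θG hover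
  have hpairc : IsBrauerPairOf p M c R'
      (trIrr (subIso N _ _ (memN N R')).symm '' blockOf M (θG : cK N R' → ℂ)) := by
    refine ⟨⟨?_, isPBlock_trIrr _ _ ⟨θG, rfl⟩⟩, hc, ?_⟩
    · exact hpair.1.1.of_equiv (R'.equivMapOfInjective _ (Subgroup.subtype_injective _)).symm
    · rintro θ₂' ⟨θ₂G, hθ₂G, rfl⟩
      have h1 := brauerOmega_congr hmax R' hSc
        (inv_of_isClassFunction (isClassFunction_blockCoeff c) _)
        (trIrr (subIso N _ _ (memN N R')).symm '' blockOf M (θG : cK N R' → ℂ))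
        (isPBlock_trIrr _ _ ⟨θG, rfl⟩) ⟨θ₂G, hθ₂G, rfl⟩
        ⟨θG, mem_blockOf_self hmax θG, rfl⟩
      have h2 : brauerOmega R' (blockCoeff c)
          (trIrr (subIso N _ _ (memN N R')).symm θG : Subgroup.centralizer (R' : Set N) → ℂ)
          = brauerOmega (R'.map N.subtype) (blockCoeff B) (ξ : cX N R' → ℂ) := by
        rw [brauerOmega_eq, brauerOmega_eq]
        exact hlink.symm
      rw [h2] at h1
      have h3 := hpair.2.2 ξ hξ
      have h4 := MemLocalIdeal.add hmax h1 h3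
      rwa [sub_add_sub_cancel] at h4
  have hxX : x ∈ Subgroup.normalizer ((cX N R' : Subgroup G) : Set G) :=
    mem_normalizer_centralizer hxN
  have hxK : x ∈ Subgroup.normalizer ((cK N R' : Subgroup G) : Set G) := norm_cK N R' x hxX
  obtain ⟨hxX', hall⟩ := (stabilizesBlock_iff (cX N R') f x).mp hxst
  have hξ₂ : cj (cX N R') ⟨x, hxX⟩ ξ ∈ f := hall ξ hξ
  have hover₂ := over_cj (cX N R') (cK N R') (N.subgroupOf (cX N R')) (memX N R') x hxX hxK ξ θG
  have hover₂' : classInner (fun n : N.subgroupOf (cX N R') =>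
      (cj (cX N R') ⟨x, hxX⟩ ξ : cX N R' → ℂ) n)
      (trIrr (subIso (cX N R') _ _ (memX N R')).symm (cj (cK N R') ⟨x, hxK⟩ θG)
        : N.subgroupOf (cX N R') → ℂ) ≠ 0 := by
    rw [hover₂]
    exact hover
  have hsame : SameBlock M (ξ : cX N R' → ℂ) (cj (cX N R') ⟨x, hxX⟩ ξ : cX N R' → ℂ) :=
    Defect.sameBlock_of_mem hmax f hpair.1.2 hξ hξ₂
  obtain ⟨z, θ', hθ', hθ'e⟩ := conj_over hmax (N.subgroupOf (cX N R')) ξ
    (cj (cX N R') ⟨x, hxX⟩ ξ) hsame (trIrr (subIso (cX N R') _ _ (memX N R')).symm θG)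
    (trIrr (subIso (cX N R') _ _ (memX N R')).symm (cj (cK N R') ⟨x, hxK⟩ θG)) hover hover₂'
  obtain ⟨y, hy⟩ : ∃ y : G, y = (z : G)⁻¹ * x := ⟨_, rfl⟩
  have hzX : (z : G) ∈ Subgroup.normalizer ((cX N R' : Subgroup G) : Set G) :=
    Subgroup.le_normalizer z.2
  have hyX : y ∈ Subgroup.normalizer ((cX N R' : Subgroup G) : Set G) := by
    rw [hy]
    exact Subgroup.mul_mem _ (Subgroup.inv_mem _ hzX) hxX
  have hyK : y ∈ Subgroup.normalizer ((cK N R' : Subgroup G) : Set G) := norm_cK N R' y hyX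
  have e1 : ∀ kk : cK N R', (cj (cK N R') ⟨y, hyK⟩ θG : cK N R' → ℂ) kk
      = (θ' : N.subgroupOf (cX N R') → ℂ) ((subIso (cX N R') _ _ (memX N R')).symm kk) := by
    intro kk
    rw [hθ'e]
    unfold conjChar
    rw [cj_apply, trIrr_apply, cj_apply]
    refine congrArg _ (Subtype.ext ?_)
    rw [conjEquiv_symm_coe, conjEquiv_symm_coe]
    show y⁻¹ * (kk : G) * y = x⁻¹ * ((z : G) * (kk : G) * (z : G)⁻¹) * x
    rw [hy]
    group
  have hcjy : cj (cK N R') ⟨y, hyK⟩ θG ∈ blockOf M (θG : cK N R' → ℂ) := by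
    show SameBlock M (θG : cK N R' → ℂ) (cj (cK N R') ⟨y, hyK⟩ θG : cK N R' → ℂ)
    have h1 : SameBlock M
        (trIrr (subIso (cX N R') _ _ (memX N R')).symm θG : N.subgroupOf (cX N R') → ℂ)
        (θ' : N.subgroupOf (cX N R') → ℂ) := hθ'
    have e2 : (trIrr (subIso (cX N R') _ _ (memX N R')).symm θG
          : N.subgroupOf (cX N R') → ℂ)
        = (θG : cK N R' → ℂ) ∘ (subIso (cX N R') _ _ (memX N R')) := by
      funext n
      rw [trIrr_apply]
      rfl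
    have e3 : (θ' : N.subgroupOf (cX N R') → ℂ)
        = (cj (cK N R') ⟨y, hyK⟩ θG : cK N R' → ℂ) ∘ (subIso (cX N R') _ _ (memX N R')) := by
      funext n
      have h2 := e1 ((subIso (cX N R') _ _ (memX N R')) n)
      rw [MulEquiv.symm_apply_apply] at h2
      exact h2.symm
    rw [e2, e3] at h1
    exact (sameBlock_comp_equiv _ _ _).mp h1
  have hyst : StabilizesBlock (cK N R') (blockOf M (θG : cK N R' → ℂ)) y :=
    stab_of_cj_mem hmax (cK N R') θG y hyK hcjy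
  obtain ⟨a, ha⟩ : ∃ a : ℕ, a = (orderOf y).factorization p := ⟨_, rfl⟩
  have hy1reg : ¬ p ∣ orderOf (y ^ (p ^ a)) := by
    have hn0 : orderOf y ≠ 0 := (orderOf_pos y).ne'
    rw [orderOf_pow, ha]
    have hgcd : Nat.gcd (orderOf y) (p ^ (orderOf y).factorization p)
        = p ^ (orderOf y).factorization p := Nat.gcd_eq_right (Nat.ordProj_dvd _ _)
    rw [hgcd]
    exact Nat.not_dvd_ordCompl hp hn0
  have hy1N : y ^ (p ^ a) ∈ N := mem_of_regular_of_index_pow hp N hk hy1reg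
  have hy1st := stab_pow (cK N R') (blockOf M (θG : cK N R' → ℂ)) y hyst (p ^ a)
  have hy1st' := stab_down_gen N (Subgroup.centralizer (R' : Set N)) (cK N R') (memN N R')
    (blockOf M (θG : cK N R' → ℂ)) ⟨y ^ (p ^ a), hy1N⟩ hy1st
  have hyNR : y ∈ Subgroup.normalizer ((R'.map N.subtype : Subgroup G) : Set G) := by
    rw [hy]
    exact Subgroup.mul_mem _ (Subgroup.inv_mem _ (Subgroup.centralizer_le_normalizer _ z.2)) hxN
  have hy1NR' : (⟨y ^ (p ^ a), hy1N⟩ : N) ∈ Subgroup.normalizer (R' : Set N) := by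
    have h0 := Subgroup.pow_mem _ hyNR (p ^ a)
    rw [Subgroup.mem_normalizer_iff] at h0 ⊢
    intro r
    rw [mem_map_sub N R', mem_map_sub N R']
    exact h0 (r : G)
  have hreg1' : IsPRegular p (⟨y ^ (p ^ a), hy1N⟩ : N) := by
    show ¬ p ∣ orderOf (⟨y ^ (p ^ a), hy1N⟩ : N)
    rw [← Subgroup.orderOf_coe]
    exact hy1reg
  have hres := hnil.2 R' _ hpairc ⟨y ^ (p ^ a), hy1N⟩ hy1NR' hy1st' hreg1'
  have hy1X : y ^ (p ^ a) ∈ cX N R' :=
    (Subgroup.mem_inf.mp ((memN N R' _).mpr ⟨hy1N, hres⟩)).2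
  have hpow : ∀ n : ℕ, ∃ w ∈ cX N R', y ^ n = w * x ^ n := by
    intro n
    induction n with
    | zero => exact ⟨1, Subgroup.one_mem _, by simp⟩
    | succ n ih =>
      obtain ⟨w, hw, he⟩ := ih
      refine ⟨w * (x ^ n * (z : G)⁻¹ * (x ^ n)⁻¹), ?_, ?_⟩
      · apply Subgroup.mul_mem _ hw
        have hxn : x ^ n ∈ Subgroup.normalizer ((cX N R' : Subgroup G) : Set G) :=
          Subgroup.pow_mem _ hxX n
        exact (Subgroup.mem_normalizer_iff.mp hxn _).mp (Subgroup.inv_mem _ z.2)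
      · rw [pow_succ, he, hy, pow_succ]
        group
  obtain ⟨w, hw, hwe⟩ := hpow (p ^ a)
  have hxpa : x ^ (p ^ a) ∈ cX N R' := by
    have e : x ^ (p ^ a) = w⁻¹ * y ^ (p ^ a) := by
      rw [hwe]
      group
    rw [e]
    exact Subgroup.mul_mem _ (Subgroup.inv_mem _ hw) hy1X
  have hcop : Nat.Coprime (p ^ a) (orderOf x) :=
    Nat.Coprime.pow_left _ ((Nat.Prime.coprime_iff_not_dvd hp).mpr hxreg)
  have hx1 : x = (x ^ (p ^ a)) ^ (Nat.gcdA (p ^ a) (orderOf x))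
      * (x ^ (orderOf x)) ^ (Nat.gcdB (p ^ a) (orderOf x)) := by
    have hb := Nat.gcd_eq_gcd_ab (p ^ a) (orderOf x)
    rw [Nat.Coprime.gcd_eq_one hcop, Nat.cast_one] at hb
    calc x = x ^ (1 : ℤ) := (zpow_one x).symm
      _ = x ^ (((p ^ a : ℕ) : ℤ) * Nat.gcdA (p ^ a) (orderOf x)
            + ((orderOf x : ℕ) : ℤ) * Nat.gcdB (p ^ a) (orderOf x)) := by rw [← hb]
      _ = _ := by rw [zpow_add, zpow_mul, zpow_mul, zpow_natCast, zpow_natCast]
  rw [hx1]
  apply Subgroup.mul_mem _ (Subgroup.zpow_mem _ hxpa _)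
  rw [pow_orderOf_eq_one, one_zpow]
  exact Subgroup.one_mem _

theorem nil_up {p : ℕ} [Fact p.Prime] (hM : IsPModular p M) (N : Subgroup G)
    [hNn : N.Normal] {k : ℕ} (hk : N.index = p ^ k)
    (c : Set (IrrCharacter N)) (hc : IsPBlock M c)
    (B : Set (IrrCharacter G)) (hB : IsPBlock M B)
    (hBc : ∀ g : G, blockCoeff B g = subgroupBlockCoeff N c g)
    (hnil : IsNilpotentBlock p M c) : IsNilpotentBlock p M B := by
  classical
  have hmax := hM.2.1
  have hp := (Fact.out : p.Prime)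
  refine ⟨hB, fun Q e hpair x hxN hxst hxreg => ?_⟩
  have hxNm : x ∈ N := mem_of_regular_of_index_pow hp N hk hxreg
  obtain ⟨R, hR⟩ : ∃ R : Subgroup G, R = Q ⊓ N := ⟨_, rfl⟩
  have hRQ : R ≤ Q := by
    rw [hR]
    exact inf_le_left
  have hRN : R ≤ N := by
    rw [hR]
    exact inf_le_right
  have hQnR : Q ≤ Subgroup.normalizer (R : Set G) := by
    intro q hq
    rw [Subgroup.mem_normalizer_iff]
    intro r
    rw [hR]
    constructor
    · intro h
      have h' := Subgroup.mem_inf.mp h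
      exact Subgroup.mem_inf.mpr ⟨Q.mul_mem (Q.mul_mem hq h'.1) (Q.inv_mem hq),
        hNn.conj_mem r h'.2 q⟩
    · intro h
      have h' := Subgroup.mem_inf.mp h
      refine Subgroup.mem_inf.mpr ⟨?_, ?_⟩
      · have e : r = q⁻¹ * (q * r * q⁻¹) * q := by group
        rw [e]
        exact Q.mul_mem (Q.mul_mem (Q.inv_mem hq) h'.1) hq
      · have h3 := hNn.conj_mem _ h'.2 q⁻¹
        have e : q⁻¹ * (q * r * q⁻¹) * q⁻¹⁻¹ = r := by group
        rwa [e] at h3
  obtain ⟨f, hf, -⟩ := exists_unique_normal hM Q R e hpair.1 hRQ hQnR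
  have hle : SubpairLE p M R f Q e := Relation.ReflTransGen.single hf
  have hpairR : IsBrauerPairOf p M B R f := pairOf_of_le hM B Q R e f hpair hle
  have hxR : x ∈ Subgroup.normalizer (R : Set G) := by
    rw [Subgroup.mem_normalizer_iff]
    intro r
    rw [hR]
    have hxQ := Subgroup.mem_normalizer_iff.mp hxN r
    constructor
    · intro h
      have h' := Subgroup.mem_inf.mp h
      exact Subgroup.mem_inf.mpr ⟨hxQ.mp h'.1, hNn.conj_mem r h'.2 x⟩
    · intro h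
      have h' := Subgroup.mem_inf.mp h
      refine Subgroup.mem_inf.mpr ⟨hxQ.mpr h'.1, ?_⟩
      have h3 := hNn.conj_mem _ h'.2 x⁻¹
      have e : x⁻¹ * (x * r * x⁻¹) * x⁻¹⁻¹ = r := by group
      rwa [e] at h3
  have hxf : StabilizesBlock (Subgroup.centralizer (R : Set G)) f x := by
    have hconj := isNormalSubpair_conj R Q x f e hf
    have heq : (⟨Q.map (MulAut.conj x).toMonoidHom, conjBlock Q x e⟩ : BrauerPairIdx G)
        = ⟨Q, e⟩ := (conjPair_eq_iff Q e x).mpr ⟨hxN, hxst⟩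
    have hle₂ : SubpairLE p M (R.map (MulAut.conj x).toMonoidHom) (conjBlock R x f) Q e := by
      have h1 : Relation.ReflTransGen (NormalSubpairRel p M)
          ⟨R.map (MulAut.conj x).toMonoidHom, conjBlock R x f⟩
          ⟨Q.map (MulAut.conj x).toMonoidHom, conjBlock Q x e⟩ :=
        Relation.ReflTransGen.single hconj
      rw [heq] at h1
      exact h1
    have hRx : R = R.map (MulAut.conj x).toMonoidHom := by
      ext g
      rw [mem_map_conj]
      have h1 := Subgroup.mem_normalizer_iff.mp hxR (x⁻¹ * g * x)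
      have e : x * (x⁻¹ * g * x) * x⁻¹ = g := by group
      rw [e] at h1
      exact h1.symm
    have heq₂ := pair_eq_of_le_of_le hM Q R (R.map (MulAut.conj x).toMonoidHom) e hpair.1 f
      (conjBlock R x f) hle hle₂ hRx
    exact ((conjPair_eq_iff R f x).mp heq₂).2
  obtain ⟨R', hR'⟩ : ∃ R' : Subgroup N, R'.map N.subtype = R :=
    ⟨R.subgroupOf N, Subgroup.map_subgroupOf_eq_of_le hRN⟩
  subst hR'
  have hxC : x ∈ cX N R' := claim hM N hk c hc B hBc hnil R' f hpairR x hxR hxf hxreg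
  rw [Subgroup.mem_centralizer_iff]
  intro q hq
  obtain ⟨r, hr⟩ : ∃ r : G, r = q⁻¹ * (x * q * x⁻¹) := ⟨_, rfl⟩
  have hxq : x * q * x⁻¹ ∈ Q := (Subgroup.mem_normalizer_iff.mp hxN q).mp hq
  have hrQ : r ∈ Q := by
    rw [hr]
    exact Q.mul_mem (Q.inv_mem hq) hxq
  have hrN : r ∈ N := by
    have e : r = (q⁻¹ * x * q⁻¹⁻¹) * x⁻¹ := by
      rw [hr]
      group
    rw [e]
    exact N.mul_mem (hNn.conj_mem x hxNm q⁻¹) (N.inv_mem hxNm)
  have hrR : r ∈ R'.map N.subtype := by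
    rw [hR]
    exact Subgroup.mem_inf.mpr ⟨hrQ, hrN⟩
  have hrx : r * x = x * r := Subgroup.mem_centralizer_iff.mp hxC r hrR
  have hxqe : x * q * x⁻¹ = q * r := by
    rw [hr]
    group
  have hcm : Commute x r := hrx.symm
  have hpow : ∀ n : ℕ, x ^ n * q * (x ^ n)⁻¹ = q * r ^ n := by
    intro n
    induction n with
    | zero => simp
    | succ n ih =>
      have e1 : x ^ (n + 1) * q * (x ^ (n + 1))⁻¹ = x * (x ^ n * q * (x ^ n)⁻¹) * x⁻¹ := by
        rw [pow_succ']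
        group
      rw [e1, ih]
      have e2 : x * (q * r ^ n) * x⁻¹ = (x * q * x⁻¹) * (x * r ^ n * x⁻¹) := by group
      rw [e2, hxqe]
      have e3 : x * r ^ n * x⁻¹ = r ^ n := by
        rw [(hcm.pow_right n).eq, mul_inv_cancel_right]
      rw [e3, pow_succ', mul_assoc]
  have h1 := hpow (orderOf x)
  rw [pow_orderOf_eq_one, one_mul, inv_one, mul_one] at h1
  have hrm : r ^ orderOf x = 1 := by
    have h2 : q * r ^ orderOf x = q * 1 := by
      rw [mul_one]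
      exact h1.symm
    exact mul_left_cancel h2
  obtain ⟨j, hj⟩ := hpair.1.1 ⟨r, hrQ⟩
  have hrj : r ^ (p ^ j) = 1 := by
    have h2 := congrArg Subtype.val hj
    simpa using h2
  have hcop : Nat.Coprime (orderOf x) (p ^ j) :=
    (Nat.Coprime.pow_left j ((Nat.Prime.coprime_iff_not_dvd hp).mpr hxreg)).symm
  have hr1 : r = 1 := by
    have h2 := pow_gcd_eq_one.mpr ⟨hrm, hrj⟩
    rw [Nat.Coprime.gcd_eq_one hcop, pow_one] at h2
    exact h2
  rw [hr1, mul_one] at hxqe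
  have e4 : q * x = x * q * x⁻¹ * x := by rw [hxqe]
  rw [e4]
  group

end Cfsg.Agent.Lib.Helper24.NilExt
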