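import Mathlib
import Cfsg.Agent.Lib.Helper10.GalConj
import Cfsg.Agent.Lib.Helper24.Gal

set_option autoImplicit false

namespace Cfsg.Agent.Lib.Helper24.PC

open Cfsg Cfsg.Agent.Lib.Helper1 Cfsg.Agent.Lib.Helper10.GalConj Cfsg.Agent.Lib.Helper24
open scoped Cardinal ComplexConjugate

universe u

theorem exists_ringEquiv_ext (K₀ : Type) [Field K₀] (hK : #K₀ ≤ ℵ₀) (f₁ f₂ : K₀ →+* ℂ) :
    ∃ φ : ℂ ≃+* ℂ, ∀ k, φ (f₁ k) = f₂ k := by
  obtain ⟨s, hs⟩ := exists_isTranscendenceBasis K₀ (Tw K₀ f₁)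
  obtain ⟨t, ht⟩ := exists_isTranscendenceBasis K₀ (Tw K₀ f₂)
  have hc : ℵ₀ < #ℂ := by
    rw [Cardinal.mk_complex]
    exact Cardinal.aleph0_lt_continuum
  have h1 : #(Tw K₀ f₁) = #s :=
    IsAlgClosed.cardinal_eq_cardinal_transcendence_basis_of_aleph0_lt' _ hs hK hc
  have h2 : #(Tw K₀ f₂) = #t :=
    IsAlgClosed.cardinal_eq_cardinal_transcendence_basis_of_aleph0_lt' _ ht hK hc
  have h3 : #s = #t := h1.symm.trans h2
  obtain ⟨e⟩ : Nonempty (s ≃ t) := Cardinal.eq.mp h3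
  letI i1 := IsAlgClosed.isAlgClosure_of_transcendence_basis _ hs
  letI i2 := IsAlgClosed.isAlgClosure_of_transcendence_basis _ ht
  let E : Algebra.adjoin K₀ (Set.range ((↑) : s → Tw K₀ f₁)) ≃ₐ[K₀]
      Algebra.adjoin K₀ (Set.range ((↑) : t → Tw K₀ f₂)) :=
    (hs.1.aevalEquiv.symm.trans (MvPolynomial.renameEquiv K₀ e)).trans ht.1.aevalEquiv
  let Φ : Tw K₀ f₁ ≃+* Tw K₀ f₂ := IsAlgClosure.equivOfEquiv (Tw K₀ f₁) (Tw K₀ f₂) E.toRingEquiv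
  refine ⟨Φ, fun k => ?_⟩
  have h := IsAlgClosure.equivOfEquiv_algebraMap (Tw K₀ f₁) (Tw K₀ f₂) E.toRingEquiv
    (algebraMap K₀ _ k)
  have e1 : algebraMap (Algebra.adjoin K₀ (Set.range ((↑) : s → Tw K₀ f₁))) (Tw K₀ f₁)
      (algebraMap K₀ _ k) = f₁ k := rfl
  have e2 : E.toRingEquiv (algebraMap K₀ _ k) = algebraMap K₀ _ k := E.commutes k
  have e3 : algebraMap (Algebra.adjoin K₀ (Set.range ((↑) : t → Tw K₀ f₂))) (Tw K₀ f₂)
      (algebraMap K₀ _ k) = f₂ k := rfl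
  rw [e1, e2, e3] at h
  exact h

theorem exists_ringEquiv_pow (N m : ℕ) (hN : 0 < N) (hm : m.Coprime N) :
    ∃ φ : ℂ ≃+* ℂ, ∀ z : ℂ, z ^ N = 1 → φ z = z ^ m := by
  haveI : NeZero N := ⟨hN.ne'⟩
  obtain ⟨σ, hσ⟩ := cyc_exists_aut N m hm
  have hK : #(CyclotomicField N ℚ) ≤ ℵ₀ := by
    have h := Algebra.IsAlgebraic.cardinalMk_le_max ℚ (CyclotomicField N ℚ)
    have hq : #ℚ ≤ ℵ₀ := Cardinal.mk_le_aleph0
    exact h.trans (max_le hq le_rfl)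
  obtain ⟨φ, hφ⟩ := exists_ringEquiv_ext (CyclotomicField N ℚ) hK (cycEmb N).toRingHom
    ((cycEmb N).toRingHom.comp σ.toAlgHom.toRingHom)
  refine ⟨φ, fun z hz => ?_⟩
  obtain ⟨i, -, rfl⟩ := (cycEmb_zeta_spec N).eq_pow_of_pow_eq_one hz
  have h := hφ (cycZeta N)
  have h' : φ (cycEmb N (cycZeta N)) = cycEmb N (cycZeta N) ^ m := by
    have e : ((cycEmb N).toRingHom.comp σ.toAlgHom.toRingHom) (cycZeta N) =
        cycEmb N (cycZeta N) ^ m := by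
      show cycEmb N (σ (cycZeta N)) = _
      rw [hσ, map_pow]
    rw [← e]
    exact h
  rw [map_pow, h']
  ring

theorem map_char_pow {G : Type u} [Group G] [Finite G] (m : ℕ) (φ : ℂ →+* ℂ)
    (hφ : ∀ z : ℂ, z ^ Nat.card G = 1 → φ z = z ^ m) {χ : G → ℂ}
    (hχ : Cfsg.IsCharacter G χ) (g : G) : φ (χ g) = χ (g ^ m) := by
  obtain ⟨n, ρ, rfl⟩ := hχ
  obtain ⟨s, d, h1, -, h3, -, -⟩ := char_spectral ρ g
  have e1 := h3 1
  have e2 := h3 m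
  rw [pow_one] at e1
  rw [e1, e2, map_sum]
  refine Finset.sum_congr rfl (fun μ hμ => ?_)
  have hμN : μ ^ Nat.card G = 1 := by
    obtain ⟨k, hk⟩ := orderOf_dvd_natCard g
    rw [hk, pow_mul, h1 μ hμ, one_pow]
  rw [map_mul, map_natCast, pow_one, hφ μ hμN]

theorem prim_pow_eq_iff {ζ : ℂ} {k : ℕ} (hζ : IsPrimitiveRoot ζ k) (hk0 : k ≠ 0) (m : ℕ) :
    ζ ^ m = ζ ↔ m ≡ 1 [MOD k] := by
  constructor
  · intro h
    have h3 : k ∣ m + (k - 1) := by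
      apply hζ.dvd_of_pow_eq_one
      rw [pow_add, h, ← pow_succ', Nat.sub_add_cancel (Nat.pos_of_ne_zero hk0)]
      exact hζ.pow_eq_one
    have h4 : m + (k - 1) + 1 ≡ 0 + 1 [MOD k] := ((Nat.modEq_zero_iff_dvd).mpr h3).add_right 1
    have h5 : m + (k - 1) + 1 = m + k := by omega
    have h6 : m + k ≡ 1 [MOD k] := by
      rw [← h5]
      simpa using h4
    exact (Nat.add_modEq_right (a := m) (n := k)).symm.trans h6
  · intro h
    have h1 : m % k = 1 % k := h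
    rw [pow_eq_pow_mod m hζ.pow_eq_one, h1, ← pow_eq_pow_mod 1 hζ.pow_eq_one, pow_one]

theorem conj_set_eq {G : Type u} [Group G] [Fintype G] (p : ℕ) (χ : IrrCharacter G) :
    {ψ : IrrCharacter G | ∃ σ : ℂ ≃+* ℂ, σ (Complex.exp (2 * Real.pi * Complex.I / ((Nat.card G / p ^ (Nat.card G).factorization p) : ℕ))) = Complex.exp (2 * Real.pi * Complex.I / ((Nat.card G / p ^ (Nat.card G).factorization p) : ℕ)) ∧ (ψ : G → ℂ) = fun g => σ ((χ : G → ℂ) g)}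
      = {ψ | ∃ (m : ℕ) (hm : m.Coprime (Nat.card G)),
          m ≡ 1 [MOD Nat.card G / p ^ (Nat.card G).factorization p] ∧ ψ = Gal.gal m hm χ} := by
  have hn : Nat.card G ≠ 0 := Nat.card_pos.ne'
  obtain ⟨k, hkdef⟩ : ∃ k : ℕ, k = Nat.card G / p ^ (Nat.card G).factorization p := ⟨_, rfl⟩
  rw [← hkdef]
  have hkn : k ∣ Nat.card G := by
    rw [hkdef]
    exact Nat.div_dvd_of_dvd (Nat.ordProj_dvd _ _)
  have hk0 : k ≠ 0 := fun h => hn (by rw [h] at hkn; exact Nat.eq_zero_of_zero_dvd hkn)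
  have hζ : IsPrimitiveRoot (Complex.exp (2 * Real.pi * Complex.I / (k : ℂ))) k :=
    Complex.isPrimitiveRoot_exp k hk0
  obtain ⟨ζ, hζdef⟩ : ∃ ζ : ℂ, ζ = Complex.exp (2 * Real.pi * Complex.I / (k : ℂ)) := ⟨_, rfl⟩
  rw [← hζdef] at hζ ⊢
  have hζn : ζ ^ Nat.card G = 1 := by
    obtain ⟨c, hc⟩ := hkn
    rw [hc, pow_mul, hζ.pow_eq_one, one_pow]
  have hord : orderOf ζ = k := hζ.eq_orderOf.symm
  ext ψ
  constructor
  · rintro ⟨σ, hσζ, hψ⟩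
    have hω : IsPrimitiveRoot (Complex.exp (2 * Real.pi * Complex.I / (Nat.card G : ℂ)))
        (Nat.card G) := Complex.isPrimitiveRoot_exp _ hn
    obtain ⟨ω, hωdef⟩ : ∃ ω : ℂ, ω = Complex.exp (2 * Real.pi * Complex.I / (Nat.card G : ℂ)) :=
      ⟨_, rfl⟩
    rw [← hωdef] at hω
    have hσω : IsPrimitiveRoot (σ ω) (Nat.card G) := hω.map_of_injective σ.injective
    haveI : NeZero (Nat.card G) := ⟨hn⟩
    obtain ⟨m, -, hm⟩ := hω.eq_pow_of_pow_eq_one hσω.pow_eq_one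
    have hmc : m.Coprime (Nat.card G) := by
      rw [← hm] at hσω
      exact (hω.pow_iff_coprime (Nat.pos_of_ne_zero hn) m).mp hσω
    have hpow : ∀ z : ℂ, z ^ Nat.card G = 1 → σ.toRingHom z = z ^ m := by
      intro z hz
      obtain ⟨j, -, rfl⟩ := hω.eq_pow_of_pow_eq_one hz
      show σ (ω ^ j) = (ω ^ j) ^ m
      rw [map_pow, ← hm, ← pow_mul, ← pow_mul, mul_comm]
    refine ⟨m, hmc, ?_, ?_⟩
    · have h1 : σ ζ = ζ ^ m := hpow ζ hζn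
      rw [hσζ] at h1
      exact (prim_pow_eq_iff hζ hk0 m).mp h1.symm
    · apply Subtype.ext
      rw [hψ]
      funext g
      exact map_char_pow m σ.toRingHom hpow (CharBasic.isCharacter_of_irr χ.2) g
  · rintro ⟨m, hmc, hmod, hψ⟩
    obtain ⟨σ, hσ⟩ := exists_ringEquiv_pow (Nat.card G) m (Nat.pos_of_ne_zero hn) hmc
    refine ⟨σ, ?_, ?_⟩
    · rw [hσ ζ hζn]
      exact (prim_pow_eq_iff hζ hk0 m).mpr hmod
    · rw [hψ]
      funext g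
      exact (map_char_pow m σ.toRingHom hσ (CharBasic.isCharacter_of_irr χ.2) g).symm

end Cfsg.Agent.Lib.Helper24.PC
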