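import Mathlib
import Cfsg.Agent.Lib.Helper24.PC1

set_option autoImplicit false

namespace Cfsg.Agent.Lib.Helper24.PC

open Cfsg Cfsg.Agent.Lib.Helper1 Cfsg.Agent.Lib.Helper24
open scoped ComplexConjugate

universe u

section act

variable {G : Type u} [Group G] [Fintype G]

@[reducible] noncomputable def galAct [NeZero (Nat.card G)] :
    MulAction (ZMod (Nat.card G))ˣ (IrrCharacter G) where
  smul u χ := Gal.gal (u : ZMod (Nat.card G)).val (ZMod.val_coe_unit_coprime u) χ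
  one_smul χ := by
    apply Subtype.ext
    funext g
    show (χ : G → ℂ) (g ^ ((1 : (ZMod (Nat.card G))ˣ) : ZMod (Nat.card G)).val) = (χ : G → ℂ) g
    rw [Units.val_one, ZMod.val_one_eq_one_mod, pow_mod_natCard, pow_one]
  mul_smul u v χ := by
    apply Subtype.ext
    funext g
    show (χ : G → ℂ) (g ^ ((u * v : (ZMod (Nat.card G))ˣ) : ZMod (Nat.card G)).val)
      = (χ : G → ℂ) ((g ^ (u : ZMod (Nat.card G)).val) ^ (v : ZMod (Nat.card G)).val)
    rw [Units.val_mul, ZMod.val_mul, pow_mod_natCard, pow_mul]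

end act

theorem card_orbit_sub {U X : Type*} [Group U] [Finite U] [MulAction U X] (V : Subgroup U)
    (x : X) :
    Nat.card {y : X | ∃ u ∈ V, y = u • x} * Nat.card (MulAction.stabilizer V x) = Nat.card V ∧
    Nat.card (MulAction.stabilizer V x)
      = Nat.card (V ⊓ MulAction.stabilizer U x : Subgroup U) := by
  constructor
  · have e1 : {y : X | ∃ u ∈ V, y = u • x} = MulAction.orbit V x := by
      ext y
      constructor
      · rintro ⟨u, hu, rfl⟩
        exact ⟨⟨u, hu⟩, rfl⟩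
      · rintro ⟨⟨u, hu⟩, rfl⟩
        exact ⟨u, hu, rfl⟩
    rw [e1]
    have e3 : Nat.card (MulAction.orbit V x) = (MulAction.stabilizer V x).index :=
      Nat.card_congr (MulAction.orbitEquivQuotientStabilizer V x)
    rw [e3, mul_comm]
    exact Subgroup.card_mul_index _
  · apply Nat.card_congr
    exact
      { toFun := fun u => ⟨((u : V) : U), ⟨(u : V).2, u.2⟩⟩
        invFun := fun w => ⟨⟨w, w.2.1⟩, w.2.2⟩
        left_inv := fun u => rfl
        right_inv := fun w => rfl }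

theorem orbit_dvd {U X : Type*} [Group U] [Finite U] [MulAction U X] (V V' : Subgroup U)
    (hle : V ≤ V') (x : X) (c : ℕ) (hc : Nat.card V' = c * Nat.card V) :
    Nat.card {y : X | ∃ u ∈ V', y = u • x} ∣ c * Nat.card {y : X | ∃ u ∈ V, y = u • x} := by
  obtain ⟨h1, h2⟩ := card_orbit_sub V x
  obtain ⟨h1', h2'⟩ := card_orbit_sub V' x
  have h3 : Nat.card (V ⊓ MulAction.stabilizer U x : Subgroup U)
      ∣ Nat.card (V' ⊓ MulAction.stabilizer U x : Subgroup U) :=
    Subgroup.card_dvd_of_le (inf_le_inf_right _ hle)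
  rw [← h2, ← h2'] at h3
  obtain ⟨e, he⟩ := h3
  have hpos : 0 < Nat.card (MulAction.stabilizer V x) := Nat.card_pos
  refine ⟨e, ?_⟩
  have h4 : Nat.card {y : X | ∃ u ∈ V', y = u • x} * e * Nat.card (MulAction.stabilizer V x)
      = c * Nat.card {y : X | ∃ u ∈ V, y = u • x} * Nat.card (MulAction.stabilizer V x) := by
    calc Nat.card {y : X | ∃ u ∈ V', y = u • x} * e * Nat.card (MulAction.stabilizer V x)
        = Nat.card {y : X | ∃ u ∈ V', y = u • x} * (Nat.card (MulAction.stabilizer V x) * e) := by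
          ring
      _ = Nat.card V' := by rw [← he, h1']
      _ = c * Nat.card V := hc
      _ = c * Nat.card {y : X | ∃ u ∈ V, y = u • x} * Nat.card (MulAction.stabilizer V x) := by
          rw [← h1]
          ring
  exact (Nat.eq_of_mul_eq_mul_right hpos h4).symm

theorem mem_ker_unitsMap {n d : ℕ} [NeZero n] (hd : d ∣ n) (u : (ZMod n)ˣ) :
    u ∈ (ZMod.unitsMap hd).ker ↔ (u : ZMod n).val ≡ 1 [MOD d] := by
  rw [MonoidHom.mem_ker, Units.ext_iff, ZMod.unitsMap_def, Units.coe_map, Units.val_one]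
  show (ZMod.castHom hd (ZMod d)) (u : ZMod n) = 1 ↔ _
  rw [ZMod.castHom_apply, ← ZMod.natCast_val, ← Nat.cast_one (R := ZMod d),
    ZMod.natCast_eq_natCast_iff]

theorem card_ker_unitsMap {n d : ℕ} [NeZero n] (hd : d ∣ n) :
    Nat.card (ZMod.unitsMap hd).ker * d.totient = n.totient := by
  haveI : NeZero d := ⟨fun h => NeZero.ne n (by rw [h] at hd; exact Nat.eq_zero_of_zero_dvd hd)⟩
  have h1 := Subgroup.card_mul_index (ZMod.unitsMap hd).ker
  rw [Subgroup.index_ker, MonoidHom.range_eq_top.mpr (ZMod.unitsMap_surjective hd),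
    Subgroup.card_top, Nat.card_eq_fintype_card (α := (ZMod d)ˣ), ZMod.card_units_eq_totient,
    Nat.card_eq_fintype_card (α := (ZMod n)ˣ), ZMod.card_units_eq_totient] at h1
  exact h1

theorem sum_ker_pow {n q N : ℕ} [NeZero n] (hn : n = q * N) (hq : q ∣ n)
    [Fintype ↥(ZMod.unitsMap hq).ker]
    (hcop : ∀ t : ℕ, (1 + q * t).Coprime n)
    (hcard : Nat.card (ZMod.unitsMap hq).ker = N) (μ : ℂ) (hμ : μ ^ n = 1) :
    ∑ u : (ZMod.unitsMap hq).ker, μ ^ ((u : (ZMod n)ˣ) : ZMod n).val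
      = (N : ℂ) * (if μ ^ q = 1 then μ else 0) := by
  classical
  have hq0 : q ≠ 0 := fun h => NeZero.ne n (by rw [hn, h, zero_mul])
  have hmem : ∀ t : ℕ, ZMod.unitOfCoprime (1 + q * t) (hcop t) ∈ (ZMod.unitsMap hq).ker := by
    intro t
    rw [mem_ker_unitsMap, ZMod.coe_unitOfCoprime, ZMod.val_natCast]
    have h1 : (1 + q * t) % n ≡ 1 + q * t [MOD q] := (Nat.mod_modEq _ _).of_dvd hq
    have h2 : 1 + q * t ≡ 1 + 0 [MOD q] :=
      (Nat.modEq_zero_iff_dvd.mpr (dvd_mul_right q t)).add_left 1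
    exact h1.trans h2
  obtain ⟨f, hf⟩ : ∃ f : Fin N → (ZMod.unitsMap hq).ker, ∀ t : Fin N,
      f t = ⟨ZMod.unitOfCoprime (1 + q * (t : ℕ)) (hcop t), hmem t⟩ :=
    ⟨fun t => ⟨_, hmem t⟩, fun t => rfl⟩
  have hinj : Function.Injective f := by
    intro t t' h
    rw [hf, hf] at h
    have h1 : ((ZMod.unitOfCoprime (1 + q * (t : ℕ)) (hcop t) : (ZMod n)ˣ) : ZMod n)
        = ((ZMod.unitOfCoprime (1 + q * (t' : ℕ)) (hcop t') : (ZMod n)ˣ) : ZMod n) :=
      congrArg (fun u : (ZMod n)ˣ => (u : ZMod n)) (Subtype.ext_iff.mp h)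
    rw [ZMod.coe_unitOfCoprime, ZMod.coe_unitOfCoprime, ZMod.natCast_eq_natCast_iff] at h1
    have h2 : q * (t : ℕ) ≡ q * (t' : ℕ) [MOD q * N] := by
      rw [← hn]
      exact Nat.ModEq.add_left_cancel' 1 h1
    have h3 : (t : ℕ) ≡ (t' : ℕ) [MOD N] := Nat.ModEq.mul_left_cancel' hq0 h2
    exact Fin.ext (Nat.ModEq.eq_of_lt_of_lt h3 t.2 t'.2)
  have hbij : Function.Bijective f := by
    rw [Fintype.bijective_iff_injective_and_card]
    refine ⟨hinj, ?_⟩
    rw [Fintype.card_fin, ← Nat.card_eq_fintype_card, hcard]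
  rw [← hbij.sum_comp (fun u => μ ^ ((u : (ZMod n)ˣ) : ZMod n).val)]
  have hterm : ∀ t : Fin N,
      μ ^ (((f t : (ZMod.unitsMap hq).ker) : (ZMod n)ˣ) : ZMod n).val
        = μ * (μ ^ q) ^ (t : ℕ) := by
    intro t
    rw [hf]
    show μ ^ ((ZMod.unitOfCoprime (1 + q * (t : ℕ)) (hcop t) : (ZMod n)ˣ) : ZMod n).val = _
    rw [ZMod.coe_unitOfCoprime, ZMod.val_natCast, ← pow_eq_pow_mod _ hμ, pow_add, pow_one,
      pow_mul]
  rw [Finset.sum_congr rfl (fun t _ => hterm t), ← Finset.mul_sum,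
    Fin.sum_univ_eq_sum_range (fun i => (μ ^ q) ^ i) N]
  by_cases h1 : μ ^ q = 1
  · rw [if_pos h1, h1]
    simp
    ring
  · rw [if_neg h1, mul_zero]
    have h2 : (∑ i ∈ Finset.range N, (μ ^ q) ^ i) * (μ ^ q - 1) = (μ ^ q) ^ N - 1 :=
      geom_sum_mul _ _
    rw [← pow_mul, ← hn, hμ, sub_self] at h2
    rcases mul_eq_zero.mp h2 with h3 | h3
    · rw [h3, mul_zero]
    · exact absurd (sub_eq_zero.mp h3) h1

end Cfsg.Agent.Lib.Helper24.PC
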