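import Mathlib
import Cfsg.Agent.Lib.Helper24.PC2
import Cfsg.Agent.Lib.Helper24.Osima

set_option autoImplicit false

namespace Cfsg.Agent.Lib.Helper24.PC

open Cfsg Cfsg.Agent.Lib.Helper1 Cfsg.Agent.Lib.Helper6 Cfsg.Agent.Lib.Helper24
open scoped ComplexConjugate

universe u

attribute [local instance] galAct

variable {G : Type u} [Group G] [Fintype G] [NeZero (Nat.card G)]

theorem smul_apply (u : (ZMod (Nat.card G))ˣ) (χ : IrrCharacter G) (g : G) :
    ((u • χ : IrrCharacter G) : G → ℂ) g = (χ : G → ℂ) (g ^ (u : ZMod (Nat.card G)).val) := rfl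

noncomputable def theta (V : Subgroup (ZMod (Nat.card G))ˣ) [Fintype V] (χ : IrrCharacter G) :
    G → ℂ :=
  fun g => ∑ u : V, (((u : (ZMod (Nat.card G))ˣ) • χ : IrrCharacter G) : G → ℂ) g

noncomputable def bnum (V : Subgroup (ZMod (Nat.card G))ˣ) [Fintype V] (χ : IrrCharacter G) : ℂ :=
  omega (χ : G → ℂ) (fun g => conj (theta V χ g) / (Nat.card V : ℂ))

theorem theta_classFunction (V : Subgroup (ZMod (Nat.card G))ˣ) [Fintype V] (χ : IrrCharacter G) :
    IsClassFunction G (theta V χ) := by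
  intro g k
  show ∑ u : V, (((u : (ZMod (Nat.card G))ˣ) • χ : IrrCharacter G) : G → ℂ) (k * g * k⁻¹)
    = ∑ u : V, (((u : (ZMod (Nat.card G))ˣ) • χ : IrrCharacter G) : G → ℂ) g
  exact Finset.sum_congr rfl (fun u _ => irr_isClassFunction _ g k)

open Classical in
theorem theta_inner (V : Subgroup (ZMod (Nat.card G))ˣ) [Fintype V] (χ ψ : IrrCharacter G) :
    ∑ g : G, conj (theta V χ g) * (ψ : G → ℂ) g
      = (Nat.card G : ℂ)
        * ((Finset.univ.filter (fun u : V => (u : (ZMod (Nat.card G))ˣ) • χ = ψ)).card : ℂ) := by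
  have hG : (Nat.card G : ℂ) ≠ 0 := by exact_mod_cast (Nat.card_pos (α := G)).ne'
  have h1 : ∀ u : V, ∑ g : G,
      conj ((((u : (ZMod (Nat.card G))ˣ) • χ : IrrCharacter G) : G → ℂ) g) * (ψ : G → ℂ) g
      = (Nat.card G : ℂ) * (if (u : (ZMod (Nat.card G))ˣ) • χ = ψ then 1 else 0) := by
    intro u
    have h := classInner_irr ψ.2 ((u : (ZMod (Nat.card G))ˣ) • χ : IrrCharacter G).2
    have h' : (Nat.card G : ℂ) * classInner (ψ : G → ℂ)
        (((u : (ZMod (Nat.card G))ˣ) • χ : IrrCharacter G) : G → ℂ)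
        = ∑ g : G, conj ((((u : (ZMod (Nat.card G))ˣ) • χ : IrrCharacter G) : G → ℂ) g)
          * (ψ : G → ℂ) g := by
      show (Nat.card G : ℂ) * ((Nat.card G : ℂ)⁻¹ * ∑ g : G, (ψ : G → ℂ) g
        * conj ((((u : (ZMod (Nat.card G))ˣ) • χ : IrrCharacter G) : G → ℂ) g)) = _
      rw [← mul_assoc, mul_inv_cancel₀ hG, one_mul]
      exact Finset.sum_congr rfl (fun g _ => mul_comm _ _)
    rw [← h', h]
    congr 1
    by_cases hu : (u : (ZMod (Nat.card G))ˣ) • χ = ψ
    · rw [if_pos hu, if_pos (by rw [hu])]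
    · rw [if_neg hu, if_neg (fun hc => hu (Subtype.ext hc.symm))]
  show ∑ g : G, conj (∑ u : V, (((u : (ZMod (Nat.card G))ˣ) • χ : IrrCharacter G) : G → ℂ) g)
    * (ψ : G → ℂ) g = _
  simp_rw [map_sum, Finset.sum_mul]
  rw [Finset.sum_comm, Finset.sum_congr rfl (fun u _ => h1 u), ← Finset.mul_sum,
    Finset.sum_boole]

theorem omega_isIntegral {χ f : G → ℂ} (hχ : IsIrrCharacter G χ) (hf : IsClassFunction G f)
    (hint : ∀ g, IsIntegral ℤ (f g)) : IsIntegral ℤ (omega χ f) := by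
  classical
  haveI : Fintype (ConjClasses G) := Fintype.ofFinite _
  rw [omega_eq_sum_classes (IsIrrCharacter.isClassFunction hχ) hf]
  exact IsIntegral.sum _ (fun C _ => (hint _).mul (Osima.centralChar_isIntegral hχ _))

theorem theta_integral {q N : ℕ} (hn : Nat.card G = q * N) (hq : q ∣ Nat.card G)
    [Fintype ↥(ZMod.unitsMap hq).ker]
    (hcop : ∀ t : ℕ, (1 + q * t).Coprime (Nat.card G))
    (hcard : Nat.card (ZMod.unitsMap hq).ker = N) (χ : IrrCharacter G) (g : G) :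
    ∃ w : ℂ, IsIntegral ℤ w ∧ theta (ZMod.unitsMap hq).ker χ g = (N : ℂ) * w := by
  classical
  obtain ⟨n', ρ, -, hρ⟩ := χ.2
  obtain ⟨s, d, h1, -, h3, -, -⟩ := char_spectral ρ g
  have hμN : ∀ μ ∈ s, μ ^ Nat.card G = 1 := by
    intro μ hμ
    obtain ⟨k, hk⟩ := orderOf_dvd_natCard g
    rw [hk, pow_mul, h1 μ hμ, one_pow]
  refine ⟨∑ μ ∈ s, (d μ : ℂ) * (if μ ^ q = 1 then μ else 0), ?_, ?_⟩
  · apply IsIntegral.sum
    intro μ hμ
    apply IsIntegral.mul (isIntegral_natCast _)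
    split_ifs
    · exact IsIntegral.of_pow (orderOf_pos g) (by rw [h1 μ hμ]; exact isIntegral_one)
    · exact isIntegral_zero
  · have hval : ∀ u : (ZMod.unitsMap hq).ker,
        (((u : (ZMod (Nat.card G))ˣ) • χ : IrrCharacter G) : G → ℂ) g
          = ∑ μ ∈ s, (d μ : ℂ) * μ ^ ((u : (ZMod (Nat.card G))ˣ) : ZMod (Nat.card G)).val := by
      intro u
      rw [smul_apply, ← hρ]
      exact h3 _
    show ∑ u : (ZMod.unitsMap hq).ker,
      (((u : (ZMod (Nat.card G))ˣ) • χ : IrrCharacter G) : G → ℂ) g = _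
    rw [Finset.sum_congr rfl (fun u _ => hval u), Finset.sum_comm, Finset.mul_sum]
    apply Finset.sum_congr rfl
    intro μ hμ
    rw [← Finset.mul_sum, sum_ker_pow hn hq hcop hcard μ (hμN μ hμ)]
    ring

theorem w_integral {q N : ℕ} (hn : Nat.card G = q * N) (hq : q ∣ Nat.card G)
    [Fintype ↥(ZMod.unitsMap hq).ker]
    (hcop : ∀ t : ℕ, (1 + q * t).Coprime (Nat.card G))
    (hcard : Nat.card (ZMod.unitsMap hq).ker = N) (hN : 0 < N) (χ : IrrCharacter G) (g : G) :
    IsIntegral ℤ (conj (theta (ZMod.unitsMap hq).ker χ g)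
      / (Nat.card (ZMod.unitsMap hq).ker : ℂ)) := by
  obtain ⟨w, hw, hwe⟩ := theta_integral hn hq hcop hcard χ g
  have hN' : (N : ℂ) ≠ 0 := by exact_mod_cast hN.ne'
  rw [hwe, hcard, map_mul, map_natCast, mul_div_cancel_left₀ _ hN']
  exact map_isIntegral_int (starRingEnd ℂ) hw

theorem w_classFunction (V : Subgroup (ZMod (Nat.card G))ˣ) [Fintype V] (χ : IrrCharacter G) :
    IsClassFunction G (fun g => conj (theta V χ g) / (Nat.card V : ℂ)) := by
  intro g k
  show conj (theta V χ (k * g * k⁻¹)) / (Nat.card V : ℂ) = conj (theta V χ g) / (Nat.card V : ℂ)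
  rw [theta_classFunction V χ g k]

theorem bnum_integral {q N : ℕ} (hn : Nat.card G = q * N) (hq : q ∣ Nat.card G)
    [Fintype ↥(ZMod.unitsMap hq).ker]
    (hcop : ∀ t : ℕ, (1 + q * t).Coprime (Nat.card G))
    (hcard : Nat.card (ZMod.unitsMap hq).ker = N) (hN : 0 < N) (χ : IrrCharacter G) :
    IsIntegral ℤ (bnum (ZMod.unitsMap hq).ker χ) :=
  omega_isIntegral χ.2 (w_classFunction _ χ) (w_integral hn hq hcop hcard hN χ)

theorem omega_w (V : Subgroup (ZMod (Nat.card G))ˣ) [Fintype V] (χ ψ : IrrCharacter G) :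
    omega (ψ : G → ℂ) (fun g => conj (theta V χ g) / (Nat.card V : ℂ))
      = (∑ g : G, conj (theta V χ g) * (ψ : G → ℂ) g) / (Nat.card V : ℂ) / (ψ : G → ℂ) 1 := by
  show (∑ g : G, conj (theta V χ g) / (Nat.card V : ℂ) * (ψ : G → ℂ) g) / (ψ : G → ℂ) 1 = _
  congr 1
  rw [Finset.sum_div]
  exact Finset.sum_congr rfl (fun g _ => by ring)

theorem bnum_eq (V : Subgroup (ZMod (Nat.card G))ˣ) [Fintype V] (χ : IrrCharacter G) :
    (Nat.card G : ℂ) * (Nat.card (MulAction.stabilizer V χ) : ℂ)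
      = (χ : G → ℂ) 1 * (Nat.card V : ℂ) * bnum V χ := by
  classical
  have h1 := theta_inner V χ χ
  haveI : Fintype (MulAction.stabilizer V χ) := Fintype.ofFinite _
  have hcount : (Finset.univ.filter (fun u : V => (u : (ZMod (Nat.card G))ˣ) • χ = χ)).card
      = Nat.card (MulAction.stabilizer V χ) := by
    have e := Nat.card_eq_fintype_card (α := ↥(MulAction.stabilizer V χ))
    rw [e]
    symm
    apply Fintype.card_of_subtype
    intro u
    rw [Finset.mem_filter]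
    exact ⟨fun h => MulAction.mem_stabilizer_iff.mpr h.2,
      fun h => ⟨Finset.mem_univ _, MulAction.mem_stabilizer_iff.mp h⟩⟩
  have hV : (Nat.card V : ℂ) ≠ 0 := by exact_mod_cast (Nat.card_pos (α := V)).ne'
  have hχ1 : (χ : G → ℂ) 1 ≠ 0 := irr_one_ne_zero χ.2
  show _ = (χ : G → ℂ) 1 * (Nat.card V : ℂ)
    * omega (χ : G → ℂ) (fun g => conj (theta V χ g) / (Nat.card V : ℂ))
  rw [omega_w, h1, hcount]
  field_simp

theorem block_sub {p : ℕ} [Fact p.Prime] {M : Ideal AlgInt} (hM : IsPModular p M) {q N : ℕ}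
    (hn : Nat.card G = q * N) (hq : q ∣ Nat.card G)
    [Fintype ↥(ZMod.unitsMap hq).ker]
    (hcop : ∀ t : ℕ, (1 + q * t).Coprime (Nat.card G))
    (hcard : Nat.card (ZMod.unitsMap hq).ker = N) (hN : 0 < N) (χ : IrrCharacter G)
    (hB : ¬ MemLocalIdeal M (bnum (ZMod.unitsMap hq).ker χ)) (ψ : IrrCharacter G)
    (hψ : ψ ∈ blockOf M (χ : G → ℂ)) :
    ∃ u ∈ (ZMod.unitsMap hq).ker, u • χ = ψ := by
  classical
  by_contra hno
  push Not at hno
  have hmax := hM.2.1
  have hint := bnum_integral hn hq hcop hcard hN χ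
  have hbe := bnum_eq (ZMod.unitsMap hq).ker χ
  have hG : (Nat.card G : ℂ) ≠ 0 := by exact_mod_cast (Nat.card_pos (α := G)).ne'
  have hst : (Nat.card (MulAction.stabilizer (ZMod.unitsMap hq).ker χ) : ℂ) ≠ 0 := by
    exact_mod_cast (Nat.card_pos (α := MulAction.stabilizer (ZMod.unitsMap hq).ker χ)).ne'
  have hb0 : bnum (ZMod.unitsMap hq).ker χ ≠ 0 := by
    intro h0
    rw [h0, mul_zero] at hbe
    exact mul_ne_zero hG hst hbe
  obtain ⟨f, hfdef⟩ : ∃ f : G → ℂ, f = (bnum (ZMod.unitsMap hq).ker χ)⁻¹ •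
      (fun g => conj (theta (ZMod.unitsMap hq).ker χ g)
        / (Nat.card (ZMod.unitsMap hq).ker : ℂ)) := ⟨_, rfl⟩
  have hf : IsClassFunction G f := by
    intro g k
    rw [hfdef]
    show (bnum (ZMod.unitsMap hq).ker χ)⁻¹ * _ = (bnum (ZMod.unitsMap hq).ker χ)⁻¹ * _
    rw [w_classFunction (ZMod.unitsMap hq).ker χ g k]
  have hS : SVal M f := by
    intro g
    rw [hfdef]
    exact MemLocalRing.mul hmax (MemLocalRing.inv (memLocalRing_of_isIntegral hmax hint) hB)
      (memLocalRing_of_isIntegral hmax (w_integral hn hq hcop hcard hN χ g))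
  have h1 := omega_sub_memLocalIdeal hmax (irr_isClassFunction χ) (irr_isClassFunction ψ) hψ hf hS
  have e1 : omega (χ : G → ℂ) f = 1 := by
    rw [hfdef, omega_smul]
    exact inv_mul_cancel₀ hb0
  have e2 : omega (ψ : G → ℂ) f = 0 := by
    rw [hfdef, omega_smul, omega_w, theta_inner]
    have hemp : Finset.univ.filter
        (fun u : (ZMod.unitsMap hq).ker => (u : (ZMod (Nat.card G))ˣ) • χ = ψ) = ∅ := by
      apply Finset.filter_eq_empty_iff.mpr
      intro u _
      exact hno u u.2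
    rw [hemp]
    simp
  rw [e1, e2, sub_zero] at h1
  exact not_memLocalIdeal_one hmax h1

end Cfsg.Agent.Lib.Helper24.PC
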