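import Mathlib
import Cfsg.Agent.Lib.Helper24.PC3
import Cfsg.Agent.Lib.Helper24.SecondMain
import Cfsg.Agent.Lib.Helper24.DefectGroup
import Cfsg.Agent.Lib.Helper24.Defect
import Cfsg.Agent.Lib.Helper1.CharInt

set_option autoImplicit false

namespace Cfsg.Agent.Lib.Helper24.PC

open Cfsg Cfsg.Agent.Lib.Helper1 Cfsg.Agent.Lib.Helper6 Cfsg.Agent.Lib.Helper24
open scoped ComplexConjugate

universe u

attribute [local instance] galAct

variable {G : Type u} [Group G] [Fintype G]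

theorem gal_congr (m m' : ℕ) (hm : m.Coprime (Nat.card G)) (hm' : m'.Coprime (Nat.card G))
    (h : m ≡ m' [MOD Nat.card G]) (χ : IrrCharacter G) : Gal.gal m hm χ = Gal.gal m' hm' χ := by
  apply Subtype.ext
  funext g
  show (χ : G → ℂ) (g ^ m) = (χ : G → ℂ) (g ^ m')
  have h1 : g ^ m = g ^ m' := by
    rw [pow_eq_pow_iff_modEq]
    exact h.of_dvd (orderOf_dvd_natCard g)
  rw [h1]

theorem coprime_one_add_mul (q t : ℕ) : (1 + q * t).Coprime q := by
  have h1 := Nat.gcd_dvd_left (1 + q * t) q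
  have h2 := Nat.gcd_dvd_right (1 + q * t) q
  have h3 := Nat.dvd_sub h1 (h2.mul_right t)
  rw [Nat.add_sub_cancel] at h3
  exact Nat.dvd_one.mp h3

theorem card_conj_eq [NeZero (Nat.card G)] (p : ℕ) (χ : IrrCharacter G)
    (hg : (Nat.card G / p ^ (Nat.card G).factorization p) ∣ Nat.card G) :
    Nat.card {ψ : IrrCharacter G // ∃ σ : ℂ ≃+* ℂ, σ (Complex.exp (2 * Real.pi * Complex.I / ((Nat.card G / p ^ (Nat.card G).factorization p) : ℕ))) = Complex.exp (2 * Real.pi * Complex.I / ((Nat.card G / p ^ (Nat.card G).factorization p) : ℕ)) ∧ (ψ : G → ℂ) = fun g => σ ((χ : G → ℂ) g)}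
      = Nat.card {ψ : IrrCharacter G | ∃ u ∈ (ZMod.unitsMap hg).ker, ψ = u • χ} := by
  apply Nat.card_congr
  apply Equiv.subtypeEquivRight
  intro ψ
  refine (Set.ext_iff.mp (conj_set_eq p χ) ψ).trans ?_
  constructor
  · rintro ⟨m, hm, hmod, hψ⟩
    refine ⟨ZMod.unitOfCoprime m hm, ?_, ?_⟩
    · rw [mem_ker_unitsMap, ZMod.coe_unitOfCoprime, ZMod.val_natCast]
      exact ((Nat.mod_modEq m _).of_dvd hg).trans hmod
    · rw [hψ]
      show Gal.gal m hm χ = Gal.gal
        ((ZMod.unitOfCoprime m hm : (ZMod (Nat.card G))ˣ) : ZMod (Nat.card G)).val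
        (ZMod.val_coe_unit_coprime _) χ
      apply gal_congr
      rw [ZMod.coe_unitOfCoprime, ZMod.val_natCast]
      exact (Nat.mod_modEq m _).symm
  · rintro ⟨u, hu, hψ⟩
    exact ⟨(u : ZMod (Nat.card G)).val, ZMod.val_coe_unit_coprime u,
      (mem_ker_unitsMap hg u).mp hu, hψ⟩

theorem order_dvd_of_ne_zero {p : ℕ} [Fact p.Prime] {M : Ideal AlgInt} (hM : IsPModular p M)
    {a g' : ℕ} (hng : Nat.card G = p ^ a * g')
    (χ : IrrCharacter G) (x : G) (hx : (χ : G → ℂ) x ≠ 0) :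
    orderOf x ∣ p ^ blockDefect p (blockOf M (χ : G → ℂ)) * g' := by
  have hp : p.Prime := Fact.out
  obtain ⟨y, hy⟩ := SecondMain.exists_isPPart hp x
  by_contra hnd
  apply hx
  apply SecondMain.vanish_off_defect hM χ x y hy
  intro D hD hyD
  apply hnd
  have hcard := DefectGroup.card_defectGroup hM _
    (⟨χ, rfl⟩ : IsPBlock M (blockOf M (χ : G → ℂ))) D hD
  have hoy : orderOf y ∣ p ^ blockDefect p (blockOf M (χ : G → ℂ)) := by
    rw [← hcard]
    exact Subgroup.orderOf_dvd_natCard D hyD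
  obtain ⟨z, hyz, hcomm, -, hz⟩ := hy
  have hoz : orderOf z ∣ g' := by
    have h1 : orderOf z ∣ p ^ a * g' := by
      rw [← hng]
      exact orderOf_dvd_natCard z
    have h2 : Nat.Coprime (orderOf z) (p ^ a) :=
      Nat.Coprime.pow_right a ((Nat.Prime.coprime_iff_not_dvd hp).mpr hz).symm
    exact h2.dvd_of_dvd_mul_left h1
  rw [← hyz]
  apply orderOf_dvd_of_pow_eq_one
  rw [hcomm.mul_pow, pow_mul, orderOf_dvd_iff_pow_eq_one.mp hoy, one_pow, mul_comm, pow_mul,
    orderOf_dvd_iff_pow_eq_one.mp hoz, one_pow, one_mul]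

theorem ker_le_stab [NeZero (Nat.card G)] {p : ℕ} [Fact p.Prime] {M : Ideal AlgInt}
    (hM : IsPModular p M) {a g' : ℕ} (hng : Nat.card G = p ^ a * g') (χ : IrrCharacter G)
    {e : ℕ} (he : e ∣ Nat.card G)
    (hde : p ^ blockDefect p (blockOf M (χ : G → ℂ)) * g' ∣ e) :
    (ZMod.unitsMap he).ker ≤ MulAction.stabilizer (ZMod (Nat.card G))ˣ χ := by
  intro u hu
  rw [MulAction.mem_stabilizer_iff]
  have hu' := (mem_ker_unitsMap he u).mp hu
  apply Subtype.ext
  funext x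
  rw [smul_apply]
  by_cases hx : orderOf x ∣ p ^ blockDefect p (blockOf M (χ : G → ℂ)) * g'
  · have h1 : (u : ZMod (Nat.card G)).val ≡ 1 [MOD orderOf x] := hu'.of_dvd (hx.trans hde)
    have h2 : x ^ (u : ZMod (Nat.card G)).val = x ^ 1 := pow_eq_pow_iff_modEq.mpr h1
    rw [h2, pow_one]
  · have h0 : (χ : G → ℂ) x = 0 := by
      by_contra h
      exact hx (order_dvd_of_ne_zero hM hng χ x h)
    have h0' : (χ : G → ℂ) (x ^ (u : ZMod (Nat.card G)).val) = 0 := by
      by_contra h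
      have h3 := order_dvd_of_ne_zero hM hng χ _ h
      have h4 : Nat.Coprime (orderOf x) (u : ZMod (Nat.card G)).val :=
        (Nat.Coprime.coprime_dvd_right (orderOf_dvd_natCard x)
          (ZMod.val_coe_unit_coprime u)).symm
      rw [Nat.Coprime.orderOf_pow h4] at h3
      exact hx h3
    rw [h0, h0']

theorem card_ker_pj {n p a g' j : ℕ} [NeZero n] (hp : p.Prime) (hn : n = p ^ a * g')
    (hcop : Nat.Coprime p g') (hj : 1 ≤ j) (hja : j ≤ a) (hd : p ^ j * g' ∣ n) :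
    Nat.card (ZMod.unitsMap hd).ker = p ^ (a - j) := by
  have h1 := card_ker_unitsMap hd
  have hg0 : g' ≠ 0 := by
    rintro rfl
    rw [mul_zero] at hn
    exact NeZero.ne n hn
  have hgt : 0 < g'.totient := Nat.totient_pos.mpr (Nat.pos_of_ne_zero hg0)
  have e1 : n.totient = p ^ (a - 1) * (p - 1) * g'.totient := by
    rw [hn, Nat.totient_mul (Nat.Coprime.pow_left a hcop),
      Nat.totient_prime_pow hp (by omega)]
  have e2 : (p ^ j * g').totient = p ^ (j - 1) * (p - 1) * g'.totient := by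
    rw [Nat.totient_mul (Nat.Coprime.pow_left j hcop), Nat.totient_prime_pow hp (by omega)]
  have e3 : p ^ (a - 1) = p ^ (a - j) * p ^ (j - 1) := by
    rw [← pow_add]
    congr 1
    omega
  rw [e2, e1, e3] at h1
  have hX : 0 < p ^ (j - 1) * (p - 1) * g'.totient :=
    Nat.mul_pos (Nat.mul_pos (pow_pos hp.pos _) (Nat.sub_pos_of_lt hp.one_lt)) hgt
  apply Nat.eq_of_mul_eq_mul_right hX
  rw [h1]
  ring

theorem card_ker_g {n p a g' : ℕ} [NeZero n] (hp : p.Prime) (hn : n = p ^ a * g')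
    (hcop : Nat.Coprime p g') (ha : 1 ≤ a) (hd : g' ∣ n) :
    Nat.card (ZMod.unitsMap hd).ker = (p - 1) * p ^ (a - 1) := by
  have h1 := card_ker_unitsMap hd
  have hg0 : g' ≠ 0 := by
    rintro rfl
    rw [mul_zero] at hn
    exact NeZero.ne n hn
  have hgt : 0 < g'.totient := Nat.totient_pos.mpr (Nat.pos_of_ne_zero hg0)
  have e1 : n.totient = p ^ (a - 1) * (p - 1) * g'.totient := by
    rw [hn, Nat.totient_mul (Nat.Coprime.pow_left a hcop),
      Nat.totient_prime_pow hp (by omega)]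
  rw [e1] at h1
  apply Nat.eq_of_mul_eq_mul_right hgt
  rw [h1]
  ring

end Cfsg.Agent.Lib.Helper24.PC
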