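import Mathlib
import Cfsg.Agent.Lib.Helper24.PC4

set_option autoImplicit false

namespace Cfsg.Agent.Lib.Helper24.PC

open Cfsg Cfsg.Agent.Lib.Helper1 Cfsg.Agent.Lib.Helper6 Cfsg.Agent.Lib.Helper24
open scoped ComplexConjugate

universe u

attribute [local instance] galAct

variable {G : Type u} [Group G] [Fintype G]

theorem main_aux [NeZero (Nat.card G)] (p : ℕ) [Fact p.Prime] {M : Ideal AlgInt}
    (hM : IsPModular p M) (a g' : ℕ) (ha : 1 ≤ a) (hng : Nat.card G = p ^ a * g')
    (hcop : Nat.Coprime p g') (hfa : (Nat.card G).factorization p = a)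
    (hg : g' ∣ Nat.card G) (χ : IrrCharacter G) :
    ∃ rV : ℕ,
      Nat.card {ψ : IrrCharacter G | ∃ u ∈ (ZMod.unitsMap hg).ker, ψ = u • χ} ∣ (p - 1) * rV ∧
      rV * charDegree (χ : G → ℂ) ∣ Nat.card G ∧
      (p ^ a ∣ rV * charDegree (χ : G → ℂ) → rV = 1) := by
  classical
  have hp : p.Prime := Fact.out
  have hn0 : Nat.card G ≠ 0 := NeZero.ne _
  have hg0 : g' ≠ 0 := by
    rintro rfl
    rw [mul_zero] at hng
    exact hn0 hng
  have hq : p ^ 1 * g' ∣ Nat.card G := by
    rw [hng]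
    exact Nat.mul_dvd_mul (pow_dvd_pow p ha) dvd_rfl
  haveI : Fintype ↥(ZMod.unitsMap hq).ker := Fintype.ofFinite _
  have hcardV : Nat.card (ZMod.unitsMap hq).ker = p ^ (a - 1) :=
    card_ker_pj hp hng hcop le_rfl ha hq
  have hcardU : Nat.card (ZMod.unitsMap hg).ker = (p - 1) * p ^ (a - 1) :=
    card_ker_g hp hng hcop ha hg
  have hpa : p ^ a = p * p ^ (a - 1) := by
    rw [← pow_succ']
    congr 1
    omega
  have hnq : Nat.card G = p ^ 1 * g' * p ^ (a - 1) := by
    rw [hng, pow_one, hpa]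
    ring
  have hcopq : ∀ t : ℕ, (1 + p ^ 1 * g' * t).Coprime (Nat.card G) := by
    intro t
    have h1 : (1 + p ^ 1 * g' * t).Coprime (p ^ 1 * g') := coprime_one_add_mul _ t
    have h2 : Nat.card G ∣ (p ^ 1 * g') ^ a := by
      rw [hng, mul_pow, pow_one]
      exact Nat.mul_dvd_mul dvd_rfl (dvd_pow_self g' (by omega))
    exact Nat.Coprime.coprime_dvd_right h2 (Nat.Coprime.pow_right a h1)
  have hN : 0 < p ^ (a - 1) := pow_pos hp.pos _
  have hle : (ZMod.unitsMap hq).ker ≤ (ZMod.unitsMap hg).ker := by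
    intro u hu
    rw [mem_ker_unitsMap] at hu ⊢
    exact hu.of_dvd (dvd_mul_left g' (p ^ 1))
  obtain ⟨rV, hrV⟩ : ∃ rV : ℕ,
      rV = Nat.card {ψ : IrrCharacter G | ∃ u ∈ (ZMod.unitsMap hq).ker, ψ = u • χ} := ⟨_, rfl⟩
  obtain ⟨hos1, hos2⟩ := card_orbit_sub (ZMod.unitsMap hq).ker χ
  rw [← hrV, hcardV] at hos1
  have hbe := bnum_eq (ZMod.unitsMap hq).ker χ
  have hint := bnum_integral hnq hq hcopq hcardV hN χ
  have hdeg1 : (χ : G → ℂ) 1 = (charDegree (χ : G → ℂ) : ℂ) :=
    CharBasic.char_one_nat (CharBasic.isCharacter_of_irr χ.2)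
  have hdegpos := (Defect.charDegree_dvd_card χ).2
  have hhV : 0 < Nat.card (MulAction.stabilizer (ZMod.unitsMap hq).ker χ) := Nat.card_pos
  have hrVpos : 0 < rV := by
    rcases Nat.eq_zero_or_pos rV with h | h
    · rw [h, zero_mul] at hos1
      exact absurd hos1.symm hN.ne'
    · exact h
  have hne : ((charDegree (χ : G → ℂ) * rV : ℕ) : ℂ) ≠ 0 := by
    exact_mod_cast (Nat.mul_pos hdegpos hrVpos).ne'
  have hb1 : bnum (ZMod.unitsMap hq).ker χ
      = (Nat.card G : ℂ) / ((charDegree (χ : G → ℂ) * rV : ℕ) : ℂ) := by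
    rw [hdeg1, hcardV] at hbe
    have hos1' : (rV : ℂ) * (Nat.card (MulAction.stabilizer (ZMod.unitsMap hq).ker χ) : ℂ)
        = ((p ^ (a - 1) : ℕ) : ℂ) := by exact_mod_cast hos1
    rw [← hos1'] at hbe
    have hV0 : (Nat.card (MulAction.stabilizer (ZMod.unitsMap hq).ker χ) : ℂ) ≠ 0 := by
      exact_mod_cast hhV.ne'
    have h2 : (Nat.card G : ℂ) * (Nat.card (MulAction.stabilizer (ZMod.unitsMap hq).ker χ) : ℂ)
        = (bnum (ZMod.unitsMap hq).ker χ * ((charDegree (χ : G → ℂ) * rV : ℕ) : ℂ))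
          * (Nat.card (MulAction.stabilizer (ZMod.unitsMap hq).ker χ) : ℂ) := by
      rw [hbe]
      push_cast
      ring
    have h3 := mul_right_cancel₀ hV0 h2
    rw [eq_div_iff hne]
    exact h3.symm
  have hdvd : charDegree (χ : G → ℂ) * rV ∣ Nat.card G :=
    nat_dvd_of_isIntegral_div (Nat.mul_pos hdegpos hrVpos).ne' (by rw [← hb1]; exact hint)
  refine ⟨rV, ?_, ?_, ?_⟩
  · rw [hrV]
    exact orbit_dvd _ _ hle χ (p - 1) (by rw [hcardU, hcardV])
  · rw [mul_comm]
    exact hdvd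
  · intro hpadvd
    obtain ⟨b, hb⟩ := hdvd
    have hb0 : b ≠ 0 := by
      rintro rfl
      rw [mul_zero] at hb
      exact hn0 hb
    have hpb : ¬ p ∣ b := by
      obtain ⟨c, hc⟩ := hpadvd
      have h1 : p ^ a * g' = p ^ a * (c * b) := by
        rw [← hng, hb, mul_comm (charDegree (χ : G → ℂ)) rV, hc]
        ring
      have hgcb : g' = c * b := Nat.eq_of_mul_eq_mul_left (pow_pos hp.pos a) h1
      intro hpb
      apply (Nat.Prime.coprime_iff_not_dvd hp).mp hcop
      rw [hgcb]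
      exact hpb.mul_left c
    have hbn : bnum (ZMod.unitsMap hq).ker χ = (b : ℂ) := by
      rw [hb1, hb]
      push_cast
      have hd0 : (charDegree (χ : G → ℂ) : ℂ) ≠ 0 := by exact_mod_cast hdegpos.ne'
      have hr0 : (rV : ℂ) ≠ 0 := by exact_mod_cast hrVpos.ne'
      field_simp
    have hB : ¬ MemLocalIdeal M (bnum (ZMod.unitsMap hq).ker χ) := by
      rw [hbn, memLocalIdeal_natCast_iff hM]
      exact hpb
    have hsub := block_sub hM hnq hq hcopq hcardV hN χ hB
    have hdeg : ∀ ψ ∈ blockOf M (χ : G → ℂ),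
        charDegree (ψ : G → ℂ) = charDegree (χ : G → ℂ) := by
      intro ψ hψ
      obtain ⟨u, -, hu⟩ := hsub ψ hψ
      have h1 : (ψ : G → ℂ) 1 = (χ : G → ℂ) 1 := by
        rw [← hu, smul_apply, one_pow]
      show ⌊((ψ : G → ℂ) 1).re⌋₊ = ⌊((χ : G → ℂ) 1).re⌋₊
      rw [h1]
    have hd : blockDefect p (blockOf M (χ : G → ℂ))
        = a - (charDegree (χ : G → ℂ)).factorization p := by
      have himg : (fun ξ : IrrCharacter G => (charDegree (ξ : G → ℂ)).factorization p) ''
          blockOf M (χ : G → ℂ) = {(charDegree (χ : G → ℂ)).factorization p} := by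
        ext k
        constructor
        · rintro ⟨ξ, hξ, rfl⟩
          rw [Set.mem_singleton_iff]
          show (charDegree (ξ : G → ℂ)).factorization p = _
          rw [hdeg ξ hξ]
        · intro hk
          rw [Set.mem_singleton_iff] at hk
          exact ⟨χ, mem_blockOf_self hM.2.1 χ, hk.symm⟩
      show (Nat.card G).factorization p - sInf ((fun ξ : IrrCharacter G =>
        (charDegree (ξ : G → ℂ)).factorization p) '' blockOf M (χ : G → ℂ)) = _
      rw [himg, csInf_singleton, hfa]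
    obtain ⟨j, hj, hrj⟩ := (Nat.dvd_prime_pow hp).mp ⟨_, hos1.symm⟩
    have hf : (Nat.card G).factorization p = (charDegree (χ : G → ℂ)).factorization p + j := by
      rw [hb, Nat.factorization_mul (Nat.mul_pos hdegpos hrVpos).ne' hb0,
        Nat.factorization_mul hdegpos.ne' hrVpos.ne', hrj, Nat.Prime.factorization_pow hp]
      simp [Nat.factorization_eq_zero_of_not_dvd hpb]
    have hjd : j = blockDefect p (blockOf M (χ : G → ℂ)) := by
      rw [hd]
      omega
    by_cases hj0 : j = 0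
    · rw [hrj, hj0, pow_zero]
    · exfalso
      have hd1 : 1 ≤ j := by omega
      have he : p ^ j * g' ∣ Nat.card G := by
        rw [hng]
        exact Nat.mul_dvd_mul (pow_dvd_pow p (by omega)) dvd_rfl
      have hcardW := card_ker_pj hp hng hcop hd1 (by omega : j ≤ a) he
      have hWH : (ZMod.unitsMap he).ker ≤ MulAction.stabilizer (ZMod (Nat.card G))ˣ χ :=
        ker_le_stab hM hng χ he (by rw [← hjd])
      have hWV : (ZMod.unitsMap he).ker ≤ (ZMod.unitsMap hq).ker := by
        intro u hu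
        rw [mem_ker_unitsMap] at hu ⊢
        exact hu.of_dvd (Nat.mul_dvd_mul (pow_dvd_pow p hd1) dvd_rfl)
      have h3 : Nat.card (ZMod.unitsMap he).ker
          ∣ Nat.card (MulAction.stabilizer (ZMod.unitsMap hq).ker χ) := by
        rw [hos2]
        exact Subgroup.card_dvd_of_le (le_inf hWV hWH)
      rw [hcardW] at h3
      have h4 : Nat.card (MulAction.stabilizer (ZMod.unitsMap hq).ker χ) = p ^ (a - 1 - j) := by
        have h5 : p ^ j * Nat.card (MulAction.stabilizer (ZMod.unitsMap hq).ker χ)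
            = p ^ j * p ^ (a - 1 - j) := by
          rw [← hrj, hos1, hrj, ← pow_add]
          congr 1
          omega
        exact Nat.eq_of_mul_eq_mul_left (pow_pos hp.pos j) h5
      rw [h4] at h3
      have h5 := (Nat.pow_dvd_pow_iff_le_right hp.one_lt).mp h3
      omega

end Cfsg.Agent.Lib.Helper24.PC
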