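import Mathlib
import Cfsg.Agent.Lib.Helper24.KF6
import Cfsg.Agent.Lib.Helper24.Defect
import Cfsg.Agent.Lib.Helper24.PSection
import Cfsg.Agent.Lib.Helper24.Osima

set_option autoImplicit false

namespace Cfsg.Agent.Lib.Helper24.PI

open Cfsg Cfsg.Agent.Lib.Helper1 Cfsg.Agent.Lib.Helper6 Cfsg.Agent.Lib.Helper24

universe u v

variable {M : Ideal AlgInt}

theorem sing_mul {G : Type u} [Group G] [Finite G] {p : ℕ} (hp : p.Prime) (x u : G)
    (hx : ¬ p ∣ orderOf x) (hc : Commute x u) (k : ℕ) (hu : orderOf u = p ^ k) (hu1 : u ≠ 1) :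
    p ∣ orderOf (x * u) := by
  have hk0 : k ≠ 0 := by
    rintro rfl
    rw [pow_zero, orderOf_eq_one_iff] at hu
    exact hu1 hu
  have hcop : Nat.Coprime (orderOf x) (orderOf u) := by
    rw [hu]
    exact Nat.Coprime.pow_right k ((Nat.Prime.coprime_iff_not_dvd hp).mpr hx).symm
  rw [hc.orderOf_mul_eq_mul_orderOf_of_coprime hcop, hu]
  exact Dvd.dvd.mul_left (dvd_pow_self p hk0) _

theorem irr_integral {K : Type u} [Group K] [Finite K] (θ : IrrCharacter K) (g : K) :
    IsIntegral ℤ ((θ : K → ℂ) g) := by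
  obtain ⟨n, ρ, -, hρ⟩ := θ.2
  rw [← hρ]
  exact Cfsg.Agent.Lib.Helper1.isIntegral_char ρ g

theorem vanish_div {G : Type u} [Group G] [Finite G] {p : ℕ} [hp : Fact p.Prime]
    (hM : IsPModular p M) {ι : Type*} (S : Finset ι) (a : ι → ℂ) (ch : ι → IrrCharacter G)
    (ha : ∀ i ∈ S, IsIntegral ℤ (a i))
    (hvan : ∀ g : G, p ∣ orderOf g → ∑ i ∈ S, a i * (ch i : G → ℂ) g = 0) (x : G) :
    MemLocalRing M ((∑ i ∈ S, a i * (ch i : G → ℂ) x) /
      (Nat.card (Subgroup.centralizer ({x} : Set G)) : ℂ)) := by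
  classical
  have hmax := hM.2.1
  by_cases hx : p ∣ orderOf x
  · rw [hvan x hx, zero_div]
    exact memLocalRing_zero hmax
  · obtain ⟨C, hC⟩ : ∃ C : Subgroup G, C = Subgroup.centralizer ({x} : Set G) := ⟨_, rfl⟩
    obtain ⟨Q'⟩ : Nonempty (Sylow p C) := inferInstance
    obtain ⟨Q, hQ⟩ : ∃ Q : Subgroup G, Q = (Q' : Subgroup C).map C.subtype := ⟨_, rfl⟩
    have hfQ : Fintype Q := Fintype.ofFinite _
    have hQC : Q ≤ C := by
      rw [hQ]
      exact Subgroup.map_subtype_le _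
    have hQcard : Nat.card Q = p ^ (Nat.card C).factorization p := by
      rw [hQ, Subgroup.card_map_of_injective (Subgroup.subtype_injective C)]
      exact Sylow.card_eq_multiplicity Q'
    have hQp : IsPGroup p Q := IsPGroup.of_card hQcard
    have hcomm : ∀ u ∈ Q, Commute x u := by
      intro u hu
      have h1 := hQC hu
      rw [hC] at h1
      exact Subgroup.mem_centralizer_iff.mp h1 x rfl
    have hK : ∀ i, ∃ β : ℂ, IsIntegral ℤ β ∧
        ∑ u : Q, (ch i : G → ℂ) (x * (u : G)) = (Nat.card Q : ℂ) * β := by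
      intro i
      obtain ⟨n, ρ, -, hρ⟩ := (ch i).2
      rw [← hρ]
      exact Defect.sum_char_mul_subgroup ρ Q x hcomm
    choose β hβ1 hβ2 using hK
    have h1 : ∑ u : Q, ∑ i ∈ S, a i * (ch i : G → ℂ) (x * (u : G))
        = ∑ i ∈ S, a i * (ch i : G → ℂ) x := by
      rw [Finset.sum_eq_single (1 : Q)]
      · rw [Subgroup.coe_one, mul_one]
      · intro u _ hu
        apply hvan
        obtain ⟨k, hk⟩ := (IsPGroup.iff_orderOf.mp hQp) u
        have hk' : orderOf (u : G) = p ^ k := by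
          rw [← hk]
          exact Subgroup.orderOf_coe u
        exact sing_mul hp.out x u hx (hcomm u u.2) k hk'
          (fun h => hu (Subtype.ext h))
      · intro h
        exact absurd (Finset.mem_univ _) h
    have h2 : ∑ u : Q, ∑ i ∈ S, a i * (ch i : G → ℂ) (x * (u : G))
        = (Nat.card Q : ℂ) * ∑ i ∈ S, a i * β i := by
      rw [Finset.sum_comm, Finset.mul_sum]
      apply Finset.sum_congr rfl
      intro i _
      rw [← Finset.mul_sum, hβ2 i]
      ring
    rw [← h1, h2, ← hC]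
    have hw : IsIntegral ℤ (∑ i ∈ S, a i * β i) :=
      IsIntegral.sum _ (fun i hi => (ha i hi).mul (hβ1 i))
    have e : ((Nat.card Q : ℂ) * ∑ i ∈ S, a i * β i) / (Nat.card C : ℂ)
        = ((Nat.card Q : ℂ) / (Nat.card C : ℂ)) * ∑ i ∈ S, a i * β i := by ring
    rw [e]
    refine MemLocalRing.mul hmax ?_ (memLocalRing_of_isIntegral hmax hw)
    apply Defect.ratio_memLocalRing hM (Nat.card_pos).ne'
    rw [hQcard, Nat.Prime.factorization_pow hp.out, Finsupp.single_eq_same]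

theorem defect_div {G : Type u} [Group G] [Finite G] {p : ℕ} [hp : Fact p.Prime]
    (hM : IsPModular p M) (B : Set (IrrCharacter G)) (χ : IrrCharacter G) (hχ : χ ∈ B) (x : G) :
    MemLocalRing M (((p ^ blockDefect p B : ℕ) : ℂ) * (χ : G → ℂ) x /
      (Nat.card (Subgroup.centralizer ({x} : Set G)) : ℂ)) := by
  classical
  have hfinG : Fintype G := Fintype.ofFinite G
  have hmax := hM.2.1
  have hratio := PSection.centralChar_eq_ratio χ x
  have hdeg := (Defect.charDegree_dvd_card χ).2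
  have hidx := PSection.index_ne_zero x
  have hidxc : (((Subgroup.centralizer ({x} : Set G)).index : ℕ) : ℂ) ≠ 0 :=
    Nat.cast_ne_zero.mpr hidx
  have hdegc : ((charDegree (χ : G → ℂ) : ℕ) : ℂ) ≠ 0 := Nat.cast_ne_zero.mpr hdeg.ne'
  have hcardC : (Nat.card (Subgroup.centralizer ({x} : Set G)) : ℂ) ≠ 0 :=
    Nat.cast_ne_zero.mpr (Nat.card_pos).ne'
  have hmul : (((Subgroup.centralizer ({x} : Set G)).index : ℕ) : ℂ)
      * (Nat.card (Subgroup.centralizer ({x} : Set G)) : ℂ) = (Nat.card G : ℂ) := by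
    rw [← Nat.cast_mul, Subgroup.index_mul_card]
  have hG : (Nat.card G : ℂ) ≠ 0 := Nat.cast_ne_zero.mpr (Nat.card_pos).ne'
  have e : ((p ^ blockDefect p B : ℕ) : ℂ) * (χ : G → ℂ) x /
      (Nat.card (Subgroup.centralizer ({x} : Set G)) : ℂ)
      = centralChar (χ : G → ℂ) x *
        (((p ^ blockDefect p B * charDegree (χ : G → ℂ) : ℕ) : ℂ) / (Nat.card G : ℂ)) := by
    rw [hratio, ← hmul]
    push_cast
    field_simp
  rw [e]
  refine MemLocalRing.mul hmax
    (memLocalRing_of_isIntegral hmax (Osima.centralChar_isIntegral χ.2 x)) ?_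
  apply Defect.ratio_memLocalRing hM (Nat.card_pos).ne'
  obtain ⟨χ₀, hχ₀, h1, h2⟩ := Defect.exists_height_zero p B ⟨χ, hχ⟩
  rw [Nat.factorization_mul (pow_pos hp.out.pos _).ne' hdeg.ne',
    Nat.Prime.factorization_pow hp.out, Finsupp.add_apply, Finsupp.single_eq_same]
  have h3 := h2 χ hχ
  omega

def Sing {G : Type u} [Group G] (M : Ideal AlgInt) (B : Set (IrrCharacter G))
    (W : (IrrCharacter G → ℤ) → Prop) : Prop :=
  ∀ x : G, 2 ∣ orderOf x → ∃ (n : ℕ) (d : Fin n → IrrCharacter G → ℤ) (a : Fin n → ℂ),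
    (∀ k, W (d k)) ∧ (∀ k, IsIntegral ℤ (a k)) ∧
    (∀ k, MemLocalRing M (4 * a k / (Nat.card (Subgroup.centralizer ({x} : Set G)) : ℂ))) ∧
    ∀ χ ∈ B, (χ : G → ℂ) x = ∑ k, ((d k χ : ℤ) : ℂ) * a k

theorem perfect_of_compat {G : Type u} [Group G] [Finite G] {H : Type v} [Group H] [Finite H]
    (hM : IsPModular 2 M) (B : Set (IrrCharacter G)) (c : Set (IrrCharacter H))
    (I : IrrCharacter H → IrrCharacter G) (ε : IrrCharacter H → ℤ)
    (hbij : Set.BijOn I c B) (hε : ∀ η ∈ c, ε η = 1 ∨ ε η = -1)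
    (S : Finset (IrrCharacter H)) (hS : ∀ η, η ∈ S ↔ η ∈ c)
    (WG : (IrrCharacter G → ℤ) → Prop) (WH : (IrrCharacter H → ℤ) → Prop)
    (hSG : Sing M B WG) (hSH : Sing M c WH)
    (hC1 : ∀ d', WH d' → ∀ x : G, ¬ 2 ∣ orderOf x →
      ∑ η ∈ S, ((ε η : ℤ) : ℂ) * ((d' η : ℤ) : ℂ) * (I η : G → ℂ) x = 0)
    (hC2 : ∀ d, WG d → ∀ y : H, ¬ 2 ∣ orderOf y →
      ∑ η ∈ S, ((ε η : ℤ) : ℂ) * ((d (I η) : ℤ) : ℂ) * (η : H → ℂ) y = 0)
    (hC3 : ∀ d, WG d → ∀ d', WH d' → ∃ N : ℤ, ∑ η ∈ S, ε η * d (I η) * d' η = 4 * N) :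
    IsPerfectIsometry 2 M c B I ε := by
  classical
  have hmax := hM.2.1
  have hfinG : Fintype G := Fintype.ofFinite G
  have hfinH : Fintype H := Fintype.ofFinite H
  have hfinIrrH : Fintype (IrrCharacter H) := irrFintype
  refine ⟨hbij, hε, ?_⟩
  have hker : ∀ x y, signedBijectionKernel c I ε x y
      = ∑ η ∈ S, ((ε η : ℤ) : ℂ) * (I η : G → ℂ) x * (η : H → ℂ) y := by
    intro x y
    show ∑ᶠ η ∈ c, ((ε η : ℤ) : ℂ) * (I η : G → ℂ) x * (η : H → ℂ) y = _
    rw [Defect.finsum_block_eq_sum]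
    apply Finset.sum_congr _ (fun _ _ => rfl)
    ext η
    rw [Finset.mem_filter, hS]
    simp
  have hZ1 : ∀ x y, ¬ 2 ∣ orderOf x → 2 ∣ orderOf y →
      ∑ η ∈ S, ((ε η : ℤ) : ℂ) * (I η : G → ℂ) x * (η : H → ℂ) y = 0 := by
    intro x y hx hy
    obtain ⟨n, d', a', hW, -, -, hval⟩ := hSH y hy
    have e1 : ∑ η ∈ S, ((ε η : ℤ) : ℂ) * (I η : G → ℂ) x * (η : H → ℂ) y
        = ∑ k, a' k * ∑ η ∈ S, ((ε η : ℤ) : ℂ) * ((d' k η : ℤ) : ℂ) * (I η : G → ℂ) x := by
      have e2 : ∀ η ∈ S, ((ε η : ℤ) : ℂ) * (I η : G → ℂ) x * (η : H → ℂ) y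
          = ∑ k, a' k * (((ε η : ℤ) : ℂ) * ((d' k η : ℤ) : ℂ) * (I η : G → ℂ) x) := by
        intro η hη
        rw [hval η ((hS η).mp hη), Finset.mul_sum]
        apply Finset.sum_congr rfl
        intro k _
        ring
      rw [Finset.sum_congr rfl e2, Finset.sum_comm]
      apply Finset.sum_congr rfl
      intro k _
      rw [Finset.mul_sum]
    rw [e1]
    apply Finset.sum_eq_zero
    intro k _
    rw [hC1 (d' k) (hW k) x hx, mul_zero]
  have hZ2 : ∀ x y, 2 ∣ orderOf x → ¬ 2 ∣ orderOf y →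
      ∑ η ∈ S, ((ε η : ℤ) : ℂ) * (I η : G → ℂ) x * (η : H → ℂ) y = 0 := by
    intro x y hx hy
    obtain ⟨n, d, a, hW, -, -, hval⟩ := hSG x hx
    have e1 : ∑ η ∈ S, ((ε η : ℤ) : ℂ) * (I η : G → ℂ) x * (η : H → ℂ) y
        = ∑ k, a k * ∑ η ∈ S, ((ε η : ℤ) : ℂ) * ((d k (I η) : ℤ) : ℂ) * (η : H → ℂ) y := by
      have e2 : ∀ η ∈ S, ((ε η : ℤ) : ℂ) * (I η : G → ℂ) x * (η : H → ℂ) y
          = ∑ k, a k * (((ε η : ℤ) : ℂ) * ((d k (I η) : ℤ) : ℂ) * (η : H → ℂ) y) := by
        intro η hη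
        rw [hval (I η) (hbij.mapsTo ((hS η).mp hη)), Finset.mul_sum, Finset.sum_mul]
        apply Finset.sum_congr rfl
        intro k _
        ring
      rw [Finset.sum_congr rfl e2, Finset.sum_comm]
      apply Finset.sum_congr rfl
      intro k _
      rw [Finset.mul_sum]
    rw [e1]
    apply Finset.sum_eq_zero
    intro k _
    rw [hC2 (d k) (hW k) y hy, mul_zero]
  intro x y
  rw [hker]
  by_cases hx : 2 ∣ orderOf x
  · by_cases hy : 2 ∣ orderOf y
    · obtain ⟨n, d, a, hW, hai, hal, hval⟩ := hSG x hx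
      obtain ⟨n', d', a', hW', hai', hal', hval'⟩ := hSH y hy
      have hN : ∀ k k', ∃ N : ℤ, ∑ η ∈ S, ε η * d k (I η) * d' k' η = 4 * N :=
        fun k k' => hC3 (d k) (hW k) (d' k') (hW' k')
      choose N hN using hN
      have e1 : ∑ η ∈ S, ((ε η : ℤ) : ℂ) * (I η : G → ℂ) x * (η : H → ℂ) y
          = ∑ k, ∑ k', ((N k k' : ℤ) : ℂ) * (4 * a k) * a' k' := by
        have e2 : ∀ η ∈ S, ((ε η : ℤ) : ℂ) * (I η : G → ℂ) x * (η : H → ℂ) y
            = ∑ k, ∑ k', (((ε η * d k (I η) * d' k' η : ℤ)) : ℂ) * (a k * a' k') := by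
          intro η hη
          rw [hval (I η) (hbij.mapsTo ((hS η).mp hη)), hval' η ((hS η).mp hη),
            mul_assoc, Finset.sum_mul_sum, Finset.mul_sum]
          apply Finset.sum_congr rfl
          intro k _
          rw [Finset.mul_sum]
          apply Finset.sum_congr rfl
          intro k' _
          push_cast
          ring
        rw [Finset.sum_congr rfl e2, Finset.sum_comm]
        apply Finset.sum_congr rfl
        intro k _
        rw [Finset.sum_comm]
        apply Finset.sum_congr rfl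
        intro k' _
        rw [← Finset.sum_mul, ← Int.cast_sum, hN k k']
        push_cast
        ring
      rw [e1]
      refine ⟨?_, ?_, Or.inl ?_⟩
      · rw [Finset.sum_div]
        apply memLocalRing_sum hmax
        intro k _
        rw [Finset.sum_div]
        apply memLocalRing_sum hmax
        intro k' _
        have e3 : ((N k k' : ℤ) : ℂ) * (4 * a k) * a' k' /
            (Nat.card (Subgroup.centralizer ({x} : Set G)) : ℂ)
            = ((N k k' : ℤ) : ℂ) *
              (4 * a k / (Nat.card (Subgroup.centralizer ({x} : Set G)) : ℂ)) * a' k' := by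
          ring
        rw [e3]
        exact MemLocalRing.mul hmax (MemLocalRing.mul hmax (memLocalRing_intCast hmax _) (hal k))
          (memLocalRing_of_isIntegral hmax (hai' k'))
      · rw [Finset.sum_div]
        apply memLocalRing_sum hmax
        intro k _
        rw [Finset.sum_div]
        apply memLocalRing_sum hmax
        intro k' _
        have e3 : ((N k k' : ℤ) : ℂ) * (4 * a k) * a' k' /
            (Nat.card (Subgroup.centralizer ({y} : Set H)) : ℂ)
            = ((N k k' : ℤ) : ℂ) * a k *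
              (4 * a' k' / (Nat.card (Subgroup.centralizer ({y} : Set H)) : ℂ)) := by
          ring
        rw [e3]
        exact MemLocalRing.mul hmax (MemLocalRing.mul hmax (memLocalRing_intCast hmax _)
          (memLocalRing_of_isIntegral hmax (hai k))) (hal' k')
      · show (¬ 2 ∣ orderOf x) ↔ (¬ 2 ∣ orderOf y)
        exact ⟨fun h => absurd hx h, fun h => absurd hy h⟩
    · rw [hZ2 x y hx hy, zero_div, zero_div]
      exact ⟨memLocalRing_zero hmax, memLocalRing_zero hmax, Or.inr rfl⟩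
  · by_cases hy : 2 ∣ orderOf y
    · rw [hZ1 x y hx hy, zero_div, zero_div]
      exact ⟨memLocalRing_zero hmax, memLocalRing_zero hmax, Or.inr rfl⟩
    · refine ⟨?_, ?_, Or.inl ?_⟩
      · have h := vanish_div hM S (fun η => ((ε η : ℤ) : ℂ) * (η : H → ℂ) y) I
          (fun η _ => (isIntegral_algebraMap (R := ℤ) (A := ℂ) (x := ε η)).mul (irr_integral η y))
          (fun g hg => by
            have h0 := hZ2 g y hg hy
            rw [← h0]
            apply Finset.sum_congr rfl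
            intro η _
            ring) x
        have e : ∑ η ∈ S, ((ε η : ℤ) : ℂ) * (I η : G → ℂ) x * (η : H → ℂ) y
            = ∑ η ∈ S, ((ε η : ℤ) : ℂ) * (η : H → ℂ) y * (I η : G → ℂ) x :=
          Finset.sum_congr rfl (fun η _ => by ring)
        rw [e]
        exact h
      · have h := vanish_div hM S (fun η => ((ε η : ℤ) : ℂ) * (I η : G → ℂ) x) (fun η => η)
          (fun η _ => (isIntegral_algebraMap (R := ℤ) (A := ℂ) (x := ε η)).mul (irr_integral (I η) x))
          (fun g hg => hZ1 x g hx hg) y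
        exact h
      · show (¬ 2 ∣ orderOf x) ↔ (¬ 2 ∣ orderOf y)
        exact ⟨fun _ => hy, fun _ => hx⟩

end Cfsg.Agent.Lib.Helper24.PI
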