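import Mathlib
import Cfsg.Agent.Lib.Helper24.PI1
import Cfsg.Agent.Lib.Helper24.KF1
import Cfsg.Agent.Lib.Helper24.Brauer22
import Cfsg.Agent.Lib.Helper24.Trunc

set_option autoImplicit false

namespace Cfsg.Agent.Lib.Helper24.PI

open Cfsg Cfsg.Agent.Lib.Helper1 Cfsg.Agent.Lib.Helper6 Cfsg.Agent.Lib.Helper24
open scoped ComplexConjugate

universe u

variable {G : Type u} [Group G] [Fintype G] {M : Ideal AlgInt}

theorem sub_integral (hM : IsPModular 2 M) (x : G) (hxx : x * x = 1)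
    (C : Subgroup G) (hC : C = Subgroup.centralizer ({x} : Set G)) [Fintype C]
    (b : Set (IrrCharacter C)) (hdef : blockDefect 2 b = 2)
    (χ : IrrCharacter G) (s : C) (hs : ¬ 2 ∣ orderOf s) :
    IsIntegral ℤ (blockPart b (fun c : C => (χ : G → ℂ) (x * (c : G))) s) ∧
    MemLocalRing M (4 * blockPart b (fun c : C => (χ : G → ℂ) (x * (c : G))) s /
      (Nat.card (Subgroup.centralizer ({x * (s : G)} : Set G)) : ℂ)) := by
  classical
  have hmax := hM.2.1
  have hfinIrrC : Fintype (IrrCharacter C) := irrFintype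
  have hxC : x ∈ C := by
    rw [hC]
    exact Subgroup.mem_centralizer_iff.mpr (fun h hh => by rw [Set.mem_singleton_iff.mp hh])
  have hcent : ∀ c ∈ C, c * x = x * c := by
    intro c hc
    rw [hC] at hc
    exact (Subgroup.mem_centralizer_iff.mp hc x rfl).symm
  have hcen : (⟨x, hxC⟩ : C) ∈ Subgroup.center C := by
    apply Subgroup.mem_center_iff.mpr
    intro c
    exact Subtype.ext (hcent c c.2)
  have hzz : (⟨x, hxC⟩ : C) * ⟨x, hxC⟩ = 1 := Subtype.ext hxx
  have hxpow : ∃ k : ℕ, orderOf x = 2 ^ k := by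
    have h2 : orderOf x ∣ 2 := orderOf_dvd_of_pow_eq_one (by rw [pow_two]; exact hxx)
    rcases (Nat.dvd_prime Nat.prime_two).mp h2 with h | h
    · exact ⟨0, by rw [h, pow_zero]⟩
    · exact ⟨1, by rw [h, pow_one]⟩
  have hlam : ∀ ξ : IrrCharacter C, ∃ ε : ℤ,
      CentralDef.lam (ξ : C → ℂ) ⟨x, hxC⟩ = (ε : ℂ) := by
    intro ξ
    have h1 := CentralDef.lam_mul ξ hcen ⟨x, hxC⟩
    rw [hzz, CentralDef.lam_one] at h1
    rcases mul_self_eq_one_iff.mp h1.symm with h | h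
    · exact ⟨1, by rw [h]; norm_num⟩
    · exact ⟨-1, by rw [h]; norm_num⟩
  choose ε hε using hlam
  have hmult : ∀ ξ : IrrCharacter C, ∃ m : ℕ,
      classInner (fun c : C => (χ : G → ℂ) c) (ξ : C → ℂ) = (m : ℂ) := fun ξ =>
    Cfsg.Agent.Lib.Helper1.IsCharacter.classInner_irr_nat
      (Cfsg.Agent.Lib.Helper1.IsCharacter.restrict (CharBasic.isCharacter_of_irr χ.2) C) ξ.2
  choose m hm using hmult
  have hinner : ∀ ξ : IrrCharacter C,
      classInner (fun c : C => (χ : G → ℂ) (x * (c : G))) (ξ : C → ℂ)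
        = (ε ξ : ℂ) * (m ξ : ℂ) := by
    intro ξ
    rw [TwoDef.shift_inner C x hxC hxx hcen (χ : G → ℂ) ξ
      (by rw [hε ξ]; exact map_intCast _ _), hε ξ, hm ξ]
  have hcard : Nat.card (Subgroup.centralizer ({x * (s : G)} : Set G))
      = Nat.card (Subgroup.centralizer ({s} : Set C)) := by
    subst hC
    exact Subsec.card_centralizer_section Nat.prime_two hxpow s hs
  rw [blockPart_apply, PrinQuot.fsum_filter]
  constructor
  · apply IsIntegral.sum
    intro ξ _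
    rw [hinner ξ]
    exact ((isIntegral_algebraMap (R := ℤ) (A := ℂ) (x := ε ξ)).mul
      (isIntegral_algebraMap (R := ℤ) (A := ℂ) (x := (m ξ : ℤ)))).mul (irr_integral ξ s)
  · rw [Finset.mul_sum, Finset.sum_div]
    apply memLocalRing_sum hmax
    intro ξ hξ
    have hξb := (Finset.mem_filter.mp hξ).2
    have h := defect_div hM b ξ hξb s
    rw [hdef] at h
    rw [hinner ξ, hcard]
    have e : 4 * ((ε ξ : ℂ) * (m ξ : ℂ) * (ξ : C → ℂ) s) /
        (Nat.card (Subgroup.centralizer ({s} : Set C)) : ℂ)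
        = (ε ξ : ℂ) * (m ξ : ℂ) * (((2 ^ 2 : ℕ) : ℂ) * (ξ : C → ℂ) s /
          (Nat.card (Subgroup.centralizer ({s} : Set C)) : ℂ)) := by
      push_cast
      ring
    rw [e]
    exact MemLocalRing.mul hmax (MemLocalRing.mul hmax (memLocalRing_intCast hmax _)
      (memLocalRing_natCast hmax _)) h

theorem second_main_sum (hM : IsPModular 2 M) (B : Set (IrrCharacter G)) (hB : IsPBlock M B)
    (x : G) (hx : ∃ k : ℕ, orderOf x = 2 ^ k) (C : Subgroup G)
    (hC : C = Subgroup.centralizer ({x} : Set G)) [Fintype C]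
    (Ind : Finset (Set (IrrCharacter C))) (hInd : ∀ b, b ∈ Ind ↔ IsInducedBlock M C b B)
    (θ : IrrCharacter G) (hθ : θ ∈ B) (s : C) (hs : ¬ 2 ∣ orderOf s) :
    (θ : G → ℂ) (x * (s : G))
      = ∑ b ∈ Ind, blockPart b (fun c : C => (θ : G → ℂ) (x * (c : G))) s := by
  classical
  have hmax := hM.2.1
  have hfinIrrC : Fintype (IrrCharacter C) := irrFintype
  have hcent : ∀ c ∈ C, c * x = x * c := by
    intro c hc
    rw [hC] at hc
    exact (Subgroup.mem_centralizer_iff.mp hc x rfl).symm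
  obtain ⟨Bl, hBl⟩ := Subsec.exists_blocks M C
  have hsub : Ind ⊆ Bl := fun b hb => (hBl b).mpr ((hInd b).mp hb).1
  have h1 := Subsec.sum_blockPart hmax Bl hBl
    (Subsec.shift_cf_gen θ C x (fun c => hcent c c.2)) s
  rw [← Finset.sum_subset hsub] at h1
  · exact h1.symm
  · intro b hbBl hbInd
    exact TwoDef.second_main_gen hM x hx B hB θ hθ C hC b ((hBl b).mp hbBl)
      (fun hind => hbInd ((hInd b).mpr hind)) s hs

open Classical in
theorem ks1 (hM : IsPModular 2 M) (B : Set (IrrCharacter G))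
    (hB : IsPBlock M B) (P : Subgroup G) (hPD : IsDefectGroup 2 M B P) (hV : IsKleinFour P) :
    ∃ (κ : Type u) (J : Finset κ) (V : κ → IrrCharacter G → ℤ),
      Nat.card B = 4 ∧
      ((J.card = 3 ∧ blockRank 2 B = 1) ∨ (J.card = 1 ∧ blockRank 2 B = 3)) ∧
      (∀ χ ∈ B, ∀ ψ ∈ B,
        (2 : ℤ) ^ (Nat.card G).factorization 2 * ∑ j ∈ J, V j χ * V j ψ
          = 4 * ((if χ = ψ then (2 : ℤ) ^ (Nat.card G).factorization 2 else 0)
            - regCoef 2 χ ψ)) ∧
      (∀ j ∈ J, ∀ χ ∈ B, V j χ = 1 ∨ V j χ = -1) ∧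
      Sing M B (fun d => ∃ j ∈ J, d = V j) := by
  classical
  have hmaxM := hM.2.1
  have hfinIrr : Fintype (IrrCharacter G) := irrFintype
  have hP4 : Nat.card P = 4 := hV.card_four
  have hPsq : ∀ y ∈ P, y * y = 1 := by
    intro y hy
    have h := @IsKleinFour.mul_self P _ hV ⟨y, hy⟩
    exact congrArg Subtype.val h
  have hPab : ∀ x ∈ P, ∀ y ∈ P, x * y = y * x := by
    intro y hy z hz
    have h1 := hPsq y hy
    have h2 := hPsq z hz
    have h3 := hPsq (y * z) (P.mul_mem hy hz)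
    calc y * z = y * (y * z * (y * z)) * z := by rw [h3, mul_one]
      _ = (y * y) * z * y * (z * z) := by group
      _ = z * y := by rw [h1, h2, one_mul, mul_one]
  have hPp : IsPGroup 2 P := IsPGroup.of_card (n := 2) (by rw [hP4]; norm_num)
  obtain ⟨c, hmax⟩ := Brauer.exists_maximal_of_defect hM B hB P hPD
  have hpair : IsBrauerPairOf 2 M B P c := hmax.1
  have hc : IsInducedBlock M (Subgroup.centralizer (P : Set G)) c B :=
    (Brauer.induced_centralizer_iff hM P hPp c B).mpr hpair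
  obtain ⟨T, hTdef⟩ : ∃ T : Subgroup G,
      T = (MulAction.stabilizer (Subgroup.normalizer (P : Set G)) c).map
        (Subgroup.normalizer (P : Set G)).subtype := ⟨_, rfl⟩
  have hT : ∀ g : G, g ∈ T ↔ (g ∈ Subgroup.normalizer (P : Set G) ∧
      StabilizesBlock (Subgroup.centralizer (P : Set G)) c g) := by
    intro g
    rw [hTdef]
    constructor
    · rintro ⟨n, hn, rfl⟩
      exact ⟨n.2, Brauer.stabilizes_of_smul_eq P n c (MulAction.mem_stabilizer_iff.mp hn)⟩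
    · rintro ⟨hgN, hst⟩
      exact ⟨⟨g, hgN⟩, MulAction.mem_stabilizer_iff.mpr
        (Brauer.smul_eq_of_stabilizes P ⟨g, hgN⟩ c hst), rfl⟩
  have hodd := KF.index_odd hM B hB P hPD hPab c hc T hT
  have hTN : T ≤ Subgroup.normalizer (P : Set G) := fun t ht => ((hT t).mp ht).1
  obtain ⟨X, hX, hXrep⟩ := KF.exists_reps (G := G) 2
  have hCx : ∀ x : G, Subgroup.centralizer ((Subgroup.zpowers x : Subgroup G) : Set G)
      = Subgroup.centralizer ({x} : Set G) :=
    fun x => (Brauer.centralizer_singleton_eq x).symm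
  have hfinset : ∀ x : G, ∃ I : Finset (Set (IrrCharacter
      (Subgroup.centralizer ((Subgroup.zpowers x : Subgroup G) : Set G)))),
      ∀ b, b ∈ I ↔ IsInducedBlock M
        (Subgroup.centralizer ((Subgroup.zpowers x : Subgroup G) : Set G)) b B := by
    intro x
    have hfinIrr : Fintype (IrrCharacter
        (Subgroup.centralizer ((Subgroup.zpowers x : Subgroup G) : Set G))) :=
      irrFintype
    exact ⟨(Set.toFinite {b : Set (IrrCharacter
      (Subgroup.centralizer ((Subgroup.zpowers x : Subgroup G) : Set G))) |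
        IsInducedBlock M (Subgroup.centralizer ((Subgroup.zpowers x : Subgroup G) : Set G))
          b B}).toFinset, fun b => by rw [Set.Finite.mem_toFinset]; rfl⟩
  choose Ind hInd using hfinset
  obtain ⟨J, hJdef⟩ : ∃ J : Finset (Σ x : G, Set (IrrCharacter
      (Subgroup.centralizer ((Subgroup.zpowers x : Subgroup G) : Set G)))),
      J = (X.erase 1).sigma Ind := ⟨_, rfl⟩
  have hJ : ∀ j, j ∈ J ↔ (j.1 ∈ X ∧ j.1 ≠ 1 ∧ IsInducedBlock M
      (Subgroup.centralizer ((Subgroup.zpowers j.1 : Subgroup G) : Set G)) j.2 B) := by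
    intro j
    rw [hJdef, Finset.mem_sigma, Finset.mem_erase, hInd]
    tauto
  have hgoodall : ∀ x ∈ X, x ≠ 1 → ∀ b ∈ Ind x, x * x = 1 ∧ blockRank 2 b = 1 ∧
      ∃ D : Subgroup (Subgroup.centralizer ((Subgroup.zpowers x : Subgroup G) : Set G)),
        IsDefectGroup 2 M b D ∧ Nat.card D = 4 := by
    intro x hxX hx1 b hb
    exact KF.good hM B P c hmax hP4 hPsq x hx1 (hX x hxX) b ((hInd x b).mp hb)
  have hex : ∀ j : (Σ x : G, Set (IrrCharacter
      (Subgroup.centralizer ((Subgroup.zpowers x : Subgroup G) : Set G)))),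
      ∃ d : IrrCharacter G → ℤ, j ∈ J →
        ∃ φ : Subgroup.centralizer ((Subgroup.zpowers j.1 : Subgroup G) : Set G) → ℂ,
          KF.SubData B j.1
            (Subgroup.centralizer ((Subgroup.zpowers j.1 : Subgroup G) : Set G)) j.2 d φ := by
    intro j
    by_cases hj : j ∈ J
    · obtain ⟨hjX, hj1, hjb⟩ := (hJ j).mp hj
      obtain ⟨hxx, hrk, D, hD, hD4⟩ := hgoodall j.1 hjX hj1 j.2 ((hInd j.1 j.2).mpr hjb)
      have hfinC : Fintype (Subgroup.centralizer
          ((Subgroup.zpowers j.1 : Subgroup G) : Set G)) := Fintype.ofFinite _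
      obtain ⟨d, φ, hdφ⟩ := KF.sub_num hM B j.1 hxx _ (hCx j.1) j.2 hjb hrk D hD hD4
      exact ⟨d, fun _ => ⟨φ, hdφ⟩⟩
    · exact ⟨fun _ => 0, fun h => absurd h hj⟩
  choose V hV' using hex
  have hgood : ∀ x ∈ X, x ≠ 1 → ∀ b ∈ Ind x, x * x = 1 ∧
      ∃ φ : Subgroup.centralizer ((Subgroup.zpowers x : Subgroup G) : Set G) → ℂ,
        KF.SubData B x
          (Subgroup.centralizer ((Subgroup.zpowers x : Subgroup G) : Set G)) b
          (V ⟨x, b⟩) φ := by
    intro x hxX hx1 b hb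
    exact ⟨(hgoodall x hxX hx1 b hb).1,
      hV' ⟨x, b⟩ ((hJ _).mpr ⟨hxX, hx1, (hInd x b).mp hb⟩)⟩
  have hdef : blockDefect 2 B = 2 := by
    have h1 := DefectGroup.card_defectGroup hM B hB P hPD
    rw [hP4] at h1
    exact Nat.pow_right_injective (le_refl 2)
      (h1.symm.trans (by norm_num) : 2 ^ blockDefect 2 B = 2 ^ 2)
  have hrel : ∀ χ ∈ B, ∀ ψ ∈ B,
      (2 : ℤ) ^ (Nat.card G).factorization 2 * ∑ j ∈ J, V j χ * V j ψ
        = 4 * ((if χ = ψ then (2 : ℤ) ^ (Nat.card G).factorization 2 else 0)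
          - regCoef 2 χ ψ) := by
    intro χ hχ ψ hψ
    rw [hJdef]
    exact KF.total_id hM B hB X hX hXrep
      (fun x => Subgroup.centralizer ((Subgroup.zpowers x : Subgroup G) : Set G)) hCx Ind hInd
      V hgood χ ψ hχ hψ
  have hcol : ∀ j ∈ J, ∑ᶠ χ ∈ B, ((V j χ : ℤ) : ℂ) ^ 2 = 4 := by
    intro j hj
    obtain ⟨φ, hφ⟩ := hV' j hj
    exact hφ.2.1
  have hrank : Nat.card B = blockRank 2 B + J.card := by
    rw [hJdef]
    exact KF.card_eq_rank_add hM B hB X hX hXrep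
      (fun x => Subgroup.centralizer ((Subgroup.zpowers x : Subgroup G) : Set G)) hCx Ind hInd
      (fun x hxX hx1 b hb => (hgoodall x hxX hx1 b hb).2.1)
  have hcase : Nat.card B = 4 ∧
      ((J.card = 3 ∧ blockRank 2 B = 1) ∨ (J.card = 1 ∧ blockRank 2 B = 3)) := by
    rcases KF.inertial P T hP4 hTN hodd with ⟨h1, hTC⟩ | ⟨h3, htr⟩
    · have hJ3 : J.card = 3 := KF.count_one hM B P c hmax hP4 hPab X hX
        hXrep J hJ (fun t htN htst => hTC ((hT t).mpr ⟨htN, htst⟩))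
      have hB4 : Nat.card B = 4 := KF.core hM B hB hdef J
        (Finset.card_pos.mp (by rw [hJ3]; norm_num)) (by rw [hJ3]) V hcol hrel
        (fun χ _ => KF.regCoef_pos χ)
      refine ⟨hB4, Or.inl ⟨hJ3, ?_⟩⟩
      rw [hB4, hJ3] at hrank
      omega
    · have hJ1 : J.card = 1 := KF.count_three hM B P c hmax hP4 X hX
        hXrep J hJ (fun u hu hu1 u' hu' hu1' => by
          obtain ⟨t, htT, htu⟩ := htr u hu hu1 u' hu' hu1'
          exact ⟨t, ((hT t).mp htT).1, ((hT t).mp htT).2, htu⟩)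
      have hB4 : Nat.card B = 4 := KF.core hM B hB hdef J
        (Finset.card_pos.mp (by rw [hJ1]; norm_num)) (by rw [hJ1]; norm_num) V hcol hrel
        (fun χ _ => KF.regCoef_pos χ)
      refine ⟨hB4, Or.inr ⟨hJ1, ?_⟩⟩
      rw [hB4, hJ1] at hrank
      omega
  obtain ⟨SB, hSB⟩ : ∃ SB : Finset (IrrCharacter G), ∀ χ, χ ∈ SB ↔ χ ∈ B :=
    ⟨Finset.univ.filter (fun χ => χ ∈ B), fun χ => by simp⟩
  have hSBcard : SB.card = 4 := by
    rw [← hcase.1, ← Fintype.card_coe SB, ← Nat.card_eq_fintype_card]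
    exact Nat.card_congr (Equiv.subtypeEquivRight (fun χ => hSB χ))
  have hrow : ∀ χ ∈ B, ∑ j ∈ J, V j χ * V j χ < 4 := by
    intro χ hχ
    have h := hrel χ hχ χ hχ
    rw [if_pos rfl] at h
    have hpos := KF.regCoef_pos χ
    have h2a : (0 : ℤ) < 2 ^ (Nat.card G).factorization 2 := by positivity
    nlinarith
  have hle1 : ∀ j ∈ J, ∀ χ ∈ B, V j χ * V j χ ≤ 1 := by
    intro j hj χ hχ
    have hsingle : V j χ * V j χ ≤ ∑ j' ∈ J, V j' χ * V j' χ :=
      Finset.single_le_sum (f := fun j' => V j' χ * V j' χ)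
        (fun i _ => mul_self_nonneg _) hj
    have hlt : V j χ * V j χ < 4 := lt_of_le_of_lt hsingle (hrow χ hχ)
    obtain ⟨v, hv⟩ : ∃ v : ℤ, v = V j χ := ⟨_, rfl⟩
    rw [← hv] at hlt ⊢
    have h1 : -2 < v := by nlinarith
    have h2 : v < 2 := by nlinarith
    interval_cases v <;> norm_num
  have hV1 : ∀ j ∈ J, ∀ χ ∈ B, V j χ = 1 ∨ V j χ = -1 := by
    intro j hj χ hχ
    have hcolZ : ∑ χ' ∈ SB, V j χ' * V j χ' = 4 := by
      have h := hcol j hj
      rw [PrinQuot.fsum_filter] at h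
      have e : Finset.univ.filter (fun χ : IrrCharacter G => χ ∈ B) = SB := by
        ext χ
        simp [hSB]
      rw [e] at h
      have h2 : ((∑ χ' ∈ SB, V j χ' * V j χ' : ℤ) : ℂ) = ((4 : ℤ) : ℂ) := by
        push_cast
        rw [← h]
        apply Finset.sum_congr rfl
        intro _ _
        ring
      exact_mod_cast h2
    have hsum0 : ∑ χ' ∈ SB, (1 - V j χ' * V j χ') = 0 := by
      rw [Finset.sum_sub_distrib, hcolZ, Finset.sum_const, hSBcard]
      norm_num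
    have hz := (Finset.sum_eq_zero_iff_of_nonneg
      (fun χ' hχ' => sub_nonneg.mpr (hle1 j hj χ' ((hSB χ').mp hχ')))).mp hsum0 χ
      ((hSB χ).mpr hχ)
    have hsq : V j χ * V j χ = 1 := by linarith
    exact mul_self_eq_one_iff.mp hsq
  refine ⟨_, J, V, hcase.1, hcase.2, hrel, hV1, ?_⟩
  obtain ⟨χ₁, hχ₁⟩ := Defect.block_nonempty hmaxM B hB
  intro x' hx'
  obtain ⟨u, s, hus, hcomm, ⟨k, hk⟩, hs⟩ := SecondMain.exists_isPPart Nat.prime_two x'
  have hu1 : u ≠ 1 := by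
    rintro rfl
    rw [one_mul] at hus
    rw [← hus] at hx'
    exact hs hx'
  obtain ⟨x₀, ⟨hx₀X, hconj⟩, -⟩ := hXrep u ⟨k, hk⟩
  obtain ⟨g, hg⟩ := isConj_iff.mp hconj
  have hx₀1 : x₀ ≠ 1 := by
    rintro rfl
    exact hu1 (conj_eq_one_iff.mp hg)
  obtain ⟨s₀, hs₀⟩ : ∃ s₀ : G, s₀ = g * s * g⁻¹ := ⟨_, rfl⟩
  have hxs : x₀ * s₀ = g * x' * g⁻¹ := by
    rw [hs₀, ← hg, ← hus]
    group
  have hs₀ord : ¬ 2 ∣ orderOf s₀ := by
    rw [hs₀, Subsec.orderOf_conj']
    exact hs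
  have hcomm₀ : x₀ * s₀ = s₀ * x₀ := by
    rw [hs₀, ← hg]
    have h1 := hcomm.eq
    calc g * u * g⁻¹ * (g * s * g⁻¹) = g * (u * s) * g⁻¹ := by group
      _ = g * (s * u) * g⁻¹ := by rw [h1]
      _ = g * s * g⁻¹ * (g * u * g⁻¹) := by group
  have hs₀C : s₀ ∈ Subgroup.centralizer ((Subgroup.zpowers x₀ : Subgroup G) : Set G) := by
    rw [hCx x₀]
    exact Subgroup.mem_centralizer_iff.mpr
      (fun h hh => by rw [Set.mem_singleton_iff.mp hh]; exact hcomm₀)
  have hfinC : Fintype (Subgroup.centralizer ((Subgroup.zpowers x₀ : Subgroup G) : Set G)) :=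
    Fintype.ofFinite _
  obtain ⟨sC, hsC⟩ : ∃ sC : Subgroup.centralizer ((Subgroup.zpowers x₀ : Subgroup G) : Set G),
      (sC : G) = s₀ := ⟨⟨s₀, hs₀C⟩, rfl⟩
  have hsCord : ¬ 2 ∣ orderOf sC := by
    rw [← Subgroup.orderOf_coe, hsC]
    exact hs₀ord
  have hcardx : Nat.card (Subgroup.centralizer ({x'} : Set G))
      = Nat.card (Subgroup.centralizer ({x₀ * (sC : G)} : Set G)) := by
    rw [hsC, hxs]
    exact card_centralizer_conj (isConj_iff.mpr ⟨g, rfl⟩)
  have hval : ∀ χ ∈ B, (χ : G → ℂ) x' = ∑ b ∈ Ind x₀,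
      blockPart b (fun c : Subgroup.centralizer ((Subgroup.zpowers x₀ : Subgroup G) : Set G) =>
        (χ : G → ℂ) (x₀ * (c : G))) sC := by
    intro χ hχ
    rw [← second_main_sum hM B hB x₀ (hX x₀ hx₀X) _ (hCx x₀) (Ind x₀) (hInd x₀) χ hχ sC hsCord,
      hsC, hxs]
    exact ((irr_isClassFunction χ) x' g).symm
  obtain ⟨e⟩ : Nonempty ((Ind x₀) ≃ Fin (Ind x₀).card) := ⟨(Ind x₀).equivFin⟩
  have hmemJ : ∀ k : Fin (Ind x₀).card,
      (⟨x₀, ((e.symm k : Ind x₀) : Set (IrrCharacter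
        (Subgroup.centralizer ((Subgroup.zpowers x₀ : Subgroup G) : Set G))))⟩ :
        (Σ x : G, Set (IrrCharacter
          (Subgroup.centralizer ((Subgroup.zpowers x : Subgroup G) : Set G))))) ∈ J :=
    fun k => (hJ _).mpr ⟨hx₀X, hx₀1, (hInd x₀ _).mp (e.symm k).2⟩
  refine ⟨(Ind x₀).card, fun k => V ⟨x₀, (e.symm k : Ind x₀)⟩,
    fun k => ((V ⟨x₀, (e.symm k : Ind x₀)⟩ χ₁ : ℤ) : ℂ) *
      blockPart ((e.symm k : Ind x₀) : Set (IrrCharacter
        (Subgroup.centralizer ((Subgroup.zpowers x₀ : Subgroup G) : Set G))))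
        (fun c => (χ₁ : G → ℂ) (x₀ * (c : G))) sC, ?_, ?_, ?_, ?_⟩
  · intro k
    exact ⟨_, hmemJ k, rfl⟩
  · intro k
    obtain ⟨hxx, -, D, hD, hD4⟩ := hgoodall x₀ hx₀X hx₀1 _ (e.symm k).2
    have hdefb : blockDefect 2 ((e.symm k : Ind x₀) : Set (IrrCharacter
        (Subgroup.centralizer ((Subgroup.zpowers x₀ : Subgroup G) : Set G)))) = 2 := by
      have h1 := DefectGroup.card_defectGroup hM _ ((hInd x₀ _).mp (e.symm k).2).1 D hD
      rw [hD4] at h1
      exact Nat.pow_right_injective (le_refl 2) (h1.symm.trans (by norm_num))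
    exact (isIntegral_algebraMap (R := ℤ) (A := ℂ)).mul
      (sub_integral (M := M) hM x₀ hxx _ (hCx x₀) _ hdefb χ₁ sC hsCord).1
  · intro k
    obtain ⟨hxx, -, D, hD, hD4⟩ := hgoodall x₀ hx₀X hx₀1 _ (e.symm k).2
    have hdefb : blockDefect 2 ((e.symm k : Ind x₀) : Set (IrrCharacter
        (Subgroup.centralizer ((Subgroup.zpowers x₀ : Subgroup G) : Set G)))) = 2 := by
      have h1 := DefectGroup.card_defectGroup hM _ ((hInd x₀ _).mp (e.symm k).2).1 D hD
      rw [hD4] at h1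
      exact Nat.pow_right_injective (le_refl 2) (h1.symm.trans (by norm_num))
    have h2 := (sub_integral (M := M) hM x₀ hxx _ (hCx x₀) _ hdefb χ₁ sC hsCord).2
    rw [hcardx]
    have e3 : ∀ (v b N : ℂ), 4 * (v * b) / N = v * (4 * b / N) := by
      intro v b N
      ring
    rw [e3]
    exact MemLocalRing.mul hmaxM (memLocalRing_intCast hmaxM _) h2
  · intro χ hχ
    rw [hval χ hχ, ← Finset.sum_coe_sort (Ind x₀), ← Equiv.sum_comp e.symm]
    apply Finset.sum_congr rfl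
    intro k _
    obtain ⟨φ, hφ⟩ := hV' _ (hmemJ k)
    have h1 := hφ.1 χ sC hsCord
    have h2 := hφ.1 χ₁ sC hsCord
    beta_reduce
    rw [h1, h2]
    rcases hV1 _ (hmemJ k) χ₁ hχ₁ with h | h
    · rw [h]
      push_cast
      ring
    · rw [h]
      push_cast
      ring

end Cfsg.Agent.Lib.Helper24.PI
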