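import Mathlib
import Cfsg.Agent.Lib.Helper24.PI2

set_option autoImplicit false

namespace Cfsg.Agent.Lib.Helper24.PI

open Cfsg Cfsg.Agent.Lib.Helper1 Cfsg.Agent.Lib.Helper6 Cfsg.Agent.Lib.Helper24
open scoped ComplexConjugate

universe u

variable {M : Ideal AlgInt}

open Classical in
theorem klein_struct {G : Type u} [Group G] [Finite G] (hM : IsPModular 2 M)
    (B : Set (IrrCharacter G)) (hB : IsPBlock M B) (P : Subgroup G)
    (hPD : IsDefectGroup 2 M B P) (hV : IsKleinFour P) :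
    ∃ SB : Finset (IrrCharacter G), (∀ χ, χ ∈ SB ↔ χ ∈ B) ∧ SB.card = 4 ∧
    ((blockRank 2 B = 1 ∧
        (∀ χ ∈ B, ∀ ψ ∈ B, ∀ x : G, ¬ 2 ∣ orderOf x → (χ : G → ℂ) x = (ψ : G → ℂ) x) ∧
        Sing M B (fun d => (∀ χ ∈ B, d χ = 1 ∨ d χ = -1) ∧ ∑ χ ∈ SB, d χ = 0)) ∨
     (blockRank 2 B = 3 ∧ ∃ δ : IrrCharacter G → ℤ, (∀ χ ∈ B, δ χ = 1 ∨ δ χ = -1) ∧
        (∀ x : G, ¬ 2 ∣ orderOf x → ∑ χ ∈ SB, ((δ χ : ℤ) : ℂ) * (χ : G → ℂ) x = 0) ∧
        Sing M B (fun d => ∀ χ ∈ B, d χ = δ χ))) := by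
  classical
  have hfinG : Fintype G := Fintype.ofFinite G
  have hmaxM := hM.2.1
  have hfinIrr : Fintype (IrrCharacter G) := irrFintype
  have hP4 : Nat.card P = 4 := hV.card_four
  obtain ⟨κ, J, V, hB4, hcase, hrel, hV1, hsing⟩ := ks1 hM B hB P hPD hV
  obtain ⟨SB, hSB⟩ : ∃ SB : Finset (IrrCharacter G), ∀ χ, χ ∈ SB ↔ χ ∈ B :=
    ⟨Finset.univ.filter (fun χ => χ ∈ B), fun χ => by simp⟩
  have hSBcard : SB.card = 4 := by
    rw [← hB4, ← Fintype.card_coe SB, ← Nat.card_eq_fintype_card]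
    exact Nat.card_congr (Equiv.subtypeEquivRight (fun χ => hSB χ))
  have hfilt : Finset.univ.filter (fun χ : IrrCharacter G => χ ∈ B) = SB := by
    ext χ
    simp [hSB]
  obtain ⟨χ₁, hχ₁⟩ := Defect.block_nonempty hmaxM B hB
  have hdef : blockDefect 2 B = 2 := by
    have h1 := DefectGroup.card_defectGroup hM B hB P hPD
    rw [hP4] at h1
    exact Nat.pow_right_injective (le_refl 2)
      (h1.symm.trans (by norm_num) : 2 ^ blockDefect 2 B = 2 ^ 2)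
  refine ⟨SB, hSB, hSBcard, ?_⟩
  rcases hcase with ⟨hJ3, hrk⟩ | ⟨hJ1, hrk⟩
  · left
    obtain ⟨φ, dB, -, hχφ, hdsum⟩ := RankOne.rank_one_cartan hM B hB P hPD hrk
    rw [PrinQuot.fsum_filter, hfilt, hP4] at hdsum
    have hd1 : ∀ χ ∈ SB, 1 ≤ dB χ ^ 2 := by
      intro χ hχ
      have h1 := hχφ χ ((hSB χ).mp hχ) 1 (by show ¬ 2 ∣ orderOf (1 : G); rw [orderOf_one]; norm_num)
      have h0 : dB χ ≠ 0 := by
        intro h0
        rw [h0, Nat.cast_zero, zero_mul] at h1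
        exact CharBasic.irr_one_ne_zero χ.2 h1
      exact Nat.one_le_pow _ _ (Nat.pos_of_ne_zero h0)
    have hsum1 : ∑ χ ∈ SB, 1 = ∑ χ ∈ SB, dB χ ^ 2 := by
      rw [hdsum, Finset.sum_const, hSBcard]
      rfl
    have hall := (Finset.sum_eq_sum_iff_of_le hd1).mp hsum1
    have hdB : ∀ χ ∈ B, dB χ = 1 := by
      intro χ hχ
      have h := hall χ ((hSB χ).mpr hχ)
      exact (Nat.pow_eq_one.mp h.symm).resolve_right (by norm_num)
    have heq : ∀ χ ∈ B, ∀ ψ ∈ B, ∀ x : G, ¬ 2 ∣ orderOf x →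
        (χ : G → ℂ) x = (ψ : G → ℂ) x := by
      intro χ hχ ψ hψ x hx
      rw [hχφ χ hχ x hx, hχφ ψ hψ x hx, hdB χ hχ, hdB ψ hψ]
    refine ⟨hrk, heq, ?_⟩
    obtain ⟨r, hr⟩ : ∃ r : ℤ, r = regCoef 2 χ₁ χ₁ := ⟨_, rfl⟩
    have hreg : ∀ χ ∈ B, ∀ ψ ∈ B, regCoef 2 χ ψ = r := by
      intro χ hχ ψ hψ
      have h1 := regCoef_mul_ordCompl 2 χ ψ
      have h2 := regCoef_mul_ordCompl 2 χ₁ χ₁
      have h3 : ∑ g : G, regTrunc 2 (χ : G → ℂ) g * (ψ : G → ℂ) g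
          = ∑ g : G, regTrunc 2 (χ₁ : G → ℂ) g * (χ₁ : G → ℂ) g := by
        apply Finset.sum_congr rfl
        intro g _
        show (if 2 ∣ orderOf g then 0 else conj ((χ : G → ℂ) g)) * (ψ : G → ℂ) g
          = (if 2 ∣ orderOf g then 0 else conj ((χ₁ : G → ℂ) g)) * (χ₁ : G → ℂ) g
        by_cases hg : 2 ∣ orderOf g
        · rw [if_pos hg, if_pos hg, zero_mul, zero_mul]
        · rw [if_neg hg, if_neg hg, heq χ hχ χ₁ hχ₁ g hg, heq ψ hψ χ₁ hχ₁ g hg]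
      rw [h3, ← h2] at h1
      have hoc : (ordCompl G 2 : ℂ) ≠ 0 :=
        Nat.cast_ne_zero.mpr (ordCompl_pos (G := G) 2).ne'
      have h4 := mul_left_cancel₀ hoc h1
      rw [hr]
      exact_mod_cast h4
    obtain ⟨A, hA⟩ : ∃ A : ℤ, A = (2 : ℤ) ^ (Nat.card G).factorization 2 := ⟨_, rfl⟩
    rw [← hA] at hrel
    have hApos : 0 < A := by
      rw [hA]
      positivity
    have h4r : 4 * r = A := by
      have h := hrel χ₁ hχ₁ χ₁ hχ₁
      rw [if_pos rfl, hreg χ₁ hχ₁ χ₁ hχ₁] at h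
      have h3 : ∑ j ∈ J, V j χ₁ * V j χ₁ = 3 := by
        have e : ∀ j ∈ J, V j χ₁ * V j χ₁ = 1 := by
          intro j hj
          rcases hV1 j hj χ₁ hχ₁ with h | h <;> rw [h] <;> norm_num
        rw [Finset.sum_congr rfl e, Finset.sum_const, hJ3]
        norm_num
      rw [h3] at h
      linarith
    have hkey : ∑ j ∈ J, (∑ χ ∈ SB, V j χ) * (∑ χ ∈ SB, V j χ) = 0 := by
      have h1 : ∑ χ ∈ SB, ∑ ψ ∈ SB, A * ∑ j ∈ J, V j χ * V j ψ
          = ∑ χ ∈ SB, ∑ ψ ∈ SB, 4 * ((if χ = ψ then A else 0) - r) := by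
        apply Finset.sum_congr rfl
        intro χ hχ
        apply Finset.sum_congr rfl
        intro ψ hψ
        rw [hrel χ ((hSB χ).mp hχ) ψ ((hSB ψ).mp hψ),
          hreg χ ((hSB χ).mp hχ) ψ ((hSB ψ).mp hψ)]
      have h2 : ∑ χ ∈ SB, ∑ ψ ∈ SB, 4 * ((if χ = ψ then A else 0) - r) = 0 := by
        have e : ∀ χ ∈ SB, ∑ ψ ∈ SB, 4 * ((if χ = ψ then A else 0) - r) = 4 * A - 16 * r := by
          intro χ hχ
          rw [← Finset.mul_sum, Finset.sum_sub_distrib, Finset.sum_ite_eq, if_pos hχ,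
            Finset.sum_const, hSBcard]
          simp only [nsmul_eq_mul]
          push_cast
          ring
        rw [Finset.sum_congr rfl e, Finset.sum_const, hSBcard]
        simp only [nsmul_eq_mul]
        push_cast
        linarith
      have h3 : ∑ χ ∈ SB, ∑ ψ ∈ SB, A * ∑ j ∈ J, V j χ * V j ψ
          = A * ∑ j ∈ J, (∑ χ ∈ SB, V j χ) * (∑ χ ∈ SB, V j χ) := by
        have e1 : ∀ χ ∈ SB, ∑ ψ ∈ SB, A * ∑ j ∈ J, V j χ * V j ψ
            = ∑ j ∈ J, ∑ ψ ∈ SB, A * (V j χ * V j ψ) := by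
          intro χ _
          rw [Finset.sum_comm]
          apply Finset.sum_congr rfl
          intro ψ _
          rw [Finset.mul_sum]
        rw [Finset.sum_congr rfl e1, Finset.sum_comm, Finset.mul_sum]
        apply Finset.sum_congr rfl
        intro j _
        rw [Finset.sum_mul_sum, Finset.mul_sum]
        apply Finset.sum_congr rfl
        intro χ _
        rw [Finset.mul_sum]
      rw [h3, h2] at h1
      exact (mul_eq_zero.mp h1).resolve_left hApos.ne'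
    have hcolsum : ∀ j ∈ J, ∑ χ ∈ SB, V j χ = 0 := by
      intro j hj
      have hz := (Finset.sum_eq_zero_iff_of_nonneg
        (fun j' _ => mul_self_nonneg (∑ χ ∈ SB, V j' χ))).mp hkey j hj
      exact mul_self_eq_zero.mp hz
    intro x hx
    obtain ⟨n, d, a, h1, h2, h3, h4⟩ := hsing x hx
    refine ⟨n, d, a, fun k => ?_, h2, h3, h4⟩
    obtain ⟨j, hj, hd⟩ := h1 k
    rw [hd]
    exact ⟨hV1 j hj, hcolsum j hj⟩
  · right
    obtain ⟨j₀, hJeq⟩ := Finset.card_eq_one.mp hJ1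
    have hj₀ : j₀ ∈ J := by
      rw [hJeq]
      exact Finset.mem_singleton_self j₀
    have hsing' : Sing M B (fun d => ∀ χ ∈ B, d χ = V j₀ χ) := by
      intro x hx
      obtain ⟨n, d, a, h1, h2, h3, h4⟩ := hsing x hx
      refine ⟨n, d, a, fun k => ?_, h2, h3, h4⟩
      obtain ⟨j, hj, hd⟩ := h1 k
      rw [hJeq, Finset.mem_singleton] at hj
      rw [hd, hj]
      exact fun _ _ => rfl
    refine ⟨hrk, V j₀, hV1 j₀ hj₀, ?_, hsing'⟩
    obtain ⟨χ₀, hχ₀, hh, -⟩ := Defect.exists_height_zero 2 B ⟨χ₁, hχ₁⟩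
    have hnv : ∃ g : G, 2 ∣ orderOf g ∧ (χ₀ : G → ℂ) g ≠ 0 := by
      by_contra hcon
      push Not at hcon
      have h := Trunc.factorization_le_of_vanish (p := 2) χ₀ hcon
      omega
    obtain ⟨g₀, hg₀, hne⟩ := hnv
    obtain ⟨n, d, a, hW, -, -, hval⟩ := hsing' g₀ hg₀
    have hAv : ∀ χ ∈ B, (χ : G → ℂ) g₀ = ((V j₀ χ : ℤ) : ℂ) * ∑ k, a k := by
      intro χ hχ
      rw [hval χ hχ, Finset.mul_sum]
      apply Finset.sum_congr rfl
      intro k _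
      rw [hW k χ hχ]
    have hA0 : ∑ k, a k ≠ 0 := by
      intro h0
      apply hne
      rw [hAv χ₀ hχ₀, h0, mul_zero]
    intro x hx
    have horth := Osima.weak_block_orth hM B hB x g₀ hx hg₀
    rw [PrinQuot.fsum_filter, hfilt] at horth
    have e : ∑ χ ∈ SB, (χ : G → ℂ) x * conj ((χ : G → ℂ) g₀)
        = conj (∑ k, a k) * ∑ χ ∈ SB, ((V j₀ χ : ℤ) : ℂ) * (χ : G → ℂ) x := by
      rw [Finset.mul_sum]
      apply Finset.sum_congr rfl
      intro χ hχ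
      rw [hAv χ ((hSB χ).mp hχ), map_mul, map_intCast]
      ring
    rw [e] at horth
    exact (mul_eq_zero.mp horth).resolve_left ((map_ne_zero _).mpr hA0)

end Cfsg.Agent.Lib.Helper24.PI
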