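import Mathlib
import Cfsg.Agent.Lib.Helper24.PI3
import Cfsg.Agent.S4637

set_option autoImplicit false

namespace Cfsg.Agent.Lib.Helper24.PI

open Cfsg Cfsg.Agent.Lib.Helper1 Cfsg.Agent.Lib.Helper6 Cfsg.Agent.Lib.Helper24

universe u

variable {M : Ideal AlgInt}

theorem exists_stab {G : Type u} [Group G] [Fintype G] (P : Subgroup G)
    (c : Set (IrrCharacter (Subgroup.centralizer (P : Set G)))) :
    ∃ T : Subgroup G, ∀ g : G, g ∈ T ↔ (g ∈ Subgroup.normalizer (P : Set G) ∧
      StabilizesBlock (Subgroup.centralizer (P : Set G)) c g) := by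
  refine ⟨(MulAction.stabilizer (Subgroup.normalizer (P : Set G)) c).map
    (Subgroup.normalizer (P : Set G)).subtype, fun g => ?_⟩
  constructor
  · rintro ⟨n, hn, rfl⟩
    exact ⟨n.2, Brauer.stabilizes_of_smul_eq P n c (MulAction.mem_stabilizer_iff.mp hn)⟩
  · rintro ⟨hgN, hst⟩
    exact ⟨⟨g, hgN⟩, MulAction.mem_stabilizer_iff.mpr
      (Brauer.smul_eq_of_stabilizes P ⟨g, hgN⟩ c hst), rfl⟩

theorem kleinFour_of_equiv {A B : Type*} [Group A] [Group B] (e : A ≃* B) (h : IsKleinFour A) :
    IsKleinFour B :=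
  ⟨by rw [← Nat.card_congr e.toEquiv]; exact h.card_four,
    by rw [← Monoid.exponent_eq_of_mulEquiv e]; exact h.exponent_two⟩

theorem rank_transport {G : Type u} [Group G] [Fintype G] (hM : IsPModular 2 M)
    (B : Set (IrrCharacter G)) (hB : IsPBlock M B) (H : Subgroup G) (P' : Subgroup H)
    (hNH : Subgroup.normalizer ((P'.map H.subtype : Subgroup G) : Set G) ≤ H)
    (hHN : H ≤ Subgroup.normalizer ((P'.map H.subtype : Subgroup G) : Set G))
    (hPD : IsDefectGroup 2 M B (P'.map H.subtype)) (hV : IsKleinFour (P'.map H.subtype))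
    (c : Set (IrrCharacter H)) (hcD : IsDefectGroup 2 M c P') (hV' : IsKleinFour P')
    (hc : IsInducedBlock M H c B) :
    blockRank 2 B = blockRank 2 c := by
  classical
  have hfinH : Fintype H := Fintype.ofFinite H
  have hP'p : IsPGroup 2 P' :=
    IsPGroup.of_card (n := 2) (by rw [hV'.card_four]; norm_num)
  have hP₂p : IsPGroup 2 (P'.map H.subtype) :=
    IsPGroup.of_card (n := 2) (by rw [hV.card_four]; norm_num)
  have hCX : Subgroup.centralizer ((P'.map H.subtype : Subgroup G) : Set G) ≤ H :=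
    le_trans (Subgroup.centralizer_le_normalizer _) hNH
  obtain ⟨e', hmaxH⟩ := Brauer.exists_maximal_of_defect hM c hc.1 P' hcD
  have hindH : IsInducedBlock M (Subgroup.centralizer (P' : Set H)) e' c :=
    (Brauer.induced_centralizer_iff hM P' hP'p e' c).mpr hmaxH.1
  have hpairG := (Brauer.induced_iff_pair hM H P' hCX c e' hmaxH.1 B hB).mp hc
  have hindG := (Brauer.induced_centralizer_iff hM (P'.map H.subtype) hP₂p _ B).mpr hpairG
  obtain ⟨TG, hTG⟩ := exists_stab (P'.map H.subtype)
    (Brauer.upBlock (P'.map H.subtype) H hCX P' le_rfl e')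
  obtain ⟨TH, hTH⟩ := exists_stab P' e'
  have hG := Cfsg.Agent.S4637.result M hM B hB (P'.map H.subtype) hPD hV _ hindG TG hTG _ rfl
  have hH := Cfsg.Agent.S4637.result M hM c hc.1 P' hcD hV' e' hindH TH hTH _ rfl
  have hmem : ∀ k : H, (k : G) ∈ P'.map H.subtype ↔ k ∈ P' :=
    fun k => Subgroup.mem_map_iff_mem (Subgroup.subtype_injective H)
  have hiff : TG ≤ Subgroup.centralizer ((P'.map H.subtype : Subgroup G) : Set G) ↔
      TH ≤ Subgroup.centralizer (P' : Set H) := by
    constructor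
    · intro hle h hh
      obtain ⟨hhN, hst⟩ := (hTH h).mp hh
      have hst' : StabilizesBlock
          (Subgroup.centralizer ((P'.map H.subtype : Subgroup G) : Set G))
          (Brauer.upBlock (P'.map H.subtype) H hCX P' le_rfl e') (h : G) :=
        Brauer.tl_stab H P' (P'.map H.subtype)
          (Brauer.up_mem (P'.map H.subtype) H hCX P' le_rfl) e' h hst
      have hmemT : (h : G) ∈ TG := (hTG _).mpr ⟨hHN h.2, hst'⟩
      have hcen := hle hmemT
      rw [Subgroup.mem_centralizer_iff] at hcen ⊢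
      intro k hk
      apply Subtype.ext
      exact hcen (k : G) ((hmem k).mpr hk)
    · intro hle g hg
      obtain ⟨hgN, hst⟩ := (hTG g).mp hg
      have hgH : g ∈ H := hNH hgN
      have hst' : StabilizesBlock (Subgroup.centralizer (P' : Set H)) e' ⟨g, hgH⟩ :=
        Brauer.tl_stab_conv H P' (P'.map H.subtype)
          (Brauer.up_mem (P'.map H.subtype) H hCX P' le_rfl) e' ⟨g, hgH⟩ hst
      have hnorm : (⟨g, hgH⟩ : H) ∈ Subgroup.normalizer (P' : Set H) := by
        rw [Subgroup.mem_normalizer_iff]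
        intro k
        rw [← hmem k, ← hmem (⟨g, hgH⟩ * k * ⟨g, hgH⟩⁻¹)]
        exact Subgroup.mem_normalizer_iff.mp hgN (k : G)
      have hcen := hle ((hTH _).mpr ⟨hnorm, hst'⟩)
      rw [Subgroup.mem_centralizer_iff] at hcen ⊢
      rintro _ ⟨k, hk, rfl⟩
      exact congrArg Subtype.val (hcen k hk)
  obtain ⟨hG1, -, hG3⟩ := hG
  obtain ⟨hH1, -, hH3⟩ := hH
  rw [hG3, hH3]
  rw [Subgroup.relIndex_eq_one] at hG1 hH1
  rcases hG1 with h1 | h1
  · rcases hH1 with h2 | h2
    · exact (Subgroup.relIndex_eq_one.mpr h1).trans (Subgroup.relIndex_eq_one.mpr h2).symm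
    · have h3 := hiff.mp h1
      rw [Subgroup.relIndex_eq_one.mpr h3] at h2
      omega
  · rcases hH1 with h2 | h2
    · have h3 := hiff.mpr h2
      rw [Subgroup.relIndex_eq_one.mpr h3] at h1
      omega
    · rw [h1, h2]

end Cfsg.Agent.Lib.Helper24.PI
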