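import Mathlib
import Cfsg.Agent.Lib.Helper24.PI4

set_option autoImplicit false

namespace Cfsg.Agent.Lib.Helper24.PI

open Cfsg Cfsg.Agent.Lib.Helper1 Cfsg.Agent.Lib.Helper6 Cfsg.Agent.Lib.Helper24

universe u

variable {M : Ideal AlgInt}

theorem bal {ι : Type*} (S : Finset ι) (hS : S.card = 4) (u v : ι → ℤ)
    (hu : ∀ i ∈ S, u i = 1 ∨ u i = -1) (hv : ∀ i ∈ S, v i = 1 ∨ v i = -1)
    (hsu : ∑ i ∈ S, u i = 0) (hsv : ∑ i ∈ S, v i = 0) :
    ∃ N : ℤ, ∑ i ∈ S, u i * v i = 4 * N := by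
  have h : ∀ i ∈ S, ∃ t : ℤ, (u i + 1) * (v i + 1) = 4 * t := by
    intro i hi
    rcases hu i hi with h1 | h1 <;> rcases hv i hi with h2 | h2 <;> rw [h1, h2]
    · exact ⟨1, by norm_num⟩
    · exact ⟨0, by norm_num⟩
    · exact ⟨0, by norm_num⟩
    · exact ⟨0, by norm_num⟩
  choose! t ht using h
  have h1 : ∑ i ∈ S, (u i + 1) * (v i + 1) = 4 * ∑ i ∈ S, t i := by
    rw [Finset.mul_sum]
    exact Finset.sum_congr rfl ht
  have h2 : ∑ i ∈ S, (u i + 1) * (v i + 1) = ∑ i ∈ S, u i * v i + 4 := by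
    have e : ∀ i ∈ S, (u i + 1) * (v i + 1) = u i * v i + u i + v i + 1 := by
      intro i _
      ring
    rw [Finset.sum_congr rfl e, Finset.sum_add_distrib, Finset.sum_add_distrib,
      Finset.sum_add_distrib, hsu, hsv, Finset.sum_const, hS]
    norm_num
  refine ⟨∑ i ∈ S, t i - 1, ?_⟩
  linarith

open Classical in
theorem klein_perfect {G : Type u} [Group G] [Finite G] (hM : IsPModular 2 M)
    (B : Set (IrrCharacter G)) (hB : IsPBlock M B) (P : Subgroup G)
    (hPD : IsDefectGroup 2 M B P) (hV : IsKleinFour P)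
    (c : Set (IrrCharacter (Subgroup.normalizer (P : Set G))))
    (hcD : IsDefectGroup 2 M c (P.subgroupOf (Subgroup.normalizer (P : Set G))))
    (hc : IsInducedBlock M (Subgroup.normalizer (P : Set G)) c B) :
    ∃ (I : IrrCharacter (Subgroup.normalizer (P : Set G)) → IrrCharacter G)
      (ε : IrrCharacter (Subgroup.normalizer (P : Set G)) → ℤ),
      IsPerfectIsometry 2 M c B I ε := by
  classical
  have hfinG : Fintype G := Fintype.ofFinite G
  have hmaxM := hM.2.1
  have hmap : (P.subgroupOf (Subgroup.normalizer (P : Set G))).map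
      (Subgroup.normalizer (P : Set G)).subtype = P :=
    Subgroup.map_subgroupOf_eq_of_le Subgroup.le_normalizer
  have hV' : IsKleinFour (P.subgroupOf (Subgroup.normalizer (P : Set G))) :=
    kleinFour_of_equiv (Subgroup.subgroupOfEquivOfLe Subgroup.le_normalizer).symm hV
  have hrank : blockRank 2 B = blockRank 2 c := by
    refine rank_transport hM B hB (Subgroup.normalizer (P : Set G))
      (P.subgroupOf (Subgroup.normalizer (P : Set G))) ?_ ?_ ?_ ?_ c hcD hV' hc
    · rw [hmap]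
    · rw [hmap]
    · rw [hmap]
      exact hPD
    · rw [hmap]
      exact hV
  obtain ⟨SB, hSB, hSBcard, hstG⟩ := klein_struct hM B hB P hPD hV
  obtain ⟨Sc, hSc, hSccard, hstH⟩ := klein_struct hM c hc.1
    (P.subgroupOf (Subgroup.normalizer (P : Set G))) hcD hV'
  obtain ⟨χ₁, hχ₁⟩ := Defect.block_nonempty hmaxM B hB
  obtain ⟨η₁, hη₁⟩ := Defect.block_nonempty hmaxM c hc.1
  obtain ⟨e⟩ : Nonempty (Sc ≃ SB) := ⟨Finset.equivOfCardEq (hSccard.trans hSBcard.symm)⟩
  obtain ⟨I, hI⟩ : ∃ I : IrrCharacter (Subgroup.normalizer (P : Set G)) → IrrCharacter G,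
      ∀ η (h : η ∈ Sc), I η = (e ⟨η, h⟩ : IrrCharacter G) :=
    ⟨fun η => if h : η ∈ Sc then (e ⟨η, h⟩ : IrrCharacter G) else χ₁,
      fun η h => dif_pos h⟩
  have hbij : Set.BijOn I c B := by
    refine ⟨?_, ?_, ?_⟩
    · intro η hη
      rw [hI η ((hSc η).mpr hη)]
      exact (hSB _).mp (e ⟨η, (hSc η).mpr hη⟩).2
    · intro η hη η' hη' heq
      rw [hI η ((hSc η).mpr hη), hI η' ((hSc η').mpr hη')] at heq
      have h1 := e.injective (Subtype.ext heq)
      exact congrArg Subtype.val h1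
    · intro χ hχ
      refine ⟨(e.symm ⟨χ, (hSB χ).mpr hχ⟩ : IrrCharacter (Subgroup.normalizer (P : Set G))),
        (hSc _).mp (e.symm ⟨χ, (hSB χ).mpr hχ⟩).2, ?_⟩
      rw [hI _ (e.symm ⟨χ, (hSB χ).mpr hχ⟩).2]
      simp
  have himg : Sc.image I = SB := by
    ext χ
    rw [Finset.mem_image]
    constructor
    · rintro ⟨η, hη, rfl⟩
      exact (hSB _).mpr (hbij.mapsTo ((hSc η).mp hη))
    · intro hχ
      obtain ⟨η, hη, hηχ⟩ := hbij.surjOn ((hSB χ).mp hχ)
      exact ⟨η, (hSc η).mpr hη, hηχ⟩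
  have hinj : Set.InjOn I (Sc : Set (IrrCharacter (Subgroup.normalizer (P : Set G)))) := by
    intro η hη η' hη' heq
    exact hbij.injOn ((hSc η).mp hη) ((hSc η').mp hη') heq
  have hreZ : ∀ f : IrrCharacter G → ℤ, ∑ η ∈ Sc, f (I η) = ∑ χ ∈ SB, f χ := by
    intro f
    rw [← himg, Finset.sum_image hinj]
  have hreC : ∀ f : IrrCharacter G → ℂ, ∑ η ∈ Sc, f (I η) = ∑ χ ∈ SB, f χ := by
    intro f
    rw [← himg, Finset.sum_image hinj]
  rcases hstG with ⟨hrG, heqG, hsG⟩ | ⟨hrG, δG, hδG, horG, hsG⟩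
  · rcases hstH with ⟨hrH, heqH, hsH⟩ | ⟨hrH, δH, hδH, horH, hsH⟩
    · refine ⟨I, fun _ => 1, ?_⟩
      refine perfect_of_compat hM B c I (fun _ => 1) hbij (fun _ _ => Or.inl rfl) Sc hSc _ _
        hsG hsH ?_ ?_ ?_
      · intro d' hd' x hx
        have e1 : ∀ η ∈ Sc, (((1 : ℤ) : ℂ)) * ((d' η : ℤ) : ℂ) * (I η : G → ℂ) x
            = ((d' η : ℤ) : ℂ) * (χ₁ : G → ℂ) x := by
          intro η hη
          rw [heqG (I η) (hbij.mapsTo ((hSc η).mp hη)) χ₁ hχ₁ x hx]
          push_cast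
          ring
        rw [Finset.sum_congr rfl e1, ← Finset.sum_mul, ← Int.cast_sum, hd'.2, Int.cast_zero,
          zero_mul]
      · intro d hd y hy
        have e1 : ∀ η ∈ Sc, (((1 : ℤ) : ℂ)) * ((d (I η) : ℤ) : ℂ) *
            (η : Subgroup.normalizer (P : Set G) → ℂ) y
            = ((d (I η) : ℤ) : ℂ) * (η₁ : Subgroup.normalizer (P : Set G) → ℂ) y := by
          intro η hη
          rw [heqH η ((hSc η).mp hη) η₁ hη₁ y hy]
          push_cast
          ring
        rw [Finset.sum_congr rfl e1, ← Finset.sum_mul, ← Int.cast_sum, hreZ d, hd.2,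
          Int.cast_zero, zero_mul]
      · intro d hd d' hd'
        have h := bal Sc hSccard (fun η => d (I η)) d'
          (fun η hη => hd.1 (I η) (hbij.mapsTo ((hSc η).mp hη)))
          (fun η hη => hd'.1 η ((hSc η).mp hη))
          ((hreZ d).trans hd.2) hd'.2
        obtain ⟨N, hN⟩ := h
        refine ⟨N, ?_⟩
        rw [← hN]
        apply Finset.sum_congr rfl
        intro η _
        ring
    · rw [hrG, hrH] at hrank
      omega
  · rcases hstH with ⟨hrH, heqH, hsH⟩ | ⟨hrH, δH, hδH, horH, hsH⟩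
    · rw [hrG, hrH] at hrank
      omega
    · have hsqG : ∀ η ∈ Sc, δG (I η) * δG (I η) = 1 := by
        intro η hη
        rcases hδG (I η) (hbij.mapsTo ((hSc η).mp hη)) with h | h <;> rw [h] <;> norm_num
      have hsqH : ∀ η ∈ Sc, δH η * δH η = 1 := by
        intro η hη
        rcases hδH η ((hSc η).mp hη) with h | h <;> rw [h] <;> norm_num
      refine ⟨I, fun η => δH η * δG (I η), ?_⟩
      refine perfect_of_compat hM B c I (fun η => δH η * δG (I η)) hbij ?_ Sc hSc _ _
        hsG hsH ?_ ?_ ?_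
      · intro η hη
        rcases hδH η hη with h | h <;> rcases hδG (I η) (hbij.mapsTo hη) with h' | h' <;>
          rw [h, h'] <;> norm_num
      · intro d' hd' x hx
        have e1 : ∀ η ∈ Sc, (((δH η * δG (I η) : ℤ)) : ℂ) * ((d' η : ℤ) : ℂ) * (I η : G → ℂ) x
            = ((δG (I η) : ℤ) : ℂ) * (I η : G → ℂ) x := by
          intro η hη
          rw [hd' η ((hSc η).mp hη)]
          have h := hsqH η hη
          have h' : ((δH η : ℤ) : ℂ) * ((δH η : ℤ) : ℂ) = 1 := by exact_mod_cast h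
          push_cast
          linear_combination ((δG (I η) : ℤ) : ℂ) * (I η : G → ℂ) x * h'
        rw [Finset.sum_congr rfl e1,
          hreC (fun χ => ((δG χ : ℤ) : ℂ) * (χ : G → ℂ) x)]
        exact horG x hx
      · intro d hd y hy
        have e1 : ∀ η ∈ Sc, (((δH η * δG (I η) : ℤ)) : ℂ) * ((d (I η) : ℤ) : ℂ) *
            (η : Subgroup.normalizer (P : Set G) → ℂ) y
            = ((δH η : ℤ) : ℂ) * (η : Subgroup.normalizer (P : Set G) → ℂ) y := by
          intro η hη
          rw [hd (I η) (hbij.mapsTo ((hSc η).mp hη))]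
          have h := hsqG η hη
          have h' : ((δG (I η) : ℤ) : ℂ) * ((δG (I η) : ℤ) : ℂ) = 1 := by exact_mod_cast h
          push_cast
          linear_combination ((δH η : ℤ) : ℂ) *
            (η : Subgroup.normalizer (P : Set G) → ℂ) y * h'
        rw [Finset.sum_congr rfl e1]
        exact horH y hy
      · intro d hd d' hd'
        refine ⟨1, ?_⟩
        have e1 : ∀ η ∈ Sc, δH η * δG (I η) * d (I η) * d' η = 1 := by
          intro η hη
          rw [hd (I η) (hbij.mapsTo ((hSc η).mp hη)), hd' η ((hSc η).mp hη)]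
          have h := hsqG η hη
          have h' := hsqH η hη
          nlinarith
        rw [Finset.sum_congr rfl e1, Finset.sum_const, hSccard]
        norm_num

end Cfsg.Agent.Lib.Helper24.PI
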