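import Mathlib
import Cfsg.Agent.Lib.Helper24.Indep
import Cfsg.Agent.Lib.Helper24.Subsec

set_option autoImplicit false

namespace Cfsg.Agent.Lib.Helper24.PQ

open Cfsg Cfsg.Agent.Lib.Helper1 Cfsg.Agent.Lib.Helper6 Cfsg.Agent.Lib.Helper24
open scoped ComplexConjugate

universe u

variable {G : Type u} [Group G] [Fintype G]

theorem pq_congr {p q : ℕ} [Fact p.Prime] [Fact q.Prime] (hpq : p ≠ q) {Mp Mq : Ideal AlgInt}
    (hMp : IsPModular p Mp) (hMq : IsPModular q Mq) (hno : ∀ g : G, orderOf g ≠ p * q)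
    (b : ℕ) (hb : (Nat.card G).factorization q = b) (Bp : Set (IrrCharacter G))
    (hBp : IsPBlock Mp Bp) (Bq : Set (IrrCharacter G)) (hBq : IsPBlock Mq Bq) (y : G)
    (hy : p ∣ orderOf y) :
    ∃ ω : AlgInt, ∑ᶠ χ ∈ Bp ∩ Bq, (charDegree (χ : G → ℂ) : ℂ) * (χ : G → ℂ) y
      = (q : ℂ) ^ b * (ω : ℂ) := by
  classical
  have hp : p.Prime := Fact.out
  have hq : q.Prime := Fact.out
  have hfinIrr : Fintype (IrrCharacter G) := irrFintype
  have hfinC : Fintype (ConjClasses G) := Fintype.ofFinite _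
  obtain ⟨m, hm⟩ : ∃ m : ℕ, m = ordCompl G q := ⟨_, rfl⟩
  have hmq : ¬ q ∣ m := by
    rw [hm]
    exact not_dvd_ordCompl q
  have hm0 : (m : ℂ) ≠ 0 := by
    rw [hm]
    exact Nat.cast_ne_zero.mpr (ordCompl_pos q).ne'
  have hcard : q ^ b * m = Nat.card G := by
    rw [hm, ← hb]
    exact ordCompl_mul q
  obtain ⟨Sp, hSpdef⟩ : ∃ Sp : Finset (IrrCharacter G),
      Sp = Finset.univ.filter (fun χ => χ ∈ Bp) := ⟨_, rfl⟩
  have hSp : ∀ χ, χ ∈ Sp ↔ χ ∈ Bp := by
    intro χ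
    rw [hSpdef, Finset.mem_filter]
    exact ⟨fun h => h.2, fun h => ⟨Finset.mem_univ _, h⟩⟩
  have hBpS : Bp = (↑Sp : Set (IrrCharacter G)) := by
    ext χ
    exact (hSp χ).symm
  obtain ⟨K, hKdef⟩ : ∃ K : G → ℂ,
      K = fun g => ∑ χ ∈ Sp, (χ : G → ℂ) g * (χ : G → ℂ) y := ⟨_, rfl⟩
  have hKcl : IsClassFunction G K := by
    intro g h
    rw [hKdef]
    show ∑ χ ∈ Sp, (χ : G → ℂ) (h * g * h⁻¹) * (χ : G → ℂ) y
      = ∑ χ ∈ Sp, (χ : G → ℂ) g * (χ : G → ℂ) y
    apply Finset.sum_congr rfl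
    intro χ _
    rw [irr_isClassFunction χ g h]
  have hKint : ∀ g : G, IsIntegral ℤ (K g) := by
    intro g
    rw [hKdef]
    apply IsIntegral.sum
    intro χ _
    exact IsIntegral.mul (CharBasic.char_isIntegral (CharBasic.isCharacter_of_irr χ.2) g)
      (CharBasic.char_isIntegral (CharBasic.isCharacter_of_irr χ.2) y)
  have hKzero : ∀ g : G, ¬ p ∣ orderOf g → K g = 0 := by
    intro g hg
    obtain ⟨u, hu⟩ := SecondMain.exists_isPPart hp y⁻¹
    have hu1 : u ≠ 1 := by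
      intro h1
      rw [h1] at hu
      obtain ⟨s, hs1, -, -, hs2⟩ := hu
      rw [one_mul] at hs1
      rw [hs1, orderOf_inv] at hs2
      exact hs2 hy
    have hg1 : IsPPart p g 1 :=
      ⟨g, one_mul g, Commute.one_left g, ⟨0, by rw [orderOf_one, pow_zero]⟩, hg⟩
    have hne : ¬ IsConj (1 : G) u := by
      intro hc
      exact hu1 (isConj_one_right.mp hc)
    have h := SecondMain.block_orth hMp g y⁻¹ 1 u hg1 hu hne Bp hBp
    rw [inv_inv, hBpS, finsum_mem_coe_finset] at h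
    rw [hKdef]
    exact h
  have hidx : ∀ g : G, p ∣ orderOf g →
      q ^ b ∣ (Subgroup.centralizer ({g} : Set G)).index := by
    intro g hg
    have hnq : ¬ q ∣ Nat.card (Subgroup.centralizer ({g} : Set G)) := by
      intro hdvd
      obtain ⟨c, hc⟩ := exists_prime_orderOf_dvd_card' q hdvd
      have hh : orderOf (g ^ (orderOf g / p)) = p :=
        orderOf_pow_orderOf_div (orderOf_pos g).ne' hg
      have hgc : Commute g (c : G) :=
        (Subgroup.mem_centralizer_iff.mp c.2) g (Set.mem_singleton g)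
      have hcomm : Commute (g ^ (orderOf g / p)) (c : G) := hgc.pow_left _
      have hcq : orderOf (c : G) = q := by
        rw [Subgroup.orderOf_coe, hc]
      have hcop : Nat.Coprime (orderOf (g ^ (orderOf g / p))) (orderOf (c : G)) := by
        rw [hh, hcq]
        exact (Nat.coprime_primes hp hq).mpr hpq
      have h1 := hcomm.orderOf_mul_eq_mul_orderOf_of_coprime hcop
      rw [hh, hcq] at h1
      exact hno _ h1
    have h1 := Subgroup.index_mul_card (Subgroup.centralizer ({g} : Set G))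
    have h2 : q ^ b ∣ (Subgroup.centralizer ({g} : Set G)).index
        * Nat.card (Subgroup.centralizer ({g} : Set G)) := by
      rw [h1, ← hcard]
      exact dvd_mul_right _ _
    exact (Nat.Coprime.pow_left b
      ((Nat.Prime.coprime_iff_not_dvd hq).mpr hnq)).dvd_of_dvd_mul_right h2
  obtain ⟨χ₀, hχ₀⟩ := hBq
  have hlc : Indep.LinkClosed q Bq := by
    rw [hχ₀]
    exact Indep.linkClosed_blockOf hMq χ₀
  choose w hwint hw using fun g : G => Indep.blockCoeff_integral q Bq hlc g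
  obtain ⟨F, hFdef⟩ : ∃ F : G → ℂ,
      F = fun g => (m : ℂ) * blockCoeff Bq g * K g := ⟨_, rfl⟩
  have hFw : ∀ g : G, F g = w g * K g := by
    intro g
    rw [hFdef]
    show (m : ℂ) * blockCoeff Bq g * K g = _
    rw [hw g, ← hm]
    field_simp
  have hFcl : IsClassFunction G F := by
    intro g h
    rw [hFdef]
    show (m : ℂ) * blockCoeff Bq (h * g * h⁻¹) * K (h * g * h⁻¹)
      = (m : ℂ) * blockCoeff Bq g * K g
    rw [isClassFunction_blockCoeff Bq g h, hKcl g h]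
  have hFint : ∀ g : G, IsIntegral ℤ (F g) := by
    intro g
    rw [hFw]
    exact (hwint g).mul (hKint g)
  have hFzero : ∀ g : G, ¬ p ∣ orderOf g → F g = 0 := by
    intro g hg
    rw [hFw, hKzero g hg, mul_zero]
  obtain ⟨T, hTdef⟩ : ∃ T : ℂ,
      T = ∑ᶠ χ ∈ Bp ∩ Bq, (charDegree (χ : G → ℂ) : ℂ) * (χ : G → ℂ) y := ⟨_, rfl⟩
  have hT1 : T = ∑ χ ∈ Sp, (if χ ∈ Bq then (1 : ℂ) else 0) * (χ : G → ℂ) 1
      * (χ : G → ℂ) y := by
    rw [hTdef]
    have hset : Bp ∩ Bq = (↑(Sp.filter (fun χ => χ ∈ Bq)) : Set (IrrCharacter G)) := by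
      ext χ
      rw [Finset.coe_filter]
      exact ⟨fun h => ⟨(hSp χ).mpr h.1, h.2⟩, fun h => ⟨(hSp χ).mp h.1, h.2⟩⟩
    rw [hset, finsum_mem_coe_finset, Finset.sum_filter]
    apply Finset.sum_congr rfl
    intro χ _
    by_cases h : χ ∈ Bq
    · rw [if_pos h, if_pos h, one_mul,
        CharBasic.char_one_nat (CharBasic.isCharacter_of_irr χ.2)]
    · rw [if_neg h, if_neg h, zero_mul, zero_mul]
  have hsumF : ∑ g : G, F g = (m : ℂ) * T := by
    rw [hT1, hFdef, hKdef]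
    show ∑ g : G, (m : ℂ) * blockCoeff Bq g * ∑ χ ∈ Sp, (χ : G → ℂ) g * (χ : G → ℂ) y = _
    have e1 : ∀ g : G, (m : ℂ) * blockCoeff Bq g * ∑ χ ∈ Sp, (χ : G → ℂ) g * (χ : G → ℂ) y
        = ∑ χ ∈ Sp, (m : ℂ) * ((blockCoeff Bq g * (χ : G → ℂ) g) * (χ : G → ℂ) y) := by
      intro g
      rw [Finset.mul_sum]
      apply Finset.sum_congr rfl
      intro χ _
      ring
    rw [Finset.sum_congr rfl (fun g _ => e1 g), Finset.sum_comm, Finset.mul_sum]
    apply Finset.sum_congr rfl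
    intro χ _
    have e2 : (∑ g : G, blockCoeff Bq g * (χ : G → ℂ) g) / (χ : G → ℂ) 1
        = if χ ∈ Bq then 1 else 0 := omega_blockCoeff Bq χ
    have e3 : ∑ g : G, blockCoeff Bq g * (χ : G → ℂ) g
        = (if χ ∈ Bq then (1 : ℂ) else 0) * (χ : G → ℂ) 1 := by
      rw [← e2, div_mul_cancel₀ _ (CharBasic.irr_one_ne_zero χ.2)]
    rw [← Finset.mul_sum, ← Finset.sum_mul, e3]
  have hcls := sum_eq_sum_classes F hFcl
  obtain ⟨W, hWdef⟩ : ∃ W : ℂ, W = ∑ C : ConjClasses G,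
      (((Subgroup.centralizer ({crep C} : Set G)).index / q ^ b : ℕ) : ℂ) * F (crep C) :=
    ⟨_, rfl⟩
  have hWint : IsIntegral ℤ W := by
    rw [hWdef]
    apply IsIntegral.sum
    intro C _
    exact IsIntegral.mul (isIntegral_natCast _) (hFint _)
  have hsumW : ∑ g : G, F g = ((q ^ b : ℕ) : ℂ) * W := by
    rw [hcls, hWdef, Finset.mul_sum]
    apply Finset.sum_congr rfl
    intro C _
    by_cases hC : p ∣ orderOf (crep C)
    · obtain ⟨n, hn⟩ := hidx _ hC
      rw [hn, Nat.mul_div_cancel_left n (pow_pos hq.pos b)]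
      push_cast
      ring
    · rw [hFzero _ hC, mul_zero, mul_zero, mul_zero]
  have hcop : IsCoprime (m : ℤ) ((q ^ b : ℕ) : ℤ) := by
    rw [Nat.isCoprime_iff_coprime]
    exact Nat.Coprime.pow_right b
      (Nat.coprime_comm.mp ((Nat.Prime.coprime_iff_not_dvd hq).mpr hmq))
  obtain ⟨s, t, hst⟩ := hcop
  have hTint : IsIntegral ℤ T := by
    rw [hT1]
    apply IsIntegral.sum
    intro χ _
    apply IsIntegral.mul
    · apply IsIntegral.mul
      · by_cases h : χ ∈ Bq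
        · rw [if_pos h]
          exact isIntegral_one
        · rw [if_neg h]
          exact isIntegral_zero
      · exact CharBasic.char_isIntegral (CharBasic.isCharacter_of_irr χ.2) 1
    · exact CharBasic.char_isIntegral (CharBasic.isCharacter_of_irr χ.2) y
  have hωint : IsIntegral ℤ ((s : ℂ) * W + (t : ℂ) * T) :=
    IsIntegral.add (IsIntegral.mul isIntegral_algebraMap hWint)
      (IsIntegral.mul isIntegral_algebraMap hTint)
  refine ⟨⟨(s : ℂ) * W + (t : ℂ) * T, hωint⟩, ?_⟩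
  rw [← hTdef]
  show T = (q : ℂ) ^ b * ((s : ℂ) * W + (t : ℂ) * T)
  have hmT : (m : ℂ) * T = ((q ^ b : ℕ) : ℂ) * W := hsumF.symm.trans hsumW
  have hst' : (s : ℂ) * (m : ℂ) + (t : ℂ) * ((q ^ b : ℕ) : ℂ) = 1 := by exact_mod_cast hst
  push_cast at hmT hst'
  linear_combination (-T) * hst' + (s : ℂ) * hmT

end Cfsg.Agent.Lib.Helper24.PQ
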