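import Mathlib
import Cfsg.Agent.Lib.Helper24.CentralDef2
import Cfsg.Agent.Lib.Helper1.CharGalois

set_option autoImplicit false

namespace Cfsg.Agent.Lib.Helper24.PowDeg

open Cfsg Cfsg.Agent.Lib.Helper1 Cfsg.Agent.Lib.Helper6 Cfsg.Agent.Lib.Helper24
open scoped ComplexConjugate

universe u

variable {G : Type u} [Group G] {M : Ideal AlgInt}

theorem vanish_center_sylow [Finite G] {p : ℕ} [Fact p.Prime] (hZ : Subgroup.center G = ⊥)
    (P : Sylow p G) (χ : IrrCharacter G)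
    (hfaith : ∀ g : G, (χ : G → ℂ) g = (χ : G → ℂ) 1 → g = 1) (n : ℕ)
    (hdeg : charDegree (χ : G → ℂ) = p ^ n) (z : G)
    (hzc : (P : Subgroup G) ≤ Subgroup.centralizer ({z} : Set G)) (hz1 : z ≠ 1) :
    (χ : G → ℂ) z = 0 := by
  classical
  have hp : p.Prime := Fact.out
  obtain ⟨d, ρ, hirr, hρ⟩ := χ.2
  have hirr' : ρ.IsIrreducible := hirr
  have hfr : Module.finrank ℂ (Fin d → ℂ) = d := Module.finrank_fin_fun ℂ
  have hd : d = p ^ n := by
    have h1 : (χ : G → ℂ) 1 = (charDegree (χ : G → ℂ) : ℂ) :=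
      CharBasic.char_one_nat (CharBasic.isCharacter_of_irr χ.2)
    rw [← hρ, Representation.char_one, hfr, hρ, hdeg] at h1
    exact_mod_cast h1
  have hcop : Nat.Coprime (Module.finrank ℂ (Fin d → ℂ))
      (Subgroup.centralizer ({z} : Set G)).index := by
    rw [hfr, hd]
    apply Nat.Coprime.pow_left
    rw [Nat.Prime.coprime_iff_not_dvd hp]
    intro hdvd
    exact P.not_dvd_index (hdvd.trans (Subgroup.index_dvd_of_le hzc))
  rcases char_zero_or_norm_of_coprime ρ z hcop with h0 | hnorm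
  · rw [← hρ]
    exact h0
  · exfalso
    obtain ⟨ω, hω⟩ := (norm_char_eq_iff ρ z).mp hnorm
    apply hz1
    have hcen : z ∈ Subgroup.center G := by
      rw [Subgroup.mem_center_iff]
      intro g
      have hcomm : ρ (z * g) = ρ (g * z) := by
        rw [map_mul, map_mul, hω]
        ext v
        simp
      have h1 : ρ (g * z * (z⁻¹ * g⁻¹)) = ρ 1 := by
        congr 1
        group
      have h2 : ρ (z * g * (z⁻¹ * g⁻¹)) = ρ 1 := by
        rw [map_mul, hcomm, ← map_mul, h1]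
      have h3 : (χ : G → ℂ) (z * g * (z⁻¹ * g⁻¹)) = (χ : G → ℂ) 1 := by
        rw [← hρ]
        show LinearMap.trace ℂ _ (ρ (z * g * (z⁻¹ * g⁻¹))) = LinearMap.trace ℂ _ (ρ 1)
        rw [h2]
      have h4 := hfaith _ h3
      have h5 : z * g = g * z := by
        have h6 : z * g = z * g * (z⁻¹ * g⁻¹) * (g * z) := by group
        rw [h6, h4, one_mul]
      exact h5.symm
    rw [hZ, Subgroup.mem_bot] at hcen
    exact hcen

theorem natCast_cancel {p : ℕ} (hM : IsPModular p M) {k : ℕ} (hk : ¬ p ∣ k) {x : ℂ}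
    (h : MemLocalIdeal M ((k : ℂ) * x)) : MemLocalIdeal M x := by
  have hk0 : (k : ℂ) ≠ 0 := by
    intro h0
    apply hk
    have : k = 0 := by exact_mod_cast h0
    rw [this]
    exact dvd_zero p
  have h1 := MemLocalIdeal.mul_left hM.2.1 (memLocalRing_inv_natCast hM hk) h
  have h2 : (k : ℂ)⁻¹ * ((k : ℂ) * x) = x := by
    field_simp
  rw [h2] at h1
  exact h1

theorem pow_dvd_degree [Finite G] {p : ℕ} [Fact p.Prime] (hM : IsPModular p M)
    (hZ : Subgroup.center G = ⊥)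
    (P : Sylow p G) (b : ℕ) (hb : Nat.card (Subgroup.center ↥(P : Subgroup G)) = p ^ b)
    (χ : IrrCharacter G)
    (hfaith : ∀ g : G, (χ : G → ℂ) g = (χ : G → ℂ) 1 → g = 1) (n : ℕ)
    (hdeg : charDegree (χ : G → ℂ) = p ^ n) (ψ : IrrCharacter G)
    (hψ : ψ ∈ blockOf M (χ : G → ℂ)) : p ^ b ∣ charDegree (ψ : G → ℂ) := by
  classical
  have hfinG : Fintype G := Fintype.ofFinite G
  have hp : p.Prime := hM.1
  have hmax := hM.2.1
  obtain ⟨Z, hZdef⟩ : ∃ Z : Subgroup G,
      Z = (Subgroup.center ↥(P : Subgroup G)).map (P : Subgroup G).subtype := ⟨_, rfl⟩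
  have hZcard : Nat.card Z = p ^ b := by
    rw [hZdef, Subgroup.card_map_of_injective (Subgroup.subtype_injective _), hb]
  have hZcent : ∀ z ∈ Z, (P : Subgroup G) ≤ Subgroup.centralizer ({z} : Set G) := by
    intro z hz y hy
    rw [hZdef] at hz
    obtain ⟨w, hw, rfl⟩ := hz
    rw [Subgroup.mem_centralizer_iff]
    intro h hh
    rw [Set.mem_singleton_iff] at hh
    rw [hh]
    have h1 := (Subgroup.mem_center_iff.mp hw) ⟨y, hy⟩
    have h2 := congrArg Subtype.val h1
    exact h2.symm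
  have hψS : SameBlock M (χ : G → ℂ) (ψ : G → ℂ) := hψ
  obtain ⟨N, hNdef⟩ : ∃ N : ℕ, N = charDegree (ψ : G → ℂ) := ⟨_, rfl⟩
  have hψ1 : (ψ : G → ℂ) 1 = (N : ℂ) := by
    rw [hNdef]
    exact CharBasic.char_one_nat (CharBasic.isCharacter_of_irr ψ.2)
  have hN0C : (N : ℂ) ≠ 0 := by
    rw [← hψ1]
    exact CharBasic.irr_one_ne_zero ψ.2
  have hN0 : N ≠ 0 := by
    intro h0
    apply hN0C
    rw [h0, Nat.cast_zero]
  have hloc : ∀ z ∈ Z, z ≠ 1 → MemLocalIdeal M ((ψ : G → ℂ) z / (N : ℂ)) := by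
    intro z hz hz1
    have hχz := vanish_center_sylow hZ P χ hfaith n hdeg z (hZcent z hz) hz1
    have h1 := hψS z
    have h2 : centralChar (χ : G → ℂ) z - centralChar (ψ : G → ℂ) z
        = -(((Subgroup.centralizer ({z} : Set G)).index : ℂ) * ((ψ : G → ℂ) z / (N : ℂ))) := by
      show ((Subgroup.centralizer ({z} : Set G)).index : ℂ) * (χ : G → ℂ) z / (χ : G → ℂ) 1
        - ((Subgroup.centralizer ({z} : Set G)).index : ℂ) * (ψ : G → ℂ) z / (ψ : G → ℂ) 1 = _
      rw [hχz, hψ1]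
      ring
    rw [h2] at h1
    have h3 := MemLocalIdeal.neg h1
    rw [neg_neg] at h3
    apply natCast_cancel hM _ h3
    intro hdvd
    exact P.not_dvd_index (hdvd.trans (Subgroup.index_dvd_of_le (hZcent z hz)))
  have hres : IsCharacter Z (fun x : Z => (ψ : G → ℂ) x) :=
    IsCharacter.restrict (CharBasic.isCharacter_of_irr ψ.2) Z
  obtain ⟨k, hk⟩ := IsCharacter.classInner_irr_nat hres (CharBasic.irr_trivial (G := Z))
  have hZ0 : (Nat.card Z : ℂ) ≠ 0 := Nat.cast_ne_zero.mpr Nat.card_pos.ne'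
  have hsum : ∑ x : Z, (ψ : G → ℂ) x = ((p ^ b * k : ℕ) : ℂ) := by
    have h1 : (Nat.card Z : ℂ)⁻¹ * ∑ x : Z, (ψ : G → ℂ) x * conj (1 : ℂ) = (k : ℂ) := hk
    have h2 : ∑ x : Z, (ψ : G → ℂ) x * conj (1 : ℂ) = ∑ x : Z, (ψ : G → ℂ) x := by
      apply Finset.sum_congr rfl
      intro x _
      rw [map_one, mul_one]
    rw [h2] at h1
    have h3 : ∑ x : Z, (ψ : G → ℂ) x = (Nat.card Z : ℂ) * (k : ℂ) := by
      rw [← h1]
      field_simp
    rw [h3, hZcard]
    push_cast
    ring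
  have hsplit : ∑ x : Z, (ψ : G → ℂ) x / (N : ℂ)
      = 1 + ∑ x ∈ Finset.univ.erase (1 : Z), (ψ : G → ℂ) x / (N : ℂ) := by
    rw [← Finset.add_sum_erase Finset.univ _ (Finset.mem_univ (1 : Z))]
    congr 1
    rw [Subgroup.coe_one, hψ1]
    exact div_self hN0C
  have hrest : MemLocalIdeal M (∑ x ∈ Finset.univ.erase (1 : Z), (ψ : G → ℂ) x / (N : ℂ)) := by
    apply memLocalIdeal_sum hmax
    intro x hx
    have hx1 : x ≠ 1 := Finset.ne_of_mem_erase hx
    apply hloc x x.2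
    intro h1
    apply hx1
    exact Subtype.ext h1
  rw [← hNdef]
  by_contra hnd
  have hlt : N.factorization p < b := by
    by_contra hge
    push Not at hge
    exact hnd ((hp.pow_dvd_iff_le_factorization hN0).mpr hge)
  have hdvd1 : (p : ℤ) ^ N.factorization p ∣ ((p ^ b * k : ℕ) : ℤ) := by
    have h1 : p ^ N.factorization p ∣ p ^ b * k :=
      Dvd.dvd.mul_right (pow_dvd_pow p hlt.le) k
    exact_mod_cast h1
  have hdvd2 : (p : ℤ) ^ (N.factorization p + 1) ∣ ((p ^ b * k : ℕ) : ℤ) := by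
    have h1 : p ^ (N.factorization p + 1) ∣ p ^ b * k :=
      Dvd.dvd.mul_right (pow_dvd_pow p hlt) k
    exact_mod_cast h1
  have hmem := (int_ratio_memLocalIdeal_iff hM hN0 hdvd1).mpr hdvd2
  have heq : (((p ^ b * k : ℕ) : ℤ) : ℂ) / (N : ℂ)
      = 1 + ∑ x ∈ Finset.univ.erase (1 : Z), (ψ : G → ℂ) x / (N : ℂ) := by
    rw [← hsplit, ← Finset.sum_div, hsum]
    push_cast
    ring
  rw [heq] at hmem
  have hone := MemLocalIdeal.sub hmax hmem hrest
  rw [add_sub_cancel_right] at hone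
  exact not_memLocalIdeal_one hmax hone

theorem defect_le [Finite G] (p : ℕ) [Fact p.Prime] (M : Ideal AlgInt) (hM : IsPModular p M)
    (hZ : Subgroup.center G = ⊥) (P : Sylow p G) (a b : ℕ) (ha : Nat.card P = p ^ a)
    (hb : Nat.card (Subgroup.center ↥(P : Subgroup G)) = p ^ b) (χ : IrrCharacter G)
    (hfaith : ∀ g : G, (χ : G → ℂ) g = (χ : G → ℂ) 1 → g = 1) (n : ℕ)
    (hdeg : charDegree (χ : G → ℂ) = p ^ n) :
    blockDefect p (blockOf M (χ : G → ℂ)) ≤ a - b ∧
      (IsMulCommutative ↥(P : Subgroup G) → blockDefect p (blockOf M (χ : G → ℂ)) = 0) := by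
  classical
  have hfinG : Fintype G := Fintype.ofFinite G
  have hp : p.Prime := hM.1
  have hmax := hM.2.1
  have hafact : (Nat.card G).factorization p = a := by
    have h1 := P.card_eq_multiplicity
    rw [ha] at h1
    exact (Nat.pow_right_injective hp.two_le h1).symm
  have hmain : blockDefect p (blockOf M (χ : G → ℂ)) ≤ a - b := by
    show (Nat.card G).factorization p - sInf ((fun ψ : IrrCharacter G =>
      (charDegree (ψ : G → ℂ)).factorization p) '' blockOf M (χ : G → ℂ)) ≤ a - b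
    rw [hafact]
    apply Nat.sub_le_sub_left
    apply le_csInf (Set.Nonempty.image _ ⟨χ, mem_blockOf_self hmax χ⟩)
    rintro _ ⟨ψ, hψ, rfl⟩
    have h1 := pow_dvd_degree hM hZ P b hb χ hfaith n hdeg ψ hψ
    have hN0 : charDegree (ψ : G → ℂ) ≠ 0 := by
      intro h0
      apply CharBasic.irr_one_ne_zero ψ.2
      rw [CharBasic.char_one_nat (CharBasic.isCharacter_of_irr ψ.2), h0, Nat.cast_zero]
    exact (hp.pow_dvd_iff_le_factorization hN0).mp h1
  refine ⟨hmain, ?_⟩
  intro hcomm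
  have hab : a = b := by
    have h1 : Subgroup.center ↥(P : Subgroup G) = ⊤ := by
      rw [eq_top_iff]
      intro x _
      rw [Subgroup.mem_center_iff]
      intro y
      exact hcomm.is_comm.comm y x
    have h2 : Nat.card (Subgroup.center ↥(P : Subgroup G)) = Nat.card (P : Subgroup G) := by
      rw [h1]
      exact Subgroup.card_top
    rw [hb] at h2
    have h3 : p ^ b = p ^ a := h2.trans ha
    exact (Nat.pow_right_injective hp.two_le h3).symm
  rw [hab, Nat.sub_self] at hmain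
  exact Nat.le_zero.mp hmain

end Cfsg.Agent.Lib.Helper24.PowDeg
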